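import Cfsg.Agent.Lib.Hay.TI3
import Cfsg.Agent.Lib.FT.PF9.CohB

/-!
An abelian TI subgroup of exponent three with a fixed point freely acted on proper subgroup
is normal.
-/

set_option autoImplicit false

open scoped ComplexConjugate Classical

namespace Cfsg.Lib.Hay

open Subgroup Cfsg.Lib Cfsg.Lib.FT

variable {X : Type*} [Group X]

theorem exists_fixed_of_pow [Finite X] {p : ℕ} [hp : Fact p.Prime] {Z : Subgroup X} (hZ : IsPGroup p Z)
    (h1 : Z ≠ ⊥) {s : X} {k : ℕ} (hs : s ^ p ^ k = 1) (hn : ∀ z ∈ Z, s * z * s⁻¹ ∈ Z) :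
    ∃ z ∈ Z, z ≠ 1 ∧ s * z = z * s := by
  have sN : s ∈ normalizer (Z : Set X) := mem_normalizer_fintype hn
  have hP : IsPGroup p (zpowers (Z.normalizerMonoidHom ⟨s, sN⟩)) := by
    refine IsPGroup.of_card_dvd_pow ?_ (n := k)
    rw [Nat.card_zpowers]
    apply orderOf_dvd_of_pow_eq_one
    rw [← map_pow, show (⟨s, sN⟩ : normalizer (Z : Set X)) ^ p ^ k = 1 from Subtype.ext hs, map_one]
  obtain ⟨n, hn'⟩ := hZ.exists_card_eq
  have n0 : n ≠ 0 := by
    rintro rfl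
    exact h1 (card_eq_one.1 (by simpa using hn'))
  obtain ⟨b, hb, b1⟩ := hP.exists_fixed_point_of_prime_dvd_card_of_fixed_point (α := Z)
    (hn' ▸ dvd_pow_self p n0) (a := 1) (fun g => smul_one g)
  refine ⟨b, b.2, fun e => b1 (Subtype.ext e).symm, mul_inv_eq_iff_eq_mul.1 ?_⟩
  exact congrArg Subtype.val (hb ⟨_, mem_zpowers _⟩)

theorem dia [Finite X] (Z S : Subgroup X) (hZ : Z ≠ ⊥) (hZS : Z < S)
    (hc : ∀ a ∈ S, ∀ b ∈ S, a * b = b * a) (h3 : ∀ a ∈ S, a ^ 3 = 1)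
    (h1 : ∀ s ∈ S, s ≠ 1 → ∀ x, x * s = s * x → x ∈ normalizer (S : Set X))
    (hZN : ∀ n ∈ normalizer (S : Set X), ∀ z ∈ Z, n * z * n⁻¹ ∈ Z)
    (h2 : ∀ z ∈ Z, z ≠ 1 → ∀ n ∈ normalizer (S : Set X), n * z = z * n → n ∈ S) :
    normalizer (S : Set X) = ⊤ := by
  haveI := Fintype.ofFinite X
  haveI : Fact (Nat.Prime 3) := ⟨Nat.prime_three⟩
  set N := normalizer (S : Set X) with hNd
  have nS : ∀ n ∈ N, ∀ s ∈ S, n * s * n⁻¹ ∈ S := fun n hn s hs => (mem_normalizer_iff.1 hn s).1 hs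
  have o3 : ∀ s ∈ N, s ^ 3 = 1 → s ∈ S := fun s hs e => by
    obtain ⟨z, z1, z2, z3⟩ := exists_fixed_of_pow (p := 3) (Z := Z)
      (fun z => ⟨1, Subtype.ext (by simpa using h3 _ (hZS.le z.2))⟩) hZ (k := 1) (by simpa using e)
      (hZN s hs)
    exact h2 z z1 z2 s hs z3
  have hN : ∀ s ∈ N, s ^ 3 = 1 → s ≠ 1 → ∀ g, g * s * g⁻¹ ∈ N → g ∈ N := by
    intro s hs e s1 g hg
    have g1 := o3 _ hg (by rw [conj_pow, e]; simp)
    refine mem_normalizer_fintype fun a ha => o3 _ (h1 _ g1 (by simpa using s1) _ ?_)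
      (by rw [conj_pow, h3 a ha]; simp)
    calc g * a * g⁻¹ * (g * s * g⁻¹) = g * (a * s) * g⁻¹ := by group
      _ = _ := by rw [hc a ha s (o3 s hs e)]; group
  have hcc : ⁅S, S⁆ ≤ ⊥ := commutator_le.2 fun a ha b hb => by
    rw [mem_bot, commutatorElement_eq_one_iff_mul_comm]; exact hc a ha b hb
  obtain ⟨z0, z0Z, z01⟩ := (bot_or_exists_ne_one Z).resolve_left hZ
  obtain ⟨y0, y0S, y0Z⟩ := SetLike.exists_of_lt hZS
  obtain ⟨l, -, hl⟩ := coh9_exists_lin S ⊥ hcc (hZS.le z0Z) (by simpa using z01)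
  obtain ⟨m, hm, hm'⟩ := coh9_exists_lin S Z (hcc.trans bot_le) y0S y0Z
  let S' := S.subgroupOf N
  let ι : S' →* S := (subgroupOfEquivOfLe le_normalizer).toMonoidHom
  let L : (S →* ℂˣ) → S' →* ℂ := fun f => (Units.coeHom ℂ).comp (f.comp ι)
  have hL : ∀ f (s : S'), L f s = f ⟨s.1.1, s.2⟩ := fun _ _ => rfl
  -- the commutator map on `Z`
  let κ : N → Z → Z := fun n z => ⟨n * z * (n : X)⁻¹ * (z : X)⁻¹, Z.mul_mem (hZN n n.2 z z.2) (Z.inv_mem z.2)⟩
  have hκ : ∀ n : N, (n : X) ∉ S → Function.Bijective (κ n) := fun n hn =>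
    Finite.injective_iff_bijective.1 fun a b e => by
      have e := congrArg Subtype.val e
      simp only [κ] at e
      by_contra hne
      refine hn (h2 ((b : X)⁻¹ * a) (Z.mul_mem (Z.inv_mem b.2) a.2)
        (fun h => hne (Subtype.ext (inv_mul_eq_one.1 h).symm)) n n.2 ?_)
      calc (n : X) * ((b : X)⁻¹ * a) =
          ((n : X) * b * (n : X)⁻¹)⁻¹ * ((n : X) * a * (n : X)⁻¹ * (a : X)⁻¹) * a * n := by
            group
        _ = _ := by rw [e]; group
  have lκ : ∀ (n : N) (z : Z), l ⟨n * z * (n : X)⁻¹, nS n n.2 _ (hZS.le z.2)⟩ =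
      l ⟨κ n z, hZS.le (κ n z).2⟩ * l ⟨z, hZS.le z.2⟩ := fun n z => by
    rw [← map_mul]; congr 1; apply Subtype.ext; simp [κ]
  have key : ∀ (n : N), (∀ z : Z, l ⟨n * z * (n : X)⁻¹, nS n n.2 _ (hZS.le z.2)⟩ =
      l ⟨z, hZS.le z.2⟩) → n ∈ S' := fun n h => by
    by_contra hn
    obtain ⟨z, hz⟩ := (hκ n hn).2 ⟨z0, z0Z⟩
    have := h z
    rw [lκ, hz, mul_eq_right] at this
    exact hl this
  let ζ : Z → S' := fun z => ⟨⟨z, le_normalizer (hZS.le z.2)⟩, hZS.le z.2⟩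
  have mZ : ∀ (n : N) (z : Z), conjBy S' n (L (l * m)) (ζ z) = conjBy S' n (L l) (ζ z) := by
    intro n z
    simp only [conjBy, hL, MonoidHom.mul_apply]
    rw [hm _ (hZN n n.2 z z.2), mul_one]
  have irr1 : IsIrrCharacter N (indFun S' (L l)) :=
    (pf1_5b_irr S' (isIrrCharacter_of_hom _)).2 fun n hn => key n fun z =>
      Units.ext (congrFun hn (ζ z))
  have irr2 : IsIrrCharacter N (indFun S' (L (l * m))) :=
    (pf1_5b_irr S' (isIrrCharacter_of_hom _)).2 fun n hn => key n fun z => Units.ext (by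
      have := congrFun hn (ζ z)
      rw [mZ, ← conjBy_one S' (L (l * m)), mZ, conjBy_one] at this
      exact this)
  have hne : indFun S' (L l) ≠ indFun S' (L (l * m)) := fun e => by
    obtain ⟨n, hn⟩ := (pf1_5c S' (isIrrCharacter_of_hom _) (isIrrCharacter_of_hom _)).1 e.symm
    have k1 := key n fun z => Units.ext (by
      have := congrFun hn (ζ z)
      rw [← conjBy_one S' (L (l * m)), mZ, conjBy_one] at this
      exact this.symm)
    rw [le_inertia S' (isIrrCharacter_of_hom _).isClassFunction k1] at hn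
    have := congrFun hn ⟨⟨y0, le_normalizer y0S⟩, y0S⟩
    rw [hL, hL, MonoidHom.mul_apply, Units.val_inj, mul_eq_left] at this
    exact hm' this
  obtain ⟨χ, -, i1, -, -, -, -, hχ⟩ := core33 N hN irr1 irr2 hne fun n hn => by
    have nS : n ∈ S' := by
      by_contra h0
      exact hn (by rw [indFun_of_not_mem_normal S' _ h0, indFun_of_not_mem_normal S' _ h0])
    refine ⟨Subtype.ext (h3 _ nS), ?_⟩
    rintro rfl
    exact hn (by rw [indFun_one, indFun_one, map_one, map_one])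
  obtain ⟨d, d0, hd⟩ := i1.exists_one_eq
  let lZ : Z →* ℂ := (Units.coeHom ℂ).comp (l.comp (inclusion hZS.le))
  have lZ0 : ∑ z, lZ z = 0 := sum_hom_eq_zero lZ (a := ⟨z0, z0Z⟩) fun e => hl (Units.ext e)
  obtain ⟨c, hc'⟩ := (i1.isGen.res Z).inner_int ((isIrrCharacter_of_hom lZ).isGen.sub isGen_one)
  have e1 := card_mul_classInner (fun x : Z => χ x) (lZ - 1)
  have cS : (Nat.card S' : ℂ) ≠ 0 := natCard_complex_ne_zero _
  have e2 : ∑ z : Z, indFun S' (L l) (ζ z) * conj ((lZ - 1 : Z → ℂ) z) = Nat.card Z := by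
    have t1 : ∀ n : N, ∑ z : Z, conjBy S' n (L l) (ζ z) * conj ((lZ - 1 : Z → ℂ) z) =
        if n ∈ S' then (Nat.card Z : ℂ) else 0 := by
      intro n
      have a1 : ∀ z : Z, conjBy S' n (L l) (ζ z) = lZ (κ n z) * lZ z := fun z =>
        congrArg Units.val (lκ n z)
      have a2 : ∑ z : Z, conjBy S' n (L l) (ζ z) = 0 := by
        let c : Z →* Z := ((MulAut.conj (n : X)).toMonoidHom.comp Z.subtype).codRestrict Z
          fun z => hZN n n.2 z z.2
        obtain ⟨z, hz⟩ := Finite.injective_iff_surjective.1 (show Function.Injective c from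
          fun a b e => Subtype.ext ((MulAut.conj (n : X)).injective (congrArg Subtype.val e)))
          ⟨z0, z0Z⟩
        exact sum_hom_eq_zero (lZ.comp c) (a := z) fun e => hl (Units.ext (by
          rw [MonoidHom.comp_apply, hz] at e; exact e))
      have a3 : ∀ z : Z, lZ z * conj (lZ z) = 1 := fun z => by
        rw [Complex.mul_conj, Complex.normSq_eq_norm_sq, hom_norm_eq_one]; simp
      simp only [Pi.sub_apply, Pi.one_apply, map_sub, map_one, mul_sub, mul_one,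
        Finset.sum_sub_distrib, a2, sub_zero]
      simp only [a1, mul_assoc, a3, mul_one]
      split_ifs with hn
      · have : ∀ z, κ n z = 1 := fun z => Subtype.ext (by
          simp only [κ]; rw [hc (n : X) hn _ (hZS.le z.2)]; simp)
        simp [this]
      · rw [(Fintype.sum_bijective _ (hκ n hn) _ lZ fun _ => rfl), lZ0]
    simp only [indFun_normal_apply, mul_assoc, Finset.sum_mul, ← Finset.mul_sum]
    rw [Finset.sum_comm]
    simp only [t1]
    rw [← Finset.sum_filter, Finset.sum_const, nsmul_eq_mul, ← mul_assoc,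
      ← Fintype.card_subtype, ← Nat.card_eq_fintype_card, inv_mul_cancel₀ cS, one_mul]
  have e3 : (Nat.card X * S'.index : ℂ) * (Nat.card Z * c) = Nat.card N * d * Nat.card Z := by
    rw [← hc', e1, ← e2, Finset.mul_sum, Finset.mul_sum]
    refine Finset.sum_congr rfl fun z _ => ?_
    by_cases z1 : z = 1
    · simp [z1]
    · have := hχ (ζ z) (Subtype.ext (h3 _ (hZS.le z.2))) (fun e => z1 (Subtype.ext
        (congrArg (Subtype.val : N → X) e))) (by simp only [indFun_normal_apply, mZ])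
      rw [indFun_one, map_one, mul_one, hd] at this
      linear_combination conj ((lZ - 1 : Z → ℂ) z) * this
  have e4 : (N.index * S'.index * c : ℤ) = d := by
    have a1 : (Nat.card N : ℂ) ≠ 0 := natCard_complex_ne_zero _
    have a2 : (Nat.card Z : ℂ) ≠ 0 := natCard_complex_ne_zero _
    rw [← N.card_mul_index, Nat.cast_mul] at e3
    have : (N.index * S'.index * c : ℂ) = d :=
      mul_left_cancel₀ (mul_ne_zero a1 a2) (by linear_combination e3)
    exact_mod_cast this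
  have e5 := irr_sq_le i1 hd
  have e6 : N.index * S'.index ≤ d := Nat.le_of_dvd d0 (by
    have : ((N.index * S'.index : ℕ) : ℤ) ∣ d := ⟨c, by push_cast; exact e4.symm⟩
    exact_mod_cast this)
  obtain ⟨k, hk⟩ := card_dvd_index_sub_one (S := S) (N := N) le_normalizer
    fun s hs s1 => hN s (le_normalizer hs) (h3 s hs) s1
  rw [← N.card_mul_index, ← S'.card_mul_index,
    Nat.card_congr (subgroupOfEquivOfLe (le_normalizer (H := S))).toEquiv] at e5
  rw [← index_eq_one, hk]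
  by_contra k0
  have k1 : 1 ≤ k := by
    by_contra h; apply k0; simp [show k = 0 by omega]
  have p1 : 0 < S'.index := Nat.pos_of_ne_zero index_ne_zero_of_finite
  have p2 : Nat.card S < N.index := by nlinarith
  have p3 := Nat.pow_le_pow_left e6 2
  have p4 : N.index * S'.index * (N.index * S'.index) ≤ N.index * S'.index * Nat.card S := by
    nlinarith
  have p5 := Nat.le_of_mul_le_mul_left p4 (Nat.mul_pos (by omega) p1)
  nlinarith

/-- The same modulo a normal subgroup `W`, inside an ambient group. -/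
theorem diaW {G : Type*} [Group G] [Finite G] (Y W Z S : Subgroup G) (hSY : S ≤ Y)
    (hW : ∀ y ∈ Y, ∀ w ∈ W, y * w * y⁻¹ ∈ W) (hWZ : W < Z) (hZS : Z < S)
    (hc : ∀ a ∈ S, ∀ b ∈ S, a * b * a⁻¹ * b⁻¹ ∈ W) (h3 : ∀ a ∈ S, a ^ 3 ∈ W)
    (h1 : ∀ s ∈ S, s ∉ W → ∀ x ∈ Y, x * s * x⁻¹ * s⁻¹ ∈ W → x ∈ normalizer (S : Set G))
    (hZN : ∀ n ∈ Y, n ∈ normalizer (S : Set G) → ∀ z ∈ Z, n * z * n⁻¹ ∈ Z)
    (h2 : ∀ z ∈ Z, z ∉ W → ∀ n ∈ Y, n ∈ normalizer (S : Set G) → n * z * n⁻¹ * z⁻¹ ∈ W → n ∈ S) :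
    Y ≤ normalizer (S : Set G) := by
  haveI : (W.subgroupOf Y).Normal := ⟨fun w hw y => hW y y.2 w hw⟩
  let π := QuotientGroup.mk' (W.subgroupOf Y)
  have π1 : ∀ y : Y, π y = 1 ↔ (y : G) ∈ W := fun y => QuotientGroup.eq_one_iff y
  have mem : ∀ (A : Subgroup G), W ≤ A → ∀ y : Y, π y ∈ (A.subgroupOf Y).map π ↔ (y : G) ∈ A := by
    intro A hA y
    refine ⟨?_, fun h => ⟨y, h, rfl⟩⟩
    rintro ⟨a, ha, e⟩
    have : ((a⁻¹ * y : Y) : G) ∈ A := hA ((π1 _).1 (by rw [map_mul, map_inv, e, inv_mul_cancel]))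
    exact (A.mul_mem_cancel_left (A.inv_mem ha)).1 this
  have hWS := (hWZ.trans hZS).le
  have comm : ∀ a b : Y, π a * π b = π b * π a ↔ (a : G) * b * (a : G)⁻¹ * (b : G)⁻¹ ∈ W := by
    intro a b
    rw [← commutatorElement_eq_one_iff_mul_comm, ← map_commutatorElement, π1]; rfl
  have nrm : ∀ y : Y, π y ∈ normalizer ((S.subgroupOf Y).map π : Set (Y ⧸ W.subgroupOf Y)) ↔
      (y : G) ∈ normalizer (S : Set G) := by
    intro y
    constructor
    · intro h
      refine mem_normalizer_fintype fun s hs => (mem S hWS (y * ⟨s, hSY hs⟩ * y⁻¹)).1 ?_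
      rw [map_mul, map_mul, map_inv]
      exact (mem_normalizer_iff.1 h _).1 ((mem S hWS ⟨s, hSY hs⟩).2 hs)
    · intro h
      refine mem_normalizer_fintype ?_
      rintro _ ⟨s, hs, rfl⟩
      exact ⟨y * s * y⁻¹, (mem_normalizer_iff.1 h _).1 hs, by simp⟩
  have := dia ((Z.subgroupOf Y).map π) ((S.subgroupOf Y).map π) ?_ ?_ ?_ ?_ ?_ ?_ ?_
  · intro y hy
    exact (nrm ⟨y, hy⟩).1 (this ▸ mem_top _)
  · obtain ⟨z, z1, z2⟩ := SetLike.exists_of_lt hWZ
    intro h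
    have := (mem Z hWZ.le ⟨z, hSY (hZS.le z1)⟩).2 z1
    rw [h, mem_bot, π1] at this
    exact z2 this
  · obtain ⟨z, z1, z2⟩ := SetLike.exists_of_lt hZS
    refine lt_of_le_of_ne (map_mono (subgroupOf_mono _ hZS.le)) fun h => z2 ?_
    exact (mem Z hWZ.le ⟨z, hSY z1⟩).1 (h ▸ (mem S hWS ⟨z, hSY z1⟩).2 z1)
  · rintro _ ⟨a, ha, rfl⟩ _ ⟨b, hb, rfl⟩
    exact (comm a b).2 (hc _ ha _ hb)
  · rintro _ ⟨a, ha, rfl⟩
    rw [← map_pow, π1]
    exact h3 _ ha
  · rintro _ ⟨a, ha, rfl⟩ a1 x hx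
    obtain ⟨x, rfl⟩ := QuotientGroup.mk'_surjective _ x
    exact (nrm x).2 (h1 _ ha (mt (π1 a).2 a1) x x.2 ((comm x a).1 hx))
  · rintro n hn _ ⟨a, ha, rfl⟩
    obtain ⟨x, rfl⟩ := QuotientGroup.mk'_surjective _ n
    exact ⟨x * a * x⁻¹, hZN x x.2 ((nrm x).1 hn) _ ha, by simp [π]⟩
  · rintro _ ⟨a, ha, rfl⟩ a1 n hn hx
    obtain ⟨x, rfl⟩ := QuotientGroup.mk'_surjective _ n
    exact (mem S hWS x).2 (h2 _ ha (mt (π1 a).2 a1) x x.2 ((nrm x).1 hn) ((comm x a).1 hx))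

end Cfsg.Lib.Hay
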