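import Cfsg.Agent.Lib.Hay.Q8
import Cfsg.Agent.Lib.Hay.Dia

/-!
A finite group with the `3`-central centralizer of `PSp₄(3^m)`: generalities.
-/

set_option autoImplicit false

namespace Cfsg.Lib.Hay

open Subgroup Hz

structure Amb (F G : Type*) [Field F] [Fintype F] [Group G] where
  j : Hz F →* G
  inj : Function.Injective j
  hC : ∀ a, a ≠ 0 → ∀ g, g * j (z a) = j (z a) * g → g ∈ j.range
  m : ℕ
  hF : Fintype.card F = 3 ^ m
  h4 : Fintype.card F % 4 = 3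
  big : 3 < Fintype.card F

namespace Amb

variable {F G : Type*} [Field F] [Fintype F] [Group G] (A : Amb F G)

/-- centre -/
def Z : Subgroup G := Zs.map A.j
/-- abelian subgroup -/
def M : Subgroup G := Ms.map A.j
/-- Sylow subgroup -/
def P : Subgroup G := Ps.map A.j
/-- normalizer of the centre -/
def H : Subgroup G := normalizer (A.Z : Set G)

include A in
theorem h3 : (3 : F) = 0 := by
  haveI : Fact (Nat.Prime 3) := ⟨Nat.prime_three⟩
  haveI : CharP F 3 := charP_of_card_eq_prime_pow A.hF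
  exact_mod_cast CharP.cast_eq_zero F 3

include A in
theorem h2 : (2 : F) ≠ 0 := Hz.two_ne A.h3

include A in
theorem hns (a : F) : a ^ 2 ≠ -1 := by simpa using sq_ne_neg_sq A.h4 (a := a) one_ne_zero

include A in
theorem exists_big : ∃ l : F, l ≠ 0 ∧ l ≠ 1 ∧ l ≠ -1 := by
  classical
  by_contra! h
  have : (Finset.univ : Finset F) ⊆ {0, 1, -1} := fun x _ => by
    by_cases h0 : x = 0
    · simp [h0]
    · by_cases h1 : x = 1
      · simp [h1]
      · simp [h x h0 h1]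
  have h1 := (Finset.card_le_card this).trans Finset.card_le_three
  have := A.big
  rw [Finset.card_univ] at h1
  omega

theorem mem_map_j {S : Subgroup (Hz F)} {g : Hz F} : A.j g ∈ S.map A.j ↔ g ∈ S :=
  mem_map_iff_mem A.inj

theorem z_mem (a : F) : A.j (z a) ∈ A.Z := ⟨_, ⟨a, rfl⟩, rfl⟩

theorem mem_Z {g : G} (h : g ∈ A.Z) : ∃ a, g = A.j (z a) := by
  obtain ⟨_, ⟨a, rfl⟩, rfl⟩ := h
  exact ⟨a, rfl⟩

theorem n_mem (v : F × F × F) : A.j (n v) ∈ A.M := ⟨_, Hz.n_mem v, rfl⟩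

theorem mem_M {g : G} (h : g ∈ A.M) : ∃ a b c, g = A.j (n (a, b, c)) := by
  obtain ⟨g, h, rfl⟩ := h
  exact ⟨_, _, _, congrArg A.j (mem_Ms h)⟩

theorem Z_le_M : A.Z ≤ A.M := map_mono Zs_le

theorem M_le_P : A.M ≤ A.P := map_mono Ms_le

theorem z_comm (a : F) (g : Hz F) : A.j g * A.j (z a) = A.j (z a) * A.j g := by
  rw [← map_mul, Hz.z_comm, map_mul]

theorem M_comm {a b : G} (ha : a ∈ A.M) (hb : b ∈ A.M) : a * b = b * a := by
  obtain ⟨a, ha, rfl⟩ := ha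
  obtain ⟨b, hb, rfl⟩ := hb
  rw [← map_mul, Ms_comm ha hb, map_mul]

theorem M_cube {a : G} (ha : a ∈ A.M) : a ^ 3 = 1 := by
  obtain ⟨a, ha, rfl⟩ := ha
  rw [← map_pow, Ms_cube A.h3 ha, map_one]

theorem jz_eq_one {a : F} : A.j (z a) = 1 ↔ a = 0 := by
  rw [map_eq_one_iff _ A.inj, z_eq_one]

theorem hC' {x : G} (hx : x ∈ A.Z) (h1 : x ≠ 1) {g : G} (h : g * x = x * g) : g ∈ A.j.range := by
  obtain ⟨a, rfl⟩ := A.mem_Z hx
  exact A.hC a (mt A.jz_eq_one.2 h1) g h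

theorem H_conj {h : G} (hh : h ∈ A.H) {x : G} (hx : x ∈ A.Z) : h * x * h⁻¹ ∈ A.Z :=
  (mem_normalizer_iff.1 hh x).1 hx

variable [Finite G]

theorem mem_H {h : G} (hh : ∀ a, h * A.j (z a) * h⁻¹ ∈ A.Z) : h ∈ A.H :=
  mem_normalizer_fintype fun x hx => by
    obtain ⟨a, rfl⟩ := A.mem_Z hx
    exact hh a

theorem j_mem (g : Hz F) : A.j g ∈ A.H := A.mem_H fun a => by
  rw [A.z_comm, mul_inv_cancel_right]; exact A.z_mem a

theorem aut {h : G} (hh : h ∈ A.H) : ∃ φ : Hz F →* Hz F, ∀ g, A.j (φ g) = h * A.j g * h⁻¹ := by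
  have k : ∀ g, h * A.j g * h⁻¹ ∈ A.j.range := fun g => A.hC 1 one_ne_zero _ (by
    obtain ⟨a, ha⟩ := A.mem_Z (A.H_conj (A.H.inv_mem hh) (A.z_mem 1))
    rw [inv_inv] at ha
    calc h * A.j g * h⁻¹ * A.j (z 1) = h * (A.j g * (h⁻¹ * A.j (z 1) * h)) * h⁻¹ := by group
      _ = h * ((h⁻¹ * A.j (z 1) * h) * A.j g) * h⁻¹ := by rw [ha, A.z_comm]
      _ = _ := by group)
  choose φ hφ using k
  exact ⟨MonoidHom.mk' φ fun a b => A.inj (by rw [map_mul, hφ, hφ, hφ, map_mul]; group), hφ⟩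

theorem H_of_z {g : G} {a : F} (ha : a ≠ 0) (h : g * A.j (z a) * g⁻¹ ∈ A.Z) : g ∈ A.H :=
  A.mem_H fun b => by
    have k : ∀ c, g⁻¹ * A.j c * g ∈ A.j.range := fun c => A.hC a ha _ (by
      obtain ⟨a', ha'⟩ := A.mem_Z h
      calc g⁻¹ * A.j c * g * A.j (z a) = g⁻¹ * (A.j c * (g * A.j (z a) * g⁻¹)) * g := by group
        _ = g⁻¹ * ((g * A.j (z a) * g⁻¹) * A.j c) * g := by rw [ha', A.z_comm]
        _ = _ := by group)
    have k2 : ∀ c, g * A.j (z b) * g⁻¹ * A.j c = A.j c * (g * A.j (z b) * g⁻¹) := fun c => by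
      obtain ⟨c', hc⟩ := k c
      calc g * A.j (z b) * g⁻¹ * A.j c = g * (A.j (z b) * (g⁻¹ * A.j c * g)) * g⁻¹ := by group
        _ = g * ((g⁻¹ * A.j c * g) * A.j (z b)) * g⁻¹ := by rw [← hc, A.z_comm]
        _ = _ := by group
    obtain ⟨x, hx⟩ := A.hC 1 one_ne_zero _ (k2 (z 1))
    rw [← hx]
    exact A.mem_map_j.2 (cent_qv A.h2 fun a b => A.inj (by rw [map_mul, map_mul, hx, k2]))

theorem isPGroup_P : IsPGroup 3 A.P := by
  haveI : Fact (Nat.Prime 3) := ⟨Nat.prime_three⟩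
  obtain ⟨R, hR⟩ := (modH A.h2).exists_conj_P A.hF
  rw [modH_P] at hR
  exact (hR ▸ R.isPGroup').map _

theorem mem_C {h : G} (hh : h ∈ A.H) {k : ℕ} (hk : h ^ 3 ^ k = 1) : h ∈ A.j.range := by
  haveI : Fact (Nat.Prime 3) := ⟨Nat.prime_three⟩
  obtain ⟨x, x1, x2, x3⟩ := exists_fixed_of_pow (p := 3) (Z := A.Z)
    (A.isPGroup_P.to_le (A.Z_le_M.trans A.M_le_P))
    (fun e => one_ne_zero (A.jz_eq_one.1 (mem_bot.1 (e ▸ A.z_mem 1)))) hk fun _ => A.H_conj hh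
  exact A.hC' x1 x2 x3

theorem normP_le : normalizer (A.P : Set G) ≤ A.H := fun g hg => by
  have k : ∀ c ∈ Ps, g * A.j (z 1) * g⁻¹ * A.j c = A.j c * (g * A.j (z 1) * g⁻¹) := fun c hc => by
    obtain ⟨c', -, hc⟩ := (mem_normalizer_iff.1 (inv_mem hg) _).1 (A.mem_map_j.2 hc)
    rw [inv_inv] at hc
    calc g * A.j (z 1) * g⁻¹ * A.j c = g * (A.j (z 1) * (g⁻¹ * A.j c * g)) * g⁻¹ := by group
      _ = g * ((g⁻¹ * A.j c * g) * A.j (z 1)) * g⁻¹ := by rw [← hc, A.z_comm]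
      _ = _ := by group
  obtain ⟨x, hx⟩ := A.hC 1 one_ne_zero _ (k (z 1) (Ms_le (Zs_le ⟨1, rfl⟩)))
  obtain ⟨v, hv⟩ := (modH A.h2).cent x fun v => A.inj (by
    rw [map_mul, map_mul, hx]; exact k _ (Ms_le (Hz.n_mem v)))
  have := (modH A.h2).fix_u one_ne_zero (v := v) (A.inj (by
    rw [map_mul, map_mul, ← hv, hx]; exact (k _ ⟨rfl, rfl, rfl⟩).symm))
  refine A.H_of_z one_ne_zero ?_
  obtain ⟨a, b, c⟩ := v
  obtain ⟨rfl, rfl⟩ := Prod.mk.inj this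
  rw [← hx, hv]
  exact A.z_mem a

theorem sylow : ∃ R : Sylow 3 G, (R : Subgroup G) = A.P := by
  haveI : Fact (Nat.Prime 3) := ⟨Nat.prime_three⟩
  obtain ⟨R, hR⟩ := A.isPGroup_P.exists_le_sylow
  refine ⟨R, ?_⟩
  by_contra hne
  haveI := R.isPGroup'.isNilpotent
  have := Group.normalizerCondition_of_isNilpotent (G := R) (A.P.subgroupOf R)
    (lt_top_iff_ne_top.2 fun h => hne (le_antisymm (subgroupOf_eq_top.1 h) hR))
  obtain ⟨y, y1, y2⟩ := SetLike.exists_of_lt this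
  have y3 : (y : G) ∈ normalizer (A.P : Set G) := mem_normalizer_fintype fun x hx =>
    (mem_normalizer_iff.1 y1 ⟨x, hR hx⟩).1 hx
  obtain ⟨k, hk⟩ := R.isPGroup' y
  obtain ⟨c, hc⟩ := A.mem_C (A.normP_le y3) (k := k) (congrArg Subtype.val hk)
  obtain ⟨R0, hR0⟩ := (modH A.h2).exists_conj_P A.hF
  rw [modH_P] at hR0
  have := R0.is_maximal' (R.isPGroup'.comap_of_injective A.j A.inj) (by
    rw [hR0]; exact fun x hx => hR (A.mem_map_j.2 hx))
  refine y2 (mem_subgroupOf.2 (hc ▸ A.mem_map_j.2 ?_))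
  rw [← hR0]
  exact this.le (show A.j c ∈ (R : Subgroup G) from hc ▸ y.2)

theorem card_M : Nat.card A.M = Nat.card F ^ 3 := by
  rw [M, card_map_of_injective A.inj, ← modH_M A.h2, Mod.card_M]

theorem eq_M {B : Subgroup G} (hB : B ≤ A.P) (hc : ∀ a ∈ B, ∀ b ∈ B, a * b = b * a)
    (h : Nat.card B = Nat.card F ^ 3) : B = A.M := by
  have hB' : B ≤ A.j.range := hB.trans (map_le_range _ _)
  have := (modH A.h2).eq_M (B.comap A.j) (by
    rw [modH_P]; exact fun x hx => A.mem_map_j.1 (hB hx))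
    (fun a ha b hb => A.inj (by rw [map_mul, map_mul]; exact hc _ ha _ hb))
    (by rw [← h, ← card_map_of_injective A.inj, map_comap_eq_self hB'])
  rw [M, ← modH_M A.h2, ← this, map_comap_eq_self hB']

theorem fus {g : G} {a : F} (ha : a ≠ 0) (h : g * A.j (z a) * g⁻¹ ∈ A.M) :
    ∃ k ∈ normalizer (A.M : Set G), ∃ c, g = k * A.j c := by
  haveI : Fact (Nat.Prime 3) := ⟨Nat.prime_three⟩
  let B := A.M.map (MulAut.conj g⁻¹).toMonoidHom
  have B1 : B ≤ A.j.range := by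
    rintro _ ⟨x, hx, rfl⟩
    refine A.hC a ha _ ?_
    change g⁻¹ * x * g⁻¹⁻¹ * _ = _ * (g⁻¹ * x * g⁻¹⁻¹)
    calc g⁻¹ * x * g⁻¹⁻¹ * A.j (z a) = g⁻¹ * (x * (g * A.j (z a) * g⁻¹)) * g := by group
      _ = _ := by rw [A.M_comm hx h]; group
  obtain ⟨R0, hR0⟩ := (modH A.h2).exists_conj_P A.hF
  rw [modH_P] at hR0
  obtain ⟨Q, hQ⟩ := (((A.isPGroup_P.to_le A.M_le_P).map
    (MulAut.conj g⁻¹).toMonoidHom).comap_of_injective A.j A.inj).exists_le_sylow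
  obtain ⟨c, rfl⟩ := MulAction.exists_smul_eq (Hz F) Q R0
  have := A.eq_M (B := B.map (MulAut.conj (A.j c)).toMonoidHom) (by
    rintro _ ⟨x, hx, rfl⟩
    obtain ⟨x, rfl⟩ := B1 hx
    exact ⟨c * x * c⁻¹, hR0 ▸ ⟨x, hQ hx, rfl⟩, by simp⟩) (by
    rintro _ ⟨_, ⟨x, hx, rfl⟩, rfl⟩ _ ⟨_, ⟨y, hy, rfl⟩, rfl⟩
    simp only [← map_mul, A.M_comm hx hy]) (by
    rw [card_map_of_injective (MulAut.conj (A.j c)).injective,
      card_map_of_injective (MulAut.conj g⁻¹).injective, A.card_M])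
  refine ⟨g * (A.j c)⁻¹, ?_, c, by group⟩
  rw [← inv_mem_iff]
  refine mem_normalizer_fintype fun x hx => this.le ⟨_, ⟨x, hx, rfl⟩, ?_⟩
  simp [mul_assoc]

theorem inv_z {h : G} (hh : h ∈ A.H) (h1 : h ∉ A.j.range) (h2 : h * h ∈ A.j.range) (a : F) :
    h * A.j (z a) * h⁻¹ = A.j (z (-a)) := by
  obtain ⟨b, hb⟩ := A.mem_Z (A.H_conj hh (A.z_mem a))
  obtain ⟨c, hc⟩ := h2
  have e : h * A.j (z b) * h⁻¹ = A.j (z a) := by
    rw [← hb]
    calc h * (h * A.j (z a) * h⁻¹) * h⁻¹ = (h * h) * A.j (z a) * (h * h)⁻¹ := by group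
      _ = _ := by rw [← hc, A.z_comm, mul_inv_cancel_right]
  by_cases h0 : a + b = 0
  · rw [hb, eq_neg_of_add_eq_zero_right h0]
  · refine absurd (A.hC _ h0 h (mul_inv_eq_iff_eq_mul.1 ?_)) h1
    rw [z_add, map_mul]
    calc h * (A.j (z a) * A.j (z b)) * h⁻¹ = (h * A.j (z a) * h⁻¹) * (h * A.j (z b) * h⁻¹) := by group
      _ = _ := by rw [hb, e, A.z_comm]

/-- conjugated set-up -/
def conj (g : G) : Amb F G where
  j := (MulAut.conj g).toMonoidHom.comp A.j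
  inj := (MulAut.conj g).injective.comp A.inj
  hC a ha x hx := by
    obtain ⟨c, hc⟩ := A.hC a ha (g⁻¹ * x * g) (by
      change x * (g * A.j (z a) * g⁻¹) = g * A.j (z a) * g⁻¹ * x at hx
      calc g⁻¹ * x * g * A.j (z a) = g⁻¹ * (x * (g * A.j (z a) * g⁻¹)) * g := by group
        _ = _ := by rw [hx]; group)
    exact ⟨c, by change g * A.j c * g⁻¹ = x; rw [hc]; group⟩
  m := A.m
  hF := A.hF
  h4 := A.h4
  big := A.big

theorem exists_conj (R : Sylow 3 G) : ∃ g, (A.conj g).P = R := by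
  haveI : Fact (Nat.Prime 3) := ⟨Nat.prime_three⟩
  obtain ⟨R0, h⟩ := A.sylow
  obtain ⟨g, rfl⟩ := MulAction.exists_smul_eq G R0 R
  exact ⟨g, by rw [Sylow.coe_subgroup_smul, h, P, P, conj, ← map_map]; rfl⟩

end Amb

theorem exists_amb {G : Type*} [Group G] [Finite G] {F : Type*} [Field F] [Fintype F] {m : ℕ}
    (hm : Odd m) (hm1 : 1 < m) (hF : Fintype.card F = 3 ^ m) (U : Sylow 3 (PSp 2 F)) {x : PSp 2 F}
    (hx : orderOf x = 3) (hxc : ∀ u ∈ (U : Subgroup (PSp 2 F)), u * x = x * u) {α : G}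
    (e : centralizer ({α} : Set G) ≃* centralizer ({x} : Set (PSp 2 F)))
    (hb : ∀ z : G, z ≠ 1 → z ∈ centralizer ({α} : Set G) →
      (∀ c ∈ centralizer ({α} : Set G), c * z = z * c) →
      centralizer ({z} : Set G) = centralizer ({α} : Set G)) :
    ∃ A : Amb F G, A.j.range = centralizer {α} := by
  haveI : Fact (Nat.Prime 3) := ⟨Nat.prime_three⟩
  obtain ⟨φ⟩ := exists_hz (p := 3) (by norm_num) hF (by
    rintro rfl
    rw [orderOf_one] at hx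
    omega) U hxc
  let ψ := φ.trans e.symm
  let j : Hz F →* G := (Subgroup.subtype _).comp ψ.toMonoidHom
  have inj : Function.Injective j := Subtype.val_injective.comp ψ.injective
  have rg : j.range = centralizer {α} := by
    rw [MonoidHom.range_comp, MonoidHom.range_eq_top.2 ψ.surjective, ← MonoidHom.range_eq_map,
      range_subtype]
  refine ⟨⟨j, inj, fun a ha g hg => ?_, m, hF, ?_, ?_⟩, rg⟩
  · rw [rg, ← hb (j (z a)) (by rwa [Ne, map_eq_one_iff _ inj, z_eq_one]) (rg ▸ ⟨_, rfl⟩) ?_]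
    · exact mem_centralizer_singleton_iff.2 hg
    · rw [← rg]
      rintro _ ⟨c, rfl⟩
      rw [← map_mul, Hz.z_comm, map_mul]
  · obtain ⟨k, rfl⟩ := hm
    rw [hF, pow_succ, pow_mul, Nat.mul_mod, Nat.pow_mod]; simp
  · rw [hF]
    exact (pow_one 3).symm.trans_lt (Nat.pow_lt_pow_right (by norm_num) hm1)

end Cfsg.Lib.Hay
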