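import Cfsg.Agent.Lib.Hay.Loc

/-!
Uniqueness of the completion of the amalgam of the two parabolics of `PSp₄(q)`.
-/

set_option autoImplicit false

namespace Cfsg.Lib.Hay

open Subgroup Hz Pointwise

theorem bn {Γ X : Type*} [Group Γ] [MulAction Γ X] (B : Subgroup Γ) (s : Γ) (R : Set Γ)
    (h1 : ∀ b ∈ B, ∃ b' ∈ B, ∃ x ∈ R, s * b = b' * s * x)
    (h2 : ∀ x ∈ R, s * x * s ∈ B ∨ ∃ b1 ∈ B, ∃ b2 ∈ B, s * x * s = b1 * s * b2) {o : X}
    (ho : ∀ x ∈ R, x • o = o) : (∀ b ∈ B, ∃ b' ∈ B, s • b • o = b' • s • o) ∧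
      ∀ b ∈ B, ∃ b' ∈ B, s • b • s • o = b' • o ∨ s • b • s • o = b' • s • o := by
  have k : ∀ b ∈ B, ∃ b' ∈ B, s • b • o = b' • s • o := fun b hb => by
    obtain ⟨b', h, x, hx, e⟩ := h1 b hb
    exact ⟨b', h, by rw [← mul_smul, e, mul_smul, mul_smul, ho x hx]⟩
  refine ⟨k, fun b hb => ?_⟩
  obtain ⟨b', h, x, hx, e⟩ := h1 b hb
  rw [← mul_smul, ← mul_smul, e, mul_assoc b', mul_assoc b', mul_smul]
  rcases h2 x hx with h' | ⟨b1, k1, b2, k2, e⟩
  · exact ⟨_, mul_mem h h', Or.inl (mul_smul _ _ _).symm⟩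
  · obtain ⟨b3, k3, e'⟩ := k b2 k2
    exact ⟨_, mul_mem h (mul_mem k1 k3), Or.inr (by simp only [e, mul_smul, e'])⟩

namespace Hz

variable {F : Type*} [Field F]

/-- diagonal automorphism -/
@[simps!] def sc (μ : Fˣ) : Hz F →* Hz F := MonoidHom.mk' (fun g =>
  ⟨μ ^ 2 * g.a, μ * g.x, μ * g.y, g.p, g.q, g.r, g.s, g.det⟩) fun g h => by ext <;> simp <;> ring

theorem mem_of {X : Subgroup (Hz F)} (h1 : ∀ v, n v ∈ X) (h2 : ∀ s, u s ∈ X) (h3 : ∀ l, τ l ∈ X)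
    (h4 : w0 ∈ X) (c : Hz F) : c ∈ X := by
  rw [show c = n (c.a - c.x * c.y, c.x, 0) * u (-c.y) * sl c.p c.q c.r c.s c.det by ext <;> simp]
  exact mul_mem (mul_mem (h1 _) (h2 _)) (Ls_le (fun _ => h1 _) h3 h4 ⟨rfl, rfl, rfl⟩)

end Hz

namespace Am

variable {F Γ : Type*} [Field F] [Group Γ] (A : Am F Γ)

theorem d_inv (μ : Fˣ) : A.d μ⁻¹ = (A.d μ)⁻¹ :=
  eq_inv_of_mul_eq_one_left (by rw [← A.d_mul, inv_mul_cancel, A.d_one])

theorem w_d (l : Fˣ) : A.w * A.d l = A.j (τ l) * A.w := by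
  rw [← A.w_τ, ← mul_assoc, ← mul_assoc, A.w_mul_w, one_mul, A.w_inv]

variable (dw : ∀ μ, A.d μ * A.j w0 = A.j w0 * A.d μ)
include dw

theorem d_j (μ : Fˣ) (c : Hz F) : A.d μ * A.j c = A.j (sc μ c) * A.d μ := by
  refine mul_inv_eq_iff_eq_mul.1 (mem_of (X := ((MulAut.conj (A.d μ)).toMonoidHom.comp A.j).eqLocus
    (A.j.comp (sc μ))) (fun ⟨x, y, z⟩ => (A.d_n μ x y z).trans (congrArg A.j ?_)) (fun s => ?_)
    (fun l => (mul_inv_eq_iff_eq_mul.2 (A.d_τ μ l)).trans (congrArg A.j ?_))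
    ((mul_inv_eq_iff_eq_mul.2 (dw μ)).trans (congrArg A.j ?_)) c)
  · ext <;> simp
  · refine mul_inv_eq_iff_eq_mul.2 ?_
    rw [MonoidHom.comp_apply, show sc μ (u s) = u (μ * s) by ext <;> simp, ← A.ψu _ (by simp),
      ← A.ψu _ (by simp), d, ← map_mul, ← map_mul, gl_mul, gl_mul]
    exact congrArg _ (gl_ext (by ring) (by ring) (by ring) (by ring))
  · ext <;> simp
  · ext <;> simp

/-- Borel (`b = true`) and parabolic subgroup -/
def PB (b : Prop) : Subgroup Γ where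
  carrier := {g | ∃ c μ, (b → c.r = 0) ∧ g = A.j c * A.d μ}
  one_mem' := ⟨1, 1, fun _ => rfl, by simp [A.d_one]⟩
  mul_mem' := by
    rintro _ _ ⟨c, μ, h, rfl⟩ ⟨c', μ', h', rfl⟩
    exact ⟨c * sc μ c', μ * μ', fun e => by simp [h e, h' e], by
      rw [mul_assoc, ← mul_assoc (A.d μ), A.d_j dw, map_mul, A.d_mul]; group⟩
  inv_mem' := by
    rintro _ ⟨c, μ, h, rfl⟩
    exact ⟨sc μ⁻¹ c⁻¹, μ⁻¹, fun e => by simp [h e], by rw [← A.d_j dw, A.d_inv]; simp⟩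

theorem j_mem {b : Prop} {c : Hz F} (h : b → c.r = 0) : A.j c ∈ A.PB dw b :=
  ⟨c, 1, h, by rw [A.d_one, mul_one]⟩

theorem d_mem {b : Prop} (μ : Fˣ) : A.d μ ∈ A.PB dw b := ⟨1, μ, fun _ => rfl, by simp⟩

theorem upper (a b d : F) (h) : A.ψ (gl a b 0 d h) ∈ A.PB dw True := by
  have h' : a * d ≠ 0 := by simpa using h
  obtain ⟨μ, l, -, -, e⟩ := A.diag a d (by simpa using h)
  convert mul_mem (A.j_mem dw (b := True) (c := u (b / d)) fun _ => rfl) (e ▸ mul_mem (A.d_mem dw μ)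
    (A.j_mem dw (c := τ l) fun _ => rfl) : A.ψ _ ∈ _) using 1
  rw [← A.ψu _ (by simp), ← map_mul, gl_mul]
  exact congrArg _ (gl_ext (by ring) (by simp [right_ne_zero_of_mul h']) (by ring) (by ring))

theorem decomp [Finite Γ] (br : A.w * A.j w0 * A.w * A.j w0 = A.j w0 * A.w * A.j w0 * A.w) {g : Γ}
    (hg : g ∈ A.j.range ⊔ A.ψ.range) : ∃ b ∈ A.PB dw False, ∃ p ∈ A.PB dw False,
      g = b * p ∨ g = b * A.w * p ∨ g = b * (A.w * A.j w0 * A.w) * p := by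
  let o : Γ ⧸ A.PB dw False := (1 : Γ)
  have o1 : ∀ p ∈ A.PB dw False, p • o = o := fun p hp => QuotientGroup.eq.2 (by simpa using hp)
  have oj : ∀ c, A.j c • o = o := fun c => o1 _ (A.j_mem dw False.elim)
  have BP : A.PB dw True ≤ A.PB dw False := by
    rintro _ ⟨c, μ, -, rfl⟩; exact ⟨c, μ, False.elim, rfl⟩
  have on : ∀ x y z, A.j (n (x, y, z)) • A.w • o = A.w • o := fun x y z => by
    rw [← A.w_n, mul_smul, inv_smul_smul, mul_smul, oj]
  have k1 := fun o : Γ ⧸ A.PB dw False => bn (A.PB dw True) (A.j w0) (Set.range fun c => A.j (n (0, 0, c))) (o := o) (by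
    rintro _ ⟨c, μ, h, rfl⟩
    have h := h trivial
    have d : c.p * c.s = 1 := by simpa [h] using c.det
    refine ⟨_, ⟨w0 * (c * (n (0, 0, c.q * c.s))⁻¹) * w0⁻¹, μ, fun _ => ?_, rfl⟩, _, ⟨c.q * c.s, rfl⟩, ?_⟩
    · simp; linear_combination c.q * d
    · rw [mul_assoc, mul_assoc, ← map_mul, A.d_j dw, ← mul_assoc, ← mul_assoc, ← map_mul, ← map_mul]
      congr 2
      rw [show sc μ (w0 * n (0, 0, c.q * c.s)) = w0 * n (0, 0, c.q * c.s) by ext <;> simp]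
      group) (by
    rintro _ ⟨c, rfl⟩
    rw [← map_mul, ← map_mul]
    by_cases h : c = 0
    · exact Or.inl (A.j_mem dw fun _ => by simp [h])
    · obtain ⟨a, l, a', e⟩ := bruhat (g := w0 * n (0, 0, c) * w0) (by simp [Ls]) (by simpa using h)
      exact Or.inr ⟨_, A.j_mem dw (c := n (0, 0, a)) fun _ => rfl, _,
        A.j_mem dw (c := τ l * n (0, 0, a')) fun _ => by simp, by simp only [e, map_mul, mul_assoc]⟩)
  have k2 := fun o : Γ ⧸ A.PB dw False => bn (A.PB dw True) A.w (Set.range fun s => A.j (u s)) (o := o) (by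
    rintro _ ⟨c, μ, h, rfl⟩
    have h := h trivial
    have d : c.p * c.s = 1 := by simpa [h] using c.det
    have p0 := left_ne_zero_of_mul_eq_one d
    let l := Units.mk0 _ p0
    have e : c = n (c.a - c.y * (c.x - c.q * c.p * c.y), c.x - c.q * c.p * c.y, c.q * c.p) * τ l *
        sc μ (u (-(c.p * c.y * μ⁻¹))) := by
      ext <;> simp [l, h, eq_inv_of_mul_eq_one_right d, p0] <;> field_simp <;> ring
    refine ⟨_, mul_mem (mul_mem (A.j_mem dw (c := n (c.q * c.p, c.x - c.q * c.p * c.y,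
      c.a - c.y * (c.x - c.q * c.p * c.y))) fun _ => rfl) (A.d_mem dw l))
      (A.j_mem dw (c := τ μ) fun _ => rfl), _, ⟨-(c.p * c.y * μ⁻¹), rfl⟩, ?_⟩
    conv_lhs => rw [e]
    rw [map_mul, mul_assoc _ _ (A.d μ), ← A.d_j dw, mul_assoc _ _ A.w, ← A.w_d, ← A.w_τ l, ← A.w_n, map_mul]
    group) (by
    rintro _ ⟨s, rfl⟩
    dsimp only
    by_cases h : s = 0
    · refine Or.inl ?_
      rw [show A.j (u s) = 1 by rw [← map_one A.j]; congr 1; ext <;> simp [h], mul_one, A.w_mul_w]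
      exact one_mem _
    · refine Or.inr ⟨_, A.upper dw (-s⁻¹) 1 s (by simp [h]), _, A.upper dw 1 s⁻¹ 1 (by simp), ?_⟩
      simp only [← A.ψu s (by simp), w, ← map_mul, gl_mul]
      exact congrArg _ (gl_ext (by simp) (by simp) (by simp) (by simp [h])))
  obtain ⟨a1, a2⟩ := k1 (A.w • o) (by rintro _ ⟨c, rfl⟩; exact on _ _ _)
  obtain ⟨a3, -⟩ := k1 (A.w • A.j w0 • A.w • o) (by
    rintro _ ⟨c, rfl⟩
    dsimp only
    rw [← A.w_n, mul_smul, inv_smul_smul, mul_smul, ← mul_smul (A.j _), ← map_mul, ← z_eq, ← z_comm,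
      map_mul, mul_smul, z_eq, on])
  obtain ⟨a4, a5⟩ := k2 o (by rintro _ ⟨c, rfl⟩; exact oj _)
  obtain ⟨a6, a7⟩ := k2 (A.j w0 • A.w • o) (by
    rintro _ ⟨c, rfl⟩
    rw [← mul_smul, ← map_mul, show u c * w0 = w0 * n (0, c, 0) by ext <;> simp, map_mul, mul_smul, on])
  let D : Set (Γ ⧸ A.PB dw False) := {x | ∃ b ∈ A.PB dw True, x = b • o ∨ x = b • A.w • o ∨
    x = b • A.j w0 • A.w • o ∨ x = b • A.w • A.j w0 • A.w • o}
  have S : ∀ g, g ∈ MulAction.stabilizer Γ D ↔ ∀ x ∈ D, g • x ∈ D := fun g =>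
    MulAction.mem_stabilizer_set' (Set.toFinite D)
  have SB : A.PB dw True ≤ MulAction.stabilizer Γ D := fun g hg => (S g).2 (by
    rintro x ⟨b, hb, h⟩
    exact ⟨g * b, mul_mem hg hb, by simpa only [mul_smul, smul_left_cancel_iff] using h⟩)
  have S1 : A.j w0 ∈ MulAction.stabilizer Γ D := (S _).2 (by
    rintro _ ⟨b, hb, rfl | rfl | rfl | rfl⟩
    · exact ⟨1, one_mem _, Or.inl (by rw [o1 b (BP hb), oj, one_smul])⟩
    · obtain ⟨b', h, e⟩ := a1 b hb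
      exact ⟨b', h, by simp [e]⟩
    · obtain ⟨b', h, e | e⟩ := a2 b hb <;> exact ⟨b', h, by simp [e]⟩
    · obtain ⟨b', h, e⟩ := a3 b hb
      refine ⟨b', h, Or.inr (Or.inr (Or.inr (e.trans (congrArg _ ?_))))⟩
      simp only [← mul_smul, ← mul_assoc, ← br]
      rw [mul_smul, oj])
  have S2 : A.w ∈ MulAction.stabilizer Γ D := (S _).2 (by
    rintro _ ⟨b, hb, rfl | rfl | rfl | rfl⟩
    · obtain ⟨b', h, e⟩ := a4 b hb
      exact ⟨b', h, by simp [e]⟩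
    · obtain ⟨b', h, e | e⟩ := a5 b hb <;> exact ⟨b', h, by simp [e]⟩
    · obtain ⟨b', h, e⟩ := a6 b hb
      exact ⟨b', h, by simp [e]⟩
    · obtain ⟨b', h, e | e⟩ := a7 b hb <;> exact ⟨b', h, by simp [e]⟩)
  have : g ∈ MulAction.stabilizer Γ D := (sup_le (by
    rintro _ ⟨c, rfl⟩
    exact mem_of (X := (MulAction.stabilizer Γ D).comap A.j) (fun _ => SB (A.j_mem dw fun _ => rfl))
      (fun _ => SB (A.j_mem dw fun _ => rfl)) (fun _ => SB (A.j_mem dw fun _ => rfl)) S1 c) (by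
    rintro _ ⟨m, rfl⟩
    obtain ⟨a, b, c, d, h, rfl⟩ := exists_gl m
    by_cases c0 : c = 0
    · subst c0; exact SB (A.upper dw a b d h)
    · convert mul_mem (mul_mem (SB (A.upper dw (b - a * d / c) a c (by
        convert neg_ne_zero.2 h using 1; field_simp; ring))) S2) (SB (A.upper dw 1 (d / c) 1 (by simp)))
        using 1
      simp only [w, ← map_mul, gl_mul]
      exact congrArg _ (gl_ext (by simp) (by field_simp; ring) (by simp) (by field_simp; ring))) :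
    _ ≤ MulAction.stabilizer Γ D) hg
  have k : ∀ x, g • o = x • o → ∃ p ∈ A.PB dw False, g = x * p := fun x h =>
    ⟨x⁻¹ * g, by simpa using QuotientGroup.eq.1 h.symm, by simp⟩
  obtain ⟨b, hb, h | h | h | h⟩ := (S g).1 this o ⟨1, one_mem _, Or.inl (one_smul _ _).symm⟩ <;>
    (try simp only [← mul_smul] at h) <;> obtain ⟨p, hp, e⟩ := k _ h
  · exact ⟨b, BP hb, p, hp, Or.inl e⟩
  · exact ⟨b, BP hb, p, hp, Or.inr (Or.inl e)⟩
  · exact ⟨_, mul_mem (BP hb) (A.j_mem dw (c := w0) False.elim), p, hp,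
      Or.inr (Or.inl (by simp only [e, mul_assoc]))⟩
  · exact ⟨b, BP hb, p, hp, Or.inr (Or.inr (by rw [e, mul_assoc A.w]))⟩

theorem inj [Finite Γ] (br : A.w * A.j w0 * A.w * A.j w0 = A.j w0 * A.w * A.j w0 * A.w)
    {Γ' : Type*} [Group Γ'] (f : Γ →* Γ') (hf : Function.Injective (f.comp A.j)) {g : Γ}
    (hg : g ∈ A.j.range ⊔ A.ψ.range) (h : f g = 1) : g = 1 := by
  have k : ∀ c μ, A.j c * A.d μ * A.j (z 1) * (A.j c * A.d μ)⁻¹ = A.j (z (μ ^ 2)) := fun c μ => by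
    rw [mul_inv_eq_iff_eq_mul, mul_assoc, A.d_j dw, ← mul_assoc, ← mul_assoc, ← map_mul, ← map_mul,
      ← z_comm]
    congr 3; ext <;> simp
  have k' : ∀ b ∈ A.PB dw False, ∀ p ∈ A.PB dw False, ∀ x, f (b * x * p) = 1 →
      ∃ a, f (x * A.j (z 1) * x⁻¹) = f (A.j (z a)) := fun b hb p hp x e => by
    obtain ⟨c, μ, -, h⟩ := inv_mem (mul_mem hp hb)
    refine ⟨μ ^ 2, ?_⟩
    rw [← k c, ← h]
    have : f x = f (p * b)⁻¹ := by
      rw [map_mul, map_mul, mul_assoc, mul_eq_one_comm, mul_assoc, ← map_mul] at e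
      rw [map_inv, eq_inv_of_mul_eq_one_left e]
    simp only [map_mul f, map_inv f x, this, map_inv f _⁻¹]
  obtain ⟨b, hb, p, hp, rfl | rfl | rfl⟩ := A.decomp dw br hg
  · obtain ⟨c, μ, -, e⟩ := mul_mem hb hp
    rw [e] at h ⊢
    have h1 : (μ : F) ^ 2 = 1 := congrArg Hz.a (hf (a₁ := z _) (a₂ := z 1) (by
      rw [MonoidHom.comp_apply, ← k c, map_mul, map_mul, map_inv, h]; simp))
    obtain ⟨c', e⟩ : ∃ c', A.d μ = A.j c' := by
      rcases mul_self_eq_one_iff.1 (sq (μ : F) ▸ h1) with h | h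
      · exact ⟨1, by rw [show μ = 1 from Units.ext h, A.d_one, map_one]⟩
      · exact ⟨t, by rw [show μ = -1 from Units.ext h, A.d_neg]⟩
    rw [e, ← map_mul] at h ⊢
    rw [hf (h.trans (map_one _).symm), map_one]
  · obtain ⟨a, e⟩ := k' b hb p hp _ h
    rw [z_eq, A.w_n] at e
    simpa using congrArg Hz.q (hf e)
  · obtain ⟨a, e⟩ := k' b hb p hp _ h
    rw [z_eq a, ← A.w_n, show A.w * A.j w0 * A.w * A.j (z 1) * (A.w * A.j w0 * A.w)⁻¹ =
      A.w * A.j (w0 * n (0, 0, 1) * w0⁻¹) * A.w⁻¹ by rw [map_mul, map_mul, map_inv, ← A.w_n, z_eq]; group]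
      at e
    simp only [map_mul f, mul_left_inj, mul_right_inj] at e
    simpa using congrArg Hz.r (hf e)

end Am

end Cfsg.Lib.Hay
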