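import Cfsg.Agent.Lib.Hay.Amb
import Cfsg.Agent.Lib.ZStar.Main
import Cfsg.Agent.Lib.FT.Final
import Cfsg.Agent.Lib.Coprime.Generation
import Cfsg.Agent.Lib.Core.Fitting

/-!
The case where `N(M)` is `3`-closed.
-/

set_option autoImplicit false

namespace Cfsg.Lib.Hay

open Subgroup Hz

theorem diaV {G : Type*} [Group G] [Finite G] (Y W V S : Subgroup G) (hSY : S ≤ Y)
    (hW : ∀ y ∈ Y, ∀ w ∈ W, y * w * y⁻¹ ∈ W) (hWS : W ≤ S) (hVS : V ≤ S)
    (hc : ∀ a ∈ S, ∀ b ∈ S, a * b * a⁻¹ * b⁻¹ ∈ W) (h3 : ∀ a ∈ S, a ^ 3 ∈ W)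
    (h1 : ∀ s ∈ S, s ∉ W → ∀ x ∈ Y, x * s * x⁻¹ * s⁻¹ ∈ W → x ∈ normalizer (S : Set G))
    (hWV : ∀ v ∈ V, v ∈ W → v = 1) (hV : ∃ v ∈ V, v ≠ 1) (hS : ∃ s ∈ S, ∀ w ∈ W, ∀ v ∈ V, s ≠ w * v)
    (hVN : ∀ n ∈ Y, n ∈ normalizer (S : Set G) → ∀ v ∈ V, n * v * n⁻¹ ∈ V)
    (h2 : ∀ n ∈ Y, n ∈ normalizer (S : Set G) → ∀ v ∈ V, v ≠ 1 → n * v = v * n → n ∈ S) :
    Y ≤ normalizer (S : Set G) := by
  let Z : Subgroup G :=
    { carrier := {x | ∃ w ∈ W, ∃ v ∈ V, x = w * v}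
      one_mem' := ⟨1, one_mem _, 1, one_mem _, (mul_one _).symm⟩
      mul_mem' := by
        rintro _ _ ⟨w, hw, v, hv, rfl⟩ ⟨w', hw', v', hv', rfl⟩
        exact ⟨w * (v * w' * v⁻¹), mul_mem hw (hW v (hSY (hVS hv)) w' hw'), v * v', mul_mem hv hv',
          by group⟩
      inv_mem' := by
        rintro _ ⟨w, hw, v, hv, rfl⟩
        exact ⟨v⁻¹ * w⁻¹ * v⁻¹⁻¹, hW _ (inv_mem (hSY (hVS hv))) _ (inv_mem hw), v⁻¹, inv_mem hv,
          by group⟩ }
  refine diaW Y W Z S hSY hW ?_ ?_ hc h3 h1 ?_ ?_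
  · obtain ⟨v, v1, v2⟩ := hV
    exact lt_of_le_of_ne (fun w hw => ⟨w, hw, 1, one_mem _, (mul_one _).symm⟩) fun e =>
      v2 (hWV v v1 (e.ge ⟨1, one_mem _, v, v1, (one_mul _).symm⟩))
  · obtain ⟨s, s1, s2⟩ := hS
    refine lt_of_le_of_ne (by rintro _ ⟨w, hw, v, hv, rfl⟩; exact mul_mem (hWS hw) (hVS hv))
      fun e => ?_
    obtain ⟨w, hw, v, hv, e⟩ := e.ge s1
    exact s2 w hw v hv e
  · rintro n n1 n2 _ ⟨w, hw, v, hv, rfl⟩
    exact ⟨_, hW n n1 w hw, _, hVN n n1 n2 v hv, by group⟩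
  · rintro _ ⟨w, hw, v, hv, rfl⟩ z1 n n1 n2 h
    refine h2 n n1 n2 v hv (fun e => z1 (by simpa [e] using hw)) ?_
    rw [← mul_inv_eq_iff_eq_mul, ← mul_inv_eq_one]
    refine hWV _ (mul_mem (hVN n n1 n2 v hv) (inv_mem hv)) ?_
    have := mul_mem (mul_mem (inv_mem (hW n n1 w hw)) h) hw
    simpa [mul_assoc] using this

namespace Amb

variable {F G : Type*} [Field F] [Fintype F] [Group G] [Finite G] (A : Amb F G)

/-- the involution -/
def t : G := A.j Hz.t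
/-- quaternion subgroup -/
def R : Subgroup G := (Rs A.h3).map A.j
/-- its normalizer in `C` -/
def S : Subgroup G := (Ss A.h3).map A.j

omit [Finite G] in
theorem t_mul_t : A.t * A.t = 1 := by rw [t, ← map_mul, Hz.t_mul_t, map_one]

omit [Finite G] in
theorem t_ne_one : A.t ≠ 1 := by
  rw [t, Ne, map_eq_one_iff _ A.inj]; exact Hz.t_ne_one A.h3

omit [Finite G] in
theorem mem_S {c : Hz F} (h : A.j c ∈ normalizer (A.R : Set G)) : A.j c ∈ A.S :=
  A.mem_map_j.2 (norm_Rs A.h3 A.hns fun r hr => A.mem_map_j.1 (by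
    rw [map_mul, map_mul, map_inv]; exact (mem_normalizer_iff.1 h _).1 (A.mem_map_j.2 hr)))

theorem S_le : A.S ≤ normalizer (A.R : Set G) := by
  rintro _ ⟨c, hc, rfl⟩
  refine mem_normalizer_fintype ?_
  rintro _ ⟨r, hr, rfl⟩
  exact ⟨_, Ss_norm A.h3 hc hr, by simp⟩

theorem norm_S {x : G} (h1 : x ∈ A.H) (h2 : x ∈ normalizer (A.R : Set G)) :
    x ∈ normalizer (A.S : Set G) := by
  refine mem_normalizer_fintype ?_
  rintro _ ⟨c, hc, rfl⟩
  obtain ⟨φ, hφ⟩ := A.aut h1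
  rw [← hφ]
  exact A.mem_S (hφ c ▸ mul_mem (mul_mem h2 (A.S_le ⟨c, hc, rfl⟩)) (inv_mem h2))

theorem mem_R {T : Subgroup G} (hT : IsPGroup 2 T) (hR : A.R ≤ T) {c : Hz F} (h : A.j c ∈ T) :
    A.j c ∈ A.R := by
  haveI : Fact (Nat.Prime 2) := ⟨Nat.prime_two⟩
  by_contra hne
  let T' := T ⊓ A.j.range
  have hT' : IsPGroup 2 T' := hT.to_inf_left
  haveI := hT'.isNilpotent
  have := Group.normalizerCondition_of_isNilpotent (G := T') (A.R.subgroupOf T')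
    (lt_top_iff_ne_top.2 fun e => hne (subgroupOf_eq_top.1 e ⟨h, c, rfl⟩))
  obtain ⟨⟨_, y0, d, rfl⟩, y1, y2⟩ := SetLike.exists_of_lt this
  have y3 : A.j d ∈ normalizer (A.R : Set G) := mem_normalizer_fintype fun x hx =>
    (mem_normalizer_iff.1 y1 ⟨x, hR hx, map_le_range _ _ hx⟩).1 hx
  obtain ⟨k, hk⟩ := hT ⟨_, y0⟩
  refine y2 (mem_subgroupOf.2 (A.mem_map_j.2 (mem_Rs_of_pow A.h3 (A.mem_map_j.1 (A.mem_S y3))
    (k := k) (A.inj ?_))))
  rw [map_pow, map_one]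
  exact congrArg Subtype.val hk

omit [Finite G] in
theorem isPGroup_R : IsPGroup 2 A.R := by
  rintro ⟨_, r, hr, rfl⟩
  exact ⟨2, Subtype.ext (by
    change A.j r ^ 4 = 1
    rw [← map_pow, Rs_pow4 A.h3 hr, map_one])⟩

omit [Finite G] in
theorem R_invol {x : G} (h : x ∈ A.R) (h1 : x ≠ 1) (h2 : x * x = 1) : x = A.t := by
  obtain ⟨r, hr, rfl⟩ := h
  rw [Rs_invol A.h3 hr (fun e => h1 (by rw [e, map_one])) (A.inj (by rw [map_mul, h2, map_one])), t]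

include A in
theorem core_eq_bot {r : ℕ} [Fact r.Prime] (h3 : r ≠ 3) : pCore r G = ⊥ := by
  haveI : Fact (Nat.Prime 3) := ⟨Nat.prime_three⟩
  have hZ := A.isPGroup_P.to_le (A.Z_le_M.trans A.M_le_P)
  have hco : (Nat.card A.Z).Coprime (Nat.card (pCore r G)) :=
    IsPGroup.coprime_card_of_ne 3 r h3.symm _ _ hZ isPGroup_pCore
  refine eq_bot_iff.2 (CoprimeAct.le_of_centralizer_singleton (A := A.Z)
    ⟨le_normalizer_of_normal, hco, Or.inl ?_⟩ ⟨⟨fun a b => Subtype.ext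
      (A.M_comm (A.Z_le_M a.2) (A.Z_le_M b.2))⟩⟩ ?_ ?_)
  · haveI := hZ.isNilpotent
    infer_instance
  · intro hc
    have h1 := hc.exponent_eq_card
    have h2 : Monoid.exponent A.Z ∣ 3 := Monoid.exponent_dvd_of_forall_pow_eq_one fun g =>
      Subtype.ext (A.M_cube (A.Z_le_M g.2))
    have h4 : Nat.card F ≤ Nat.card A.Z := Nat.card_le_card_of_injective
      (fun a => (⟨_, A.z_mem a⟩ : A.Z)) fun a b e => congrArg Hz.a (A.inj (congrArg Subtype.val e))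
    have := Nat.le_of_dvd (by norm_num) h2
    have := A.big
    rw [Nat.card_eq_fintype_card] at h4
    omega
  · rintro a a1 a2 x ⟨x1, x2⟩
    obtain ⟨c, rfl⟩ := A.hC' a1 a2 (mem_centralizer_singleton_iff.1 x2)
    have k : ∀ y ∈ pCore r G, y ^ 3 = 1 → y = 1 := fun y hy e => by
      obtain ⟨k, hk⟩ := isPGroup_pCore (p := r) ⟨y, hy⟩
      have hk' : y ^ r ^ k = 1 := congrArg Subtype.val hk
      exact orderOf_eq_one_iff.1 (Nat.eq_one_of_dvd_coprimes (Nat.Coprime.pow_right k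
        ((Nat.coprime_primes Nat.prime_three Fact.out).2 h3.symm))
        (orderOf_dvd_of_pow_eq_one e) (orderOf_dvd_of_pow_eq_one hk'))
    refine k _ x1 (A.M_cube (A.Z_le_M (A.mem_map_j.2 (cent_qv A.h2 fun x y => ?_))))
    rw [← mul_inv_eq_iff_eq_mul, ← mul_inv_eq_one]
    apply A.inj
    rw [map_one]
    refine k _ ?_ (by rw [← map_pow, comm_qv_cube A.h3, map_one])
    simp only [map_mul, map_inv, mul_assoc]
    exact mul_mem x1 (by simpa [mul_assoc] using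
      (inferInstance : (pCore r G).Normal).conj_mem _ (inv_mem x1) (A.j (qv x y)))

variable (hB : normalizer (A.M : Set G) ≤ normalizer (A.P : Set G))
include hB

theorem sc {g : G} {a : F} (ha : a ≠ 0) (h : g * A.j (z a) * g⁻¹ ∈ A.H) : g ∈ A.H := by
  have h1 : (g * A.j (z a) * g⁻¹) ^ 3 = 1 := by
    rw [conj_pow, A.M_cube (A.Z_le_M (A.z_mem a))]; simp
  obtain ⟨c, hc⟩ := A.mem_C h (k := 1) (by simpa using h1)
  obtain ⟨d, hd⟩ := conj_Ms A.h3 A.hF (g := c) (A.inj (by rw [map_pow, hc, h1, map_one]))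
  obtain ⟨k, hk, e, he⟩ := A.fus (g := A.j d * g) ha (by
    have := A.mem_map_j.2 hd
    rw [map_mul, map_mul, map_inv, hc] at this
    simpa only [mul_assoc, mul_inv_rev, M] using this)
  exact (A.H.mul_mem_cancel_left (A.j_mem d)).1
    (he ▸ mul_mem (A.normP_le (hB hk)) (A.j_mem e))

theorem se (W : Subgroup G) : W ≤ A.M → W ≠ ⊥ → centralizer (W : Set G) ≤ A.H := by
  induction W using WellFoundedGT.induction with | ind W ih => ?_
  intro hWM hW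
  by_cases hz : ∃ x ∈ W, x ≠ 1 ∧ x ∈ A.Z
  · obtain ⟨x, x1, x2, x3⟩ := hz
    intro g hg
    obtain ⟨c, rfl⟩ := A.hC' x3 x2 (hg x x1).symm
    exact A.j_mem c
  push Not at hz
  obtain ⟨y0, y1, y2⟩ := (bot_or_exists_ne_one W).resolve_left hW
  obtain ⟨a0, b0, c0, rfl⟩ := A.mem_M (hWM y1)
  have h0 : b0 ≠ 0 ∨ c0 ≠ 0 := by
    by_contra! h
    rw [h.1, h.2] at y1 y2
    exact hz _ y1 y2 (A.z_mem a0)
  have NH : normalizer (A.M : Set G) ≤ A.H := hB.trans A.normP_le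
  have cy : ∀ c, A.j c ∈ centralizer (W : Set G) → c * n (a0, b0, c0) = n (a0, b0, c0) * c :=
    fun c hc => A.inj (by rw [map_mul, map_mul]; exact (hc _ y1).symm)
  have fixP : ∀ x ∈ normalizer (A.M : Set G), ∀ a0 b0 c0 a1 b1 a0' a1' : F, c0 ≠ 0 → b1 ≠ 0 →
      x * A.j (n (a0, b0, c0)) * x⁻¹ = A.j (n (a0', b0, c0)) →
      x * A.j (n (a1, b1, 0)) * x⁻¹ = A.j (n (a1', b1, 0)) → x ∈ A.j.range := by
    intro x hx a0 b0 c0 a1 b1 a0' a1' h1 h2 e1 e2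
    obtain ⟨φ, hφ⟩ := A.aut (NH hx)
    obtain ⟨a, a1, a2⟩ := autP A.h2 φ
      (fun g hg => A.mem_map_j.1 (hφ g ▸ (mem_normalizer_iff.1 (hB hx) _).1 (A.mem_map_j.2 hg)))
      (fun g hg => A.mem_map_j.1 (hφ g ▸ A.H_conj (NH hx) (A.mem_map_j.2 hg))) h1 h2
      (A.inj ((hφ _).trans e1)) (A.inj ((hφ _).trans e2))
    exact A.hC a a1 x (mul_inv_eq_iff_eq_mul.1 (by rw [← hφ, a2]))
  have key := fun V hVS => diaV (centralizer (W : Set G)) W V A.M
    (fun x hx w hw => A.M_comm (hWM hw) hx)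
    (fun y hy w hw => by rw [← hy w hw, mul_inv_cancel_right]; exact hw) hWM hVS
    (fun a ha b hb => by rw [A.M_comm ha hb]; simp [W.one_mem])
    (fun a ha => by rw [A.M_cube ha]; exact W.one_mem) (by
      intro s s1 s2 x x1 x2
      have := ih (W ⊔ zpowers s) (lt_of_le_of_ne le_sup_left fun e => s2
        (e.ge (mem_sup_right (mem_zpowers s)))) (sup_le hWM (zpowers_le.2 s1))
        (fun e => hW (le_bot_iff.1 (le_sup_left.trans e.le)))
      refine mem_normalizer_fintype fun v hv => ?_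
      have k1 : x * v * x⁻¹ ∈ centralizer (W : Set G) :=
        mul_mem (mul_mem x1 fun w hw => A.M_comm (hWM hw) hv) (inv_mem x1)
      have k2 : s * (x * v * x⁻¹) = x * v * x⁻¹ * s := by
        have k3 : x⁻¹ * s * x ∈ A.M := by
          have : x⁻¹ * s * x = (x * s * x⁻¹ * s⁻¹)⁻¹ * s := by
            calc x⁻¹ * s * x = x⁻¹ * ((x * s * x⁻¹ * s⁻¹)⁻¹ * x) * s := by group
              _ = _ := by rw [x1 _ (inv_mem x2)]; group
          exact this ▸ mul_mem (inv_mem (hWM x2)) s1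
        calc s * (x * v * x⁻¹) = x * ((x⁻¹ * s * x) * v) * x⁻¹ := by group
          _ = _ := by rw [A.M_comm k3 hv]; group
      have k4 : (x * v * x⁻¹) ^ 3 = 1 := by rw [conj_pow, A.M_cube hv]; simp
      have k5 : W ⊔ zpowers s ≤ centralizer (zpowers (x * v * x⁻¹) : Set G) := sup_le
        (le_centralizer_iff.1 (zpowers_le.2 k1)) (zpowers_le.2 (by
          rintro _ ⟨i, rfl⟩
          exact (Commute.zpow_right k2 i).symm))
      obtain ⟨c, hc⟩ := A.mem_C (this (le_centralizer_iff.1 k5 (mem_zpowers _))) (k := 1)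
        (by simpa only [pow_one] using k4)
      rw [← hc] at k1 k4 ⊢
      exact A.mem_map_j.2 (cent3 A.h3 h0 (cy c k1) (A.inj (by rw [map_pow, k4, map_one]))))
  refine le_trans ?_ NH
  by_cases hα : ∃ c, A.j c ∈ centralizer (W : Set G) ∧ c ∉ Ms
  · obtain ⟨c, c1, c2⟩ := hα
    obtain ⟨hc0, p1, r1, s1, e1⟩ := (centM A.h2 h0 (cy c c1)).resolve_left c2
    have act : ∀ a b d, A.j c * A.j (n (a, b, d)) * (A.j c)⁻¹ =
        A.j (n (a + 2 * c.y * b + c.y ^ 2 * d, -b - c.y * d, d)) := fun a b d => by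
      rw [← map_inv, ← map_mul, ← map_mul, conj_n p1 r1 s1]
    let V : Subgroup G :=
      { carrier := {x | x ∈ A.M ∧ A.j c * x * (A.j c)⁻¹ = x⁻¹}
        one_mem' := ⟨one_mem _, by simp⟩
        mul_mem' := by
          rintro a b ⟨a1, a2⟩ ⟨b1, b2⟩
          refine ⟨mul_mem a1 b1, ?_⟩
          rw [A.M_comm a1 b1, mul_inv_rev, ← a2, ← b2, A.M_comm b1 a1]; group
        inv_mem' := by
          rintro a ⟨a1, a2⟩
          exact ⟨inv_mem a1, by rw [← conj_inv, a2]⟩ }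
    have sq : ∀ v ∈ A.M, v = v⁻¹ → v = 1 := fun v hv e => by
      rw [← A.M_cube hv, pow_three', mul_assoc, eq_inv_iff_mul_eq_one.1 e, mul_one]
    refine key V (fun _ h => h.1) ?_ ?_ ?_ ?_ ?_
    · rintro v ⟨v1, v2⟩ v3
      exact sq v v1 (by rw [← v2, ← c1 v v3, mul_inv_cancel_right])
    · refine ⟨A.j (n (-c.y, 1, 0)), ⟨A.n_mem _, ?_⟩, fun e => ?_⟩
      · rw [act, ← map_inv]; congr 1; ext <;> simp; ring
      · rw [map_eq_one_iff _ A.inj] at e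
        simpa using congrArg Hz.x e
    · refine ⟨A.j (z 1), A.Z_le_M (A.z_mem 1), fun w w1 v ⟨v1, v2⟩ e => ?_⟩
      have e2 : w * v = w * v⁻¹ := by
        rw [← v2, ← mul_assoc, ← mul_assoc, c1 w w1, mul_assoc _ w, ← e, A.z_comm, mul_inv_cancel_right]
      rw [sq v v1 (mul_left_cancel e2), mul_one] at e
      exact hz w w1 (by rw [← e]; exact mt A.jz_eq_one.1 one_ne_zero) (e ▸ A.z_mem 1)
    · rintro x x1 x2 v ⟨v1, v2⟩
      refine ⟨(mem_normalizer_iff.1 x2 _).1 v1, ?_⟩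
      obtain ⟨φ, hφ⟩ := A.aut (inv_mem (NH x2))
      have d1 : A.j (φ c) ∈ centralizer (W : Set G) :=
        hφ c ▸ mul_mem (mul_mem (inv_mem x1) c1) (inv_mem (inv_mem x1))
      obtain ⟨-, p2, r2, s2, e2⟩ := (centM A.h2 h0 (cy _ d1)).resolve_left fun h => c2
        (A.mem_map_j.1 ((mem_normalizer_iff.1 (inv_mem x2) _).2 (hφ c ▸ A.mem_map_j.2 h)))
      have e3 : (φ c).y = c.y := mul_left_cancel₀ hc0 (e2.trans e1.symm)
      obtain ⟨a, b, d, rfl⟩ := A.mem_M v1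
      have e4 : A.j (φ c) * A.j (n (a, b, d)) * (A.j (φ c))⁻¹ = (A.j (n (a, b, d)))⁻¹ := by
        rw [← v2, act, ← map_inv, ← map_mul, ← map_mul, conj_n p2 r2 s2, e3]
      calc _ = x * (A.j (φ c) * A.j (n (a, b, d)) * (A.j (φ c))⁻¹) * x⁻¹ := by rw [hφ]; group
        _ = _ := by rw [e4]; group
    · rintro x x1 x2 v ⟨v1, v2⟩ v3 e
      obtain ⟨a, b, d, rfl⟩ := A.mem_M v1
      rw [act, ← map_inv] at v2
      have v4 := A.inj v2
      have d0 : d = 0 := mul_left_cancel₀ A.h2 (by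
        have := congrArg Hz.q v4
        simp at this
        linear_combination this)
      subst d0
      have b0' : b ≠ 0 := by
        rintro rfl
        refine v3 (A.jz_eq_one.2 (mul_left_cancel₀ A.h2 ?_))
        have := congrArg Hz.a v4
        simp at this
        linear_combination this
      obtain ⟨k, rfl⟩ := fixP x x2 a0 b0 c0 a b a0 a hc0 b0'
        (by rw [← x1 _ y1, mul_inv_cancel_right]) (by rw [e, mul_inv_cancel_right])
      exact A.mem_map_j.2 ((centM A.h2 (Or.inl b0') (A.inj (by rwa [map_mul, map_mul]))).resolve_right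
        fun h => h.1 rfl)
  push Not at hα
  by_cases hβ : ∃ s ∈ A.M, ∀ w ∈ W, ∀ v ∈ A.Z, s ≠ w * v
  · refine key A.Z A.Z_le_M (fun v v1 v2 => by_contra fun h => hz v v2 h v1)
      ⟨_, A.z_mem 1, mt A.jz_eq_one.1 one_ne_zero⟩ hβ (fun x _ x2 v hv => A.H_conj (NH x2) hv) ?_
    intro x x1 x2 v v1 v2 e
    obtain ⟨k, rfl⟩ := A.hC' v1 v2 e
    exact A.mem_map_j.2 (hα k x1)
  push Not at hβ
  have hM : ∀ x ∈ centralizer (W : Set G), x ∈ normalizer (A.M : Set G) → x ∈ A.M := by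
    intro x x1 x2
    have k : ∀ b c, ∃ a, x * A.j (n (0, b, c)) * x⁻¹ = A.j (n (a, b, c)) := fun b c => by
      obtain ⟨w, w1, v, v1, e⟩ := hβ _ (A.n_mem (0, b, c))
      obtain ⟨a, ha⟩ := A.mem_Z (mul_mem (inv_mem v1) (A.H_conj (NH x2) v1))
      refine ⟨a, ?_⟩
      calc x * A.j (n (0, b, c)) * x⁻¹ = (x * w) * v * x⁻¹ := by rw [e]; group
        _ = w * v * (v⁻¹ * (x * v * x⁻¹)) := by rw [← x1 w w1]; group
        _ = _ := by rw [← e, ha, ← map_mul]; congr 1; ext <;> simp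
    obtain ⟨a1, e1⟩ := k 0 1
    obtain ⟨a2, e2⟩ := k 1 0
    obtain ⟨k', rfl⟩ := fixP x x2 _ _ _ _ _ _ _ one_ne_zero one_ne_zero e1 e2
    exact A.mem_map_j.2 (hα k' x1)
  let V : Subgroup G :=
    { carrier := {x | ∃ a, a ^ 3 = a ∧ x = A.j (z a)}
      one_mem' := ⟨0, by simp, (A.jz_eq_one.2 rfl).symm⟩
      mul_mem' := by
        rintro _ _ ⟨a, a1, rfl⟩ ⟨b, b1, rfl⟩
        exact ⟨a + b, by linear_combination a1 + b1 + a * b * (a + b) * A.h3, by rw [z_add, map_mul]⟩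
      inv_mem' := by
        rintro _ ⟨a, a1, rfl⟩
        exact ⟨-a, by linear_combination -a1, by rw [z_neg, map_inv]⟩ }
  have VZ : V ≤ A.Z := by rintro _ ⟨a, -, rfl⟩; exact A.z_mem a
  refine key V (VZ.trans A.Z_le_M) (fun v v1 v2 => by_contra fun h => hz v v2 h (VZ v1))
    ⟨_, ⟨1, by simp, rfl⟩, mt A.jz_eq_one.1 one_ne_zero⟩ ?_ (fun x x1 x2 v hv => ?_)
    fun x x1 x2 _ _ _ _ => hM x x1 x2
  · obtain ⟨l, l0, l1, l2⟩ := A.exists_big
    refine ⟨_, A.Z_le_M (A.z_mem l), fun w w1 v v1 e => ?_⟩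
    have : w = 1 := by_contra fun h => hz w w1 h (by
      rw [← mul_inv_eq_iff_eq_mul] at e
      exact e ▸ mul_mem (A.z_mem l) (inv_mem (VZ v1)))
    obtain ⟨a, a1, rfl⟩ := v1
    rw [this, one_mul] at e
    have e : l = a := congrArg Hz.a (A.inj e)
    subst e
    have : l * (l - 1) * (l + 1) = 0 := by linear_combination a1
    simp [l0, sub_eq_zero, l1, add_eq_zero_iff_eq_neg, l2] at this
  · rw [A.M_comm (hM x x1 x2) (A.Z_le_M (VZ hv)), mul_inv_cancel_right]; exact hv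

theorem se1 {y : G} (hy : y ∈ A.H) (h3 : y ^ 3 = 1) (h1 : y ≠ 1) {x : G} (h : x * y = y * x) :
    x ∈ A.H := by
  obtain ⟨c, rfl⟩ := A.mem_C hy (k := 1) (by simpa using h3)
  obtain ⟨d, hd⟩ := conj_Ms A.h3 A.hF (g := c) (A.inj (by rw [map_pow, h3, map_one]))
  have := A.se hB (zpowers (A.j (d * c * d⁻¹))) (zpowers_le.2 (A.mem_map_j.2 hd))
    (by simpa using h1) (x := A.j d * x * (A.j d)⁻¹) (by
      rintro _ ⟨i, rfl⟩
      refine Commute.zpow_left ?_ i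
      rw [map_mul, map_mul, map_inv]
      exact (Commute.conj_iff _).2 h.symm)
  exact (A.H.mul_mem_cancel_left (A.j_mem d)).1 ((A.H.mul_mem_cancel_right
    (inv_mem (A.j_mem d))).1 this)

theorem se2 {y : G} (hy : y ∈ A.H) (h3 : y ^ 3 = 1) (h1 : y ≠ 1) {g : G} (h : g * y * g⁻¹ ∈ A.H) :
    g ∈ A.H := by
  obtain ⟨c, hc⟩ := A.mem_C h (k := 1) (by rw [pow_one, conj_pow, h3]; simp)
  refine (A.H.inv_mem_iff).1 (A.sc hB one_ne_zero (A.se1 hB hy h3 h1 ?_))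
  calc g⁻¹ * A.j (z 1) * g⁻¹⁻¹ * y = g⁻¹ * (A.j (z 1) * (g * y * g⁻¹)) * g := by group
    _ = g⁻¹ * ((g * y * g⁻¹) * A.j (z 1)) * g := by rw [← hc, A.z_comm]
    _ = _ := by group

theorem normR : normalizer (A.R : Set G) ≤ A.H := by
  have SH : A.S ≤ A.H := by rintro _ ⟨c, -, rfl⟩; exact A.j_mem c
  have ZS : A.Z ≤ A.S := fun x hx => by
    obtain ⟨a, rfl⟩ := A.mem_Z hx
    exact A.mem_map_j.2 (z_mem_Ss A.h3 a)
  have NS : normalizer (A.S : Set G) ≤ A.H := fun x hx =>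
    A.sc hB one_ne_zero (SH ((mem_normalizer_iff.1 hx _).1 (ZS (A.z_mem 1))))
  refine le_trans (diaV _ A.R A.Z A.S A.S_le (fun y hy w hw => (mem_normalizer_iff.1 hy _).1 hw)
    (map_mono (Rs_le A.h3)) ZS ?_ ?_ ?_ ?_ ⟨_, A.z_mem 1, mt A.jz_eq_one.1 one_ne_zero⟩ ?_
    (fun x _ x2 v hv => A.H_conj (NS x2) hv) ?_) NS
  · rintro _ ⟨a, ha, rfl⟩ _ ⟨b, hb, rfl⟩
    exact ⟨_, Ss_comm A.h3 ha hb, by simp⟩
  · rintro _ ⟨a, ha, rfl⟩
    exact ⟨_, Ss_cube A.h3 ha, by simp⟩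
  · rintro _ ⟨s, s1, rfl⟩ s2 x x1 x2
    have k : x * A.j s * x⁻¹ ∈ A.S := by
      simpa only [inv_mul_cancel_right, S] using mul_mem (map_mono (Rs_le A.h3) x2) (A.mem_map_j.2 s1)
    refine A.norm_S (A.se2 hB (y := A.j s ^ 4) (pow_mem (A.j_mem s) 4) ?_ (fun e => s2 ?_) ?_) x1
    · rw [← pow_mul, mul_comm, pow_mul, ← map_pow, ← map_pow, Rs_pow4 A.h3 (Ss_cube A.h3 s1), map_one]
    · exact A.mem_map_j.2 (mem_Rs_of_pow A.h3 s1 (k := 2) (A.inj (by rw [map_pow, map_one]; exact e)))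
    · rw [← conj_pow]; exact pow_mem (SH k) 4
  · intro v v1 v2
    obtain ⟨a, rfl⟩ := A.mem_Z v1
    exact A.jz_eq_one.2 (A.mem_map_j.1 v2).2.1
  · refine ⟨A.j (n (0, 0, 1)), A.mem_map_j.2 (by simp [Ss]), ?_⟩
    rintro _ ⟨r, hr, rfl⟩ v v1 e
    obtain ⟨a, rfl⟩ := A.mem_Z v1
    rw [← map_mul] at e
    have e := A.inj e
    have e1 := congrArg Hz.p e
    have e2 := congrArg Hz.q e
    have e3 := congrArg Hz.s e
    simp at e1 e2 e3
    rcases hr.2.2 with h | h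
    · exact A.h2 (by linear_combination h + e1 + e3)
    · exact one_ne_zero (e2.trans h.1)
  · intro x x1 _ v v1 v2 e
    obtain ⟨k, rfl⟩ := A.hC' v1 v2 e
    exact A.mem_S x1

theorem noj {g : G} (h1 : g * A.t * g⁻¹ ∈ A.H) (h2 : g * A.t * g⁻¹ * A.t = A.t * (g * A.t * g⁻¹)) :
    g * A.t * g⁻¹ ∈ A.j.range := by
  haveI : Fact (Nat.Prime 3) := ⟨Nat.prime_three⟩
  by_contra h3
  set i := g * A.t * g⁻¹ with hi
  have ii : i * i = 1 := by rw [hi, conj_mul, A.t_mul_t]; simp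
  obtain ⟨φ, hφ⟩ := A.aut h1
  obtain ⟨y, y1, y2, y3⟩ := autT1 A.h3 φ (A.inj (by rw [hφ, mul_inv_eq_iff_eq_mul]; exact h2))
    (fun a => A.inj (by rw [hφ, A.inv_z h1 h3 (ii ▸ one_mem _)]))
    (fun c => A.inj (by
      rw [hφ, hφ]
      calc i * (i * A.j c * i⁻¹) * i⁻¹ = (i * i) * A.j c * (i * i)⁻¹ := by group
        _ = _ := by rw [ii]; simp))
  let K := centralizer ({i} : Set G)
  have yK : A.j y ∈ K := mem_centralizer_singleton_iff.2
    (mul_inv_eq_iff_eq_mul.1 (by rw [← hφ, y3])).symm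
  have xK : g * A.j (z 1) * g⁻¹ ∈ K := mem_centralizer_singleton_iff.2 (by
    rw [hi, conj_mul, conj_mul, t, A.z_comm])
  have y4 : A.j y ^ 3 = 1 := by rw [← map_pow, y2, map_one]
  have p3 : ∀ x : K, (x : G) ^ 3 = 1 → IsPGroup 3 (zpowers x) := fun x hx =>
    IsPGroup.of_card_dvd_pow (n := 1) (by
      rw [Nat.card_zpowers]; exact orderOf_dvd_of_pow_eq_one (Subtype.ext hx))
  obtain ⟨Q, hQ⟩ := (p3 ⟨_, yK⟩ y4).exists_le_sylow
  obtain ⟨k, hk⟩ := exists_conj_mem_sylow Q (p3 ⟨_, xK⟩ (by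
    rw [conj_pow, A.M_cube (A.Z_le_M (A.z_mem 1))]; simp))
  obtain ⟨R, hR⟩ := A.sylow
  obtain ⟨h, hh⟩ := exists_conj_mem_sylow R (Q.isPGroup'.map K.subtype)
  have PH : (R : Subgroup G) ≤ A.H := by rw [hR]; rintro _ ⟨c, -, rfl⟩; exact A.j_mem c
  have k1 : h ∈ A.H := A.se2 hB (A.j_mem y) y4 (by rwa [Ne, map_eq_one_iff _ A.inj])
    (PH (hh _ ⟨_, hQ (mem_zpowers _), rfl⟩))
  have k2 : h * (k * g) ∈ A.H := A.sc hB one_ne_zero (PH (by
    simpa [mul_assoc] using hh _ ⟨_, hk _ (mem_zpowers _), rfl⟩))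
  refine h3 (A.hC' (A.H_conj ((A.H.mul_mem_cancel_left k1).1 k2) (A.z_mem 1))
    (mt conj_eq_one_iff.1 (mt A.jz_eq_one.1 one_ne_zero)) (mem_centralizer_singleton_iff.1 ?_).symm)
  simpa [mul_assoc] using mul_mem (mul_mem k.2 xK) (inv_mem k.2)

theorem H_eq_top : A.H = ⊤ := by
  haveI : Fact (Nat.Prime 2) := ⟨Nat.prime_two⟩
  haveI : Fact (Nat.Prime 3) := ⟨Nat.prime_three⟩
  obtain ⟨T, hT⟩ := A.isPGroup_R.exists_le_sylow
  have tR : A.t ∈ A.R := A.mem_map_j.2 (t_mem_Rs A.h3)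
  have mR : ∀ x ∈ (T : Subgroup G), x ∈ A.j.range → x ∈ A.R := by
    rintro _ hx ⟨c, rfl⟩; exact A.mem_R T.isPGroup' hT hx
  have inv : ∀ g, g * A.t * g⁻¹ ∈ (T : Subgroup G) → g * A.t * g⁻¹ ∈ A.j.range →
      g * A.t * g⁻¹ = A.t := fun g h1 h2 => A.R_invol (mR _ h1 h2) (by simpa using A.t_ne_one)
        (by rw [conj_mul, A.t_mul_t]; simp)
  have Tt : ∀ x ∈ (T : Subgroup G), x ∈ A.H → x * A.t = A.t * x := fun x h1 h2 => by
    obtain ⟨φ, hφ⟩ := A.aut h2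
    exact mul_inv_eq_iff_eq_mul.1 (inv x (mul_mem (mul_mem h1 (hT tR)) (inv_mem h1)) ⟨_, hφ _⟩)
  have iso : ∀ g, g * A.t * g⁻¹ ∈ (T : Subgroup G) → g * A.t * g⁻¹ ∈ A.H →
      g * A.t * g⁻¹ = A.t := fun g h1 h2 => inv g h1 (A.noj hB h2 (Tt _ h1 h2))
  have TH : (T : Subgroup G) ≤ A.H := by
    by_contra hne
    haveI := T.isPGroup'.isNilpotent
    have := Group.normalizerCondition_of_isNilpotent (G := T) (A.H.subgroupOf T)
      (lt_top_iff_ne_top.2 fun h => hne (subgroupOf_eq_top.1 h))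
    obtain ⟨⟨x, x0⟩, x1, x2⟩ := SetLike.exists_of_lt this
    have x3 : ∀ r ∈ A.R, x * r * x⁻¹ ∈ A.H := fun r hr =>
      (mem_normalizer_iff.1 x1 ⟨r, hT hr⟩).1 (by
        obtain ⟨c, -, rfl⟩ := hr; exact A.j_mem c)
    have x4 : ∀ r ∈ A.R, x * r * x⁻¹ ∈ (T : Subgroup G) := fun r hr =>
      mul_mem (mul_mem x0 (hT hr)) (inv_mem x0)
    have x5 := iso x (x4 _ tR) (x3 _ tR)
    refine x2 (A.normR hB (mem_normalizer_fintype fun r hr => mR _ (x4 r hr) ?_))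
    by_contra h
    have r2 : x * r * x⁻¹ * (x * r * x⁻¹) = A.t := by
      obtain ⟨c, hc, rfl⟩ := hr
      rcases Rs_cases A.h3 hc with rfl | rfl | e
      · exact absurd (by simpa using one_mem _) h
      · exact absurd ⟨_, x5.symm⟩ h
      · rw [conj_mul, ← map_mul, e]; exact x5
    obtain ⟨φ, hφ⟩ := A.aut (x3 r hr)
    refine autT2 A.h3 A.hns φ (A.inj (by
      rw [hφ, mul_inv_eq_iff_eq_mul]; exact Tt _ (x4 r hr) (x3 r hr)))
      (fun a => A.inj (by rw [hφ, A.inv_z (x3 r hr) h ⟨_, r2.symm⟩])) fun c => A.inj ?_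
    rw [hφ, hφ, map_mul, map_mul, map_inv, ← t, ← r2]; group
  have zs := zstar_of_sylow T (t := A.t) (by rw [sq, A.t_mul_t]) (hT tR) fun g h => iso g h (TH h)
  obtain ⟨r, r1, r2⟩ := exists_pCore_ne_bot_of_isSolvable (N := pPrimeCore 2 G) inferInstance
    (fun e => by
      have := zs (A.j (n (0, 1, 0)))
      rw [e, mem_bot, t, ← map_inv, ← map_inv, ← map_mul, ← map_mul, ← map_mul,
        map_eq_one_iff _ A.inj] at this
      have := congrArg Hz.x this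
      simp at this
      exact A.h2 (by linear_combination this))
    (FT.odd_order_solvable (Nat.coprime_two_right.1 coprime_card_pPrimeCore))
  haveI : Fact r.Prime := ⟨r1⟩
  by_cases h3 : r = 3
  · subst h3
    obtain ⟨R, hR⟩ := A.sylow
    have PH : pCore 3 G ≤ A.H := (pCore_le_sylow R).trans (by
      rw [hR]; rintro _ ⟨c, -, rfl⟩; exact A.j_mem c)
    obtain ⟨k, hk⟩ := (isPGroup_pCore (p := 3) (G := G)).exists_card_eq
    obtain ⟨y, hy⟩ := exists_prime_orderOf_dvd_card' (G := pCore 3 G) 3 (hk ▸ dvd_pow_self 3 (by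
      rintro rfl
      exact r2 (by rw [card_eq_one.1 (show Nat.card (pCore 3 G) = 1 by simpa using hk), inf_bot_eq])))
    rw [← orderOf_coe] at hy
    refine eq_top_iff.2 fun g _ => A.se2 hB (PH y.2) (orderOf_dvd_iff_pow_eq_one.1 hy.dvd) (fun e => ?_)
      (PH ((inferInstance : (pCore 3 G).Normal).conj_mem _ y.2 g))
    rw [e, orderOf_one] at hy
    omega
  · exact absurd (by rw [A.core_eq_bot h3, inf_bot_eq]) r2

theorem range_normal : A.j.range.Normal := ⟨by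
  rintro _ ⟨c, rfl⟩ g
  obtain ⟨φ, hφ⟩ := A.aut (h := g) (A.H_eq_top hB ▸ mem_top g)
  exact ⟨_, hφ c⟩⟩

end Amb

end Cfsg.Lib.Hay
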