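import Cfsg.Agent.Lib.Hay.K6

/-!
The group is generated by the two parabolics.
-/

set_option autoImplicit false

namespace Cfsg.Lib.Hay

open Subgroup Hz

namespace Amb2

variable {F G : Type*} [Field F] [Fintype F] [Group G] [Finite G] (A : Amb2 F G)

theorem ct {g : G} (h : Commute g (A.j Hz.t)) : g ∈ A.G0 := A.K0_le (A.k7 h)

omit [Finite G] in
theorem cconj {k y : G} (hk : k ∈ A.G0) (h : ∀ g, Commute g y → g ∈ A.G0) {g : G}
    (hg : Commute g (k * y * k⁻¹)) : g ∈ A.G0 := by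
  have := h (k⁻¹ * g * k) (by simpa [mul_assoc] using hg.map (MulAut.conj k⁻¹))
  rwa [A.G0.mul_mem_cancel_right hk, A.G0.mul_mem_cancel_left (inv_mem hk)] at this

theorem cw {l : Hz F} (h : l ∈ Ls) {g : G} (hg : Commute g (A.sw.j l * A.j l⁻¹ * A.w)) : g ∈ A.G0 :=
  A.cconj (A.K0_le (A.j1_K0 h)) (fun _ hg => A.cconj (A.ψ_G0 _) (fun _ => A.ct) (A.h_t.symm ▸ hg :
    Commute _ (A.h * _ * A.h⁻¹))) (A.w_conj l ▸ hg)

theorem k8 {g : G} (hg : Commute g A.s) : g ∈ A.G0 := by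
  haveI : Fact (Nat.Prime 2) := ⟨Nat.prime_two⟩
  have sK : A.s ∈ A.K0 := mul_mem A.w_K0 (A.j_K0 t_mem_Ls)
  have st : A.s * A.j Hz.t = A.w := by rw [s, mul_assoc, A.tt, mul_one]
  have i0L := Rs_le_Ls A.h3 (i0_mem A.h3)
  have δm : ∀ l ∈ Ls, ∀ l' ∈ Ls, A.sw.j l * A.j l * (A.sw.j l' * A.j l') =
      A.sw.j (l * l') * A.j (l * l') := fun l hl l' hl' => by
    rw [(show Commute _ _ from A.LL hl' hl).symm.mul_mul_mul_comm, map_mul, map_mul]
  have δs : ∀ l ∈ Ls, A.sw.j l * A.j l ∈ centralizer {A.s} := fun l hl =>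
    mem_centralizer_singleton_iff.2 (Commute.mul_right (by
      rw [Commute, SemiconjBy, ← mul_assoc, w_j1, mul_assoc (A.j l), w_j, ← mul_assoc, A.LL hl hl])
      ((A.j1_t hl).mul_left (A.j_t hl)))
  have δ2 : ∀ l ∈ Ls, l * l = Hz.t → (A.sw.j l * A.j l) ^ 2 ∈ two _ A.ss := fun l hl e => by
    rw [pow_two, δm l hl l hl, e, sw_t, A.tt]; exact one_mem _
  have sq : ∀ i j : ℕ, i < 2 → j < 2 → (i = 0 ∧ j = 0) ∨ ∃ l ∈ Ls, l * l = Hz.t ∧
      (A.sw.j w0 * A.j w0) ^ i * (A.sw.j (i0 A.h3) * A.j (i0 A.h3)) ^ j = A.sw.j l * A.j l :=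
    fun i j h1 h2 => by
    interval_cases i <;> interval_cases j
    · exact Or.inl ⟨rfl, rfl⟩
    · exact Or.inr ⟨_, i0L, i0_sq _, by simp⟩
    · exact Or.inr ⟨_, w0_mem, w0_sq, by simp⟩
    · refine Or.inr ⟨_, mul_mem w0_mem i0L, ?_, by rw [pow_one, pow_one, δm _ w0_mem _ i0L]⟩
      ext <;> simp <;> linear_combination A.h3
  refine zq (centralizer {A.s}) (two _ A.ss) A.G0 ?_ ?_ ?_ (i := A.j Hz.t)
    (mem_centralizer_singleton_iff.2 (A.K0_t sK).symm) (Or.inl A.tt) (fun g g1 g2 => ?_)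
    (fun g _ g2 => ?_) (p := 2) (δs _ w0_mem) (δs _ i0L) (δ2 _ w0_mem w0_sq) (δ2 _ i0L (i0_sq _))
    (Or.inl ?_) (fun i j h1 h2 h => ?_) (fun i j h1 h2 h o o1 o2 o3 => ?_)
    (fun O _ _ _ h o o1 o2 => h o o1 (by rwa [← pow_two])) (mem_centralizer_singleton_iff.2 hg)
  · rintro _ (rfl | rfl)
    exacts [one_mem _, mem_centralizer_singleton_iff.2 rfl]
  · rintro y hy _ (rfl | rfl)
    · simp [one_mem]
    · rw [mem_centralizer_singleton_iff.1 hy, mul_inv_cancel_right]; exact Or.inr rfl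
  · rintro _ (rfl | rfl)
    exacts [one_mem _, A.K0_le sK]
  · have g3 : Commute g A.s := mem_centralizer_singleton_iff.1 g1
    have d1 : IsConj (A.j Hz.t) (g * A.j Hz.t * g⁻¹) := isConj_iff.2 ⟨g, rfl⟩
    have d2 := A.nod8 d1 (IsConj.refl _) (by
      rw [conj_inv, A.t_inv, mul_assoc _ _ (A.j Hz.t), ← pow_two] at g2
      rw [show 2 ^ 2 = 2 * 2 from rfl, pow_mul]
      rcases g2 with h | h <;> rw [h, pow_two]
      exacts [mul_one _, A.ss])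
    have d3 : Commute (g * A.j Hz.t * g⁻¹) A.s := (g3.mul_left (A.K0_t sK).symm).mul_left g3.inv_left
    have d4 : IsConj (A.j Hz.t) (g * A.j Hz.t * g⁻¹ * A.s) := isConj_iff.2 ⟨g * A.h, by
      rw [mul_assoc _ _ A.s, g3.inv_left.eq, ← mul_assoc, mul_assoc g _ A.s, ← (A.K0_t sK).eq, st,
        ← A.h_t]; group⟩
    rcases A.inv2 (A.k7 d2) d1 with e | ⟨l, hl, e⟩ <;> rw [e] at d2 d3 d4 ⊢
    · simp [one_mem]
    have d5 := d3.mul_right d2
    rw [st] at d5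
    have d6 : A.sw.j (l * l) * A.j (l * l)⁻¹ = 1 := by
      have := d5.eq
      rw [← mul_assoc, ← mul_assoc, w_j1, mul_assoc (A.j l), w_j, ← mul_assoc, mul_left_inj, mul_left_inj,
        ← A.LL (inv_mem hl) hl] at this
      rw [mul_inv_rev, map_mul, map_mul, ← mul_assoc, mul_assoc (A.sw.j l), this]
      simp
    rcases A.LL_inj (mul_mem hl hl) (inv_mem (mul_mem hl hl)) d6 with ⟨h, -⟩ | ⟨h, -⟩
    · rcases Ls_sq A.h2 hl h with rfl | rfl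
      · exact Or.inr (by simp [A.t_inv, s])
      · exact Or.inr (by simp [A.t_inv, s, sw_t, A.tt])
    · obtain ⟨k, -, hk⟩ := A.c_s' hl hl h h
      refine absurd (d4.trans (isConj_iff.2 ⟨k⁻¹, ?_⟩)) A.s_t
      rw [show A.sw.j l * A.j l⁻¹ * A.w * A.s = A.sw.j l * A.j l by
        rw [s, ← mul_assoc, mul_assoc _ A.w A.w, A.w_mul_w, mul_one, mul_assoc, ← map_mul, ← h,
          inv_mul_cancel_left], hk]
      simp [mul_assoc]
  · rcases g2 with h | h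
    · exact A.ct (mul_inv_eq_iff_eq_mul.1 (mul_inv_eq_one.1 h))
    · rw [mul_inv_eq_iff_eq_mul, st, ← A.h_t] at h
      refine (A.G0.mul_mem_cancel_left (x := A.h⁻¹) (inv_mem (A.ψ_G0 _))).1 (A.ct ?_)
      rw [Commute, SemiconjBy, ← mul_inv_eq_iff_eq_mul, ← mul_right_inj A.h, ← mul_left_inj A.h⁻¹, ← h]
      group
  · rw [mul_inv_eq_one, mul_inv_eq_iff_eq_mul, δm _ w0_mem _ i0L, δm _ i0L _ w0_mem,
      eq_mul_of_mul_inv_eq (i0_w0 A.h3).symm.symm, ← δm _ (mul_mem w0_mem t_mem_Ls) _ i0L,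
      ← δm _ w0_mem _ t_mem_Ls, sw_t, A.tt, mul_one, δm _ w0_mem _ i0L]
  · refine (sq i j h1 h2).resolve_right fun ⟨l, hl, e1, e⟩ => ?_
    rw [e] at h
    rcases h with h | h
    · rcases A.LL_inj hl hl h with ⟨rfl, -⟩ | ⟨rfl, -⟩
      exacts [t_ne_one A.h3 (by simpa using e1.symm), t_ne_one A.h3 (e1.symm.trans t_mul_t)]
    · exact A.w_L0' (st ▸ mul_mem (h ▸ ⟨l, hl, l, hl, rfl⟩) (A.j_L0 t_mem_Ls))
  · obtain ⟨l, hl, e1, e⟩ := (sq i j h1 h2).resolve_left fun ⟨e1, e2⟩ => h (by simp [e1, e2, one_mem])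
    rw [e] at o3
    have os : Commute o A.s := mem_centralizer_singleton_iff.1 o1
    have := (h9_commute_of_odd_of_sq (w := A.sw.j l * A.j l) o2 (by
      have e : ∀ x, o * o * x * (o * o)⁻¹ * x⁻¹ = o * (o * x * o⁻¹ * x⁻¹) * o⁻¹ * (o * x * o⁻¹ * x⁻¹) :=
        fun x => by group
      rw [Commute, SemiconjBy, ← mul_inv_eq_iff_eq_mul, ← mul_inv_eq_one, e]
      rcases o3 with h | h <;> rw [h]
      · simp
      · rw [os.mul_inv_cancel, A.ss])).mul_right os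
    refine A.cw hl ?_
    rwa [s, A.w_t, ← mul_assoc, mul_assoc _ _ (A.j Hz.t), ← map_mul, show l * Hz.t = l⁻¹ from
      eq_inv_of_mul_eq_one_right (by rw [← mul_assoc, e1, t_mul_t])] at this

theorem s_conj_mem (g : G) : g * A.s * g⁻¹ ∈ A.G0 := by
  have ss : g * A.s * g⁻¹ * (g * A.s * g⁻¹) = 1 := by rw [conj_mul, A.ss]; simp
  rcases Nat.even_or_odd (orderOf (A.j Hz.t * (g * A.s * g⁻¹))) with h | h
  · obtain ⟨m, -, h1, h2, h3⟩ := h9_central_invol_of_even A.tt ss h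
    generalize (A.j Hz.t * (g * A.s * g⁻¹)) ^ m = e at h1 h2 h3
    rcases A.inv1 (A.k7 h2) (by rw [← pow_two, ← h1, pow_orderOf_eq_one]) with
      rfl | rfl | ⟨k, hk, rfl⟩ | ⟨l, hl, rfl⟩
    · simp at h1
    · exact A.ct h3.symm
    · exact A.cconj hk (fun _ => A.k8) h3.symm
    · exact A.cw hl h3.symm
  · exact absurd ((h9_isConj_of_odd A.tt ss h).trans (isConj_iff.2 ⟨g, rfl⟩).symm) A.s_t

theorem G0_eq : A.G0 = ⊤ := by
  haveI : Fact (Nat.Prime 3) := ⟨Nat.prime_three⟩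
  refine eq_top_iff.2 fun g _ => ?_
  obtain ⟨l, l0, l1, l2⟩ := A.exists_big
  let μ := Units.mk0 l l0
  have y : A.s * (A.j (z 1) * A.s * (A.j (z 1))⁻¹)⁻¹ = A.j (n (-1, 0, 1)) := by
    rw [conj_inv, ← mul_assoc, ← mul_assoc, z_eq, A.s_n, ← map_inv, ← map_mul]
    congr 1; ext <;> simp
  have e : A.j (z (1 - l ^ 2)) =
      A.d μ * A.j (n (-1, 0, 1)) * (A.d μ)⁻¹ * (A.j (n (-1, 0, 1)))⁻¹ := by
    rw [A.d_n, ← map_inv, ← map_mul]; congr 1; ext <;> simp [μ]; ring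
  have h : g * A.j (z (1 - l ^ 2)) * g⁻¹ ∈ A.G0 := by
    rw [e, ← y]
    convert mul_mem (mul_mem (A.s_conj_mem (g * A.d μ)) (inv_mem (A.s_conj_mem (g * A.d μ * A.j (z 1)))))
      (mul_mem (A.s_conj_mem (g * A.j (z 1))) (inv_mem (A.s_conj_mem g))) using 1
    group
  obtain ⟨R, hR⟩ := A.sylow
  have h3 : (g * A.j (z (1 - l ^ 2)) * g⁻¹) ^ 3 = 1 := by
    rw [conj_pow, A.M_cube (A.Z_le_M (A.z_mem _))]; simp
  obtain ⟨k, hk, e⟩ := conj_into (IsSylowIn.of_sylow_le R (hR ▸ (map_le_range _ _).trans le_sup_left :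
    _ ≤ A.G0)) h (k := 1) h3
  obtain ⟨c, -, hc⟩ := hR.le e
  obtain ⟨c', hc'⟩ := conj_Ms A.h3 A.hF (g := c) (A.inj (by rw [map_pow, hc, conj_pow, h3]; simp))
  obtain ⟨x, hx, c'', e⟩ := A.fus (g := A.j c' * k * g) (a := 1 - l ^ 2) (fun e =>
    (mul_self_eq_one_iff.1 (show l * l = 1 by linear_combination -e)).elim l1 l2) (by
      refine ⟨_, hc', ?_⟩
      rw [map_mul, map_mul, map_inv, hc]; group)
  obtain ⟨v, m, rfl⟩ := A.surj x hx
  exact (A.G0.mul_mem_cancel_left (mul_mem (A.j_G0 c') hk)).1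
    (e ▸ mul_mem (mul_mem (A.j_G0 _) (A.ψ_G0 _)) (A.j_G0 _))

end Amb2

end Cfsg.Lib.Hay
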