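import Cfsg.Agent.Lib.Hay.BN
import Cfsg.Agent.Lib.Hay.K7

/-!
Identification with `PSp₄(q)`.
-/

set_option autoImplicit false

namespace Cfsg.Lib.Hay

open Subgroup Hz Matrix

section
variable {F : Type*} [Field F]

/-- the Levi factor of the Siegel parabolic -/
def ψS : GL (Fin 2) F →* symplecticGroup (Fin 2) F := MonoidHom.mk'
  (fun m => lS m.1 (m⁻¹).1ᵀ (by rw [← transpose_mul, Units.inv_mul, transpose_one])) fun a b =>
    Subtype.ext (by simp [lS, fromBlocks_multiply])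

theorem ψS_coe (m : GL (Fin 2) F) {g' : Matrix (Fin 2) (Fin 2) F} (h : m.1ᵀ * g' = 1) :
    (ψS m).1 = fromBlocks m.1 0 0 g' := by
  rw [← Matrix.one_mul g', ← transpose_one, ← m.mul_inv, transpose_mul, Matrix.mul_assoc, h,
    Matrix.mul_one]
  rfl

theorem ψS_gl {a b c d : F} (h) (a' b' c' d' : F) (h1 : a * a' + c * c' = 1) (h2 : a * b' + c * d' = 0)
    (h3 : b * a' + d * c' = 0) (h4 : b * b' + d * d' = 1) :
    (ψS (gl a b c d h)).1 = fromBlocks !![a, b; c, d] 0 0 !![a', b'; c', d'] :=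
  ψS_coe _ (by ext i j; fin_cases i <;> fin_cases j <;> simp [gl_coe, mul_apply, *])

theorem gen_sp : toS.range ⊔ ψS.range = (⊤ : Subgroup (symplecticGroup (Fin 2) F)) := by
  let e : Fin 2 ⊕ Fin 2 → F := Sum.elim ![1, 0] ![0, 0]
  let X : Subgroup (symplecticGroup (Fin 2) F) := toS.range ⊔ ψS.range
  let O : F → F → F → F → Prop := fun a b c d => ∃ x ∈ X, x.1 *ᵥ e = Sum.elim ![a, b] ![c, d]
  have st : ∀ x ∈ X, ∀ a b c d a' b' c' d', O a b c d →
      x.1 *ᵥ Sum.elim ![a, b] ![c, d] = Sum.elim ![a', b'] ![c', d'] → O a' b' c' d' := by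
    rintro x hx a b c d a' b' c' d' ⟨y, hy, h⟩ h'
    exact ⟨x * y, mul_mem hx hy, by rw [Submonoid.coe_mul, ← mulVec_mulVec, h, h']⟩
  have o0 : O 1 0 0 0 := ⟨1, one_mem _, one_mulVec _⟩
  have sw : ∀ a b c d, O a b c d → O b a d c := fun a b c d h =>
    st _ (mem_sup_right ⟨gl 0 1 1 0 (by simp), rfl⟩) _ _ _ _ _ _ _ _ h (by
      rw [ψS_gl _ 0 1 1 0 (by simp) (by simp) (by simp) (by simp), fromBlocks_mulVec]
      ext (i | i) <;> fin_cases i <;> simp [mulVec, dotProduct])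
  have o1 : ∀ a b, a ≠ 0 → O a b 0 0 := fun a b h =>
    st _ (mem_sup_right ⟨gl a 0 b 1 (by simpa), rfl⟩) _ _ _ _ _ _ _ _ o0 (by
      rw [ψS_gl _ a⁻¹ (-b / a) 0 1 (by simp [h]) (by field_simp; ring) (by simp) (by simp),
        fromBlocks_mulVec]
      ext (i | i) <;> fin_cases i <;> simp [mulVec, dotProduct])
  have o2 : ∀ a b c d, d ≠ 0 → O a b c d := fun a b c d h =>
    st _ (mem_sup_right ⟨gl 1 0 (-(c / d)) 1 (by simp), rfl⟩) a (b + c / d * a) 0 d _ _ _ _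
      (st _ (mem_sup_left ⟨⟨0, a / d, 0, b + c / d * a, -d⁻¹, d, 0, by simp [h]⟩, rfl⟩) _ _ _ _ _ _ _ _
        (sw _ _ _ _ o0) (by
          rw [toS_coe, fromBlocks_mulVec]
          ext (i | i) <;> fin_cases i <;> simp [mulVec, dotProduct, h])) (by
      rw [ψS_gl _ 1 (c / d) 0 1 (by simp) (by simp) (by simp) (by simp), fromBlocks_mulVec]
      ext (i | i) <;> fin_cases i <;> simp [mulVec, dotProduct, h, mul_comm a, mul_div_cancel₀])
  refine eq_top_iff.2 fun y _ => ?_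
  obtain ⟨x, hx, h⟩ : ∃ x ∈ X, x.1 *ᵥ e = y.1 *ᵥ e := by
    have h0 : y.1 *ᵥ e ≠ 0 := fun h => by
      have := congrArg ((y⁻¹).1 *ᵥ ·) h
      simp only [mulVec_mulVec, ← Submonoid.coe_mul, inv_mul_cancel, OneMemClass.coe_one, one_mulVec,
        mulVec_zero] at this
      simpa [e] using congrFun this (Sum.inl 0)
    obtain ⟨a, b, c, d, h⟩ : ∃ a b c d, y.1 *ᵥ e = Sum.elim ![a, b] ![c, d] :=
      ⟨_, _, _, _, by ext (i | i) <;> fin_cases i <;> rfl⟩
    rw [h] at h0 ⊢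
    by_cases d0 : d = 0
    · by_cases c0 : c = 0
      · subst c0 d0
        by_cases a0 : a = 0
        · exact sw _ _ _ _ (o1 b a (by rintro rfl; exact h0 (by ext (i | i) <;> fin_cases i <;> simp [a0])))
        · exact o1 a b a0
      · exact sw _ _ _ _ (o2 _ _ _ _ c0)
    · exact o2 _ _ _ _ d0
  refine (X.mul_mem_cancel_left (inv_mem hx)).1 ?_
  replace h : (x⁻¹ * y).1 *ᵥ e = e := by
    rw [Submonoid.coe_mul, ← mulVec_mulVec, ← h, mulVec_mulVec, ← Submonoid.coe_mul, inv_mul_cancel]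
    exact one_mulVec _
  obtain ⟨A, B, C, D, hy, h'⟩ := exists_blocks (x⁻¹ * y)
  rw [h'] at h ⊢
  rw [fromBlocks_mulVec] at h
  have a1 : A 0 0 = 1 := by simpa [e, mulVec, dotProduct] using congrFun h (Sum.inl 0)
  have a2 : A 1 0 = 0 := by simpa [e, mulVec, dotProduct] using congrFun h (Sum.inl 1)
  have a3 : C 0 0 = 0 := by simpa [e, mulVec, dotProduct] using congrFun h (Sum.inr 0)
  have a4 : C 1 0 = 0 := by simpa [e, mulVec, dotProduct] using congrFun h (Sum.inr 1)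
  obtain ⟨k1, -, k3⟩ := SymplecticGroup.fromBlocks_mem_iff.1 hy
  have a5 : C 0 1 = 0 := by simpa [mul_apply, *] using congrFun (congrFun k1 0) 1
  have a6 : D 0 0 = 1 := by simpa [mul_apply, *] using congrFun (congrFun k3 0) 0
  have a7 : D 0 1 = 0 := by simpa [mul_apply, *] using congrFun (congrFun k3 0) 1
  obtain ⟨g, h | h⟩ := exists_toS ⟨_, hy⟩ one_ne_zero ((comm_iff hy _ _).2 (by
    refine ⟨?_, ?_, ?_⟩ <;> ext i j <;> fin_cases i <;> fin_cases j <;> simp [sym, mul_apply, *])) <;>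
    rw [h]
  · exact mem_sup_left ⟨g, rfl⟩
  · exact mul_mem (mem_sup_left ⟨g, rfl⟩) (mem_sup_right ⟨gl (-1) 0 0 (-1) (by simp), Subtype.ext (by
      rw [ψS_gl _ (-1) 0 0 (-1) (by simp) (by simp) (by simp) (by simp)]
      ext (i | i) (j | j) <;> fin_cases i <;> fin_cases j <;> simp [mS])⟩)

/-- the amalgam in the projective symplectic group -/
def amP : Am F (PSp 2 F) where
  j := toP
  ψ := (QuotientGroup.mk' _).comp ψS
  act m v := by
    rw [mul_inv_eq_iff_eq_mul, toP_apply, toP_apply, toS_n, toS_n]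
    refine congrArg (QuotientGroup.mk' _) ((comm_iff _ v (rho m.1 v)).2 ⟨by simp, ?_, by simp⟩)
    rw [show sym (rho m.1 v) = m.1 * sym v * m.1ᵀ by
      ext i j; fin_cases i <;> fin_cases j <;> simp [sym, rho, mul_apply] <;> ring,
      Matrix.mul_assoc, ← transpose_mul, Units.inv_mul, transpose_one, Matrix.mul_one]
  ψu s h := congrArg (QuotientGroup.mk' _) (Subtype.ext (by
    rw [ψS_gl _ 1 0 (-s) 1 (by simp) (by simp) (by simp) (by simp), toS_coe]
    ext (i | i) (j | j) <;> fin_cases i <;> fin_cases j <;> simp))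
  ψτ l h := congrArg (QuotientGroup.mk' _) (Subtype.ext (by
    rw [ψS_gl _ 1 0 0 (l : F)⁻¹ (by simp) (by simp) (by simp) (by simp), toS_coe]
    ext (i | i) (j | j) <;> fin_cases i <;> fin_cases j <;> simp))
  neg h := (congrArg (QuotientGroup.mk' _) (Subtype.ext (by
    rw [ψS_gl _ (-1) 0 0 (-1) (by simp) (by simp) (by simp) (by simp)]
    ext (i | i) (j | j) <;> fin_cases i <;> fin_cases j <;> simp [mS]))).trans mk_mS

theorem amP_dw (μ : Fˣ) : amP.d μ * amP.j w0 = amP.j w0 * amP.d μ :=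
  congrArg (QuotientGroup.mk' _) (Subtype.ext (by
    simp only [Submonoid.coe_mul]
    rw [ψS_gl _ (μ : F)⁻¹ 0 0 1 (by simp) (by simp) (by simp) (by simp), toS_coe]
    simp [fromBlocks_multiply]) : ψS _ * toS _ = toS _ * ψS _)

theorem amP_br : (amP.w * amP.j w0 * amP.w * amP.j w0 : PSp 2 F) =
    amP.j w0 * amP.w * amP.j w0 * amP.w :=
  congrArg (QuotientGroup.mk' _) (Subtype.ext (by
    simp only [Submonoid.coe_mul]
    rw [ψS_gl _ 0 1 1 0 (by simp) (by simp) (by simp) (by simp), toS_coe]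
    simp [fromBlocks_multiply]) : ψS _ * toS _ * ψS _ * toS _ = toS _ * ψS _ * toS _ * ψS _)

theorem amP_top : amP.j.range ⊔ amP.ψ.range = (⊤ : Subgroup (PSp 2 F)) := by
  have := congrArg (Subgroup.map (QuotientGroup.mk' (center _))) (gen_sp (F := F))
  rwa [Subgroup.map_sup, ← MonoidHom.range_comp, ← MonoidHom.range_comp,
    map_top_of_surjective _ (QuotientGroup.mk'_surjective _)] at this

/-- product of two amalgams -/
def Am.prod {Γ Γ' : Type*} [Group Γ] [Group Γ'] (A : Am F Γ) (B : Am F Γ') : Am F (Γ × Γ') where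
  j := A.j.prod B.j
  ψ := A.ψ.prod B.ψ
  act m v := Prod.ext (A.act m v) (B.act m v)
  ψu s h := Prod.ext (A.ψu s h) (B.ψu s h)
  ψτ s h := Prod.ext (A.ψτ s h) (B.ψτ s h)
  neg h := Prod.ext (A.neg h) (B.neg h)

theorem Am.bij {Γ Γ' : Type*} [Group Γ] [Group Γ'] [Finite Γ] (C : Am F Γ)
    (dw : ∀ μ, C.d μ * C.j w0 = C.j w0 * C.d μ)
    (br : C.w * C.j w0 * C.w * C.j w0 = C.j w0 * C.w * C.j w0 * C.w) (f : Γ →* Γ')
    (h1 : Function.Injective (f.comp C.j)) (h2 : (f.comp C.j).range ⊔ (f.comp C.ψ).range = ⊤) :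
    Function.Bijective (f.comp (C.j.range ⊔ C.ψ.range).subtype) :=
  ⟨(injective_iff_map_eq_one _).2 fun g hg => Subtype.ext (C.inj dw br f h1 g.2 hg), fun x => by
    rw [MonoidHom.range_comp, MonoidHom.range_comp, ← Subgroup.map_sup] at h2
    obtain ⟨g, hg, e⟩ := h2.ge (mem_top x)
    exact ⟨⟨g, hg⟩, e⟩⟩

end

theorem Amb2.equiv {F G : Type*} [Field F] [Fintype F] [Group G] [Finite G] (A : Amb2 F G) :
    Nonempty (G ≃* PSp 2 F) := by
  let C := A.toAm.prod (amP (F := F))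
  have dw : ∀ μ, C.d μ * C.j w0 = C.j w0 * C.d μ := fun μ => Prod.ext (A.d_w0 μ) (amP_dw μ)
  have br : C.w * C.j w0 * C.w * C.j w0 = C.j w0 * C.w * C.j w0 * C.w := Prod.ext (by
    have := A.braid
    rw [A.sw_j, A.w_inv, ← mul_assoc, ← mul_assoc] at this
    exact this) amP_br
  exact ⟨(MulEquiv.ofBijective _ (C.bij dw br (MonoidHom.fst _ _) A.inj A.G0_eq)).symm.trans
    (MulEquiv.ofBijective _ (C.bij dw br (MonoidHom.snd _ _) (toP_inj A.h2) amP_top))⟩

end Cfsg.Lib.Hay
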