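import Cfsg.Agent.Lib.Hay.Sp4

/-!
Explicit model `q^{1+2} : SL₂(q)` of the centralizer of a long root element of `PSp₄(q)`.
-/

set_option autoImplicit false

namespace Cfsg.Lib.Hay

open Subgroup Matrix

/-- Heisenberg group extended by `SL₂`. -/
@[ext]
structure Hz (F : Type*) [Field F] where
  a : F
  x : F
  y : F
  p : F
  q : F
  r : F
  s : F
  det : p * s - q * r = 1

namespace Hz

variable {F : Type*} [Field F]

instance : Mul (Hz F) := ⟨fun g h =>
  ⟨g.a + h.a + g.x * (g.r * h.x + g.s * h.y) - g.y * (g.p * h.x + g.q * h.y),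
    g.x + (g.p * h.x + g.q * h.y), g.y + (g.r * h.x + g.s * h.y),
    g.p * h.p + g.q * h.r, g.p * h.q + g.q * h.s, g.r * h.p + g.s * h.r, g.r * h.q + g.s * h.s, by
      linear_combination (h.p * h.s - h.q * h.r) * g.det + h.det⟩⟩

instance : One (Hz F) := ⟨⟨0, 0, 0, 1, 0, 0, 1, by simp⟩⟩

instance : Inv (Hz F) := ⟨fun g =>
  ⟨-g.a, g.q * g.y - g.s * g.x, g.r * g.x - g.p * g.y, g.s, -g.q, -g.r, g.p, by
    linear_combination g.det⟩⟩

section
variable (g h : Hz F)
@[simp] theorem mul_a : (g * h).a =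
  g.a + h.a + g.x * (g.r * h.x + g.s * h.y) - g.y * (g.p * h.x + g.q * h.y) := rfl
@[simp] theorem mul_x : (g * h).x = g.x + (g.p * h.x + g.q * h.y) := rfl
@[simp] theorem mul_y : (g * h).y = g.y + (g.r * h.x + g.s * h.y) := rfl
@[simp] theorem mul_p : (g * h).p = g.p * h.p + g.q * h.r := rfl
@[simp] theorem mul_q : (g * h).q = g.p * h.q + g.q * h.s := rfl
@[simp] theorem mul_r : (g * h).r = g.r * h.p + g.s * h.r := rfl
@[simp] theorem mul_s : (g * h).s = g.r * h.q + g.s * h.s := rfl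
@[simp] theorem inv_a : (g⁻¹).a = -g.a := rfl
@[simp] theorem inv_x : (g⁻¹).x = g.q * g.y - g.s * g.x := rfl
@[simp] theorem inv_y : (g⁻¹).y = g.r * g.x - g.p * g.y := rfl
@[simp] theorem inv_p : (g⁻¹).p = g.s := rfl
@[simp] theorem inv_q : (g⁻¹).q = -g.q := rfl
@[simp] theorem inv_r : (g⁻¹).r = -g.r := rfl
@[simp] theorem inv_s : (g⁻¹).s = g.p := rfl
@[simp] theorem one_a : (1 : Hz F).a = 0 := rfl
@[simp] theorem one_x : (1 : Hz F).x = 0 := rfl
@[simp] theorem one_y : (1 : Hz F).y = 0 := rfl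
@[simp] theorem one_p : (1 : Hz F).p = 1 := rfl
@[simp] theorem one_q : (1 : Hz F).q = 0 := rfl
@[simp] theorem one_r : (1 : Hz F).r = 0 := rfl
@[simp] theorem one_s : (1 : Hz F).s = 1 := rfl
end

instance : Group (Hz F) := Group.ofLeftAxioms
  (fun g h k => by
    ext <;> simp only [mul_a, mul_x, mul_y, mul_p, mul_q, mul_r, mul_s]
    · linear_combination (h.x * (h.r * k.x + h.s * k.y) - h.y * (h.p * k.x + h.q * k.y)) * g.det
    all_goals ring)
  (fun g => by ext <;> simp)
  (fun g => by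
    ext <;> simp only [mul_a, mul_x, mul_y, mul_p, mul_q, mul_r, mul_s, inv_a, inv_x, inv_y, inv_p,
      inv_q, inv_r, inv_s, one_a, one_x, one_y, one_p, one_q, one_r, one_s]
    · ring
    · ring
    · ring
    · linear_combination g.det
    · ring
    · ring
    · linear_combination g.det)

instance [Finite F] : Finite (Hz F) :=
  Finite.of_injective (fun g : Hz F => (g.a, g.x, g.y, g.p, g.q, g.r, g.s)) fun g h e => by
    simp only [Prod.mk.injEq] at e
    ext <;> tauto

/-- the abelian subgroup -/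
@[simps] def n (v : F × F × F) : Hz F := ⟨v.1, v.2.1, 0, 1, v.2.2, 0, 1, by simp⟩

/-- short root subgroup -/
@[simps] def u (s : F) : Hz F := ⟨0, 0, -s, 1, 0, 0, 1, by simp⟩

/-- torus -/
@[simps] def τ (l : Fˣ) : Hz F := ⟨0, 0, 0, l, 0, 0, (l : F)⁻¹, by simp⟩

/-- The model structure. -/
@[simps] def modH (h2 : (2 : F) ≠ 0) : Mod F (Hz F) where
  n := n
  u := u
  τ := τ
  two := h2
  n_add v w := by ext <;> simp [add_comm]
  n_inj v w h := Prod.ext (congrArg Hz.a h) (Prod.ext (congrArg Hz.x h) (congrArg Hz.q h))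
  u_add s s' := by ext <;> simp [add_comm]
  τ_one := by ext <;> simp
  conj_u s a b c := by ext <;> simp <;> ring
  conj_τ l a b c := by ext <;> simp <;> ring
  cent g h := by
    have h1 := h (0, 1, 0)
    have h3 := h (0, 0, 1)
    have a1 : g.r = 0 := by simpa using congrArg Hz.y h1
    have a2 : g.p = 1 := by simpa [add_comm] using congrArg Hz.x h1
    have a3 : g.y = 0 := by simpa using congrArg Hz.x h3
    have a4 : g.s = 1 := by simpa [a1, a2] using g.det
    exact ⟨(g.a, g.x, g.q), by ext <;> simp [*]⟩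
  norm g h := by
    obtain ⟨w, h1⟩ := h (0, 0, 1)
    have h1 := congrArg Hz.r (mul_inv_eq_iff_eq_mul.1 h1)
    obtain ⟨w', h3⟩ := h (0, 1, 0)
    have a1 : g.r = 0 := by simpa using congrArg Hz.y (mul_inv_eq_iff_eq_mul.1 h3)
    have a2 : g.p * g.s = 1 := by simpa [a1] using g.det
    have a3 : g.p ≠ 0 := left_ne_zero_of_mul_eq_one a2
    have a4 : g.s = (g.p)⁻¹ := eq_inv_of_mul_eq_one_right a2
    refine ⟨(g.a - g.y * (g.x - g.q * g.p * g.y), g.x - g.q * g.p * g.y, g.q * g.p), -g.y,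
      Units.mk0 _ a3, ?_⟩
    ext <;> simp [a1, a4, a3, mul_assoc]
    ring
  zc g a := by ext <;> simp [add_comm]

/-- embedding into the symplectic group -/
def toS : Hz F →* symplecticGroup (Fin 2) F := MonoidHom.mk' (fun g =>
  ⟨fromBlocks !![1, g.x * g.r - g.y * g.p; 0, g.p] !![g.a, g.x * g.s - g.y * g.q; g.x, g.q]
    !![0, 0; 0, g.r] !![1, 0; g.y, g.s], SymplecticGroup.fromBlocks_mem_iff.2 (by
      refine ⟨?_, ?_, ?_⟩ <;> ext i j <;> fin_cases i <;> fin_cases j <;>
        simp [Matrix.mul_apply, Fin.sum_univ_two] <;>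
        first | ring1 | linear_combination g.det)⟩) fun g h => Subtype.ext (by
  simp only [Submonoid.coe_mul, fromBlocks_multiply, fromBlocks_inj]
  refine ⟨?_, ?_, ?_, ?_⟩ <;> ext i j <;> fin_cases i <;> fin_cases j <;>
    simp [Matrix.mul_apply, Fin.sum_univ_two] <;>
    first | ring1 | linear_combination (h.x * h.r - h.y * h.p) * g.det |
      linear_combination (h.x * h.s - h.y * h.q) * g.det)

theorem toS_coe (g : Hz F) : (toS g : Matrix _ _ F) =
    fromBlocks !![1, g.x * g.r - g.y * g.p; 0, g.p] !![g.a, g.x * g.s - g.y * g.q; g.x, g.q]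
    !![0, 0; 0, g.r] !![1, 0; g.y, g.s] := rfl

theorem toS_n (v : F × F × F) : toS (n v) = nS v :=
  Subtype.ext (by
    rw [toS_coe]; simp only [nS, fromBlocks_inj]
    refine ⟨?_, ?_, ?_, ?_⟩ <;> ext i j <;> fin_cases i <;> fin_cases j <;> simp [sym])

theorem exists_toS (y : symplecticGroup (Fin 2) F) {a : F} (ha : a ≠ 0)
    (h0 : y * nS (a, 0, 0) = nS (a, 0, 0) * y) : ∃ g, y = toS g ∨ y = toS g * mS := by
  obtain ⟨A, B, C, D, hy, rfl⟩ := exists_blocks y
  obtain ⟨h1, h2, h3⟩ := (comm_iff hy _ _).1 h0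
  obtain ⟨-, k2, k3⟩ := SymplecticGroup.fromBlocks_mem_iff.1 hy
  have c0 : C 0 0 = 0 := by simpa [sym, mul_apply, ha] using congrFun (congrFun h1 0) 0
  have c1 : C 0 1 = 0 := by simpa [sym, mul_apply, ha] using congrFun (congrFun h1 0) 1
  have c2 : C 1 0 = 0 := by simpa [sym, mul_apply, ha] using congrFun (congrFun h3 1) 0
  have a1 : D 0 1 = 0 := by simpa [sym, mul_apply, ha] using (congrFun (congrFun h2 0) 1).symm
  have a2 : A 1 0 = 0 := by simpa [sym, mul_apply, ha] using congrFun (congrFun h2 1) 0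
  have a3 : D 0 0 = A 0 0 := by
    simpa [sym, mul_apply, ha, mul_comm] using (congrFun (congrFun h2 0) 0).symm
  have a4 : A 0 0 * A 0 0 = 1 := by simpa [mul_apply, *] using congrFun (congrFun k3 0) 0
  have a5 : A 0 1 * A 0 0 + A 1 1 * D 1 0 - C 1 1 * B 1 0 = 0 := by
    simpa [mul_apply, *] using congrFun (congrFun k3 1) 0
  have a6 : A 1 1 * D 1 1 - C 1 1 * B 1 1 = 1 := by
    simpa [mul_apply, *] using congrFun (congrFun k3 1) 1
  have a7 : B 1 0 * D 1 1 = A 0 0 * B 0 1 + D 1 0 * B 1 1 := by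
    simpa [mul_apply, *] using congrFun (congrFun k2 0) 1
  rcases mul_self_eq_one_iff.1 a4 with a | a
  · refine ⟨⟨B 0 0, B 1 0, D 1 0, A 1 1, B 1 1, C 1 1, D 1 1, by linear_combination a6⟩,
      Or.inl (Subtype.ext ?_)⟩
    rw [a] at a5 a7
    have b1 : A 0 1 = B 1 0 * C 1 1 - D 1 0 * A 1 1 := by linear_combination a5
    have b2 : B 0 1 = B 1 0 * D 1 1 - D 1 0 * B 1 1 := by linear_combination -a7
    simp only [toS_coe, fromBlocks_inj]
    refine ⟨?_, ?_, ?_, ?_⟩ <;> ext i j <;> fin_cases i <;> fin_cases j <;> simp [a, a1, a2, a3, c0, c1, c2, b1, b2]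
  · refine ⟨⟨-B 0 0, -B 1 0, -D 1 0, -A 1 1, -B 1 1, -C 1 1, -D 1 1, by linear_combination a6⟩,
      Or.inr (Subtype.ext ?_)⟩
    rw [a] at a5 a7
    have b1 : A 0 1 = D 1 0 * A 1 1 - B 1 0 * C 1 1 := by linear_combination -a5
    have b2 : B 0 1 = D 1 0 * B 1 1 - B 1 0 * D 1 1 := by linear_combination a7
    simp only [Submonoid.coe_mul, mS, Matrix.mul_neg, Matrix.mul_one, toS_coe, fromBlocks_neg,
      fromBlocks_inj]
    refine ⟨?_, ?_, ?_, ?_⟩ <;> ext i j <;> fin_cases i <;> fin_cases j <;> simp [a, a1, a2, a3, c0, c1, c2, b1, b2]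

end Hz

variable {F : Type*} [Field F]

theorem center_eq {z : symplecticGroup (Fin 2) F} (hz : z ∈ center (symplecticGroup (Fin 2) F)) :
    z = 1 ∨ z = mS := by
  obtain ⟨v, h⟩ := centS z fun v => (mem_center_iff.1 hz _).symm
  have h1 : nS v ∈ center (symplecticGroup (Fin 2) F) := by
    rcases h with rfl | rfl
    · exact hz
    · exact (Subgroup.mul_mem_cancel_right _ mS_center).1 hz
  have h2 := congrArg Subtype.val (mem_center_iff.1 h1 (SymplecticGroup.symJ _ _))
  have h3 : sym v = 0 := by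
    simpa [nS, J, fromBlocks_multiply, fromBlocks_inj, eq_comm] using h2
  have h4 : nS v = 1 := Subtype.ext (by simp [nS, h3])
  rwa [h4, one_mul] at h

/-- embedding into the projective symplectic group -/
def toP : Hz F →* PSp 2 F := (QuotientGroup.mk' _).comp Hz.toS

theorem toP_apply (g : Hz F) : toP g = (Hz.toS g : PSp 2 F) := rfl

theorem toP_inj (h2 : (2 : F) ≠ 0) : Function.Injective (toP : Hz F → PSp 2 F) := by
  refine (injective_iff_map_eq_one _).2 fun g hg => ?_
  rcases center_eq ((QuotientGroup.eq_one_iff _).1 hg) with h | h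
  · have h := congrArg Subtype.val h
    rw [Hz.toS_coe, OneMemClass.coe_one, ← fromBlocks_one, fromBlocks_inj] at h
    obtain ⟨h1, h2, h3, h4⟩ := h
    ext
    · simpa using congrFun (congrFun h2 0) 0
    · simpa using congrFun (congrFun h2 1) 0
    · simpa using congrFun (congrFun h4 1) 0
    · simpa using congrFun (congrFun h1 1) 1
    · simpa using congrFun (congrFun h2 1) 1
    · simpa using congrFun (congrFun h3 1) 1
    · simpa using congrFun (congrFun h4 1) 1
  · have := congrFun (congrFun (congrArg Subtype.val h) (Sum.inl 0)) (Sum.inl 0)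
    rw [Hz.toS_coe] at this
    have : (1 : F) = -1 := by simpa [mS] using this
    exact absurd (by linear_combination this) h2

theorem toP_range {p : ℕ} [CharP F p] (hp : Odd p) {a : F} (ha : a ≠ 0) :
    toP.range = centralizer ({(nS (a, 0, 0) : PSp 2 F)} : Set (PSp 2 F)) := by
  ext y
  rw [mem_centralizer_singleton_iff]
  constructor
  · rintro ⟨g, rfl⟩
    have := congrArg toP ((Hz.modH (two_ne hp)).zc g a)
    rwa [map_mul, map_mul, Hz.modH_n, toP_apply (Hz.n _), Hz.toS_n] at this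
  · intro h
    obtain ⟨y, rfl⟩ := QuotientGroup.mk_surjective y
    obtain ⟨g, rfl | rfl⟩ := Hz.exists_toS y ha (lift_conj hp h)
    · exact ⟨g, rfl⟩
    · exact ⟨g, by rw [QuotientGroup.mk_mul, mk_mS, mul_one]; rfl⟩

theorem exists_hz [Fintype F] {p m : ℕ} [hp : Fact p.Prime] (h2 : p ≠ 2)
    (hF : Fintype.card F = p ^ m) {x : PSp 2 F} (hx : x ≠ 1) (Px : Sylow p (PSp 2 F))
    (hxc : ∀ y ∈ (Px : Subgroup (PSp 2 F)), y * x = x * y) :
    Nonempty (Hz F ≃* centralizer ({x} : Set (PSp 2 F))) := by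
  haveI : CharP F p := charP_of_card_eq_prime_pow hF
  have ho : Odd p := hp.out.odd_of_ne_two h2
  let D := modP ho (one_ne_zero (α := F))
  have hP : IsPGroup p D.P := IsPGroup.of_card (n := m * 4) (by
    rw [D.card_P, Nat.card_eq_fintype_card, hF, pow_mul])
  obtain ⟨R, hR⟩ := (hP.map (Subgroup.subtype _)).exists_le_sylow
  obtain ⟨g, rfl⟩ := MulAction.exists_smul_eq (PSp 2 F) Px R
  have h1 : ∀ y ∈ D.P, (y : PSp 2 F) * (g * x * g⁻¹) = g * x * g⁻¹ * y := by
    intro y hy
    obtain ⟨z, hz, e⟩ := hR ⟨y, hy, rfl⟩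
    change g * z * g⁻¹ = (y : PSp 2 F) at e
    rw [← e]
    calc g * z * g⁻¹ * (g * x * g⁻¹) = g * (z * x) * g⁻¹ := by group
      _ = _ := by rw [hxc z hz]; group
  obtain ⟨v, hv⟩ := centP ho (g * x * g⁻¹) fun v => (h1 _ (D.n_mem_P v)).symm
  have h3 := D.fix_u one_ne_zero (v := v) (Subtype.ext (by
    have := h1 _ (D.u_mem_P 1)
    rwa [hv] at this))
  obtain ⟨a, b, c⟩ := v
  obtain ⟨rfl, rfl⟩ := Prod.mk.inj h3
  have ha : a ≠ 0 := by
    rintro rfl
    apply hx
    rw [show ((0, 0, 0) : F × F × F) = 0 from rfl, nS_zero, QuotientGroup.mk_one] at hv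
    simpa using hv
  have e : (centralizer ({x} : Set (PSp 2 F))).map (MulAut.conj g).toMonoidHom = toP.range := by
    rw [toP_range ho ha, ← hv]
    ext y
    simp only [mem_map, mem_centralizer_singleton_iff]
    constructor
    · rintro ⟨z, hz, rfl⟩
      change g * z * g⁻¹ * _ = _ * (g * z * g⁻¹)
      calc g * z * g⁻¹ * (g * x * g⁻¹) = g * (z * x) * g⁻¹ := by group
        _ = _ := by rw [hz]; group
    · intro h
      refine ⟨g⁻¹ * y * g, ?_, by simp [mul_assoc]⟩
      calc g⁻¹ * y * g * x = g⁻¹ * (y * (g * x * g⁻¹)) * g := by group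
        _ = _ := by rw [h]; group
  exact ⟨(MonoidHom.ofInjective (toP_inj (two_ne ho))).trans
    (((MulAut.conj g).subgroupMap _).trans (MulEquiv.subgroupCongr e)).symm⟩

end Cfsg.Lib.Hay
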