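import Cfsg.Agent.Lib.Hay.Hz

/-!
Local structure of `q^{1+2} : SL₂(q)` in characteristic three.
-/

set_option autoImplicit false

namespace Cfsg.Lib.Hay

open Subgroup

theorem Mod.exists_conj_P {F C : Type*} [Field F] [Group C] (D : Mod F C) [Finite C] [Fintype F]
    {p : ℕ} [hp : Fact p.Prime] {m : ℕ} (hF : Fintype.card F = p ^ m) :
    ∃ R : Sylow p C, (R : Subgroup C) = D.P := by
  have hP : IsPGroup p D.P := IsPGroup.of_card (n := m * 4) (by
    rw [D.card_P, Nat.card_eq_fintype_card, hF, pow_mul])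
  obtain ⟨R, hR⟩ := hP.exists_le_sylow
  obtain ⟨D', h⟩ := D.exists_sylow hF R
  exact ⟨R, (eq_of_le_of_card_ge hR (by rw [← h, D.card_P, D'.card_P])).symm⟩

namespace Hz

variable {F : Type*} [Field F]

/-- the central involution of `SL₂` -/
@[simps] def t : Hz F := ⟨0, 0, 0, -1, 0, 0, -1, by simp⟩

/-- central elements -/
@[simps] def z (a : F) : Hz F := ⟨a, 0, 0, 1, 0, 0, 1, by simp⟩

/-- Heisenberg elements -/
@[simps] def qv (x y : F) : Hz F := ⟨0, x, y, 1, 0, 0, 1, by simp⟩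

/-- `SL₂` elements -/
@[simps] def sl (p q r s : F) (h : p * s - q * r = 1) : Hz F := ⟨0, 0, 0, p, q, r, s, h⟩

theorem z_eq (a : F) : z a = n (a, 0, 0) := rfl

theorem z_comm (a : F) (g : Hz F) : g * z a = z a * g := by ext <;> simp [add_comm]

theorem z_add (a b : F) : z (a + b) = z a * z b := by ext <;> simp

theorem z_neg (a : F) : z (-a) = (z a)⁻¹ := by ext <;> simp

theorem z_eq_one {a : F} : z a = 1 ↔ a = 0 :=
  ⟨fun h => congrArg Hz.a h, by rintro rfl; rfl⟩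

theorem t_mul_t : (t : Hz F) * t = 1 := by ext <;> simp

/-- the centre -/
def Zs : Subgroup (Hz F) where
  carrier := Set.range z
  one_mem' := ⟨0, rfl⟩
  mul_mem' := by rintro _ _ ⟨a, rfl⟩ ⟨b, rfl⟩; exact ⟨_, z_add a b⟩
  inv_mem' := by rintro _ ⟨a, rfl⟩; exact ⟨_, z_neg a⟩

/-- the abelian subgroup of order `q³` -/
def Ms : Subgroup (Hz F) where
  carrier := {g | g.y = 0 ∧ g.p = 1 ∧ g.r = 0 ∧ g.s = 1}
  one_mem' := by simp
  mul_mem' := by rintro a b ⟨h1, h2, h3, h4⟩ ⟨k1, k2, k3, k4⟩; simp [*]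
  inv_mem' := by rintro a ⟨h1, h2, h3, h4⟩; simp [*]

/-- the Sylow subgroup -/
def Ps : Subgroup (Hz F) where
  carrier := {g | g.p = 1 ∧ g.r = 0 ∧ g.s = 1}
  one_mem' := by simp
  mul_mem' := by rintro a b ⟨h2, h3, h4⟩ ⟨k2, k3, k4⟩; simp [*]
  inv_mem' := by rintro a ⟨h2, h3, h4⟩; simp [*]

theorem n_mem (v : F × F × F) : n v ∈ Ms := ⟨rfl, rfl, rfl, rfl⟩

theorem mem_Ms {g : Hz F} (h : g ∈ Ms) : g = n (g.a, g.x, g.q) := by
  obtain ⟨h1, h2, h3, h4⟩ := h
  ext <;> simp [*]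

theorem Ms_le : (Ms : Subgroup (Hz F)) ≤ Ps := fun _ h => h.2

theorem Zs_le : (Zs : Subgroup (Hz F)) ≤ Ms := by rintro _ ⟨a, rfl⟩; exact n_mem (a, 0, 0)

theorem modH_M (h2 : (2 : F) ≠ 0) : (modH h2).M = Ms := by
  ext g
  exact ⟨by rintro ⟨v, rfl⟩; exact n_mem v, fun h => ⟨_, (mem_Ms h).symm⟩⟩

theorem modH_P (h2 : (2 : F) ≠ 0) : (modH h2).P = Ps := by
  ext g
  refine ⟨by rintro ⟨v, s, rfl⟩; simp [Ps], fun ⟨h1, h2, h3⟩ =>
    ⟨(g.a - g.y * (g.x - g.q * g.y), g.x - g.q * g.y, g.q), -g.y, ?_⟩⟩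
  ext <;> simp [*]
  ring

theorem Ms_comm {a b : Hz F} (ha : a ∈ Ms) (hb : b ∈ Ms) : a * b = b * a := by
  rw [mem_Ms ha, mem_Ms hb]; ext <;> simp [add_comm]

theorem centM {g : Hz F} {a b c : F} (h2 : (2 : F) ≠ 0) (h0 : b ≠ 0 ∨ c ≠ 0)
    (h : g * n (a, b, c) = n (a, b, c) * g) :
    g ∈ Ms ∨ (c ≠ 0 ∧ g.p = -1 ∧ g.r = 0 ∧ g.s = -1 ∧ c * g.y = -2 * b) := by
  have e1 : g.r * b = 0 := by simpa using congrArg Hz.y h
  have e2 : c * g.r = 0 := by simpa using congrArg Hz.p h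
  have e3 : g.p * c = c * g.s := by simpa [add_comm] using congrArg Hz.q h
  have e4 : g.p * b = b + c * g.y := by
    have := congrArg Hz.x h
    simp only [mul_x, n_x, n_y, n_p, n_q] at this
    linear_combination this
  have e5 : b * g.y * (g.p + 1) = 0 := by
    have := congrArg Hz.a h
    simp only [mul_a, n_a, n_x, n_y, n_p, n_q, n_r, n_s] at this
    linear_combination -this + g.x * e1
  have r0 : g.r = 0 := by
    rcases h0 with h | h
    · exact (mul_eq_zero.1 e1).resolve_right h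
    · exact (mul_eq_zero.1 e2).resolve_left h
  have d : g.p * g.s = 1 := by simpa [r0] using g.det
  by_cases hc : c = 0
  · have hb := h0.resolve_right (not_not.2 hc)
    have p1 : g.p = 1 := mul_right_cancel₀ hb (by rw [e4, hc]; ring)
    have : b * g.y * 2 = 0 := by rw [p1] at e5; linear_combination e5
    exact Or.inl ⟨by simpa [hb, h2] using this, p1, r0, by simpa [p1] using d⟩
  · have ps : g.s = g.p := mul_left_cancel₀ hc (by rw [← e3, mul_comm])
    rw [ps] at d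
    rcases mul_self_eq_one_iff.1 d with p1 | p1
    · have : c * g.y = 0 := by rw [p1] at e4; linear_combination -e4
      exact Or.inl ⟨by simpa [hc] using this, p1, r0, ps.trans p1⟩
    · exact Or.inr ⟨hc, p1, r0, ps.trans p1, by rw [p1] at e4; linear_combination -e4⟩

theorem conj_n {g : Hz F} (h1 : g.p = -1) (h2 : g.r = 0) (h3 : g.s = -1) (a b c : F) :
    g * n (a, b, c) * g⁻¹ = n (a + 2 * g.y * b + g.y ^ 2 * c, -b - g.y * c, c) := by
  ext <;> simp [*] <;> ring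

theorem cent_qv {g : Hz F} (h2 : (2 : F) ≠ 0) (h : ∀ x y, g * qv x y = qv x y * g) : g ∈ Zs := by
  have a1 : g.p = 1 := by simpa [add_comm] using congrArg Hz.x (h 1 0)
  have a2 : g.r = 0 := by simpa using congrArg Hz.y (h 1 0)
  have a3 : g.q = 0 := by simpa using congrArg Hz.x (h 0 1)
  have a4 : g.s = 1 := by simpa [add_comm] using congrArg Hz.y (h 0 1)
  have a5 : 2 * g.y = 0 := by
    have := congrArg Hz.a (h 1 0)
    simp [a1, a2] at this
    linear_combination -this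
  have a6 : 2 * g.x = 0 := by
    have := congrArg Hz.a (h 0 1)
    simp [a3, a4] at this
    linear_combination this
  exact ⟨g.a, by ext <;> simp_all⟩

theorem autP (h2 : (2 : F) ≠ 0) (φ : Hz F →* Hz F) (hP : ∀ g ∈ Ps, φ g ∈ Ps)
    (hZ : ∀ g ∈ Zs, φ g ∈ Zs) {a0 b0 c0 a1 b1 a0' a1' : F} (hc : c0 ≠ 0) (hb : b1 ≠ 0)
    (e0 : φ (n (a0, b0, c0)) = n (a0', b0, c0)) (e1 : φ (n (a1, b1, 0)) = n (a1', b1, 0)) :
    ∃ a, a ≠ 0 ∧ φ (z a) = z a := by
  obtain ⟨p1, r0, s1⟩ := hP (u (b1 / c0)) ⟨rfl, rfl, rfl⟩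
  obtain ⟨a2, h⟩ := hZ (z (2 * (b1 / c0) * b0 + (b1 / c0) ^ 2 * c0 - a1)) ⟨_, rfl⟩
  have k1 : u (b1 / c0) * n (a0, b0, c0) = n (a0, b0, c0) * n (a1, b1, 0) *
      z (2 * (b1 / c0) * b0 + (b1 / c0) ^ 2 * c0 - a1) * u (b1 / c0) := by
    ext <;> simp <;> field_simp <;> ring
  have k2 := congrArg Hz.x (congrArg φ k1)
  simp only [map_mul, e0, e1, ← h, mul_x, mul_y, mul_p, mul_q, n_x, n_y, n_p, n_q, n_r, n_s, z_x, z_y,
    z_p, z_q, z_r, z_s, p1] at k2
  have k3 : (φ (u (b1 / c0))).y = -(b1 / c0) := by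
    field_simp; linear_combination -k2
  have k4 : u (b1 / c0) * n (a1, b1, 0) = z (2 * (b1 / c0) * b1) * n (a1, b1, 0) * u (b1 / c0) := by
    ext <;> simp; ring
  obtain ⟨a3, h'⟩ := hZ (z (2 * (b1 / c0) * b1)) ⟨_, rfl⟩
  have k5 := congrArg Hz.a (congrArg φ k4)
  simp only [map_mul, e1, ← h', mul_a, mul_x, mul_y, mul_p, mul_q, mul_r, mul_s, n_a, n_x, n_y, n_p,
    n_q, n_r, n_s, z_a, z_x, z_y, z_p, z_q, z_r, z_s, p1, r0, s1, k3] at k5
  refine ⟨_, mul_ne_zero (mul_ne_zero h2 (div_ne_zero hb hc)) hb, ?_⟩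
  rw [← h']
  congr 1
  linear_combination -k5

variable (h3 : (3 : F) = 0)
include h3

theorem two_ne : (2 : F) ≠ 0 := fun h => one_ne_zero (α := F) (by linear_combination h3 - h)

theorem Ms_cube {g : Hz F} (h : g ∈ Ms) : g ^ 3 = 1 := by
  rw [mem_Ms h, pow_three']
  ext <;> simp
  · linear_combination g.a * h3
  · linear_combination g.x * h3
  · linear_combination g.q * h3

theorem Q_cube {g : Hz F} (h1 : g.p = 1) (h2 : g.q = 0) (h4 : g.r = 0) (h5 : g.s = 1) : g ^ 3 = 1 := by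
  rw [pow_three']
  ext <;> simp [*]
  · linear_combination g.a * h3
  · linear_combination g.x * h3
  · linear_combination g.y * h3

theorem comm_qv_cube (g : Hz F) (x y : F) : (g * qv x y * g⁻¹ * (qv x y)⁻¹) ^ 3 = 1 := by
  refine Q_cube h3 ?_ ?_ ?_ ?_ <;> simp
  · linear_combination g.det
  · ring
  · ring
  · linear_combination g.det

theorem trace_of_cube {g : Hz F} (h : g ^ 3 = 1) : g.p + g.s = 2 := by
  rw [pow_three'] at h
  have d := g.det
  have e1 := congrArg Hz.p h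
  have e2 := congrArg Hz.q h
  have e3 := congrArg Hz.r h
  have e4 := congrArg Hz.s h
  simp only [mul_p, mul_q, mul_r, mul_s, one_p, one_q, one_r, one_s] at e1 e2 e3 e4
  have k1 : ((g.p + g.s) ^ 2 - 1) * g.p = g.p + g.s + 1 := by
    linear_combination e1 + (2 * g.p + g.s) * d
  have k4 : ((g.p + g.s) ^ 2 - 1) * g.s = g.p + g.s + 1 := by
    linear_combination e4 + (g.p + 2 * g.s) * d
  have k2 : ((g.p + g.s) ^ 2 - 1) * g.q = 0 := by linear_combination e2 + g.q * d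
  by_cases k : (g.p + g.s) ^ 2 - 1 = 0
  · rw [k] at k1; linear_combination -k1 - h3
  · exfalso
    have q0 : g.q = 0 := (mul_eq_zero.1 k2).resolve_left k
    have ps : g.p = g.s := mul_left_cancel₀ k (k1.trans k4.symm)
    apply k
    rw [q0, ← ps] at d
    rw [← ps]
    linear_combination 4 * d + h3

theorem cent3 {g : Hz F} {a b c : F} (h0 : b ≠ 0 ∨ c ≠ 0) (h : g * n (a, b, c) = n (a, b, c) * g)
    (hg : g ^ 3 = 1) : g ∈ Ms := by
  rcases centM (two_ne h3) h0 h with h | ⟨-, h1, -, h2, -⟩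
  · exact h
  · have := trace_of_cube h3 hg
    rw [h1, h2] at this
    exact absurd (by linear_combination -h3 - this : (1 : F) = 0) one_ne_zero

theorem conj_Ms [Fintype F] {m : ℕ} (hF : Fintype.card F = 3 ^ m) {g : Hz F} (hg : g ^ 3 = 1) :
    ∃ c, c * g * c⁻¹ ∈ Ms := by
  haveI : Fact (Nat.Prime 3) := ⟨Nat.prime_three⟩
  obtain ⟨R, hR⟩ := (modH (two_ne h3)).exists_conj_P hF
  have h1 : IsPGroup 3 (zpowers g) := IsPGroup.of_card_dvd_pow (n := 1) (by
    rw [Nat.card_zpowers]; exact orderOf_dvd_of_pow_eq_one hg)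
  obtain ⟨Q, hQ⟩ := h1.exists_le_sylow
  obtain ⟨c, rfl⟩ := MulAction.exists_smul_eq (Hz F) Q R
  have h2 : c * g * c⁻¹ ∈ Ps := by
    rw [← modH_P (two_ne h3), ← hR]
    exact ⟨g, hQ (mem_zpowers g), rfl⟩
  have h4 : (c * g * c⁻¹) ^ 3 = 1 := by rw [conj_pow, hg]; simp
  suffices ∃ d, d * (c * g * c⁻¹) * d⁻¹ ∈ Ms by
    obtain ⟨d, hd⟩ := this
    exact ⟨d * c, by simpa [mul_assoc] using hd⟩
  generalize c * g * c⁻¹ = k at h2 h4
  obtain ⟨p1, r0, s1⟩ := h2
  by_cases y0 : k.y = 0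
  · exact ⟨1, by simp [Ms, *]⟩
  · have := congrArg Hz.a h4
    rw [pow_three'] at this
    simp only [mul_a, mul_x, mul_y, mul_p, mul_q, mul_r, mul_s, one_a, p1, r0, s1] at this
    have q0 : k.q * k.y ^ 2 = 0 := by
      linear_combination (k.a - k.q * k.y ^ 2) * h3 - this
    have q0 : k.q = 0 := by simpa [y0] using q0
    refine ⟨sl 0 1 (-1) (k.x / k.y) (by simp), ?_⟩
    simp [Ms, *]

theorem inv_t {g : Hz F} (hg : g ^ 3 = 1) (h : t * g * t⁻¹ = g⁻¹) : g = qv g.x g.y := by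
  have tr := trace_of_cube h3 hg
  have h2 := two_ne h3
  have e1 : g.p = g.s := by simpa using congrArg Hz.p h
  have e2 : 2 * g.q = 0 := by
    have := congrArg Hz.q h
    simp at this
    linear_combination this
  have e3 : 2 * g.r = 0 := by
    have := congrArg Hz.r h
    simp at this
    linear_combination this
  have e4 : 2 * g.a = 0 := by
    have := congrArg Hz.a h
    simp at this
    linear_combination this
  have e5 : g.s = 1 := mul_left_cancel₀ h2 (by rw [e1] at tr; linear_combination tr)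
  ext <;> simp_all

theorem autT_aux (φ : Hz F →* Hz F) (ht : φ t = t) (hz : ∀ a, φ (z a) = z (-a)) :
    ∃ A B : F → F → F, (∀ x y, φ (qv x y) = qv (A x y) (B x y)) ∧
      (∀ x y x' y', A (x + x') (y + y') = A x y + A x' y' ∧ B (x + x') (y + y') = B x y + B x' y' ∧
        A x y * B x' y' - B x y * A x' y' = -(x * y' - y * x')) := by
  have k : ∀ x y, φ (qv x y) = qv (φ (qv x y)).x (φ (qv x y)).y := fun x y => inv_t h3
    (by rw [← map_pow, Q_cube h3 rfl rfl rfl rfl, map_one]) (by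
      rw [← ht, ← map_inv, ← map_mul, ← map_mul, ← map_inv]; congr 1; ext <;> simp)
  refine ⟨_, _, k, fun x y x' y' => ?_⟩
  have e : qv x y * qv x' y' = qv (x + x') (y + y') * z (x * y' - y * x') := by
    ext <;> simp
  have e' := congrArg φ e
  rw [map_mul, map_mul, hz, k, k x' y', k (x + x')] at e'
  exact ⟨by simpa using (congrArg Hz.x e').symm, by simpa using (congrArg Hz.y e').symm,
    by simpa using congrArg Hz.a e'⟩

theorem autT1 (φ : Hz F →* Hz F) (ht : φ t = t) (hz : ∀ a, φ (z a) = z (-a))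
    (h : ∀ g, φ (φ g) = g) : ∃ y, y ≠ 1 ∧ y ^ 3 = 1 ∧ φ y = y := by
  obtain ⟨A, B, e, k⟩ := autT_aux h3 φ ht hz
  by_contra! hn
  have a : ∀ x y, x + A x y = 0 ∧ y + B x y = 0 := fun x y => by
    have e1 := h (qv x y)
    rw [e, e] at e1
    have e2 : A (A x y) (B x y) = x := congrArg Hz.x e1
    have e3 : B (A x y) (B x y) = y := congrArg Hz.y e1
    by_contra h0
    refine hn (qv (x + A x y) (y + B x y)) (fun h1 => h0 ⟨congrArg Hz.x h1, congrArg Hz.y h1⟩)
      (Q_cube h3 rfl rfl rfl rfl) ?_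
    rw [e, (k _ _ _ _).1, (k _ _ _ _).2.1, e2, e3, add_comm (A x y), add_comm (B x y)]
  have := (k 1 0 0 1).2.2
  rw [eq_neg_of_add_eq_zero_right (a 1 0).1, eq_neg_of_add_eq_zero_right (a 1 0).2,
    eq_neg_of_add_eq_zero_right (a 0 1).1, eq_neg_of_add_eq_zero_right (a 0 1).2] at this
  exact two_ne h3 (by linear_combination this)

theorem autT2 (hns : ∀ a : F, a ^ 2 ≠ -1) (φ : Hz F →* Hz F) (ht : φ t = t)
    (hz : ∀ a, φ (z a) = z (-a)) (h : ∀ g, φ (φ g) = t * g * t⁻¹) : False := by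
  obtain ⟨A, B, e, k⟩ := autT_aux h3 φ ht hz
  have a : ∀ x y, A x y * y = B x y * x := fun x y => by
    have e1 := h (qv x y)
    rw [e, e] at e1
    have e2 : A (A x y) (B x y) = -x := by simpa using congrArg Hz.x e1
    have e3 : B (A x y) (B x y) = -y := by simpa using congrArg Hz.y e1
    have := (k x y (A x y) (B x y)).2.2
    rw [e2, e3] at this
    exact mul_left_cancel₀ (two_ne h3) (by linear_combination -this)
  have b1 : B 1 0 = 0 := by simpa using (a 1 0).symm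
  have b2 : A 0 1 = 0 := by simpa using a 0 1
  have b3 := a (1 + 0) (0 + 1)
  rw [(k 1 0 0 1).1, (k 1 0 0 1).2.1, b1, b2] at b3
  have := (k 1 0 0 1).2.2
  rw [b1, b2] at this
  exact hns (A 1 0) (by linear_combination this + A 1 0 * b3)

end Hz

end Cfsg.Lib.Hay
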