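import Cfsg.Agent.Lib.Hay.Loc

/-!
Centralizers of rank two elements in the centralizer of the involution.
-/

set_option autoImplicit false

namespace Cfsg.Lib.Hay

open Subgroup Hz

namespace Amb2

variable {F G : Type*} [Field F] [Fintype F] [Group G] (A : Amb2 F G)

/-- diagonal part of `M` extended by the involution -/
def V : Subgroup G := Vs.map A.j

/-- diagonal part of `M` -/
def V0 : Subgroup G where
  carrier := {x | ∃ a c, x = A.j (n (a, 0, c))}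
  one_mem' := ⟨0, 0, (A.jz_eq_one.2 rfl).symm⟩
  mul_mem' := by
    rintro _ _ ⟨a, c, rfl⟩ ⟨a', c', rfl⟩
    exact ⟨a + a', c + c', by rw [← map_mul]; congr 1; ext <;> simp [add_comm]⟩
  inv_mem' := by
    rintro _ ⟨a, c, rfl⟩
    exact ⟨-a, -c, by rw [← map_inv]; congr 1; ext <;> simp⟩

/-- a subgroup of order three -/
def V1 (α γ : F) : Subgroup G where
  carrier := {x | ∃ k, k ^ 3 = k ∧ x = A.j (n (k * α, 0, k * γ))}
  one_mem' := ⟨0, by simp, by rw [zero_mul, zero_mul]; exact (A.jz_eq_one.2 rfl).symm⟩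
  mul_mem' := by
    rintro _ _ ⟨a, a1, rfl⟩ ⟨b, b1, rfl⟩
    exact ⟨a + b, by linear_combination a1 + b1 + a * b * (a + b) * A.h3,
      by rw [← map_mul]; congr 1; ext <;> simp <;> ring⟩
  inv_mem' := by
    rintro _ ⟨a, a1, rfl⟩
    exact ⟨-a, by linear_combination -a1, by rw [← map_inv]; congr 1; ext <;> simp⟩

theorem tt : A.j Hz.t * A.j Hz.t = 1 := A.t_mul_t

theorem t_inv : (A.j Hz.t)⁻¹ = A.j Hz.t := inv_eq_of_mul_eq_one_right A.tt

theorem V0_le : A.V0 ≤ A.V := by rintro _ ⟨a, c, rfl⟩; exact ⟨_, by simp [Vs], rfl⟩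

theorem V0_le_M : A.V0 ≤ A.M := by rintro _ ⟨a, c, rfl⟩; exact A.n_mem _

theorem t_mem_V : A.j Hz.t ∈ A.V := ⟨_, by simp [Vs], rfl⟩

theorem V_comm {a b : G} (ha : a ∈ A.V) (hb : b ∈ A.V) : a * b = b * a := by
  obtain ⟨a, ha, rfl⟩ := ha
  obtain ⟨b, hb, rfl⟩ := hb
  rw [← map_mul, Vs_comm ha hb, map_mul]

theorem V_cases {a : G} (ha : a ∈ A.V) : ∃ b ∈ A.V0, a = b ∨ a = b * A.j Hz.t := by
  obtain ⟨a, ha, rfl⟩ := ha
  obtain ⟨x, y, rfl | rfl⟩ := Vs_cases ha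
  · exact ⟨_, ⟨x, y, rfl⟩, Or.inl rfl⟩
  · exact ⟨_, ⟨x, y, rfl⟩, Or.inr (map_mul _ _ _)⟩

theorem V_cube {a : G} (ha : a ∈ A.V) : (a ∈ A.V0 ∧ a ^ 3 = 1) ∨ a ^ 3 = A.j Hz.t := by
  obtain ⟨b, hb, rfl | rfl⟩ := A.V_cases ha
  · exact Or.inl ⟨hb, A.M_cube (A.V0_le_M hb)⟩
  · right
    rw [Commute.mul_pow (A.V_comm (A.V0_le hb) A.t_mem_V), A.M_cube (A.V0_le_M hb), pow_three', A.tt,
      one_mul, one_mul]

theorem V3 {a : G} (ha : a ∈ A.V) (h : a ^ 3 = 1) : a ∈ A.V0 :=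
  ((A.V_cube ha).resolve_right fun e => A.t_ne_one (e.symm.trans h)).1

theorem unit_sq {μ : Fˣ} (h : (μ : F) ^ 2 = 1) : A.d μ ∈ A.V ∧ A.j (τ μ) ∈ A.V := by
  rcases mul_self_eq_one_iff.1 (sq (μ : F) ▸ h) with h | h
  · rw [show μ = 1 from Units.ext h, A.d_one]
    exact ⟨one_mem _, _, by simp [Vs], rfl⟩
  · rw [show μ = -1 from Units.ext h, A.d_neg, τ_neg]
    exact ⟨A.t_mem_V, A.t_mem_V⟩

variable [Finite G]

theorem cy {g : G} (h : g ∈ normalizer (A.M : Set G)) (hk : g * A.j Hz.t = A.j Hz.t * g) {a c : F}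
    (ha : a ≠ 0) (hc : c ≠ 0) (hy : g * A.j (n (a, 0, c)) = A.j (n (a, 0, c)) * g) : g ∈ A.V ∨
      ∀ x z, g * A.j (n (x, 0, z)) * g⁻¹ = A.j (n (a / c * z, 0, c / a * x)) := by
  rw [← mul_inv_eq_iff_eq_mul] at hy
  obtain ⟨x, y, μ, l, ⟨e, h⟩ | ⟨e, h⟩⟩ := A.NK h hk
  · obtain ⟨h1, -, h2⟩ := A.n_inj ((h a c).symm.trans hy)
    exact Or.inl (e ▸ mul_mem (A.V0_le ⟨x, y, rfl⟩) (mul_mem (A.unit_sq (by simpa [ha] using h1)).1
      (A.unit_sq (by simpa [hc] using h2)).2))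
  · obtain ⟨h1, -, h2⟩ := A.n_inj ((h a c).symm.trans hy)
    exact Or.inr fun x z => by rw [h, eq_div_of_mul_eq hc h1, eq_div_of_mul_eq ha h2]

theorem cy3 {g : G} (h : g ∈ normalizer (A.M : Set G)) (hk : g * A.j Hz.t = A.j Hz.t * g) {a c : F}
    (ha : a ≠ 0) (hc : c ≠ 0) (hy : g * A.j (n (a, 0, c)) = A.j (n (a, 0, c)) * g)
    (h3 : g ^ 3 * A.j (z 1) = A.j (z 1) * g ^ 3) : g ∈ A.V :=
  (A.cy h hk ha hc hy).resolve_right fun e => by
    have : g * (g * (g * A.j (n (1, 0, 0)) * g⁻¹) * g⁻¹) * g⁻¹ = A.j (n (1, 0, 0)) := by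
      conv_rhs => rw [← mul_inv_cancel_right (A.j (n (1, 0, 0))) (g ^ 3), ← z_eq, ← h3, pow_three', z_eq]
      group
    rw [e, e, e] at this
    simpa using (A.n_inj this).1

theorem NV {x : G} (h : x ∈ normalizer (A.V : Set G)) : x ∈ normalizer (A.M : Set G) :=
  mem_normalizer_fintype fun m hm => by
    have k : ∀ v ∈ A.V0, x * m * x⁻¹ * v = v * (x * m * x⁻¹) := fun v hv => by
      have := A.V0_le_M (A.V3 ((mem_normalizer_iff.1 (inv_mem h) v).1 (A.V0_le hv))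
        (by rw [conj_pow, A.M_cube (A.V0_le_M hv)]; simp))
      calc _ = x * (m * (x⁻¹ * v * x⁻¹⁻¹)) * x⁻¹ := by group
        _ = _ := by rw [A.M_comm hm this]; group
    obtain ⟨c, hc⟩ := A.hC 1 one_ne_zero _ (k _ ⟨1, 0, rfl⟩)
    have k2 := k _ ⟨0, 1, rfl⟩
    have k3 : (x * m * x⁻¹) ^ 3 = 1 := by rw [conj_pow, A.M_cube hm]; simp
    rw [← hc] at k2 k3 ⊢
    exact A.mem_map_j.2 (cent3 A.h3 (Or.inr one_ne_zero) (A.inj (by rwa [map_mul, map_mul]))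
      (A.inj (by rw [map_pow, k3, map_one])))

theorem base {g : G} {α a c : F} (hα : α ≠ 0) (hc : c ≠ 0) (h1 : g * A.j (z α) = A.j (z α) * g)
    (hy : g * A.j (n (a, 0, c)) = A.j (n (a, 0, c)) * g) : g ∈ normalizer (A.M : Set G) := by
  obtain ⟨k, rfl⟩ := A.hC α hα g h1
  rcases centM (g := k) (a := a) (b := 0) A.h2 (Or.inr hc) (A.inj (by rwa [map_mul, map_mul])) with h | ⟨-, h1, h2, h3, -⟩
  · exact le_normalizer (A.mem_map_j.2 h)
  · refine mem_normalizer_fintype fun m hm => ?_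
    obtain ⟨x, y, z, rfl⟩ := A.mem_M hm
    rw [← map_inv, ← map_mul, ← map_mul, conj_n h1 h2 h3]
    exact A.n_mem _

theorem k1aux {a0 c0 : F} (ha : a0 ≠ 0) (hc : c0 ≠ 0) (W : Subgroup G) : W ≤ A.V0 →
    A.j (n (a0, 0, c0)) ∈ W →
    centralizer (W : Set G) ⊓ centralizer {A.j Hz.t} ≤ normalizer (A.M : Set G) := by
  induction W using WellFoundedGT.induction with | ind W ih => ?_
  intro hW y0
  by_cases h1 : ∃ a, a ≠ 0 ∧ A.j (z a) ∈ W
  · obtain ⟨a, a1, a2⟩ := h1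
    exact fun g hg => A.base a1 hc (hg.1 _ a2).symm (hg.1 _ y0).symm
  by_cases h2 : ∃ a, a ≠ 0 ∧ A.j (n (0, 0, a)) ∈ W
  · obtain ⟨a, a1, a2⟩ := h2
    exact fun g hg => A.sw_M ▸ A.sw.base a1 ha (by rw [z_eq, sw_n]; exact (hg.1 _ a2).symm)
      (by rw [sw_n]; exact (hg.1 _ y0).symm)
  push Not at h1 h2
  set Y := centralizer (W : Set G) ⊓ centralizer {A.j Hz.t} with hY
  have Yt : ∀ y ∈ Y, y * A.j Hz.t = A.j Hz.t * y := fun y hy => mem_centralizer_singleton_iff.1 hy.2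
  have VY : A.V ≤ Y := fun v hv => ⟨fun w hw => A.V_comm (A.V0_le (hW hw)) hv,
    mem_centralizer_singleton_iff.2 (A.V_comm hv A.t_mem_V)⟩
  have WV : W ≤ A.V := hW.trans A.V0_le
  let W' : Subgroup G :=
    { carrier := {x | ∃ w ∈ W, x = w ∨ x = w * A.j Hz.t}
      one_mem' := ⟨1, one_mem _, Or.inl rfl⟩
      mul_mem' := by
        rintro _ _ ⟨a, ha, rfl | rfl⟩ ⟨b, hb, rfl | rfl⟩ <;> refine ⟨_, mul_mem ha hb, ?_⟩
        · exact Or.inl rfl
        · exact Or.inr (mul_assoc _ _ _).symm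
        · exact Or.inr (by rw [mul_assoc, mul_assoc, A.V_comm (WV hb) A.t_mem_V])
        · exact Or.inl (by rw [mul_assoc, A.V_comm (WV hb) A.t_mem_V, ← mul_assoc (A.j _), A.tt, one_mul])
      inv_mem' := by
        rintro _ ⟨a, ha, rfl | rfl⟩ <;> refine ⟨_, inv_mem ha, ?_⟩
        · exact Or.inl rfl
        · exact Or.inr (by rw [mul_inv_rev, A.t_inv, A.V_comm (WV (inv_mem ha)) A.t_mem_V]) }
  have c' : ∀ y ∈ Y, ∀ w ∈ W', y * w * y⁻¹ = w := by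
    rintro y hy _ ⟨w, hw, rfl | rfl⟩ <;> rw [mul_inv_eq_iff_eq_mul]
    · exact (hy.1 _ hw).symm
    · rw [← mul_assoc, ← hy.1 _ hw, mul_assoc, Yt y hy, mul_assoc]
  have W'V : W' ≤ A.V := by
    rintro _ ⟨w, hw, rfl | rfl⟩
    exacts [WV hw, mul_mem (WV hw) A.t_mem_V]
  have W3 : ∀ w ∈ W', w ^ 3 = 1 → w ∈ W := by
    rintro _ ⟨w, hw, rfl | rfl⟩ h
    · exact hw
    · exact absurd (A.M_cube (A.V0_le_M ((A.V0.mul_mem_cancel_left (hW hw)).1 (A.V3 (W'V ⟨w, hw, Or.inr rfl⟩) h))))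
        (by rw [pow_three', A.tt, one_mul]; exact A.t_ne_one)
  have V1V : ∀ α γ, A.V1 α γ ≤ A.V0 := by rintro α γ _ ⟨k, -, rfl⟩; exact ⟨_, _, rfl⟩
  have key := fun α γ => diaV Y W' (A.V1 α γ) A.V VY (fun y hy w hw => (c' y hy w hw).symm ▸ hw) W'V
    ((V1V α γ).trans A.V0_le) (fun a ha b hb => by rw [A.V_comm ha hb]; simp [W'.one_mem])
    (fun a ha => by
      rcases A.V_cube ha with h | h
      · rw [h.2]; exact one_mem _
      · exact ⟨1, one_mem _, Or.inr (by rw [h, one_mul])⟩) (by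
      intro s s1 s2 x x1 x2
      obtain ⟨s0, s3, s4⟩ := A.V_cases s1
      have := ih (W ⊔ zpowers s0) (lt_of_le_of_ne le_sup_left fun e => s2
        ⟨s0, e.ge (mem_sup_right (mem_zpowers s0)), s4⟩) (sup_le hW (zpowers_le.2 s3)) (mem_sup_left y0)
      refine mem_normalizer_fintype fun v hv => ?_
      have k1 : x * v * x⁻¹ ∈ Y := mul_mem (mul_mem x1 (VY hv)) (inv_mem x1)
      have k2 : s * (x * v * x⁻¹) = x * v * x⁻¹ * s := by
        have k3 : x⁻¹ * s * x ∈ A.V := by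
          have : x⁻¹ * s * x = (x * s * x⁻¹ * s⁻¹)⁻¹ * s := by
            calc x⁻¹ * s * x = x⁻¹ * (x * s * x⁻¹ * s⁻¹)⁻¹ * x⁻¹⁻¹ * s := by group
              _ = _ := by rw [c' _ (inv_mem x1) _ (inv_mem x2)]
          exact this ▸ mul_mem (inv_mem (W'V x2)) s1
        calc s * (x * v * x⁻¹) = x * ((x⁻¹ * s * x) * v) * x⁻¹ := by group
          _ = _ := by rw [A.V_comm k3 hv]; group
      have k3 : Commute s0 (x * v * x⁻¹) := by
        rcases s4 with rfl | rfl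
        · exact k2
        · simpa using Commute.mul_left k2 (Commute.inv_left (Yt _ k1).symm)
      have k5 : W ⊔ zpowers s0 ≤ centralizer (zpowers (x * v * x⁻¹) : Set G) := sup_le
        (le_centralizer_iff.1 (zpowers_le.2 k1.1)) (zpowers_le.2 (by
          rintro _ ⟨i, rfl⟩
          exact (k3.zpow_right i).symm))
      refine A.cy3 (this ⟨le_centralizer_iff.1 k5 (mem_zpowers _), k1.2⟩) (Yt _ k1) ha hc
        (k1.1 _ y0).symm ?_
      rw [conj_pow]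
      rcases A.V_cube hv with h | h
      · simp [h.2]
      · rw [h, Yt x x1, mul_inv_cancel_right, A.z_comm])
  refine le_trans ?_ fun x => A.NV
  have cy' := fun x (x1 : x ∈ Y) (x2 : x ∈ normalizer (A.M : Set G)) =>
    A.cy x2 (Yt x x1) ha hc (x1.1 _ y0).symm
  obtain ⟨l, l0, l1, l2⟩ := A.exists_big
  have l3 : l ^ 3 ≠ l := fun e => by
    have : l * (l - 1) * (l + 1) = 0 := by linear_combination e
    simp [l0, sub_eq_zero, l1, add_eq_zero_iff_eq_neg, l2] at this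
  by_cases hα : ∃ e ∈ Y, e ∈ normalizer (A.M : Set G) ∧ e ∉ A.V
  · obtain ⟨e, e1, e2, e3⟩ := hα
    have inv : ∀ x ∈ Y, x ∈ normalizer (A.M : Set G) → x ∉ A.V → ∀ v ∈ A.V1 a0 (-c0),
        x * v * x⁻¹ = v⁻¹ := by
      rintro x x1 x2 x3 _ ⟨k, -, rfl⟩
      rw [(cy' x x1 x2).resolve_left x3, ← map_inv]
      congr 1
      ext <;> simp <;> field_simp
    have sq : ∀ v ∈ A.V1 a0 (-c0), v = v⁻¹ → v = 1 := fun v hv e => by
      rw [← A.M_cube (A.V0_le_M (V1V _ _ hv)), pow_three', mul_assoc, eq_inv_iff_mul_eq_one.1 e, mul_one]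
    refine key a0 (-c0) (fun v v1 v2 => sq v v1 ((c' e e1 v v2).symm.trans (inv e e1 e2 e3 v v1)))
      ⟨_, ⟨1, by simp, rfl⟩, fun h => ha (by simpa using congrArg Hz.a (A.inj (h.trans A.j.map_one.symm)))⟩
      ⟨_, A.V0_le ⟨l * a0, 0, rfl⟩, fun w w1 v v1 h => ?_⟩ (fun x x1 x2 v hv => ?_)
      fun x x1 x2 v v1 v2 h => by_contra fun x3 => v2 (sq v v1
        ((mul_inv_eq_iff_eq_mul.2 h).symm.trans (inv x x1 (A.NV x2) x3 v v1)))
    · have h' := (cy' e e1 e2).resolve_left e3 (l * a0) 0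
      have h'' : e * (w * v) * e⁻¹ = w * v⁻¹ := by
        rw [← conj_mul, inv e e1 e2 e3 v v1, c' e e1 w w1]
      obtain ⟨k, k1, k2⟩ := mul_mem v1 v1
      have : A.j (n (l * a0, 0, 0)) = v * v * (w * v⁻¹) := by
        rw [h, A.V_comm (W'V w1) (A.V0_le (V1V _ _ v1)), A.V_comm (W'V w1) (A.V0_le (V1V _ _ (inv_mem v1)))]
        group
      rw [← h'', ← h, h', k2, ← map_mul] at this
      have : l = k := by simpa [ha] using congrArg Hz.a (A.inj this)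
      exact l3 (this ▸ k1)
    · by_cases x3 : x ∈ A.V
      · rwa [A.V_comm x3 (A.V0_le (V1V _ _ hv)), mul_inv_cancel_right]
      · exact inv x x1 (A.NV x2) x3 v hv ▸ inv_mem hv
  push Not at hα
  have zW : ∀ a, A.j (z a) ∈ W' → a = 0 := fun a h => by_contra fun a0 =>
    h1 a a0 (W3 _ h (A.M_cube (A.n_mem (a, 0, 0))))
  refine key 1 0 ?_ ⟨_, ⟨1, by simp, rfl⟩, fun h => one_ne_zero (α := F)
      (by simpa using congrArg Hz.a (A.inj (h.trans A.j.map_one.symm)))⟩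
    ⟨_, A.V0_le ⟨l, 0, rfl⟩, ?_⟩ (fun x x1 x2 v hv => ?_) fun x x1 x2 _ _ _ _ => hα x x1 (A.NV x2)
  · rintro _ ⟨k, -, rfl⟩ h
    rw [mul_zero] at h ⊢
    exact A.jz_eq_one.2 (zW _ h)
  · rintro w w1 _ ⟨k, k1, rfl⟩ h
    rw [mul_zero, ← mul_inv_eq_iff_eq_mul, ← z_eq, ← z_eq, ← map_inv, ← map_mul, ← z_neg, ← z_add] at h
    have : l = k := by linear_combination zW _ (h ▸ w1)
    exact l3 (this ▸ k1)
  · rwa [A.V_comm (hα x x1 (A.NV x2)) (A.V0_le (V1V _ _ hv)), mul_inv_cancel_right]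

theorem k1 {g : G} (hk : g * A.j Hz.t = A.j Hz.t * g) {a c : F} (ha : a ≠ 0) (hc : c ≠ 0)
    (hy : g * A.j (n (a, 0, c)) = A.j (n (a, 0, c)) * g) : g ∈ A.V ∨
      ∀ x z, g * A.j (n (x, 0, z)) * g⁻¹ = A.j (n (a / c * z, 0, c / a * x)) :=
  A.cy (A.k1aux ha hc (zpowers _) (zpowers_le.2 ⟨a, c, rfl⟩) (mem_zpowers _)
    ⟨by rw [centralizer_zpowers]; exact mem_centralizer_singleton_iff.2 hy,
      mem_centralizer_singleton_iff.2 hk⟩) hk ha hc hy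

theorem syl0 : IsSylowIn 3 A.V0 (centralizer {A.j Hz.t}) := by
  haveI : Fact (Nat.Prime 3) := ⟨Nat.prime_three⟩
  have p3 := A.isPGroup_P.to_le (A.V0_le_M.trans A.M_le_P)
  refine isSylowIn_of_norm p3 (fun v hv =>
    mem_centralizer_singleton_iff.2 (A.V_comm (A.V0_le hv) A.t_mem_V)) fun y y1 y2 k hk => ?_
  rw [mem_centralizer_singleton_iff] at y1
  have y3 : y ∈ normalizer (A.M : Set G) := A.NV (mem_normalizer_fintype fun v hv => by
    obtain ⟨b, hb, rfl | rfl⟩ := A.V_cases hv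
    · exact A.V0_le ((mem_normalizer_iff.1 y2 _).1 hb)
    · rw [← mul_assoc, mul_assoc _ _ y⁻¹, ← (Commute.inv_left y1).eq, ← mul_assoc]
      exact mul_mem (A.V0_le ((mem_normalizer_iff.1 y2 _).1 hb)) A.t_mem_V)
  have y4 : y ∈ A.H := by
    obtain ⟨x, c, μ, l, ⟨-, h⟩ | ⟨-, h⟩⟩ := A.NK y3 y1
    · exact A.H_of_z one_ne_zero (by rw [z_eq, h, mul_zero]; exact A.z_mem _)
    · obtain ⟨i, hi⟩ := exists_pow_eq_self_of_coprime (x := y) (n := 2) (Nat.Coprime.coprime_dvd_right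
        (orderOf_dvd_of_pow_eq_one hk) (Nat.Coprime.pow_right k (by norm_num)))
      refine hi ▸ pow_mem (A.H_of_z one_ne_zero ?_) i
      rw [sq, mul_inv_rev, mul_assoc y y, mul_assoc y, ← mul_assoc _ y⁻¹, z_eq, h, ← mul_assoc, h,
        mul_zero, mul_zero]
      exact A.z_mem _
  obtain ⟨c, rfl⟩ := A.mem_C y4 hk
  obtain ⟨v, s, l, e⟩ := (modH A.h2).norm c fun v => by
    obtain ⟨x, y, z, h⟩ := A.mem_M ((mem_normalizer_iff.1 y3 _).1 (A.n_mem v))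
    exact ⟨_, A.inj (by rw [map_mul, map_mul, map_inv]; exact h)⟩
  obtain ⟨h1, h2, h3⟩ := (modH_P A.h2).le ((modH A.h2).pel A.hF (k := k) (v := v) (s := s) (l := l)
    (A.inj (by rw [← e, map_pow, hk, map_one])))
  rw [← e] at h1 h2 h3
  obtain ⟨h4, h5⟩ := cent_t A.h2 (c := c) (A.inj (by rwa [map_mul, map_mul]))
  exact ⟨c.a, c.q, congrArg A.j (by ext <;> simp [h1, h2, h3, h4, h5])⟩

end Amb2

end Cfsg.Lib.Hay
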