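import Cfsg.Agent.Lib.Hay.K1
import Cfsg.Agent.Lib.Misc.SL2Odd
import Cfsg.Agent.Lib.Misc.Invol

/-!
The normalizer of the quaternion subgroup and the braid relation.
-/

set_option autoImplicit false

namespace Cfsg.Lib.Hay

open Subgroup Hz

theorem adj {G : Type*} [Group G] [Finite G] {R : Subgroup G} (hR : IsPGroup 2 R) {x y : G}
    (hy : y ∈ normalizer (R : Set G)) (h3 : y ^ 3 = 1) (h : x * y * x⁻¹ * y⁻¹ ∈ R) :
    ∃ r ∈ R, r * x * y = y * (r * x) := by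
  haveI : Fact (Nat.Prime 2) := ⟨Nat.prime_two⟩
  have k : ∀ i : ℕ, x * y ^ i * x⁻¹ * (y ^ i)⁻¹ ∈ R := fun i => by
    induction i with
    | zero => simp
    | succ i ih =>
      have := mul_mem ih ((mem_normalizer_iff.1 (pow_mem hy i) _).1 h)
      rw [pow_succ]
      convert this using 1
      group
  obtain ⟨l, hl, c, hc, rfl⟩ := (CoprimeAct.of_isPGroup_right (A := zpowers y) hR (fun h2 => by
    rw [Nat.card_zpowers] at h2
    exact absurd (h2.trans (orderOf_dvd_of_pow_eq_one h3)) (by norm_num))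
    (zpowers_le.2 hy)).exists_eq_mul_centralizer (x := x) fun a ha => by
      obtain ⟨i, rfl⟩ := (mem_powers_iff_mem_zpowers.2 ha)
      exact k i
  exact ⟨l⁻¹, inv_mem hl, by rw [inv_mul_cancel_left]; exact (hc y (mem_zpowers y)).symm⟩

namespace Hz

variable {F : Type*} [Field F]

theorem dec4 : ∀ p q r s : ZMod 3, ∀ h, ∃ c : ZMod 3, R3 (sl p q r s h * (n (0, 0, c))⁻¹) := by
  decide +kernel

theorem u_zpow (k : ℤ) : (n (0, 0, 1) : Hz F) ^ k = n ((0, 0, k) : F × F × F) := by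
  induction k with
  | zero => simp; rfl
  | succ i ih => rw [zpow_add_one, ih]; ext <;> simp [add_comm]
  | pred i ih => rw [zpow_sub_one, ih]; ext <;> simp; ring

theorem pow2 (hns : ∀ a : F, a ^ 2 ≠ -1) {k : ℕ} : ∀ {a : F}, a ^ 2 ^ k = 1 → a ^ 2 = 1 := by
  induction k with
  | zero => intro a h; rw [show a = 1 by simpa using h, one_pow]
  | succ k ih =>
    intro a h
    rw [pow_succ', pow_mul] at h
    exact (mul_self_eq_one_iff.1 (sq (a ^ 2) ▸ ih h)).resolve_right (hns a)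

theorem pow_p {g : Hz F} (h : g.r = 0) (i : ℕ) : (g ^ i).r = 0 ∧ (g ^ i).p = g.p ^ i := by
  induction i with
  | zero => simp
  | succ i ih => simp [pow_succ, h, ih]

variable (h3 : (3 : F) = 0)
include h3

/-- centralizer of a transvection extended -/
def Es : Subgroup (Hz F) where
  carrier := {g | g.x = 0 ∧ g.y = 0 ∧ g.a ^ 3 = g.a}
  one_mem' := by simp
  mul_mem' := by
    rintro a b ⟨h1, h2, h4⟩ ⟨k1, k2, k4⟩
    refine ⟨by simp [*], by simp [*], ?_⟩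
    simp only [mul_a, h1, h2, zero_mul, add_zero, sub_zero]
    linear_combination h4 + k4 + a.a * b.a * (a.a + b.a) * h3
  inv_mem' := by
    rintro a ⟨h1, h2, h4⟩
    exact ⟨by simp [*], by simp [*], by simp only [inv_a]; linear_combination -h4⟩

theorem exists_f : ∃ f : ZMod 3 →+* F, ∀ x : F, x ^ 3 = x ↔ ∃ y, x = f y := by
  haveI : Fact (Nat.Prime 3) := ⟨Nat.prime_three⟩
  haveI : CharP F 3 := (CharP.charP_iff_prime_eq_zero Nat.prime_three).2 (by exact_mod_cast h3)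
  let f := ZMod.castHom (dvd_refl 3) F
  refine ⟨f, fun x => ⟨fun hx => ?_, by rintro ⟨y, rfl⟩; rw [← map_pow, ZMod.pow_card]⟩⟩
  have : x * (x - 1) * (x + 1) = 0 := by linear_combination hx
  rcases mul_eq_zero.1 this with h | h
  · rcases mul_eq_zero.1 h with h | h
    · exact ⟨0, by rw [h, map_zero]⟩
    · exact ⟨1, by rw [map_one]; linear_combination h⟩
  · exact ⟨-1, by rw [map_neg, map_one]; linear_combination h⟩

theorem card_Es [Fintype F] : Nat.card (Es h3) ≤ 3 * (Fintype.card F * (Fintype.card F ^ 2 - 1)) := by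
  obtain ⟨f, hf⟩ := exists_f h3
  rw [← h9_card_sl2, ← Nat.card_zmod 3, ← Nat.card_prod]
  refine Nat.card_le_card_of_surjective (fun x => ⟨⟨f x.1, 0, 0, x.2 0 0, x.2 0 1, x.2 1 0, x.2 1 1,
    h9_sl2_det x.2⟩, rfl, rfl, (hf _).2 ⟨_, rfl⟩⟩) ?_
  rintro ⟨g, h1, h2, h4⟩
  obtain ⟨y, hy⟩ := (hf _).1 h4
  exact ⟨(y, h9_mk g.p g.q g.r g.s g.det), Subtype.ext (by ext <;> simp [h1, h2, hy.symm])⟩

theorem Ss_dec {g : Hz F} (h : g ∈ Ss h3) : ∃ k : ℤ, g * (n (g.a, 0, k))⁻¹ ∈ Rs h3 := by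
  obtain ⟨f, hf⟩ := exists_of_Ss h3
  obtain ⟨p, q, r, s, h', e⟩ := hf g h
  obtain ⟨c, hc⟩ := dec4 p q r s h'
  obtain ⟨k, rfl⟩ := ZMod.intCast_surjective c
  refine ⟨k, mul_mem h (inv_mem ?_), by simp [h.1, h.2.1], ?_⟩
  · simpa [Ss] using (map_pow f (k : ZMod 3) 3).symm.trans (congrArg f (ZMod.pow_card (p := 3) _))
  · have := (R3_map f 0 _).2 hc
    rw [e]
    simpa [R3] using this

theorem w0_mem_Rs : w0 ∈ Rs h3 := ⟨by simp [Ss]; ring, rfl, Or.inl (by simp)⟩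

theorem Rs_le_Ls : Rs h3 ≤ Ls := fun _ h => ⟨h.2.1, h.1.1, h.1.2.1⟩

theorem n_mem_Rs {a c : F} (h : n (a, 0, c) ∈ Rs h3) : a = 0 ∧ c = 0 :=
  ⟨h.2.1, h.2.2.elim (fun e => absurd (by simpa [one_add_one_eq_two] using e) (two_ne h3)) fun e => e.1⟩

theorem cw0 {g : Hz F} (h1 : g.x = 0) (h2 : g.y = 0) (h : g * w0 = w0 * g) (h4 : g ^ 3 = 1) :
    g = z g.a := by
  have e1 : g.q = -g.r := by simpa [neg_eq_iff_eq_neg] using congrArg Hz.p h
  have e2 : g.p = g.s := by simpa using congrArg Hz.q h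
  have e3 : g.s = 1 := mul_left_cancel₀ (two_ne h3) (by linear_combination trace_of_cube h3 h4 - e2)
  have e4 : g.r = 0 := by simpa [e1, e2, e3] using g.det
  ext <;> simp [*]

end Hz

namespace Amb2

variable {F G : Type*} [Field F] [Fintype F] [Group G] [Finite G] (A : Amb2 F G)

theorem R_t {x : G} (h : x ∈ normalizer (A.R : Set G)) : x * A.j Hz.t = A.j Hz.t * x :=
  mul_inv_eq_iff_eq_mul.1 (A.R_invol ((mem_normalizer_iff.1 h _).1 (A.mem_map_j.2 (t_mem_Rs A.h3)))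
    (mt conj_eq_one_iff.1 A.t_ne_one) (by rw [conj_mul, A.tt]; simp))

theorem z_R {x r : G} (h : x ∈ normalizer (A.R : Set G)) (hr : r ∈ A.R) (a : F) :
    x * A.j (z a) * x⁻¹ * r = r * (x * A.j (z a) * x⁻¹) := by
  obtain ⟨c, -, hc⟩ := (mem_normalizer_iff.1 (inv_mem h) _).1 hr
  calc _ = x * (A.j (z a) * (x⁻¹ * r * x⁻¹⁻¹)) * x⁻¹ := by group
    _ = _ := by rw [← hc, ← A.z_comm, hc]; group

theorem d_mem_R (μ : Fˣ) : A.d μ ∈ normalizer (A.R : Set G) := mem_normalizer_fintype (by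
  rintro _ ⟨r, hr, rfl⟩
  rw [A.d_Ls μ (Rs_le_Ls A.h3 hr), mul_inv_cancel_right]
  exact ⟨r, hr, rfl⟩)

theorem dich {a : F} {l : Hz F} (hl : l ∈ Ls) (h : A.sw.j (z a * l) ∈ normalizer (A.R : Set G)) :
    a ^ 3 = a ∧ (l.r ≠ 0 → A.sw.j w0 ∈ normalizer (A.R : Set G)) := by
  let X := (normalizer (A.R : Set G)).comap A.sw.j
  have h1 : ∀ c, n (0, 0, c) ∈ X := fun c => by
    change A.sw.j _ ∈ normalizer (A.R : Set G)
    rw [sw_n]; exact A.S_le (A.mem_map_j.2 (z_mem_Ss A.h3 c))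
  have h2 : ∀ c, τ c ∈ X := fun c => by
    change A.sw.j _ ∈ normalizer (A.R : Set G)
    rw [sw_τ]; exact A.d_mem_R c
  have h3 : l.r ≠ 0 → w0 ∈ X := fun hr => by
    have k : z a * l * n (0, 0, 1) * (z a * l)⁻¹ ∈ X := mul_mem (mul_mem h (h1 1)) (inv_mem h)
    obtain ⟨c, μ, c', e⟩ := bruhat (g := z a * l * n (0, 0, 1) * (z a * l)⁻¹)
      (by simp [Ls, hl.1, hl.2.1, hl.2.2]) (by
        simp only [mul_r, mul_p, mul_q, mul_s, z_p, z_q, z_r, z_s, n_p, n_q, n_r, n_s, inv_p, inv_r]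
        convert neg_ne_zero.2 (mul_ne_zero hr hr) using 1
        ring)
    rwa [e, X.mul_mem_cancel_right (h1 _), X.mul_mem_cancel_right (h2 _),
      X.mul_mem_cancel_left (h1 _)] at k
  refine ⟨?_, h3⟩
  have : l ∈ X := by
    by_cases hr : l.r = 0
    · obtain ⟨c, μ, rfl⟩ := borel hl hr
      exact mul_mem (h1 c) (h2 μ)
    · exact Ls_le h1 h2 (h3 hr) hl
  have : A.sw.j (n (a, 0, 0)) ∈ normalizer (A.R : Set G) := (X.mul_mem_cancel_right this).1 h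
  rw [sw_n] at this
  exact (A.mem_map_j.1 (A.mem_S this)).2.2.2.1

theorem k3aux {x : G} (h : x ∈ normalizer (A.R : Set G))
    (h' : x * A.j (n (0, 0, 1)) * x⁻¹ * (A.j (n (0, 0, 1)))⁻¹ ∈ A.R) :
    ∃ r ∈ A.R, ∃ a, ∃ l ∈ Ls, r * x = A.sw.j (z a * l) := by
  obtain ⟨r, hr, e⟩ := adj A.isPGroup_R (A.S_le (A.mem_map_j.2 (by simp [Ss])))
    (A.M_cube (A.n_mem _)) h'
  obtain ⟨c, hc⟩ := A.sw.hC 1 one_ne_zero (r * x) (by rwa [z_eq, sw_n])
  obtain ⟨h1, h2⟩ := cent_t A.h2 (c := c) (A.sw.inj (by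
    rw [map_mul, map_mul, hc, sw_t]; exact A.R_t (mul_mem (le_normalizer hr) h)))
  obtain ⟨l, hl, e⟩ := exists_Ls h1 h2
  exact ⟨r, hr, _, l, hl, by rw [← e, hc]⟩

theorem k3 {x : G} (h : x ∈ normalizer (A.R : Set G)) :
    ∃ r ∈ A.R, ∃ a, ∃ l ∈ Ls, r * x = A.sw.j (z a * l) := by
  obtain ⟨f, hf⟩ := exists_f A.h3
  have uS : ∀ a c, c ^ 3 = c → A.j (n (a, 0, c)) ∈ A.S := fun a c h => A.mem_map_j.2 (by simpa [Ss])
  have RS : A.R ≤ A.S := map_mono (Rs_le A.h3)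
  have w0R : A.j w0 ∈ A.R := A.mem_map_j.2 (w0_mem_Rs A.h3)
  have dz : ∀ μ : Fˣ, A.d μ ∈ A.S → (μ : F) ^ 2 = 1 := by
    rintro μ ⟨c, -, hc⟩
    have := A.d_z μ 1
    rw [← hc, A.z_comm, mul_inv_cancel_right, mul_one] at this
    exact (congrArg Hz.a (A.inj this)).symm
  choose sq hsq using fun σ : (powMonoidHom 2 : Fˣ →* Fˣ).range => σ.2
  refine A.k3aux h (sec3W _ A.R A.S A.Z ((Es A.h3).map A.sw.j) (t := A.j Hz.t) A.S_le
    (fun y hy w hw => (mem_normalizer_iff.1 hy _).1 hw) RS (fun x hx => ?_)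
    ⟨_, A.z_mem 1, fun h => one_ne_zero (n_mem_Rs A.h3 (A.mem_map_j.1 h)).1⟩ (uS 0 1 (by simp))
    (fun h => one_ne_zero (n_mem_Rs A.h3 (A.mem_map_j.1 h)).2) ?_ ?_ ?_ ?_ ?_ ?_
    ⟨Hz.t, by simp [Es], A.sw_t⟩ (A.mem_map_j.2 (t_mem_Rs A.h3)) A.t_ne_one
    (fun i : F × ZMod 3 => A.j (n (i.1, 0, f i.2))) (fun i => uS _ _ ((hf _).2 ⟨_, rfl⟩)) ?_
    (fun σ => A.d (sq σ)) (fun σ => ⟨A.d_mem_R _, A.norm_S (A.d_mem_H _) (A.d_mem_R _)⟩) ?_ ?_ x h)
  · obtain ⟨a, rfl⟩ := A.mem_Z hx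
    exact A.mem_map_j.2 (z_mem_Ss A.h3 a)
  · intro v hv k hk
    obtain ⟨a, rfl⟩ := A.mem_Z hv
    rw [← map_zpow, u_zpow, ← map_inv, ← map_mul] at hk
    rw [A.jz_eq_one.2 (by simpa using (A.mem_map_j.1 hk).2.1)]
    exact one_mem _
  · rintro _ ⟨a, ha, rfl⟩ _ ⟨b, hb, rfl⟩
    exact ⟨_, Ss_comm A.h3 ha hb, by simp⟩
  · rintro _ ⟨a, ha, rfl⟩
    exact ⟨_, Ss_cube A.h3 ha, by simp⟩
  · rintro _ ⟨s, s1, rfl⟩ s2 x x1 x2
    obtain ⟨k, hk⟩ := Ss_dec A.h3 s1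
    have a0 : s.a ≠ 0 := fun e => s2 k (by
      rw [← map_zpow, u_zpow, ← map_inv, ← map_mul]; exact A.mem_map_j.2 (e ▸ hk))
    have hk' : A.j s * (A.j (n (s.a, 0, k)))⁻¹ ∈ A.R := ⟨_, hk, by simp⟩
    obtain ⟨r, hr, e⟩ := adj A.isPGroup_R (x := x) (y := A.j (n (s.a, 0, k))) (A.S_le
      ((A.S.inv_mem_iff).1 ((A.S.mul_mem_cancel_left ⟨s, s1, rfl⟩).1 (RS hk')))) (A.M_cube (A.n_mem _))
      (by
        have := mul_mem (mul_mem (inv_mem ((mem_normalizer_iff.1 x1 _).1 hk')) x2) hk'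
        convert this using 1
        group)
    have x3 := mul_mem (le_normalizer hr) x1
    refine (A.S.mul_mem_cancel_left (RS hr)).1 ?_
    suffices r * x ∈ A.j.range by
      obtain ⟨c, hc⟩ := this
      rw [← hc] at x3 ⊢
      exact A.mem_S x3
    by_cases k0 : (k : F) = 0
    · exact A.hC _ a0 _ (by rwa [k0] at e)
    · refine (A.k1 (A.R_t x3) a0 k0 e).elim (fun h => map_le_range _ _ h) fun h => ?_
      have := A.z_R x3 w0R 1
      rw [z_eq, h, ← map_mul, ← map_mul] at this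
      simpa [k0, a0] using congrArg Hz.p (A.inj this)
  · intro x x1 x2
    obtain ⟨c, c1, c2⟩ := (mem_normalizer_iff.1 x2 _).1 (uS 1 0 (by simp))
    have xH : x ∈ A.H := A.H_of_z one_ne_zero (by
      rw [z_eq, ← c2, cw0 A.h3 c1.1 c1.2.1 (A.inj (by rw [map_mul, map_mul, c2]; exact A.z_R x1 w0R 1))
        (A.inj (by rw [map_pow, c2, conj_pow, A.M_cube (A.n_mem _)]; simp))]
      exact A.z_mem _)
    obtain ⟨μ, a, l, hl, rfl⟩ := A.HK xH (A.R_t x1)
    have lS := A.mem_S ((Subgroup.mul_mem_cancel_left _ (A.d_mem_R μ)).1 x1)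
    refine ⟨?_, fun v hv => A.H_conj xH hv, fun h => mul_mem ?_ lS⟩
    · have := A.d_Ls μ (c := z a * l * n (0, 0, 1) * (z a * l)⁻¹) (by simp [Ls, hl.1, hl.2.1, hl.2.2])
      rw [← mul_inv_eq_iff_eq_mul, map_mul, map_mul, map_inv] at this
      rw [mul_inv_rev, mul_assoc (A.d μ), ← mul_assoc _ _ (A.d μ)⁻¹, mul_assoc (A.d μ), this]
      exact ⟨_, Ss_comm A.h3 (A.mem_map_j.1 lS) (b := n (0, 0, 1)) (by simp [Ss]), by simp⟩
    · have : A.d (μ * μ) ∈ A.S := by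
        have := mul_mem (inv_mem ((mem_normalizer_iff.1 (A.norm_S (A.d_mem_H μ) (A.d_mem_R μ)) _).1 lS))
          (mul_mem h (inv_mem lS))
        rw [A.d_mul]
        convert this using 1
        group
      obtain ⟨c, -, hc⟩ := (A.unit_sq (μ := μ) (pow2 A.hns (k := 2) (by
        rw [← dz _ this]; simp; ring))).1
      exact hc ▸ A.mem_S (hc ▸ A.d_mem_R μ)
  · intro x x1 x2
    obtain ⟨r, hr, a, l, hl, e⟩ := A.k3aux x1 x2
    exact ⟨r, hr, _, ⟨by simp [hl.2.1], by simp [hl.2.2], by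
      simpa [hl.1] using (A.dich hl (e ▸ mul_mem (le_normalizer hr) x1)).1⟩, e.symm⟩
  · intro i j h
    rw [← map_inv, ← map_mul, show (n (i.1, 0, f i.2))⁻¹ * n (j.1, 0, f j.2) =
      n (j.1 - i.1, 0, f j.2 - f i.2) by ext <;> simp <;> ring] at h
    obtain ⟨h1, h2⟩ := n_mem_Rs A.h3 (A.mem_map_j.1 h)
    exact Prod.ext (sub_eq_zero.1 h1).symm (f.injective (sub_eq_zero.1 h2).symm)
  · intro i j h
    have := dz ((sq i)⁻¹ * sq j) (by
      rwa [A.d_mul, eq_inv_of_mul_eq_one_left (show A.d (sq i)⁻¹ * A.d (sq i) = 1 by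
        rw [← A.d_mul, inv_mul_cancel, A.d_one])])
    refine Subtype.ext ?_
    rw [← hsq i, ← hsq j, powMonoidHom_apply, powMonoidHom_apply, ← inv_mul_eq_one, ← inv_pow, ← mul_pow]
    exact Units.ext this
  · classical
    have h1 := card_Es A.h3
    obtain ⟨r, hr⟩ : ∃ r, Fintype.card F = 2 * r + 1 := ⟨Fintype.card F / 2, by have := A.h4; omega⟩
    have h2 : 2 ≤ r := by have := A.big; omega
    rw [card_map_of_injective A.sw.inj, IsCyclic.card_powMonoidHom_range, Nat.card_prod, Nat.card_zmod,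
      Nat.card_eq_fintype_card (α := F), Nat.card_eq_fintype_card (α := Fˣ), Fintype.card_units, hr]
    rw [hr, show (2 * r + 1) ^ 2 - 1 = 4 * r ^ 2 + 4 * r from Nat.sub_eq_of_eq_add (by ring)] at h1
    simp only [add_tsub_cancel_right, Nat.gcd_mul_right_left, ne_eq, OfNat.ofNat_ne_zero,
      not_false_eq_true, mul_div_cancel_left₀]
    nlinarith

theorem w_ne {c : Hz F} : A.w ≠ A.j c := fun h => by
  have := A.w_n 1 0 0
  rw [h, ← z_eq, A.z_comm, mul_inv_cancel_right] at this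
  simpa using (A.n_inj this).1

theorem w0_norm : A.sw.j w0 ∈ normalizer (A.R : Set G) := by
  haveI : Fact (Nat.Prime 2) := ⟨Nat.prime_two⟩
  by_contra h0
  have syl : IsSylowIn 2 A.R ⊤ := isSylowIn_of_norm A.isPGroup_R le_top fun y _ hy k hk => by
    obtain ⟨r, hr, a, l, hl, e⟩ := A.k3 hy
    have r0 : l.r = 0 := by_contra fun h => h0 ((A.dich hl (e ▸ mul_mem (le_normalizer hr) hy)).2 h)
    obtain ⟨i, hi⟩ := IsPGroup.to_sup_of_normal_left' A.isPGroup_R (IsPGroup.of_card_dvd_pow (n := k)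
      (G := zpowers y) (by rw [Nat.card_zpowers]; exact orderOf_dvd_of_pow_eq_one hk))
      (zpowers_le.2 hy) ⟨r * y, mul_mem_sup hr (mem_zpowers y)⟩
    have hi : (z a * l) ^ 2 ^ i = 1 := A.sw.inj (by
      rw [map_pow, ← e, map_one]; exact congrArg Subtype.val hi)
    have p1 := pow2 A.hns ((pow_p (g := z a * l) (by simpa using r0) _).2.symm.trans (congrArg Hz.p hi))
    have hV : A.sw.j (z a * l) ∈ A.sw.V := ⟨_, ⟨by simp [hl.2.1], by simp [hl.2.2], by simpa using r0, by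
      have := l.det
      simp only [mul_p, mul_s, z_p, z_q, z_r, z_s, r0] at p1 this ⊢
      linear_combination l.p * this - l.s * p1⟩, rfl⟩
    obtain ⟨m, hm⟩ := exists_pow_eq_self_of_coprime (x := z a * l) (n := 3) (Nat.Coprime.coprime_dvd_right
      (orderOf_dvd_of_pow_eq_one hi) (Nat.Coprime.pow_right i (by norm_num)))
    rw [← A.R.mul_mem_cancel_left hr, e, ← hm, map_pow, map_pow]
    refine pow_mem ?_ m
    rcases A.sw.V_cube hV with h | h
    · rw [h.2]; exact one_mem _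
    · rw [h, sw_t]; exact A.mem_map_j.2 (t_mem_Rs A.h3)
  obtain ⟨g, -, hg⟩ := syl.exists_conj_le (h9_isPGroup_closure_pair A.tt A.w_mul_w (k := 1) (by
    rw [pow_one, sq, mul_assoc, ← mul_assoc A.w, A.w_t, mul_assoc, A.w_mul_w, mul_one, A.tt])) le_top
  have k : ∀ x ∈ ({A.j Hz.t, A.w} : Set G), x ≠ 1 → x * x = 1 → g * x * g⁻¹ = A.t := fun x hx h1 h2 =>
    A.R_invol (hg ⟨x, subset_closure hx, rfl⟩) (by simpa using h1) (by rw [conj_mul, h2]; simp)
  exact A.w_ne ((MulAut.conj g).injective ((k _ (by simp) (A.j.map_one ▸ A.w_ne) A.w_mul_w).trans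
    (k _ (Or.inl rfl) A.t_ne_one A.tt).symm))

theorem braid : A.sw.j w0 * A.j w0 = A.j w0 * A.sw.j w0 := by
  have e : A.sw.j w0 = A.j (z 1) * (A.sw.j w0 * A.j (z 1) * (A.sw.j w0)⁻¹) * A.j (z 1) := by
    rw [z_eq, ← sw_n, ← map_inv, ← map_mul, ← map_mul, ← map_mul, ← map_mul]
    congr 1; ext <;> simp
  have h1 : Commute (A.j (z 1)) (A.j w0) := (A.z_comm _ _).symm
  rw [e]
  exact (h1.mul_left (A.z_R A.w0_norm (A.mem_map_j.2 (w0_mem_Rs A.h3)) 1)).mul_left h1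

theorem LL {l l' : Hz F} (h : l ∈ Ls) (h' : l' ∈ Ls) : A.sw.j l * A.j l' = A.j l' * A.sw.j l :=
  mem_centralizer_singleton_iff.1 (Ls_le (X := (centralizer {A.j l'}).comap A.sw.j)
    (fun c => mem_centralizer_singleton_iff.2 (by rw [sw_n]; exact (A.z_comm _ _).symm))
    (fun l => mem_centralizer_singleton_iff.2 (by rw [sw_τ]; exact A.d_Ls l h'))
    (mem_centralizer_singleton_iff.2 (mem_centralizer_singleton_iff.1
      (Ls_le (X := (centralizer {A.sw.j w0}).comap A.j)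
      (fun c => mem_centralizer_singleton_iff.2 (by rw [← sw_n]; exact (A.sw.z_comm _ _).symm))
      (fun l => mem_centralizer_singleton_iff.2 (by
        rw [← sw_sw, sw_τ]; exact A.sw.d_Ls l w0_mem))
      (mem_centralizer_singleton_iff.2 A.braid.symm) h')).symm) h)

end Amb2

end Cfsg.Lib.Hay
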