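import Cfsg.Agent.Lib.Hay.K3

/-!
The subgroup `K₀ = (L₁ ∘ L₂)⟨w⟩` and normalizers of cyclic subgroups of order four.
-/

set_option autoImplicit false

namespace Cfsg.Lib.Hay

open Subgroup Hz

namespace Hz

variable {F : Type*} [Field F]

/-- cyclic group of order four -/
def Ws : Subgroup (Hz F) where
  carrier := {g | g ∈ Ls ∧ g.s = g.p ∧ g.r = -g.q ∧ g.p * g.q = 0}
  one_mem' := by simp [one_mem]
  mul_mem' := by
    rintro a b ⟨h1, h2, h3, h4⟩ ⟨k1, k2, k3, k4⟩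
    refine ⟨mul_mem h1 k1, ?_, ?_, ?_⟩ <;> simp only [mul_p, mul_q, mul_r, mul_s, h2, h3, k2, k3]
    · ring
    · ring
    · linear_combination (b.p ^ 2 - b.q ^ 2) * h4 + (a.p ^ 2 - a.q ^ 2) * k4
  inv_mem' := by
    rintro a ⟨h1, h2, h3, h4⟩
    exact ⟨inv_mem h1, by simp [h2], by simp [h3], by simp [h2, h4]⟩

theorem Ws_cases {g : Hz F} (h : g ∈ Ws) : g = 1 ∨ g = t ∨ g = w0 ∨ g = w0⁻¹ := by
  obtain ⟨⟨h1, h2, h3⟩, h4, h5, h6⟩ := h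
  have d := g.det
  rw [h4, h5] at d
  rcases mul_eq_zero.1 h6 with h | h
  · rcases mul_self_eq_one_iff.1 (show g.q * g.q = 1 by simpa [h] using d) with k | k
    · exact Or.inr (Or.inr (Or.inl (by ext <;> simp [*])))
    · exact Or.inr (Or.inr (Or.inr (by ext <;> simp [*])))
  · rcases mul_self_eq_one_iff.1 (show g.p * g.p = 1 by simpa [h] using d) with k | k
    · exact Or.inl (by ext <;> simp [*])
    · exact Or.inr (Or.inl (by ext <;> simp [*]))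

theorem w0_mem_Ws : (w0 : Hz F) ∈ Ws := ⟨w0_mem, rfl, rfl, by simp⟩

theorem t_mem_Ws : (t : Hz F) ∈ Ws := ⟨t_mem_Ls, rfl, by simp, by simp⟩

theorem Ws_comm {g : Hz F} (h : g ∈ Ws) : g * w0 = w0 * g := by
  obtain ⟨⟨h1, h2, h3⟩, h4, h5, h6⟩ := h
  ext <;> simp [*]

theorem w0_inv : (w0 : Hz F)⁻¹ = w0 * t := by ext <;> simp

theorem Ls_t {g : Hz F} (h : g ∈ Ls) : g * t = t * g := t_comm h.2.1 h.2.2

theorem Ls_sq (h2 : (2 : F) ≠ 0) {g : Hz F} (h : g ∈ Ls) (e : g * g = 1) : g = 1 ∨ g = t := by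
  have := h9_sl2_sq_eq_one h2 (x := h9_mk g.p g.q g.r g.s g.det) (by
    rw [h9_sl2_ext_iff]
    simp only [h9_sl2_mul_apply]
    exact ⟨congrArg Hz.p e, congrArg Hz.q e, congrArg Hz.r e, congrArg Hz.s e⟩)
  obtain ⟨h1, h3, h4⟩ := h
  refine this.imp (fun k => ?_) fun k => ?_ <;> rw [h9_sl2_ext_iff] at k <;> simp at k <;>
    ext <;> simp [*]

theorem conj_w0 [Fintype F] (ho : Odd (Fintype.card F)) {g : Hz F} (h : g ∈ Ls) (e : g * g = t) :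
    ∃ k ∈ Ls, g = k * w0 * k⁻¹ := by
  obtain ⟨k, hk⟩ := h9_sl2_isConj ho (x := h9_mk 0 1 (-1) 0 (by simp)) (y := h9_mk g.p g.q g.r g.s g.det)
    (by rw [h9_sl2_ext_iff]; simp only [h9_sl2_mul_apply]; simp) (by
      rw [h9_sl2_ext_iff]
      simp only [h9_sl2_mul_apply]
      exact ⟨by simpa using congrArg Hz.p e, by simpa using congrArg Hz.q e,
        by simpa using congrArg Hz.r e, by simpa using congrArg Hz.s e⟩)
  rw [mul_inv_eq_iff_eq_mul, h9_sl2_ext_iff] at hk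
  simp only [h9_sl2_mul_apply] at hk
  refine ⟨sl _ _ _ _ (h9_sl2_det k), ⟨rfl, rfl, rfl⟩, eq_mul_inv_of_mul_eq ?_⟩
  obtain ⟨h1, h3, h4⟩ := h
  ext
  · simp [*]
  · simp [*]
  · simp [*]
  exacts [hk.1.symm, hk.2.1.symm, hk.2.2.1.symm, hk.2.2.2.symm]

theorem Ls_center {g : Hz F} (h : g ∈ Ls) (h1 : g * n (0, 0, 1) = n (0, 0, 1) * g)
    (h2 : g * w0 = w0 * g) : g = 1 ∨ g = t := by
  have e1 : g.r = 0 := by simpa using congrArg Hz.p h1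
  have e2 : g.q = 0 := by simpa [e1] using congrArg Hz.p h2
  have e3 : g.p = g.s := by simpa using congrArg Hz.q h2
  obtain ⟨h1, h3, h4⟩ := h
  refine (mul_self_eq_one_iff.1 (show g.s * g.s = 1 by simpa [*] using g.det)).imp (fun k => ?_)
    fun k => ?_ <;> ext <;> simp [*]

theorem dec5 : ∀ p q r s : ZMod 3, ∀ h, R3 (sl p q r s h) → (s = p ∧ r = -q ∧ p * q = 0) ∨
    (s - r = -p - q ∧ -r - s = p - q ∧ (-p - q) * (q - p) = 0) := by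
  decide +kernel

variable (h3 : (3 : F) = 0)
include h3

/-- another element of order four -/
@[simps!] def i0 : Hz F := sl 1 1 1 (-1) (by linear_combination -h3)

theorem i0_mem : i0 h3 ∈ Rs h3 := ⟨by simp [Ss]; ring, rfl, Or.inl (by simp)⟩

theorem i0_sq : i0 h3 * i0 h3 = t := by
  ext <;> simp <;> linear_combination h3

theorem i0_w0 : i0 h3 * w0 * (i0 h3)⁻¹ = w0 * t := by
  ext <;> simp <;> first | linear_combination h3 | linear_combination -h3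

theorem w0_ne : (w0 : Hz F) ≠ 1 ∧ (w0 : Hz F) ≠ t :=
  ⟨fun h => by simpa using congrArg Hz.q h, fun h => by simpa using congrArg Hz.q h⟩

theorem Ws_le : Ws ≤ Rs h3 := fun g hg => by
  rcases Ws_cases hg with rfl | rfl | rfl | rfl
  exacts [one_mem _, t_mem_Rs h3, w0_mem_Rs h3, inv_mem (w0_mem_Rs h3)]

theorem Rs_W {g : Hz F} (h : g ∈ Rs h3) : g ∈ Ws ∨ g * (i0 h3)⁻¹ ∈ Ws := by
  obtain ⟨f, hf⟩ := exists_of_Ss h3
  obtain ⟨p, q, r, s, h', e⟩ := hf g h.1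
  have hL := Rs_le_Ls h3 h
  refine (dec5 p q r s h' ((R3_map f _ _).1 (e ▸ h.2.2))).imp (fun ⟨k1, k2, k3⟩ => ⟨hL, ?_⟩)
    fun ⟨k1, k2, k3⟩ => ⟨mul_mem hL (inv_mem (Rs_le_Ls h3 (i0_mem h3))), ?_⟩
  · rw [e]
    simpa [k1, k2, ← _root_.map_mul] using k3
  · have k1 := congrArg f k1
    have k2 := congrArg f k2
    have k3 := congrArg f k3
    simp only [map_add, map_sub, map_neg, _root_.map_mul, map_zero] at k1 k2 k3
    rw [e]
    refine ⟨?_, ?_, ?_⟩ <;> simp only [mul_p, mul_q, mul_r, mul_s, inv_p, inv_q, inv_r, inv_s, i0_p,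
      i0_q, i0_r, i0_s, z_p, z_q, z_r, z_s, map_apply_p, map_apply_q, map_apply_r, map_apply_s, sl_p,
      sl_q, sl_r, sl_s]
    · linear_combination k1
    · linear_combination k2
    · linear_combination k3

end Hz

theorem conj_into {G : Type*} [Group G] [Finite G] {p : ℕ} [Fact p.Prime] {P K : Subgroup G}
    (h : IsSylowIn p P K) {y : G} (hy : y ∈ K) {k : ℕ} (hk : y ^ p ^ k = 1) :
    ∃ g ∈ K, g * y * g⁻¹ ∈ P := by
  obtain ⟨g, hg, e⟩ := h.exists_conj_le (IsPGroup.of_card_dvd_pow (n := k) (G := zpowers y)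
    (by rw [Nat.card_zpowers]; exact orderOf_dvd_of_pow_eq_one hk)) (zpowers_le.2 hy)
  exact ⟨g, hg, e ⟨y, mem_zpowers y, rfl⟩⟩

namespace Amb2

variable {F G : Type*} [Field F] [Fintype F] [Group G] [Finite G] (A : Amb2 F G)

/-- central product of the two `SL₂` -/
def L0 : Subgroup G where
  carrier := {g | ∃ l ∈ Ls, ∃ l' ∈ Ls, g = A.sw.j l * A.j l'}
  one_mem' := ⟨1, one_mem _, 1, one_mem _, by simp⟩
  mul_mem' := by
    rintro _ _ ⟨a, ha, b, hb, rfl⟩ ⟨c, hc, d, hd, rfl⟩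
    exact ⟨_, mul_mem ha hc, _, mul_mem hb hd, by
      rw [map_mul, map_mul, mul_assoc, ← mul_assoc (A.j b), ← A.LL hc hb]; group⟩
  inv_mem' := by
    rintro _ ⟨a, ha, b, hb, rfl⟩
    exact ⟨_, inv_mem ha, _, inv_mem hb, by rw [A.LL (inv_mem ha) (inv_mem hb)]; simp⟩

theorem j_L0 {l : Hz F} (h : l ∈ Ls) : A.j l ∈ A.L0 := ⟨1, one_mem _, l, h, by simp⟩

theorem j1_L0 {l : Hz F} (h : l ∈ Ls) : A.sw.j l ∈ A.L0 := ⟨l, h, 1, one_mem _, by simp⟩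

theorem w_j (c : Hz F) : A.w * A.j c = A.sw.j c * A.w := by rw [sw_j, inv_mul_cancel_right]

theorem w_j1 (c : Hz F) : A.w * A.sw.j c = A.j c * A.w := by
  rw [sw_j, ← mul_assoc, ← mul_assoc, A.w_mul_w, one_mul, A.w_inv]

theorem w_L0 {x : G} (h : x ∈ A.L0) : A.w * x * A.w ∈ A.L0 := by
  obtain ⟨a, ha, b, hb, rfl⟩ := h
  rw [← mul_assoc, w_j1, mul_assoc (A.j a), w_j, mul_assoc, mul_assoc, A.w_mul_w, mul_one]
  exact mul_mem (A.j_L0 ha) (A.j1_L0 hb)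

/-- the centralizer of the involution in the symplectic group -/
def K0 : Subgroup G where
  carrier := {g | g ∈ A.L0 ∨ g * A.w ∈ A.L0}
  one_mem' := Or.inl (one_mem _)
  mul_mem' := by
    rintro a b (ha | ha) (hb | hb)
    · exact Or.inl (mul_mem ha hb)
    · exact Or.inr (by rw [mul_assoc]; exact mul_mem ha hb)
    · refine Or.inr ?_
      convert mul_mem ha (A.w_L0 hb) using 1
      rw [mul_assoc a A.w, ← mul_assoc A.w, ← mul_assoc A.w, A.w_mul_w, one_mul, mul_assoc]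
    · refine Or.inl ?_
      convert mul_mem ha (A.w_L0 hb) using 1
      rw [mul_assoc a A.w, ← mul_assoc A.w, ← mul_assoc A.w, A.w_mul_w, one_mul, mul_assoc b,
        A.w_mul_w, mul_one]
  inv_mem' := by
    rintro a (ha | ha)
    · exact Or.inl (inv_mem ha)
    · refine Or.inr ?_
      convert A.w_L0 (inv_mem ha) using 1
      rw [mul_inv_rev, A.w_inv, ← mul_assoc, A.w_mul_w, one_mul]

theorem L0_le : A.L0 ≤ A.K0 := fun _ h => Or.inl h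

theorem w_K0 : A.w ∈ A.K0 := Or.inr (by rw [A.w_mul_w]; exact one_mem _)

theorem j_K0 {l : Hz F} (h : l ∈ Ls) : A.j l ∈ A.K0 := A.L0_le (A.j_L0 h)

theorem j1_K0 {l : Hz F} (h : l ∈ Ls) : A.sw.j l ∈ A.K0 := A.L0_le (A.j1_L0 h)

theorem K0_cases {g : G} (h : g ∈ A.K0) : ∃ l ∈ Ls, ∃ l' ∈ Ls, g = A.sw.j l * A.j l' ∨
    g = A.sw.j l * A.j l' * A.w := by
  rcases h with ⟨a, ha, b, hb, h⟩ | ⟨a, ha, b, hb, h⟩
  · exact ⟨a, ha, b, hb, Or.inl h⟩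
  · exact ⟨a, ha, b, hb, Or.inr (by rw [← h, mul_assoc, A.w_mul_w, mul_one])⟩

theorem j_t {l : Hz F} (h : l ∈ Ls) : Commute (A.j l) (A.j Hz.t) := Commute.map (Ls_t h) A.j

theorem j1_t {l : Hz F} (h : l ∈ Ls) : Commute (A.sw.j l) (A.j Hz.t) := A.sw_t ▸ A.sw.j_t h

theorem K0_t {g : G} (h : g ∈ A.K0) : Commute g (A.j Hz.t) := by
  obtain ⟨a, ha, b, hb, rfl | rfl⟩ := A.K0_cases h
  exacts [(A.j1_t ha).mul_left (A.j_t hb), ((A.j1_t ha).mul_left (A.j_t hb)).mul_left A.w_t]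

theorem LL_inj {l l' : Hz F} (h : l ∈ Ls) (h' : l' ∈ Ls) (e : A.sw.j l * A.j l' = 1) :
    (l = 1 ∧ l' = 1) ∨ (l = Hz.t ∧ l' = Hz.t) := by
  have k : ∀ c ∈ Ls, l' * c = c * l' := fun c hc => A.inj (by
    rw [map_mul, map_mul, eq_inv_of_mul_eq_one_right e]
    exact Commute.inv_left (A.LL h hc))
  rcases Ls_center h' (k _ (by simp [Ls])) (k _ w0_mem) with rfl | rfl
  · exact Or.inl ⟨A.sw.inj (by simpa using e), rfl⟩
  · exact Or.inr ⟨A.sw.inj (by rw [eq_inv_of_mul_eq_one_left e, A.t_inv, sw_t]), rfl⟩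

theorem j1_eq {l l' : Hz F} (h : l ∈ Ls) (h' : l' ∈ Ls) (e : A.sw.j l = A.j l') :
    l = 1 ∨ l = Hz.t :=
  (A.LL_inj h (inv_mem h') (by simp [e])).imp And.left And.left

theorem z_L0 (a : F) : A.j (z a) ∈ A.L0 := by
  rw [z_eq, ← sw_n]; exact A.j1_L0 (by simp [Ls])

theorem HK0 {g : G} (h : g ∈ A.H) (hk : Commute g (A.j Hz.t)) : g ∈ A.L0 := by
  obtain ⟨μ, a, c, hc, rfl⟩ := A.HK h hk
  rw [map_mul, ← sw_τ]
  exact mul_mem (A.j1_L0 (by simp [Ls])) (mul_mem (A.z_L0 a) (A.j_L0 hc))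

theorem V0_L0 : A.V0 ≤ A.L0 := by
  rintro _ ⟨a, c, rfl⟩
  rw [show n (a, 0, c) = z a * n (0, 0, c) by ext <;> simp, map_mul]
  exact mul_mem (A.z_L0 a) (A.j_L0 (by simp [Ls]))

theorem SC0 {g : G} (hk : Commute g (A.j Hz.t)) {a : F} (ha : a ≠ 0)
    (h : g * A.j (z a) * g⁻¹ ∈ A.K0) : g ∈ A.K0 := by
  haveI : Fact (Nat.Prime 3) := ⟨Nat.prime_three⟩
  obtain ⟨k, k1, x, y, e⟩ := conj_into (A.syl0.mono (A.V0_L0.trans A.L0_le) fun x hx =>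
    mem_centralizer_singleton_iff.2 (A.K0_t hx)) h (k := 1) (by
      rw [pow_one, conj_pow, A.M_cube (A.Z_le_M (A.z_mem a))]; simp)
  replace e : k * g * A.j (z a) * (k * g)⁻¹ = A.j (n (x, 0, y)) := by rw [← e]; group
  have k2 := (A.K0_t k1).mul_left hk
  obtain ⟨α, γ, rfl, e2, rfl⟩ := A.fusz ha e
  refine (A.K0.mul_mem_cancel_left k1).1 ?_
  by_cases h0 : γ = 0
  · exact A.L0_le (A.HK0 (A.H_of_z ha (by rw [e, h0]; simpa [z_eq] using A.z_mem (α ^ 2 * a))) k2)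
  · have : α = 0 := by simpa [h0, ha] using e2
    refine (A.K0.mul_mem_cancel_left A.w_K0).1 (A.L0_le (A.HK0 (A.H_of_z ha ?_)
      (Commute.mul_left A.w_t k2)))
    rw [mul_inv_rev, mul_assoc A.w, mul_assoc A.w, ← mul_assoc _ _ A.w⁻¹, e, ← mul_assoc, A.w_n, this]
    simpa [z_eq] using A.z_mem (γ ^ 2 * a)

theorem R_L0 : A.R ≤ A.L0 := by rintro _ ⟨r, hr, rfl⟩; exact A.j_L0 (Rs_le_Ls A.h3 hr)

theorem NR0 {x : G} (h : x ∈ normalizer (A.R : Set G)) : x ∈ A.L0 := by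
  obtain ⟨r, hr, a, l, hl, e⟩ := A.k3 h
  rw [← A.L0.mul_mem_cancel_left (A.R_L0 hr), e, map_mul, z_eq, sw_n]
  exact mul_mem (A.j_L0 (by simp [Ls])) (A.j1_L0 hl)

theorem sq1 {l l' : Hz F} (h : l ∈ Ls) (h' : l' ∈ Ls) :
    A.sw.j l * A.j l' * (A.sw.j l * A.j l') = A.sw.j (l * l) * A.j (l' * l') := by
  rw [map_mul, map_mul, mul_assoc, ← mul_assoc (A.j l'), ← A.LL h h']; group

theorem sq2 {l l' : Hz F} (h' : l' ∈ Ls) (h : l ∈ Ls) :
    A.sw.j l * A.j l' * A.w * (A.sw.j l * A.j l' * A.w) = A.sw.j (l * l') * A.j (l' * l) := by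
  rw [← mul_assoc, ← mul_assoc, mul_assoc _ A.w, w_j1, ← mul_assoc, mul_assoc _ A.w, w_j, ← mul_assoc,
    mul_assoc _ A.w, A.w_mul_w, mul_one, mul_assoc _ (A.j l'), ← map_mul, mul_assoc,
    ← A.LL h' (mul_mem h' h), map_mul A.sw.j, mul_assoc]

theorem sqt {x : G} (h : x ∈ A.K0) (e : x * x = A.j Hz.t) :
    ∃ l ∈ Ls, l * l = Hz.t ∧ (x = A.j l ∨ x = A.sw.j l) := by
  have tt : ∀ c : Hz F, c ∈ Ls → c * Hz.t * (c * Hz.t) = c * c := fun c hc => by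
    rw [mul_assoc, ← mul_assoc Hz.t, ← Ls_t hc, mul_assoc, t_mul_t, mul_one]
  obtain ⟨a, ha, b, hb, rfl | rfl⟩ := A.K0_cases h
  · rw [A.sq1 ha hb, ← mul_inv_eq_one, mul_assoc, ← map_inv, ← map_mul] at e
    rcases A.LL_inj (mul_mem ha ha) (mul_mem (mul_mem hb hb) (inv_mem t_mem_Ls)) e with ⟨e1, e2⟩ | ⟨e1, e2⟩
    · rw [mul_inv_eq_one] at e2
      rcases Ls_sq A.h2 ha e1 with rfl | rfl
      · exact ⟨b, hb, e2, Or.inl (by simp)⟩
      · exact ⟨_, mul_mem hb t_mem_Ls, (tt b hb).trans e2, Or.inl (by rw [sw_t, Ls_t hb, map_mul])⟩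
    · rw [mul_inv_eq_iff_eq_mul, t_mul_t] at e2
      rcases Ls_sq A.h2 hb e2 with rfl | rfl
      · exact ⟨a, ha, e1, Or.inr (by simp)⟩
      · exact ⟨_, mul_mem ha t_mem_Ls, (tt a ha).trans e1, Or.inr (by rw [map_mul, sw_t])⟩
  · rw [A.sq2 hb ha, ← mul_inv_eq_one, mul_assoc, ← map_inv, ← map_mul] at e
    rcases A.LL_inj (mul_mem ha hb) (mul_mem (mul_mem hb ha) (inv_mem t_mem_Ls)) e with ⟨e1, e2⟩ | ⟨e1, e2⟩
    · rw [mul_eq_one_comm.1 e1, one_mul, inv_eq_one] at e2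
      exact absurd e2 (t_ne_one A.h3)
    · rw [mul_inv_eq_iff_eq_mul, t_mul_t, mul_eq_one_comm, e1] at e2
      exact absurd e2 (t_ne_one A.h3)

theorem inv0 {x : G} (h : x ∈ A.K0) (e : x * x = 1) : x = 1 ∨ x = A.j Hz.t ∨
    (∃ l ∈ Ls, ∃ l' ∈ Ls, l * l = Hz.t ∧ l' * l' = Hz.t ∧ x = A.sw.j l * A.j l') ∨
    ∃ l ∈ Ls, x = A.sw.j l * A.j l⁻¹ * A.w ∨ x = A.sw.j l * A.j l⁻¹ * A.w * A.j Hz.t := by
  obtain ⟨a, ha, b, hb, rfl | rfl⟩ := A.K0_cases h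
  · rw [A.sq1 ha hb] at e
    rcases A.LL_inj (mul_mem ha ha) (mul_mem hb hb) e with ⟨e1, e2⟩ | ⟨e1, e2⟩
    · rcases Ls_sq A.h2 ha e1 with rfl | rfl <;> rcases Ls_sq A.h2 hb e2 with rfl | rfl <;>
        simp [sw_t, A.tt]
    · exact Or.inr (Or.inr (Or.inl ⟨a, ha, b, hb, e1, e2, rfl⟩))
  · rw [A.sq2 hb ha] at e
    refine Or.inr (Or.inr (Or.inr ⟨a, ha, ?_⟩))
    rcases A.LL_inj (mul_mem ha hb) (mul_mem hb ha) e with ⟨e1, -⟩ | ⟨e1, -⟩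
    · exact Or.inl (by rw [eq_inv_of_mul_eq_one_right e1])
    · exact Or.inr (by rw [eq_inv_mul_of_mul_eq e1, map_mul, mul_assoc _ A.w, A.w_t]; group)

end Amb2

end Cfsg.Lib.Hay
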