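import Cfsg.Agent.Lib.Hay.K4

/-!
The centralizer of the `2`-central involution.
-/

set_option autoImplicit false

namespace Cfsg.Lib.Hay

open Subgroup Hz

section
variable {G : Type*} [Group G]

/-- subgroup generated by an involution -/
def two (a : G) (h : a * a = 1) : Subgroup G where
  carrier := {x | x = 1 ∨ x = a}
  one_mem' := Or.inl rfl
  mul_mem' := by rintro _ _ (rfl | rfl) (rfl | rfl) <;> simp [h]
  inv_mem' := by rintro _ (rfl | rfl) <;> simp [inv_eq_of_mul_eq_one_right h]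

/-- subgroup generated by two commuting involutions -/
def four (a b : G) (h : a * a = 1) (h' : b * b = 1) (c : a * b = b * a) : Subgroup G where
  carrier := {x | x = 1 ∨ x = a ∨ x = b ∨ x = b * a}
  one_mem' := Or.inl rfl
  mul_mem' := by
    have e1 : ∀ x, a * (a * x) = x := fun x => by rw [← mul_assoc, h, one_mul]
    have e2 : ∀ x, b * (b * x) = x := fun x => by rw [← mul_assoc, h', one_mul]
    have e3 : ∀ x, a * (b * x) = b * (a * x) := fun x => by rw [← mul_assoc, c, mul_assoc]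
    rintro _ _ (rfl | rfl | rfl | rfl) (rfl | rfl | rfl | rfl) <;> simp [*, mul_assoc]
  inv_mem' := by
    rintro _ (rfl | rfl | rfl | rfl) <;>
      simp [inv_eq_of_mul_eq_one_right h, inv_eq_of_mul_eq_one_right h', c]

theorem dih_mod [Finite G] (Y W : Subgroup G) (hW : ∀ y ∈ Y, ∀ w ∈ W, y * w * y⁻¹ ∈ W) {x y : G}
    (hx : x ∈ Y) (hy : y ∈ Y) (x2 : x * x ∈ W) (y2 : y * y ∈ W) : (∃ g ∈ Y, g * x * g⁻¹ * y⁻¹ ∈ W) ∨
    ∃ e ∈ Y, e ∉ W ∧ e * e ∈ W ∧ e * x * e⁻¹ * x⁻¹ ∈ W ∧ y * e * y⁻¹ * e⁻¹ ∈ W := by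
  haveI : (W.subgroupOf Y).Normal := ⟨fun w hw y => hW y y.2 w hw⟩
  let π := QuotientGroup.mk' (W.subgroupOf Y)
  have π1 : ∀ y : Y, π y = 1 ↔ (y : G) ∈ W := fun y => QuotientGroup.eq_one_iff y
  have comm : ∀ a b : Y, π a * π b = π b * π a ↔ (a : G) * b * (a : G)⁻¹ * (b : G)⁻¹ ∈ W := by
    intro a b
    rw [← commutatorElement_eq_one_iff_mul_comm, ← map_commutatorElement, π1]; rfl
  let x' : Y := ⟨x, hx⟩
  let y' : Y := ⟨y, hy⟩
  have h1 : π x' * π x' = 1 := by rw [← map_mul, π1]; exact x2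
  have h2 : π y' * π y' = 1 := by rw [← map_mul, π1]; exact y2
  rcases Nat.even_or_odd (orderOf (π x' * π y')) with h | h
  · obtain ⟨m, -, k1, k2, k3⟩ := h9_central_invol_of_even h1 h2 h
    rw [← map_mul, ← map_pow] at k1 k2 k3
    refine Or.inr ⟨_, ((x' * y') ^ m).2, fun e => ?_, (π1 (_ * _)).1 ?_, (comm _ x').1 k2,
      (comm y' _).1 k3.symm⟩
    · rw [(π1 _).2 e, orderOf_one] at k1; omega
    · rw [map_mul, ← sq, ← k1, pow_orderOf_eq_one]
  · obtain ⟨k, hk⟩ := h9_conj_of_odd h1 h2 h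
    refine Or.inl ⟨_, ((x' * y') ^ k).2, (π1 (_ * x' * _⁻¹ * y'⁻¹)).1 ?_⟩
    simp only [map_mul, map_inv, map_pow, hk, mul_inv_cancel]

end

theorem Hz.comm_w0 {F : Type*} [Field F] (h2 : (2 : F) ≠ 0) {l : Hz F} (h : l ∈ Ls) (e : l * l = t)
    (c : l * w0 = w0 * l) : l = w0 ∨ l = w0 * t := by
  have e1 : l.r = -l.q := by simpa [neg_eq_iff_eq_neg, eq_comm] using congrArg Hz.p c
  have e2 : l.s = l.p := by simpa [eq_comm] using congrArg Hz.q c
  have e3 : l.p * l.q = 0 := mul_left_cancel₀ h2 (by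
    have := congrArg Hz.q e
    simp only [mul_q, e2, t_q] at this
    linear_combination this)
  have e4 : (1 : F) ≠ -1 := fun h => h2 (by linear_combination h)
  rcases Ws_cases ⟨h, e2, e1, e3⟩ with rfl | rfl | rfl | rfl
  · exact absurd (by simpa using congrArg Hz.p e) e4
  · exact absurd (by simpa using congrArg Hz.p e) e4
  · exact Or.inl rfl
  · exact Or.inr w0_inv

namespace Amb2

variable {F G : Type*} [Field F] [Fintype F] [Group G] [Finite G] (A : Amb2 F G)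

/-- cyclic group of order four -/
def W : Subgroup G := Ws.map A.j

omit [Finite G] in
theorem W_cases {x : G} (h : x ∈ A.W) :
    x = 1 ∨ x = A.j Hz.t ∨ x = A.j w0 ∨ x = (A.j w0)⁻¹ := by
  obtain ⟨c, hc, rfl⟩ := h
  rcases Ws_cases hc with rfl | rfl | rfl | rfl <;> simp

omit [Finite G] in
theorem W_R : A.W ≤ A.R := map_mono (Ws_le A.h3)

omit [Finite G] in
theorem j_sq {l : Hz F} (h : l * l = Hz.t) : A.j l * A.j l = A.j Hz.t := by rw [← map_mul, h]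

theorem mem_NW {g : G} (h : g * A.j w0 * g⁻¹ ∈ A.W) : g ∈ normalizer (A.W : Set G) :=
  mem_normalizer_fintype fun x hx => by
    rcases A.W_cases hx with rfl | rfl | rfl | rfl
    · simp
    · rw [← A.j_sq w0_sq, ← conj_mul]; exact mul_mem h h
    · exact h
    · rw [← conj_inv]; exact inv_mem h

theorem NW_t {x : G} (h : x ∈ normalizer (A.W : Set G)) : Commute x (A.j Hz.t) :=
  mul_inv_eq_iff_eq_mul.1 (A.R_invol (A.W_R ((mem_normalizer_iff.1 h _).1 (A.mem_map_j.2 t_mem_Ws)))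
    (mt conj_eq_one_iff.1 A.t_ne_one) (by rw [conj_mul, A.tt]; simp))

theorem NW_cases {x : G} (h : x ∈ normalizer (A.W : Set G)) :
    x * A.j w0 * x⁻¹ = A.j w0 ∨ x * A.j w0 * x⁻¹ = (A.j w0)⁻¹ := by
  have : x * A.j w0 * x⁻¹ * (x * A.j w0 * x⁻¹) ≠ 1 := by
    rw [conj_mul, A.j_sq w0_sq]; exact mt conj_eq_one_iff.1 A.t_ne_one
  rcases A.W_cases ((mem_normalizer_iff.1 h _).1 (A.mem_map_j.2 w0_mem_Ws)) with e | e | e
  · simp [e] at this
  · simp [e, A.tt] at this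
  · exact e

theorem K3 {y : G} (h : Commute y (A.j Hz.t)) {k : ℕ} (hk : y ^ 3 ^ k = 1) : y ^ 3 = 1 := by
  haveI : Fact (Nat.Prime 3) := ⟨Nat.prime_three⟩
  obtain ⟨g, -, e⟩ := conj_into A.syl0 (mem_centralizer_singleton_iff.2 h) hk
  simpa using (conj_pow (a := g)).symm.trans (A.M_cube (A.V0_le_M e))

theorem z_NW (a : F) : A.j (z a) ∈ normalizer (A.W : Set G) :=
  A.mem_NW (by rw [← A.z_comm, mul_inv_cancel_right]; exact A.mem_map_j.2 w0_mem_Ws)

theorem sylZ : IsSylowIn 3 A.Z (normalizer (A.W : Set G)) := by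
  haveI : Fact (Nat.Prime 3) := ⟨Nat.prime_three⟩
  refine isSylowIn_of_norm (A.isPGroup_P.to_le (A.Z_le_M.trans A.M_le_P)) (fun x hx => ?_)
    fun y y1 y2 k hk => ?_
  · obtain ⟨a, rfl⟩ := A.mem_Z hx
    exact A.z_NW a
  have y3 := A.K3 (A.NW_t y1) hk
  obtain ⟨c, rfl⟩ := A.mem_C y2 hk
  obtain ⟨h1, h2⟩ := cent_t A.h2 (c := c) (A.inj (by rw [map_mul, map_mul]; exact A.NW_t y1))
  rw [cw0 A.h3 h1 h2 (A.inj ?_) (A.inj (by rw [map_pow, y3, map_one]))]
  · exact A.z_mem _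
  · rw [map_mul, map_mul, ← mul_inv_eq_iff_eq_mul]
    exact (A.NW_cases y1).resolve_right fun e => A.t_ne_one ((A.j_sq w0_sq).symm.trans
      (h9_sq_eq_one_of_odd_inverts (Odd.of_dvd_nat (by decide) (orderOf_dvd_of_pow_eq_one y3)) e))

omit [Finite G] in
theorem z_pow (a : F) (i : ℕ) : A.j (z a) ^ i = A.j (z (i * a)) := by
  induction i with
  | zero => simpa using (A.jz_eq_one.2 rfl).symm
  | succ i ih => rw [pow_succ, ih, ← map_mul, ← z_add]; congr 2; push_cast; ring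

theorem k4 : normalizer (A.W : Set G) ≤ A.K0 := by
  haveI : Fact (Nat.Prime 3) := ⟨Nat.prime_three⟩
  obtain ⟨l0, l1, l2, l3⟩ := A.exists_big
  have WK : A.W ≤ A.K0 := A.W_R.trans (A.R_L0.trans A.L0_le)
  have iR : A.j (i0 A.h3) ∈ A.R := A.mem_map_j.2 (i0_mem _)
  have toR : ∀ g ∈ normalizer (A.W : Set G), g * A.j (i0 A.h3) * g⁻¹ * (A.j (i0 A.h3))⁻¹ ∈ A.W →
      g ∈ normalizer (A.R : Set G) := fun g g1 g2 => mem_normalizer_fintype (by
    rintro _ ⟨r, hr, rfl⟩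
    rcases Rs_W A.h3 hr with h | h
    · exact A.W_R ((mem_normalizer_iff.1 g1 _).1 (A.mem_map_j.2 h))
    · convert mul_mem (mul_mem (A.W_R ((mem_normalizer_iff.1 g1 _).1 (A.mem_map_j.2 h))) (A.W_R g2))
        iR using 1
      simp [mul_assoc])
  have hi : A.j (i0 A.h3) ∈ normalizer (A.W : Set G) := A.mem_NW (by
    rw [← map_inv, ← map_mul, ← map_mul, i0_w0]; exact A.mem_map_j.2 (mul_mem w0_mem_Ws t_mem_Ws))
  have zz : ∀ i j : ℕ, A.j (z 1) ^ i * A.j (z l0) ^ j = A.j (z (i + j * l0)) := fun i j => by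
    rw [z_pow, z_pow, ← map_mul, ← z_add, mul_one]
  refine zq _ A.W A.K0 le_normalizer (fun y hy w hw => (mem_normalizer_iff.1 hy _).1 hw) WK hi
    (by rw [A.j_sq (i0_sq _)]; exact A.mem_map_j.2 t_mem_Ws) (fun g g1 g2 => ?_)
    (fun g g1 g2 => A.L0_le (A.NR0 (toR g g1 g2))) (p := 3) (A.z_NW 1) (A.z_NW l0)
    (by rw [A.M_cube (A.Z_le_M (A.z_mem _))]; exact one_mem _)
    (by rw [A.M_cube (A.Z_le_M (A.z_mem _))]; exact one_mem _)
    (by rw [A.z_comm]; simp) (fun i j h1 h2 h => ?_) (fun i j _ _ h o o1 _ o2 => ?_) ?_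
  · have d1 := toR _ (mul_mem (mul_mem g1 hi) (inv_mem g1)) g2
    have d2 : ¬ Commute (g * A.j (i0 A.h3) * g⁻¹) (A.j w0) := fun h => by
      have h' : Commute (A.j (i0 A.h3)) (g⁻¹ * A.j w0 * g⁻¹⁻¹) := by
        simpa [mul_assoc] using h.map (MulAut.conj g⁻¹)
      have h'' : Commute (A.j (i0 A.h3)) (A.j w0) := by
        rcases A.NW_cases (inv_mem g1) with e | e <;> rw [e] at h'
        exacts [h', by simpa using h']
      have := i0_w0 A.h3
      rw [A.inj (show A.j (i0 A.h3 * w0) = A.j (w0 * i0 A.h3) by rw [map_mul, map_mul, h'']),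
        mul_inv_cancel_right, left_eq_mul] at this
      exact t_ne_one A.h3 this
    obtain ⟨l, hl, e1, e | e⟩ := A.sqt (A.L0_le (A.NR0 d1)) (by
      rw [conj_mul, A.j_sq (i0_sq _), (A.NW_t g1).eq, mul_inv_cancel_right]) <;> rw [e] at d1 d2 ⊢
    · rcases Rs_W A.h3 (mem_Rs_of_pow A.h3 (A.mem_map_j.1 (A.mem_S d1)) (k := 2) (by
        rw [show 2 ^ 2 = 2 * 2 from rfl, pow_mul, sq, sq, e1, t_mul_t])) with h | h
      · exact absurd (Commute.map (Ws_comm h) A.j) d2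
      · rw [← map_inv, ← map_mul]; exact A.mem_map_j.2 h
    · exact absurd (A.LL hl w0_mem) d2
  · rw [zz] at h
    have h : (i : F) + j * l0 = 0 := (A.mem_map_j.1 h).1.1
    have h3 := A.h3
    interval_cases i <;> interval_cases j <;> push_cast at h <;>
      first | exact ⟨rfl, rfl⟩ | exact (l1 (by linear_combination h)).elim |
        exact (l1 (by linear_combination -h + l0 * h3)).elim |
        exact (A.h2 (by linear_combination h)).elim | exact (A.h2 (by linear_combination h3 - h)).elim |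
        exact (l3 (by linear_combination h)).elim | exact (l2 (by linear_combination h - h3)).elim |
        exact (l2 (by linear_combination l0 * h3 - h)).elim |
        exact (l3 (by linear_combination (l0 + 1) * h3 - h)).elim
  · rw [zz] at h o2
    refine A.SC0 (A.NW_t o1) (a := i + j * l0) (fun e => h ?_)
      ((A.K0.mul_mem_cancel_right (inv_mem (A.L0_le (A.z_L0 _)))).1 (WK o2))
    rw [A.jz_eq_one.2 e]; exact one_mem _
  · intro O O1 O2 O3 O4 o o1 o2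
    by_contra o3
    obtain ⟨c, c1, c2⟩ := o2
    obtain ⟨y, y1, y2⟩ := conj_into A.sylZ (O2 (pow_mem o1 4)) (k := 1) (by
      rw [pow_one, pow_right_comm, ← c2, ← map_pow, Rs_pow4 A.h3 (Ws_le A.h3 c1), map_one])
    obtain ⟨a, ha⟩ := A.mem_Z y2
    have a0 : a ≠ 0 := fun e => o3 (by
      rw [A.jz_eq_one.2 e, conj_eq_one_iff, pow_succ, ← c2] at ha
      rw [eq_inv_of_mul_eq_one_right ha]; exact inv_mem ⟨c, c1, rfl⟩)
    have y3 := O3 y y1 _ (pow_mem o1 4)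
    rw [ha, z_eq, ← sw_n] at y3
    let k : Hz F := sl 0 a (-a⁻¹) 0 (by simp [a0])
    have y4 := mul_mem y3 (O3 (A.sw.j k) (A.mem_NW (by
      rw [A.LL ⟨rfl, rfl, rfl⟩ w0_mem, mul_inv_cancel_right]; exact A.mem_map_j.2 w0_mem_Ws)) _ (inv_mem y3))
    rw [← map_inv, ← map_inv, ← map_mul, ← map_mul, ← map_mul, show n (0, 0, a) * (k * (n (0, 0, a))⁻¹ * k⁻¹)
      = sl 2 a a⁻¹ 1 (by simp [a0]; ring) by ext <;> simp [k, a0]; ring] at y4
    obtain ⟨e, e1, e2⟩ := O4 _ y4 (by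
      rw [A.sw.j_sq, sw_t]
      · exact A.mem_map_j.2 t_mem_Ws
      · ext <;> simp [a0] <;> first | linear_combination 2 * A.h3 | linear_combination A.h3 |
          linear_combination a * A.h3 | linear_combination a⁻¹ * A.h3)
    rcases A.j1_eq ⟨rfl, rfl, rfl⟩ e1.1 e2.symm with h | h <;> exact a0 (by simpa using congrArg Hz.q h)

omit [Finite G] in
include A in
theorem odd : Odd (Fintype.card F) := by have := A.h4; exact Nat.odd_iff.2 (by omega)

theorem k4l {l : Hz F} (h : l ∈ Ls) (e : l * l = Hz.t) {g : G}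
    (hg : g * A.j l * g⁻¹ * (A.j l)⁻¹ ∈ two _ A.tt) : g ∈ A.K0 := by
  obtain ⟨k, hk, rfl⟩ := conj_w0 A.odd h e
  have := A.k4 (A.mem_NW (g := (A.j k)⁻¹ * g * A.j k) (by
    have e : (A.j k)⁻¹ * g * A.j k * A.j w0 * ((A.j k)⁻¹ * g * A.j k)⁻¹ = (A.j k)⁻¹ * (g * A.j (k * w0 * k⁻¹) *
        g⁻¹ * (A.j (k * w0 * k⁻¹))⁻¹) * A.j k * A.j w0 := by simp [mul_assoc]
    rw [e]
    rcases hg with h | h <;> rw [h]
    · rw [mul_one, inv_mul_cancel, one_mul]; exact A.mem_map_j.2 w0_mem_Ws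
    · rw [mul_assoc _ (A.j Hz.t), ← (A.j_t hk).eq, inv_mul_cancel_left]
      exact mul_mem (A.mem_map_j.2 t_mem_Ws) (A.mem_map_j.2 w0_mem_Ws)))
  rwa [A.K0.mul_mem_cancel_right (A.j_K0 hk), A.K0.mul_mem_cancel_left (inv_mem (A.j_K0 hk))] at this

theorem k4l' {l : Hz F} (h : l ∈ Ls) (e : l * l = Hz.t) {g : G}
    (hg : g * A.sw.j l * g⁻¹ * (A.sw.j l)⁻¹ ∈ two _ A.tt) : g ∈ A.K0 := by
  have := A.k4l h e (g := A.w⁻¹ * g * A.w) (by
    have e : A.w⁻¹ * g * A.w * A.j l * (A.w⁻¹ * g * A.w)⁻¹ * (A.j l)⁻¹ = A.w⁻¹ * (g * A.sw.j l *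
        g⁻¹ * (A.sw.j l)⁻¹) * A.w := by simp [mul_assoc, sw_j]
    rw [e]
    rcases hg with h | h <;> rw [h]
    · simp [one_mem]
    · rw [mul_assoc, ← A.w_t, inv_mul_cancel_left]; exact Or.inr rfl)
  rwa [A.K0.mul_mem_cancel_right A.w_K0, A.K0.mul_mem_cancel_left (inv_mem A.w_K0)] at this

/-- product of the two Weyl elements -/
def c : G := A.sw.j w0 * A.j w0

theorem c_K0 : A.c ∈ A.K0 := mul_mem (A.j1_K0 w0_mem) (A.j_K0 w0_mem)

theorem cc : A.c * A.c = 1 := by rw [c, A.sq1 w0_mem w0_mem, w0_sq, sw_t, A.tt]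

theorem c_ne : A.c ∉ two _ A.tt := by
  have := w0_ne (F := F) A.h3
  rintro (h | h)
  · exact (A.LL_inj w0_mem w0_mem h).elim (fun h => this.1 h.1) fun h => this.2 h.1
  · exact (A.j1_eq w0_mem (mul_mem t_mem_Ls (inv_mem w0_mem)) (by
      rw [map_mul, map_inv, ← h, c, mul_inv_cancel_right])).elim this.1 this.2

theorem k6 {g : G} (h1 : Commute g (A.j Hz.t)) (h2 : g * A.c * g⁻¹ * A.c⁻¹ ∈ two _ A.tt) :
    g ∈ A.K0 := by
  haveI : Fact (Nat.Prime 2) := ⟨Nat.prime_two⟩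
  have ct := A.K0_t A.c_K0
  let W := four _ _ A.tt A.cc ct.symm
  have WK : W ≤ A.K0 := by
    rintro _ (rfl | rfl | rfl | rfl)
    exacts [one_mem _, A.j_K0 t_mem_Ls, A.c_K0, mul_mem A.c_K0 (A.j_K0 t_mem_Ls)]
  have tW : A.j Hz.t ∈ W := Or.inr (Or.inl rfl)
  have cW : A.c ∈ W := Or.inr (Or.inr (Or.inl rfl))
  have W2 : ∀ x ∈ W, x * x = 1 := by
    rintro _ (rfl | rfl | rfl | rfl)
    exacts [mul_one _, A.tt, A.cc, by rw [ct.symm.mul_mul_mul_comm, A.cc, A.tt, mul_one]]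
  have ci : Commute (A.j w0) A.c := Commute.mul_right A.braid.symm (Commute.refl _)
  have Wi : ∀ x ∈ W, Commute (A.j w0) x := by
    rintro _ (rfl | rfl | rfl | rfl)
    exacts [Commute.one_right _, A.j_t w0_mem, ci, ci.mul_right (A.j_t w0_mem)]
  have mY : ∀ g, Commute g (A.j Hz.t) → g * A.c * g⁻¹ ∈ W →
      g ∈ normalizer (W : Set G) ⊓ centralizer {A.j Hz.t} := fun g g1 g2 =>
    ⟨mem_normalizer_fintype (by
      have := g1.mul_inv_cancel
      rintro _ (rfl | rfl | rfl | rfl)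
      · simp
      · rwa [this]
      · exact g2
      · rw [← conj_mul, this]; exact mul_mem g2 tW), mem_centralizer_singleton_iff.2 g1⟩
  have Yt : ∀ g ∈ normalizer (W : Set G) ⊓ centralizer {A.j Hz.t}, Commute g (A.j Hz.t) :=
    fun g hg => mem_centralizer_singleton_iff.1 hg.2
  have kk : ∀ g, g * A.j w0 * g⁻¹ * (A.j w0)⁻¹ ∈ W → g ∈ A.K0 := by
    have k : ∀ g, g * A.j w0 * g⁻¹ * (A.sw.j w0)⁻¹ ∈ two _ A.tt → g ∈ A.K0 := fun g h =>
      (A.K0.mul_mem_cancel_left A.w_K0).1 (A.k4l w0_mem w0_sq (by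
        have e : A.w * g * A.j w0 * (A.w * g)⁻¹ * (A.j w0)⁻¹ = A.w * (g * A.j w0 * g⁻¹ * (A.sw.j w0)⁻¹) *
          A.w⁻¹ := by simp [sw_j, mul_assoc, A.w_inv, A.w_mul_w]
        rw [e]
        rcases h with h | h <;> rw [h]
        · simp [one_mem]
        · rw [A.w_t, mul_inv_cancel_right]; exact Or.inr rfl))
    rintro g (h | h | h | h)
    · exact A.k4l w0_mem w0_sq (Or.inl h)
    · exact A.k4l w0_mem w0_sq (Or.inr h)
    · refine k g (Or.inr ?_)
      rw [eq_mul_of_mul_inv_eq h, c, mul_assoc (A.sw.j w0), A.j_sq w0_sq, (A.j1_t w0_mem).mul_inv_cancel]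
    · refine k g (Or.inl ?_)
      rw [eq_mul_of_mul_inv_eq h, mul_assoc A.c, ← (A.j_t w0_mem).eq, c, mul_assoc (A.sw.j w0),
        ← mul_assoc (A.j w0), A.j_sq w0_sq, A.tt, mul_one, mul_inv_cancel]
  have hi := mY _ (A.j_t w0_mem) (by rwa [ci.mul_inv_cancel])
  have i0L := Rs_le_Ls A.h3 (i0_mem A.h3)
  have sq : ∀ i j : ℕ, i < 2 → j < 2 → (i = 0 ∧ j = 0) ∨ ∃ l ∈ Ls, l * l = Hz.t ∧
      A.j w0 ^ i * A.j (i0 A.h3) ^ j = A.j l := fun i j h1 h2 => by
    interval_cases i <;> interval_cases j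
    · exact Or.inl ⟨rfl, rfl⟩
    · exact Or.inr ⟨_, i0L, i0_sq _, by simp⟩
    · exact Or.inr ⟨_, w0_mem, w0_sq, by simp⟩
    · refine Or.inr ⟨_, mul_mem w0_mem i0L, ?_, by simp⟩
      ext <;> simp <;> linear_combination A.h3
  refine zq (normalizer (W : Set G) ⊓ centralizer {A.j Hz.t}) W A.K0
    (fun x hx => ⟨le_normalizer hx, mem_centralizer_singleton_iff.2 (A.K0_t (WK hx))⟩)
    (fun y hy w hw => (mem_normalizer_iff.1 hy.1 _).1 hw) WK hi (by rwa [A.j_sq w0_sq])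
    (fun g g1 g2 => ?_) (fun g _ => kk g) (p := 2) hi (b := A.j (i0 A.h3)) (mY _ (A.j_t i0L) ?_)
    (by rwa [pow_two, A.j_sq w0_sq]) (by rwa [pow_two, A.j_sq (i0_sq _)]) ?_ (fun i j h1 h2 h => ?_)
    (fun i j h1 h2 h o o1 o2 o3 => ?_) (fun O _ _ _ h o o1 o2 => h o o1 (by rwa [← pow_two]))
    (mY g h1 ?_)
  · have d1 : Commute (g * A.j w0 * g⁻¹) A.c := by
      simpa [mul_assoc] using (Wi _ ((mem_normalizer_iff.1 (inv_mem g1.1) _).1 cW)).map (MulAut.conj g)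
    obtain ⟨l, hl, e1, e | e⟩ := A.sqt (kk _ g2) (by
      rw [conj_mul, A.j_sq w0_sq, (Yt g g1).mul_inv_cancel]) <;> rw [e] at d1 ⊢
    · have : Commute (A.j l) (A.j w0) := by
        simpa [c] using Commute.mul_right (Commute.inv_right (A.LL w0_mem hl).symm) d1
      rcases comm_w0 A.h2 hl e1 (A.inj (by rw [map_mul, map_mul, this.eq])) with rfl | rfl
      · simp [one_mem]
      · rwa [map_mul, (A.j_t w0_mem).mul_inv_cancel]
    · have : Commute (A.sw.j l) (A.sw.j w0) := by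
        simpa [c] using Commute.mul_right d1 (Commute.inv_right (A.LL hl w0_mem))
      rcases comm_w0 A.h2 hl e1 (A.sw.inj (by rw [map_mul, map_mul, this.eq])) with rfl | rfl
      · rw [← map_inv, w0_inv, map_mul, ← mul_assoc]; exact mul_mem cW tW
      · rw [← map_inv, w0_inv, Ls_t w0_mem, map_mul, map_mul, sw_t, ← (A.j1_t w0_mem).eq, mul_assoc,
          ← mul_assoc (A.j Hz.t), A.tt, one_mul]
        exact cW
  · rw [c, ← mul_assoc, ← A.LL w0_mem i0L, mul_assoc, mul_assoc, ← map_inv, ← map_mul, ← map_mul,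
      ← mul_assoc, i0_w0, map_mul, ← mul_assoc]
    exact mul_mem cW tW
  · rw [← map_inv, ← map_inv, ← map_mul, ← map_mul, ← map_mul]
    convert tW using 2
    ext <;> simp <;> linear_combination A.h3
  · refine (sq i j h1 h2).resolve_right fun ⟨l, _, e1, e⟩ => A.t_ne_one ?_
    rw [← W2 _ h, e, A.j_sq e1]; rfl
  · obtain ⟨l, hl, e1, e⟩ := (sq i j h1 h2).resolve_left fun ⟨e1, e2⟩ => h (by simp [e1, e2, one_mem])
    rw [e] at o3
    obtain ⟨k, hk⟩ := h9_eq_pow_sq_of_odd o2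
    refine hk ▸ pow_mem (A.k4l hl e1 ?_) k
    have e : ∀ x, o * o * x * (o * o)⁻¹ * x⁻¹ = o * (o * x * o⁻¹ * x⁻¹) * o⁻¹ * (o * x * o⁻¹ * x⁻¹) :=
      fun x => by group
    have ot := (Yt o o1).mul_inv_cancel
    have oc : o * A.c * o⁻¹ * A.c ∈ two _ A.tt := by
      rcases (mem_normalizer_iff.1 o1.1 _).1 cW with h | h | h | h
      · exact absurd (Or.inl (conj_eq_one_iff.1 h)) A.c_ne
      · exact absurd (Or.inr ((MulAut.conj o).injective (h.trans ot.symm))) A.c_ne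
      · rw [h]; exact Or.inl A.cc
      · rw [h, mul_assoc, ← ct.eq, ← mul_assoc, A.cc, one_mul]; exact Or.inr rfl
    rw [e]
    rcases o3 with h | h | h | h <;> rw [h]
    · simp [one_mem]
    · rw [ot]; exact Or.inl A.tt
    · exact oc
    · rw [← conj_mul, ot, mul_assoc, ← mul_assoc (A.j Hz.t), ← ct.eq, mul_assoc A.c, A.tt, mul_one]
      exact oc
  · rcases h2 with h | h <;> rw [eq_mul_of_mul_inv_eq h]
    · rwa [one_mul]
    · exact mul_mem tW cW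

theorem c_conj {l l' : Hz F} (h : l ∈ Ls) (h' : l' ∈ Ls) (e : l * l = Hz.t) (e' : l' * l' = Hz.t) :
    ∃ k ∈ A.K0, A.sw.j l * A.j l' = k * A.c * k⁻¹ := by
  obtain ⟨k, hk, rfl⟩ := conj_w0 A.odd h e
  obtain ⟨k', hk', rfl⟩ := conj_w0 A.odd h' e'
  refine ⟨_, mul_mem (A.j1_K0 hk) (A.j_K0 hk'), ?_⟩
  rw [c, ← conj_mul]
  congr 1
  · rw [A.LL hk hk', mul_assoc (A.j k'), mul_inv_rev, ← mul_assoc, mul_assoc (A.j k'), ← map_inv,
      ← map_mul, ← map_mul, ← A.LL (mul_mem (mul_mem hk w0_mem) (inv_mem hk)) hk', mul_inv_cancel_right]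
  · rw [mul_assoc (A.sw.j k), mul_inv_rev, ← mul_assoc, mul_assoc (A.sw.j k), ← map_inv,
      ← map_mul, ← map_mul, A.LL hk (mul_mem (mul_mem hk' w0_mem) (inv_mem hk')), mul_inv_cancel_right]

theorem k6l {k g : G} (hk : k ∈ A.K0) (h1 : Commute g (A.j Hz.t))
    (h2 : g * (k * A.c * k⁻¹) * g⁻¹ * (k * A.c * k⁻¹)⁻¹ ∈ two _ A.tt) : g ∈ A.K0 := by
  have kt := A.K0_t hk
  have := A.k6 (g := k⁻¹ * g * k) ((kt.inv_left.mul_left h1).mul_left kt) (by
    have e : k⁻¹ * g * k * A.c * (k⁻¹ * g * k)⁻¹ * A.c⁻¹ = k⁻¹ * (g * (k * A.c * k⁻¹) * g⁻¹ *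
      (k * A.c * k⁻¹)⁻¹) * k := by group
    rw [e]
    rcases h2 with h | h <;> rw [h]
    · simp [one_mem]
    · rw [mul_assoc, ← kt.eq, inv_mul_cancel_left]; exact Or.inr rfl)
  rwa [A.K0.mul_mem_cancel_right hk, A.K0.mul_mem_cancel_left (inv_mem hk)] at this

theorem k7w {g : G} (hg : Commute g (A.j Hz.t)) : g * A.w * g⁻¹ ∈ A.K0 := by
  have wt : Commute (g * A.w * g⁻¹) (A.j Hz.t) := (hg.mul_left A.w_t).mul_left hg.inv_left
  have ww : g * A.w * g⁻¹ * (g * A.w * g⁻¹) = 1 := by rw [conj_mul, A.w_mul_w]; simp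
  rcases dih_mod (centralizer {A.j Hz.t}) (two _ A.tt) (x := A.j w0) (y := g * A.w * g⁻¹) (by
      rintro y hy _ (rfl | rfl)
      · simp [one_mem]
      · rw [mem_centralizer_singleton_iff.1 hy, mul_inv_cancel_right]; exact Or.inr rfl)
    (mem_centralizer_singleton_iff.2 (A.j_t w0_mem)) (mem_centralizer_singleton_iff.2 wt)
    (Or.inr (A.j_sq w0_sq)) (Or.inl ww) with ⟨h, -, e⟩ | ⟨e, e1, e2, e3, e4, e5⟩
  · refine absurd (conj_eq_one_iff.1 (?_ : h * A.j Hz.t * h⁻¹ = 1)) A.t_ne_one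
    rw [← A.j_sq w0_sq, ← conj_mul]
    rcases e with e | e <;> rw [eq_mul_of_mul_inv_eq e]
    · rwa [one_mul]
    · rw [wt.mul_mul_mul_comm, A.tt, ww, one_mul]
  have eK := A.k4l w0_mem w0_sq e4
  rcases e3 with e3 | e3
  · have k : ∀ l ∈ Ls, ∀ x ∈ two _ A.tt, e ≠ A.sw.j l * A.j l⁻¹ * A.w * x := by
      rintro l hl x hx rfl
      have : A.sw.j l * A.j l⁻¹ * A.w * x * A.j w0 * (A.sw.j l * A.j l⁻¹ * A.w * x)⁻¹ =
          A.sw.j (l * w0 * l⁻¹) := by
        have : Commute x (A.j w0) := by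
          rcases hx with rfl | rfl
          exacts [Commute.one_left _, (A.j_t w0_mem).symm]
        rw [mul_assoc _ x, this.eq, mul_inv_rev, ← mul_assoc, mul_assoc _ _ x⁻¹, mul_assoc _ _ x⁻¹,
          mul_inv_cancel, mul_one, mul_assoc _ A.w, w_j, mul_assoc (A.sw.j l), ← mul_assoc (A.j _),
          ← A.LL w0_mem (inv_mem hl)]
        simp [mul_assoc]
      rw [this] at e4
      have : l * w0 * l⁻¹ = 1 ∨ l * w0 * l⁻¹ = Hz.t := by
        rcases e4 with h | h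
        · exact A.j1_eq (mul_mem (mul_mem hl w0_mem) (inv_mem hl)) w0_mem (mul_inv_eq_one.1 h)
        · exact A.j1_eq (mul_mem (mul_mem hl w0_mem) (inv_mem hl)) (mul_mem t_mem_Ls w0_mem)
            (by rw [map_mul A.j, eq_mul_of_mul_inv_eq h])
      refine t_ne_one A.h3 (conj_eq_one_iff.1 (?_ : l * Hz.t * l⁻¹ = 1))
      rw [← w0_sq, ← conj_mul]
      rcases this with h | h <;> rw [h]
      exacts [mul_one _, t_mul_t]
    rcases A.inv0 eK e3 with h | h | ⟨l, hl, l', hl', h1, h2, h⟩ | ⟨l, hl, h | h⟩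
    · exact absurd (Or.inl h) e2
    · exact absurd (Or.inr h) e2
    · obtain ⟨k, hk, h'⟩ := A.c_conj hl hl' h1 h2
      exact A.k6l hk wt (h' ▸ h ▸ e5)
    · exact absurd (h.trans (mul_one _).symm) (k l hl 1 (one_mem _))
    · exact absurd h (k l hl _ (Or.inr rfl))
  · obtain ⟨l, hl, h1, rfl | rfl⟩ := A.sqt eK e3
    exacts [A.k4l hl h1 e5, A.k4l' hl h1 e5]

theorem k7 {g : G} (hg : Commute g (A.j Hz.t)) : g ∈ A.K0 := by
  obtain ⟨l, l0, l1, l2⟩ := A.exists_big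
  let μ := Units.mk0 l l0
  have zt : Commute (A.j (z 1)) (A.j Hz.t) := (A.z_comm _ _).symm
  have dt : Commute (A.d μ) (A.j Hz.t) := A.d_t μ
  refine A.SC0 hg (a := 1 - l ^ 2) (fun e => (mul_self_eq_one_iff.1 (show l * l = 1 by
    linear_combination -e)).elim l1 l2) ?_
  have y : A.w * (A.j (z 1) * A.w * (A.j (z 1))⁻¹)⁻¹ = A.j (n (-1, 0, 1)) := by
    rw [conj_inv, ← mul_assoc, ← mul_assoc, z_eq, A.w_n, ← map_inv, ← map_mul]
    congr 1; ext <;> simp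
  have e : A.j (z (1 - l ^ 2)) = A.d μ * A.j (n (-1, 0, 1)) * (A.d μ)⁻¹ * (A.j (n (-1, 0, 1)))⁻¹ := by
    rw [A.d_n, ← map_inv, ← map_mul]; congr 1; ext <;> simp [μ]; ring
  rw [e, ← y]
  convert mul_mem (mul_mem (A.k7w (hg.mul_left dt)) (inv_mem (A.k7w ((hg.mul_left dt).mul_left zt))))
    (mul_mem (A.k7w (hg.mul_left zt)) (inv_mem (A.k7w hg))) using 1
  group

end Amb2

end Cfsg.Lib.Hay
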