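import Cfsg.Agent.Lib.Hay.K5

/-!
The second class of involutions.
-/

set_option autoImplicit false

namespace Cfsg.Lib.Hay

open Subgroup Hz

theorem conj_pow' {G : Type*} [Group G] (g x : G) (i : ℕ) : (g⁻¹ * x * g) ^ i = g⁻¹ * x ^ i * g := by
  simpa using conj_pow (a := g⁻¹) (b := x) (i := i)

namespace Hz

variable {F : Type*} [Field F] (h3 : (3 : F) = 0)

theorem cent_R {l : Hz F} (h : l ∈ Ls) (h1 : l * w0 = w0 * l) (h2 : l * i0 h3 = i0 h3 * l) :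
    l = 1 ∨ l = t := by
  have e1 : l.r = -l.q := by simpa [neg_eq_iff_eq_neg, eq_comm] using congrArg Hz.p h1
  have e2 : l.q = 0 := mul_left_cancel₀ (two_ne h3) (by
    have := congrArg Hz.p h2
    simp only [mul_p, i0_p, i0_q, i0_r, e1] at this
    linear_combination this)
  have e3 : l.p = l.s := by simpa using congrArg Hz.q h1
  obtain ⟨h1, h3, h4⟩ := h
  refine (mul_self_eq_one_iff.1 (show l.s * l.s = 1 by simpa [*] using l.det)).imp (fun k => ?_)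
    fun k => ?_ <;> ext <;> simp [*]

include h3 in
theorem pow4_ne (hns : ∀ a : F, a ^ 2 ≠ -1) {u : Hz F} (h : u * u * (u * u) = t) : False := by
  have e1 := congrArg Hz.p h
  have e2 := congrArg Hz.q h
  have e3 := congrArg Hz.r h
  have d := (u * u).det
  rw [mul_p, t_p] at e1
  rw [mul_q, t_q] at e2
  rw [mul_r, t_r] at e3
  have e4 : (u * u).p + (u * u).s = 0 := by
    by_contra h0
    have q0 : (u * u).q = 0 := mul_right_cancel₀ h0 (by linear_combination e2)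
    exact hns (u * u).p (by rw [q0] at e1; linear_combination e1)
  simp only [mul_p, mul_s] at e4
  exact hns (u.p + u.s) (by linear_combination e4 + 2 * u.det + h3)

end Hz

namespace Amb2

variable {F G : Type*} [Field F] [Fintype F] [Group G] [Finite G] (A : Amb2 F G)

theorem j1_ne {l l' : Hz F} (h : l ∈ Ls) (h' : l' ∈ Ls) : A.sw.j (l * w0 * l⁻¹) ≠ A.j l' := fun e => by
  refine t_ne_one A.h3 (conj_eq_one_iff.1 (?_ : l * Hz.t * l⁻¹ = 1))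
  rw [← w0_sq, ← conj_mul]
  rcases A.j1_eq (mul_mem (mul_mem h w0_mem) (inv_mem h)) h' e with h | h <;> rw [h]
  exacts [mul_one _, t_mul_t]

theorem L0_of {g : G} (h : g ∈ A.K0) (e : Commute g (A.j w0)) : g ∈ A.L0 := by
  obtain ⟨a, ha, b, hb, rfl | rfl⟩ := A.K0_cases h
  · exact ⟨a, ha, b, hb, rfl⟩
  · refine absurd (e.mul_inv_cancel.symm.trans ?_).symm (A.j1_ne ha w0_mem)
    rw [mul_assoc _ A.w, w_j, mul_assoc (A.sw.j a), ← mul_assoc (A.j _), ← A.LL w0_mem hb]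
    simp [mul_assoc]

theorem w_L0' : A.w ∉ A.L0 := by
  rintro ⟨a, ha, b, hb, e⟩
  refine A.j1_ne (one_mem _) (mul_mem (mul_mem hb w0_mem) (inv_mem hb)) ?_
  rw [one_mul, inv_one, mul_one, sw_j, e, mul_assoc (A.sw.j a), mul_inv_rev, ← mul_assoc,
    mul_assoc (A.sw.j a), ← map_inv, ← map_mul, ← map_mul,
    A.LL ha (mul_mem (mul_mem hb w0_mem) (inv_mem hb)), mul_inv_cancel_right]

theorem sq_L0 {g : G} (h : g ∈ A.K0) : g * g ∈ A.L0 := by
  obtain ⟨a, ha, b, hb, rfl | rfl⟩ := A.K0_cases h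
  · exact ⟨_, mul_mem ha ha, _, mul_mem hb hb, A.sq1 ha hb⟩
  · exact ⟨_, mul_mem ha hb, _, mul_mem hb ha, A.sq2 hb ha⟩

theorem syl2 : ∃ S ≤ A.K0, IsSylowIn 2 S ⊤ := by
  haveI : Fact (Nat.Prime 2) := ⟨Nat.prime_two⟩
  have i0L := Rs_le_Ls A.h3 (i0_mem A.h3)
  obtain ⟨S, hS, hR⟩ := exists_isSylowIn_ge (K := A.K0) (A.isPGroup_R.to_sup_of_normal_left'
    A.sw.isPGroup_R (by
      rintro _ ⟨r, hr, rfl⟩
      refine mem_normalizer_fintype ?_
      rintro _ ⟨r', hr', rfl⟩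
      rw [A.LL (Rs_le_Ls A.h3 hr) (Rs_le_Ls A.h3 hr'), mul_inv_cancel_right]
      exact ⟨r', hr', rfl⟩)) (sup_le (A.R_L0.trans A.L0_le) (by
      rintro _ ⟨r, hr, rfl⟩; exact A.j1_K0 (Rs_le_Ls A.h3 hr)))
  refine ⟨S, hS.le, isSylowIn_of_norm hS.isPGroup le_top fun y _ hy k hk => hS.le_of_le_normalizer
    (IsPGroup.of_card_dvd_pow (n := k) (G := zpowers y) (by
      rw [Nat.card_zpowers]; exact orderOf_dvd_of_pow_eq_one hk)) (zpowers_le.2 (A.k7 ?_))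
    (zpowers_le.2 hy) (mem_zpowers y)⟩
  have h1 : ∀ r ∈ Rs A.h3, A.j r ∈ S := fun r hr => hR (mem_sup_left ⟨r, hr, rfl⟩)
  have h2 : ∀ r ∈ Rs A.h3, A.sw.j r ∈ S := fun r hr => hR (mem_sup_right ⟨r, hr, rfl⟩)
  have c : ∀ s ∈ S, Commute (y * A.j Hz.t * y⁻¹) s := fun s hs => by
    simpa [mul_assoc] using (A.K0_t (hS.le ((mem_normalizer_iff.1 (inv_mem hy) s).1 hs))).symm.map
      (MulAut.conj y)
  obtain ⟨a, ha, b, hb, e⟩ := A.L0_of (hS.le ((mem_normalizer_iff.1 hy _).1 (h1 _ (t_mem_Rs _))))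
    (c _ (h1 _ (w0_mem_Rs _)))
  have c1 : ∀ r ∈ Rs A.h3, b * r = r * b := fun r hr => A.inj (by
    have := Commute.mul_left (Commute.inv_left (A.LL ha (Rs_le_Ls _ hr))) (c _ (h1 r hr))
    rw [e, inv_mul_cancel_left] at this
    rw [map_mul, map_mul, this.eq])
  have c2 : ∀ r ∈ Rs A.h3, a * r = r * a := fun r hr => A.sw.inj (by
    have := Commute.mul_left (c _ (h2 r hr)) (Commute.inv_left (A.LL (Rs_le_Ls _ hr) hb).symm)
    rw [e, mul_inv_cancel_right] at this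
    rw [map_mul, map_mul, this.eq])
  have : y * A.j Hz.t * y⁻¹ ≠ 1 := mt conj_eq_one_iff.1 A.t_ne_one
  rw [Commute, SemiconjBy, ← mul_inv_eq_iff_eq_mul]
  rw [e] at this ⊢
  rcases cent_R A.h3 ha (c2 _ (w0_mem_Rs _)) (c2 _ (i0_mem _)) with rfl | rfl <;>
    rcases cent_R A.h3 hb (c1 _ (w0_mem_Rs _)) (c1 _ (i0_mem _)) with rfl | rfl <;>
    simp_all [sw_t, A.tt]

/-- a non-central involution -/
def s : G := A.w * A.j Hz.t

omit [Finite G] in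
theorem ss : A.s * A.s = 1 := by
  rw [s, (show Commute A.w (A.j Hz.t) from A.w_t).symm.mul_mul_mul_comm, A.w_mul_w, A.tt, mul_one]

omit [Finite G] in
theorem s_n (x z : F) : A.s * A.j (n (x, 0, z)) * A.s⁻¹ = A.j (n (z, 0, x)) := by
  rw [s, mul_assoc A.w, ← (Commute.map (t_comm rfl rfl : n (x, 0, z) * Hz.t = _) A.j).eq, mul_inv_rev,
    ← mul_assoc, ← mul_assoc, mul_inv_cancel_right, A.w_n]

omit [Finite G] in
theorem s_eq (h) : A.s = A.ψ (gl 0 (-1) 1 0 h) := by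
  rw [s, ← A.toAm.ψt (by simp), w, Am.w, ← map_mul, gl_mul]
  exact congrArg _ (gl_ext (by ring) (by ring) (by ring) (by ring))

theorem s_t : ¬ IsConj (A.j Hz.t) A.s := fun h => by
  haveI : Fact (Nat.Prime 3) := ⟨Nat.prime_three⟩
  obtain ⟨g, hg⟩ := isConj_iff.1 h
  have c : ∀ g x, g * A.j Hz.t * g⁻¹ = A.s → Commute x A.s → Commute (g⁻¹ * x * g) (A.j Hz.t) :=
    fun g x hg hx => by simpa [← hg, mul_assoc] using hx.map (MulAut.conj g⁻¹)
  obtain ⟨k, hk, a, b, e⟩ := conj_into A.syl0 (mem_centralizer_singleton_iff.2 (c g _ hg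
    (mul_inv_eq_iff_eq_mul.1 (A.s_n 1 1)).symm)) (k := 1) (by
      rw [pow_one, conj_pow', A.M_cube (A.n_mem _)]; simp)
  replace hg : g * k⁻¹ * A.j Hz.t * (g * k⁻¹)⁻¹ = A.s := by
    rw [← hg, mul_assoc g, (Commute.inv_left (mem_centralizer_singleton_iff.1 hk)).eq]; group
  replace e : g * k⁻¹ * A.j (n (a, 0, b)) * (g * k⁻¹)⁻¹ = A.j (n (1, 0, 1)) := by rw [← e]; group
  generalize g * k⁻¹ = g at hg e
  have r1 : ∀ g a, g * A.j (z a) * g⁻¹ ≠ A.j (n (1, 0, 1)) := fun g a e => by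
    by_cases a0 : a = 0
    · rw [A.jz_eq_one.2 a0, mul_one, mul_inv_cancel, ← A.jz_eq_one.2 rfl] at e
      simpa using (A.n_inj e).1
    · obtain ⟨α, γ, h1, h2, h3⟩ := A.fusz a0 e
      exact one_ne_zero (α := F) (by linear_combination h3 + (γ ^ 2 * a) * h1 - α * γ * a * h2)
  have a0 : a ≠ 0 := by
    rintro rfl
    exact r1 (g * A.w) b (by rw [← e, ← A.w_n, z_eq]; group)
  have b0 : b ≠ 0 := by rintro rfl; exact r1 g a e
  obtain ⟨l, l0, l1, l2⟩ := A.exists_big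
  have l3 : 1 + l ^ 2 ≠ 0 := fun h => A.hns l (by linear_combination h)
  obtain ⟨p, q, p0, q0, pq⟩ : ∃ p q : F, p ≠ 0 ∧ q ≠ 0 ∧ p ^ 2 + q ^ 2 = 1 :=
    ⟨(1 - l ^ 2) / (1 + l ^ 2), 2 * l / (1 + l ^ 2), div_ne_zero (fun e => (mul_self_eq_one_iff.1
      (show l * l = 1 by linear_combination -e)).elim l1 l2) l3, div_ne_zero (mul_ne_zero A.h2 l0) l3,
      by field_simp; ring⟩
  let x := A.ψ (gl p q (-q) p (by rw [show p * p - q * -q = 1 by linear_combination pq]; simp))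
  have x1 : Commute (g⁻¹ * x * g) (A.j Hz.t) := c g x hg (by
    rw [A.s_eq (by simp), Commute, SemiconjBy, ← map_mul, ← map_mul, gl_mul, gl_mul]
    exact congrArg _ (gl_ext (by ring) (by ring) (by ring) (by ring)))
  have x2 : Commute (g⁻¹ * x * g) (A.j (n (a, 0, b))) := by
    have : Commute x (A.j (n (1, 0, 1))) := mul_inv_eq_iff_eq_mul.1 (by
      rw [A.act', rho_gl]; congr 3
      · linear_combination pq
      · congr 1
        · ring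
        · linear_combination pq)
    simpa [← e, mul_assoc] using this.map (MulAut.conj g⁻¹)
  have x3 : (g⁻¹ * x * g) ^ 2 ∈ A.V := by
    rcases A.k1 x1 a0 b0 x2 with h | h
    · exact pow_mem h 2
    · refine (A.k1 (x1.pow_left 2) a0 b0 (x2.pow_left 2)).resolve_right fun h' => ?_
      have := h' 1 0
      rw [sq, mul_inv_rev, mul_assoc (g⁻¹ * x * g), mul_assoc (g⁻¹ * x * g), ← mul_assoc _ (g⁻¹ * x * g)⁻¹,
        h, ← mul_assoc, h] at this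
      simpa [a0, b0] using (A.n_inj this).1
  have x4 : (x ^ 3) ^ 2 = 1 ∨ (x ^ 3) ^ 2 = A.s := by
    rw [pow_right_comm]
    rcases A.V_cube x3 with h | h <;> rw [conj_pow', conj_pow'] at h
    · exact Or.inl (conj_eq_one_iff.1 (by rw [inv_inv]; exact h.2))
    · exact Or.inr (by rw [← hg, ← h]; group)
  have h3 := A.h3
  have x5 : x ^ 3 = A.ψ (gl (p ^ 3) (-q ^ 3) (q ^ 3) (p ^ 3) (by
      rw [show p ^ 3 * p ^ 3 - -q ^ 3 * q ^ 3 = (p ^ 2 + q ^ 2) ^ 3 by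
        linear_combination -p ^ 2 * q ^ 2 * (p ^ 2 + q ^ 2) * h3, pq]; simp)) := by
    rw [← map_pow, pow_three', gl_mul, gl_mul]
    exact congrArg _ (gl_ext (by linear_combination -p * q ^ 2 * h3) (by linear_combination p ^ 2 * q * h3)
      (by linear_combination -p ^ 2 * q * h3) (by linear_combination -p * q ^ 2 * h3))
  have : (x ^ 3) ^ 2 * A.j (n (1, 0, 0)) * ((x ^ 3) ^ 2)⁻¹ =
      x ^ 3 * (x ^ 3 * A.j (n (1, 0, 0)) * (x ^ 3)⁻¹) * (x ^ 3)⁻¹ := by group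
  rw [x5, A.act', A.act', rho_gl, rho_gl, ← x5] at this
  rcases x4 with h | h <;> rw [h] at this
  · rw [one_mul, inv_one, mul_one] at this
    have : (2 * p ^ 3 * q ^ 3) ^ 2 = 0 := by linear_combination -(A.n_inj this).2.2
    simp [p0, q0, A.h2] at this
  · rw [s_n] at this
    have : ((p ^ 2 - q ^ 2) ^ 3) ^ 2 = 0 := by
      rw [show (p ^ 2 - q ^ 2) ^ 3 = p ^ 6 - q ^ 6 by
        linear_combination -p ^ 2 * q ^ 2 * (p ^ 2 - q ^ 2) * h3]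
      linear_combination -(A.n_inj this).1
    have : p ^ 2 - q ^ 2 = 0 := by simpa using this
    exact A.hns p (by linear_combination -this - pq + p ^ 2 * h3)

/-- the subgroup generated by the two parabolics -/
def G0 : Subgroup G := A.j.range ⊔ A.ψ.range

omit [Finite G] in
theorem j_G0 (c : Hz F) : A.j c ∈ A.G0 := mem_sup_left ⟨c, rfl⟩

omit [Finite G] in
theorem ψ_G0 (m : GL (Fin 2) F) : A.ψ m ∈ A.G0 := mem_sup_right ⟨m, rfl⟩

theorem K0_le : A.K0 ≤ A.G0 := fun g hg => by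
  have w0 : A.w ∈ A.G0 := A.ψ_G0 _
  have k := fun a b => mul_mem (mul_mem (mul_mem w0 (A.j_G0 a)) (inv_mem w0)) (A.j_G0 b)
  obtain ⟨a, -, b, -, rfl | rfl⟩ := A.K0_cases hg
  exacts [k a b, mul_mem (k a b) w0]

/-- an element interchanging two commuting involutions -/
def h : G := A.ψ (gl 1 1 1 (-1) fun e => A.h2 (by linear_combination -e))

omit [Finite G] in
theorem h_t : A.h * A.j Hz.t * A.h⁻¹ = A.w := by
  rw [mul_inv_eq_iff_eq_mul, ← A.toAm.ψt (by simp), w, Am.w, h, ← map_mul, ← map_mul, gl_mul, gl_mul]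
  exact congrArg _ (gl_ext (by ring) (by ring) (by ring) (by ring))

omit [Finite G] in
theorem h_w : A.h * A.w * A.h⁻¹ = A.j Hz.t := by
  rw [mul_inv_eq_iff_eq_mul, ← A.toAm.ψt (by simp), w, Am.w, h, ← map_mul, ← map_mul, gl_mul, gl_mul]
  exact congrArg _ (gl_ext (by ring) (by ring) (by ring) (by ring))

theorem w_conj (l : Hz F) : A.sw.j l * A.j l⁻¹ * A.w = A.sw.j l * A.w * (A.sw.j l)⁻¹ := by
  rw [mul_assoc, ← w_j1, map_inv, mul_assoc]

theorem s_conj {l : Hz F} (h : l ∈ Ls) :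
    A.sw.j l * A.j l⁻¹ * A.w * A.j Hz.t = A.sw.j l * A.s * (A.sw.j l)⁻¹ := by
  rw [w_conj, s, mul_assoc, (A.j1_t h).inv_left.eq]; group

theorem c_w : Commute A.c A.w := by
  rw [Commute, SemiconjBy, c, ← mul_assoc, w_j1, mul_assoc (A.j w0), w_j, ← mul_assoc, A.braid]

theorem c_s : ∃ k ∈ A.G0, A.c = k * A.s * k⁻¹ := by
  have h1 : A.h * A.c * A.h⁻¹ ∈ A.K0 := A.k7 (by
    simpa [← A.h_w] using A.c_w.map (MulAut.conj A.h))
  have h2 : (A.c * A.j (n (1, 0, 1))) ^ 3 = 1 := by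
    have e : (w0 * n (0, 0, 1) : Hz F) ^ 3 = 1 := by rw [pow_three']; ext <;> simp
    have l : (n (0, 0, 1) : Hz F) ∈ Ls := by simp [Ls]
    rw [show n (1, 0, 1) = n (1, 0, 0) * n (0, 0, (1 : F)) by ext <;> simp, map_mul, ← sw_n, c,
      (show Commute _ _ from A.LL l w0_mem).symm.mul_mul_mul_comm, ← map_mul, ← map_mul,
      (show Commute _ _ from A.LL (mul_mem w0_mem l) (mul_mem w0_mem l)).mul_pow, ← map_pow, ← map_pow, e]
    simp
  have h3 : A.h * A.j (n (1, 0, 1)) * A.h⁻¹ ∈ A.L0 := by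
    rw [h, A.act', rho_gl]; exact A.V0_L0 ⟨_, _, by congr 4; ring⟩
  have h4 : A.h * A.c * A.h⁻¹ ∈ A.L0 := by
    refine (A.L0.mul_mem_cancel_right h3).1 ?_
    have := A.sq_L0 (mul_mem h1 (A.L0_le h3))
    rw [conj_mul] at this ⊢
    rw [eq_inv_of_mul_eq_one_right (show _ * _ * (A.h * (A.c * A.j (n (1, 0, 1))) * A.h⁻¹) = 1 by
      rw [← pow_three', conj_pow, h2]; simp)]
    exact inv_mem this
  rcases A.inv0 h1 (by rw [conj_mul, A.cc]; simp) with e | e | ⟨l, hl, l', hl', e1, e2, e⟩ | ⟨l, hl, e | e⟩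
  · exact absurd (Or.inl (conj_eq_one_iff.1 e)) A.c_ne
  · rw [← A.h_w, mul_left_inj, mul_right_inj] at e
    exact absurd (e ▸ mul_mem (A.j1_L0 w0_mem) (A.j_L0 w0_mem)) A.w_L0'
  · obtain ⟨k, hk, e'⟩ := A.c_conj hl (mul_mem hl' t_mem_Ls) e1 (by
      rw [mul_assoc, ← mul_assoc Hz.t, ← Ls_t hl', mul_assoc, t_mul_t, mul_one, e2])
    rw [map_mul, ← mul_assoc, ← e, ← A.h_w, conj_mul, show A.c * A.w = A.sw.j w0 * A.s * (A.sw.j w0)⁻¹ by
      rw [← A.s_conj w0_mem, w0_inv, map_mul, mul_assoc _ A.w, A.w_t, ← mul_assoc, ← mul_assoc,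
        mul_assoc _ (A.j Hz.t) (A.j Hz.t), A.tt, mul_one, c]] at e'
    exact ⟨k⁻¹ * A.h * A.sw.j w0, mul_mem (mul_mem (inv_mem (A.K0_le hk)) (A.ψ_G0 _))
      (A.K0_le (A.j1_K0 w0_mem)), by rw [← mul_right_inj k, ← mul_left_inj k⁻¹, ← e']; group⟩
  · rw [e, A.L0.mul_mem_cancel_left (mul_mem (A.j1_L0 hl) (A.j_L0 (inv_mem hl)))] at h4
    exact absurd h4 A.w_L0'
  · rw [e, A.L0.mul_mem_cancel_right (A.j_L0 t_mem_Ls),
      A.L0.mul_mem_cancel_left (mul_mem (A.j1_L0 hl) (A.j_L0 (inv_mem hl)))] at h4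
    exact absurd h4 A.w_L0'

theorem c_s' {l l' : Hz F} (h : l ∈ Ls) (h' : l' ∈ Ls) (e : l * l = Hz.t) (e' : l' * l' = Hz.t) :
    ∃ k ∈ A.G0, A.sw.j l * A.j l' = k * A.s * k⁻¹ := by
  obtain ⟨k, hk, e⟩ := A.c_conj h h' e e'
  obtain ⟨k', hk', e'⟩ := A.c_s
  exact ⟨k * k', mul_mem (A.K0_le hk) hk', by rw [e, e']; group⟩

theorem inv1 {x : G} (h : x ∈ A.K0) (e : x * x = 1) : x = 1 ∨ x = A.j Hz.t ∨
    (∃ k ∈ A.G0, x = k * A.s * k⁻¹) ∨ ∃ l ∈ Ls, x = A.sw.j l * A.j l⁻¹ * A.w := by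
  rcases A.inv0 h e with e | e | ⟨l, hl, l', hl', e1, e2, rfl⟩ | ⟨l, hl, e | rfl⟩
  · exact Or.inl e
  · exact Or.inr (Or.inl e)
  · exact Or.inr (Or.inr (Or.inl (A.c_s' hl hl' e1 e2)))
  · exact Or.inr (Or.inr (Or.inr ⟨l, hl, e⟩))
  · exact Or.inr (Or.inr (Or.inl ⟨_, A.K0_le (A.j1_K0 hl), A.s_conj hl⟩))

theorem inv2 {x : G} (h : x ∈ A.K0) (e : IsConj (A.j Hz.t) x) :
    x = A.j Hz.t ∨ ∃ l ∈ Ls, x = A.sw.j l * A.j l⁻¹ * A.w := by
  obtain ⟨g, hg⟩ := isConj_iff.1 e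
  rcases A.inv1 h (by rw [← hg, conj_mul, A.tt]; simp) with e' | e' | ⟨k, -, rfl⟩ | e'
  · exact absurd (conj_eq_one_iff.1 (hg.trans e')) A.t_ne_one
  · exact Or.inl e'
  · exact absurd (e.trans (isConj_iff.2 ⟨k, rfl⟩).symm) A.s_t
  · exact Or.inr e'

theorem nod8 {a b : G} (ha : IsConj (A.j Hz.t) a) (hb : IsConj (A.j Hz.t) b)
    (h : (a * b) ^ 2 ^ 2 = 1) : Commute a b := by
  haveI : Fact (Nat.Prime 2) := ⟨Nat.prime_two⟩
  have sq : ∀ x, IsConj (A.j Hz.t) x → x * x = 1 := fun x hx => by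
    obtain ⟨g, rfl⟩ := isConj_iff.1 hx
    rw [conj_mul, A.tt]; simp
  obtain ⟨S, h1, h2⟩ := A.syl2
  obtain ⟨g, -, hg⟩ := h2.exists_conj_le (h9_isPGroup_closure_pair (sq a ha) (sq b hb) h) le_top
  have a1 : g * a * g⁻¹ ∈ A.K0 := h1 (hg ⟨a, subset_closure (by simp), rfl⟩)
  have b1 : g * b * g⁻¹ ∈ A.K0 := h1 (hg ⟨b, subset_closure (by simp), rfl⟩)
  replace ha := ha.trans (isConj_iff.2 ⟨g, rfl⟩)
  replace hb := hb.trans (isConj_iff.2 ⟨g, rfl⟩)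
  replace h : (g * a * g⁻¹ * (g * b * g⁻¹)) ^ 2 ^ 2 = 1 := by rw [conj_mul, conj_pow, h]; simp
  suffices Commute (g * a * g⁻¹) (g * b * g⁻¹) by
    simpa [mul_assoc] using this.map (MulAut.conj g⁻¹)
  generalize g * a * g⁻¹ = a at *
  generalize g * b * g⁻¹ = b at *
  rcases A.inv2 a1 ha with rfl | ⟨l, hl, rfl⟩
  · exact (A.K0_t b1).symm
  rcases A.inv2 b1 hb with rfl | ⟨m, hm, rfl⟩
  · exact A.K0_t a1
  refine h9_comm_of_sq (sq _ ha) (sq _ hb) ?_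
  have u1 := mul_mem hl (inv_mem hm)
  have v1 := mul_mem (inv_mem hl) hm
  have e : A.sw.j l * A.j l⁻¹ * A.w * (A.sw.j m * A.j m⁻¹ * A.w) = A.sw.j (l * m⁻¹) * A.j (l⁻¹ * m) := by
    rw [← mul_assoc, ← mul_assoc, mul_assoc _ A.w, w_j1, ← mul_assoc, mul_assoc _ A.w, w_j, ← mul_assoc,
      mul_assoc _ A.w, A.w_mul_w, mul_one, mul_assoc _ (A.j l⁻¹), ← map_mul, mul_assoc,
      ← A.LL (inv_mem hm) v1, map_mul A.sw.j, mul_assoc]
  rw [e, show 2 ^ 2 = 2 * 2 from rfl, pow_mul, pow_two, pow_two, A.sq1 u1 v1,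
    A.sq1 (mul_mem u1 u1) (mul_mem v1 v1)] at h
  have e' : l⁻¹ * m * (l⁻¹ * m) = l⁻¹ * (l * m⁻¹ * (l * m⁻¹))⁻¹ * l := by group
  rw [e, A.sq1 u1 v1, e']
  rcases A.LL_inj (mul_mem (mul_mem u1 u1) (mul_mem u1 u1)) (mul_mem (mul_mem v1 v1) (mul_mem v1 v1)) h
    with ⟨h, -⟩ | ⟨h, -⟩
  · rcases Ls_sq A.h2 (mul_mem u1 u1) h with h | h <;> rw [h]
    · simp
    · rw [mul_assoc, ← (Commute.inv_right (Ls_t hl)).eq, inv_mul_cancel_left, sw_t, map_inv, mul_inv_cancel]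
  · exact (pow4_ne A.h3 A.hns h).elim

end Amb2

end Cfsg.Lib.Hay
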