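import Cfsg.Agent.Lib.Hay.Two

/-!
The case where `N(M)` is not `3`-closed: local structure.
-/

set_option autoImplicit false

namespace Cfsg.Lib.Hay

open Subgroup Hz

namespace Hz

variable {F : Type*} [Field F]

/-- Weyl element -/
@[simps!] def w0 : Hz F := sl 0 1 (-1) 0 (by simp)

/-- `SL₂` -/
def Ls : Subgroup (Hz F) where
  carrier := {g | g.a = 0 ∧ g.x = 0 ∧ g.y = 0}
  one_mem' := by simp
  mul_mem' := by rintro a b ⟨h1, h2, h3⟩ ⟨k1, k2, k3⟩; simp [*]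
  inv_mem' := by rintro a ⟨h1, h2, h3⟩; simp [*]

/-- diagonal part of `M` extended by the involution -/
def Vs : Subgroup (Hz F) where
  carrier := {g | g.x = 0 ∧ g.y = 0 ∧ g.r = 0 ∧ g.s = g.p}
  one_mem' := by simp
  mul_mem' := by rintro a b ⟨h1, h2, h3, h4⟩ ⟨k1, k2, k3, k4⟩; simp [*]
  inv_mem' := by rintro a ⟨h1, h2, h3, h4⟩; simp [*]

theorem w0_sq : (w0 : Hz F) * w0 = t := by ext <;> simp

theorem w0_mem : (w0 : Hz F) ∈ Ls := ⟨rfl, rfl, rfl⟩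

theorem t_mem_Ls : (t : Hz F) ∈ Ls := ⟨rfl, rfl, rfl⟩

theorem τ_neg : τ (-1 : Fˣ) = t := by ext <;> simp

theorem cent_t (h2 : (2 : F) ≠ 0) {c : Hz F} (h : c * t = t * c) : c.x = 0 ∧ c.y = 0 := by
  have e1 := congrArg Hz.x h
  have e2 := congrArg Hz.y h
  simp only [mul_x, mul_y, t_x, t_y, t_p, t_q, t_r, t_s] at e1 e2
  exact ⟨mul_left_cancel₀ h2 (by linear_combination e1), mul_left_cancel₀ h2 (by linear_combination e2)⟩

theorem t_comm {c : Hz F} (h1 : c.x = 0) (h2 : c.y = 0) : c * t = t * c := by ext <;> simp [*]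

theorem exists_Ls {c : Hz F} (h1 : c.x = 0) (h2 : c.y = 0) : ∃ g ∈ Ls, c = z c.a * g :=
  ⟨sl c.p c.q c.r c.s c.det, ⟨rfl, rfl, rfl⟩, by ext <;> simp [*]⟩

theorem borel {g : Hz F} (h : g ∈ Ls) (hr : g.r = 0) : ∃ c l, g = n (0, 0, c) * τ l := by
  obtain ⟨h1, h2, h3⟩ := h
  have d : g.p * g.s = 1 := by simpa [hr] using g.det
  have p0 := left_ne_zero_of_mul_eq_one d
  exact ⟨g.q * g.p, Units.mk0 _ p0, by ext <;> simp [*, eq_inv_of_mul_eq_one_right d]⟩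

theorem bruhat {g : Hz F} (h : g ∈ Ls) (hr : g.r ≠ 0) :
    ∃ c l c', g = n (0, 0, c) * w0 * τ l * n (0, 0, c') := by
  obtain ⟨h1, h2, h3⟩ := h
  refine ⟨g.p / g.r, Units.mk0 _ (neg_ne_zero.2 hr), g.s / g.r, ?_⟩
  ext <;> simp [*] <;> field_simp
  linear_combination -g.det

theorem Ls_le {X : Subgroup (Hz F)} (h1 : ∀ c, n (0, 0, c) ∈ X) (h2 : ∀ l, τ l ∈ X) (h3 : w0 ∈ X) :
    Ls ≤ X := fun g hg => by
  by_cases hr : g.r = 0
  · obtain ⟨c, l, rfl⟩ := borel hg hr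
    exact mul_mem (h1 c) (h2 l)
  · obtain ⟨c, l, c', rfl⟩ := bruhat hg hr
    exact mul_mem (mul_mem (mul_mem (h1 c) h3) (h2 l)) (h1 c')

theorem Vs_cases {g : Hz F} (h : g ∈ Vs) : ∃ a c, g = n (a, 0, c) ∨ g = n (a, 0, c) * t := by
  obtain ⟨h1, h2, h3, h4⟩ := h
  rcases mul_self_eq_one_iff.1 (show g.p * g.p = 1 by simpa [*] using g.det) with h | h
  · exact ⟨g.a, g.q, Or.inl (by ext <;> simp [*])⟩
  · exact ⟨g.a, -g.q, Or.inr (by ext <;> simp [*])⟩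

theorem Vs_comm {a b : Hz F} (ha : a ∈ Vs) (hb : b ∈ Vs) : a * b = b * a := by
  obtain ⟨x, y, rfl | rfl⟩ := Vs_cases ha <;> obtain ⟨x', y', rfl | rfl⟩ := Vs_cases hb <;>
    ext <;> simp [add_comm]

end Hz

namespace Am

variable {F Γ : Type*} [Field F] [Group Γ] (A : Am F Γ)

/-- the other Weyl element -/
def w : Γ := A.ψ (gl 0 1 1 0 (by simp))

/-- the other torus -/
def d (μ : Fˣ) : Γ := A.ψ (gl μ 0 0 1 (by simp))

theorem ψ_neg {a b c d : F} (h h') : A.ψ (gl (-a) (-b) (-c) (-d) h) = A.ψ (gl a b c d h') := by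
  rw [← one_mul (A.ψ (gl a b c d h')), ← A.neg (by simp), ← map_mul, gl_mul]
  exact congrArg _ (gl_ext (by ring) (by ring) (by ring) (by ring))

theorem ψt (h) : A.ψ (gl 1 0 0 (-1) h) = A.j t := τ_neg (F := F) ▸ A.ψτ (-1) h

theorem w_mul_w : A.w * A.w = 1 := by
  rw [w, ← map_mul, gl_mul, ← map_one A.ψ, ← gl_one]
  exact congrArg _ (gl_ext (by ring) (by ring) (by ring) (by ring))

theorem w_inv : A.w⁻¹ = A.w := inv_eq_of_mul_eq_one_right A.w_mul_w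

theorem w_τ (l : Fˣ) : A.w * A.j (τ l) * A.w⁻¹ = A.d l := by
  rw [mul_inv_eq_iff_eq_mul, ← A.ψτ l (by simp), w, d, ← map_mul, ← map_mul, gl_mul, gl_mul]
  exact congrArg _ (gl_ext (by ring) (by ring) (by ring) (by ring))

theorem d_neg : A.d (-1) = A.j t := by
  rw [← A.ψt (by simp), ← A.ψ_neg (by simp)]
  exact congrArg _ (gl_ext (by simp) (by simp) (by simp) (by simp))

theorem w_t : A.w * A.j t = A.j t * A.w := by
  rw [← mul_inv_eq_iff_eq_mul, ← τ_neg, A.w_τ, A.d_neg, τ_neg]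

theorem w_n (x y z : F) : A.w * A.j (n (x, y, z)) * A.w⁻¹ = A.j (n (z, y, x)) := by
  rw [w, A.act, rho_gl]; simp

theorem d_n (μ : Fˣ) (x y z : F) :
    A.d μ * A.j (n (x, y, z)) * (A.d μ)⁻¹ = A.j (n (μ ^ 2 * x, μ * y, z)) := by
  rw [d, A.act, rho_gl]; simp

theorem d_τ (μ l : Fˣ) : A.d μ * A.j (τ l) = A.j (τ l) * A.d μ := by
  rw [← A.ψτ l (by simp), d, ← map_mul, ← map_mul, gl_mul, gl_mul]
  exact congrArg _ (gl_ext (by ring) (by ring) (by ring) (by ring))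

theorem d_t (μ : Fˣ) : A.d μ * A.j t = A.j t * A.d μ := τ_neg (F := F) ▸ A.d_τ μ (-1)

theorem d_mul (μ l : Fˣ) : A.d (μ * l) = A.d μ * A.d l := by
  rw [d, d, d, ← map_mul, gl_mul]
  exact congrArg _ (gl_ext (by simp) (by ring) (by ring) (by ring))

theorem d_one : A.d 1 = 1 := by
  have := A.d_mul 1 1
  rwa [mul_one, left_eq_mul] at this

theorem diag (a b : F) (h) : ∃ μ l : Fˣ, (μ : F) = a ∧ (l : F) = b ∧
    A.ψ (gl a 0 0 b h) = A.d μ * A.j (τ l) := by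
  have h' : a * b ≠ 0 := by simpa using h
  refine ⟨Units.mk0 a (left_ne_zero_of_mul h'), Units.mk0 b (right_ne_zero_of_mul h'), rfl, rfl, ?_⟩
  rw [← A.ψτ _ (by simpa using right_ne_zero_of_mul h'), d, ← map_mul, gl_mul]
  exact congrArg _ (gl_ext (by simp) (by simp) (by simp) (by simp))

theorem anti (a b : F) (h) : A.ψ (gl 0 a b 0 h) = A.ψ (gl a 0 0 b (by simpa using h)) * A.w := by
  rw [w, ← map_mul, gl_mul]
  exact congrArg _ (gl_ext (by simp) (by simp) (by simp) (by simp))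

end Am

namespace Amb2

variable {F G : Type*} [Field F] [Fintype F] [Group G] (A : Amb2 F G)

/-- the other Weyl element -/
def w : G := A.toAm.w

/-- the other torus -/
def d (μ : Fˣ) : G := A.toAm.d μ

theorem act' (m : GL (Fin 2) F) (v : F × F × F) :
    A.ψ m * A.j (n v) * (A.ψ m)⁻¹ = A.j (n (rho m.1 v)) := A.act m v

theorem w_mul_w : A.w * A.w = 1 := A.toAm.w_mul_w

theorem w_inv : A.w⁻¹ = A.w := A.toAm.w_inv

theorem w_τ (l : Fˣ) : A.w * A.j (τ l) * A.w⁻¹ = A.d l := A.toAm.w_τ l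

theorem d_neg : A.d (-1) = A.j Hz.t := A.toAm.d_neg

theorem w_t : A.w * A.j Hz.t = A.j Hz.t * A.w := A.toAm.w_t

theorem w_n (x y z : F) : A.w * A.j (n (x, y, z)) * A.w⁻¹ = A.j (n (z, y, x)) := A.toAm.w_n x y z

theorem d_n (μ : Fˣ) (x y z : F) :
    A.d μ * A.j (n (x, y, z)) * (A.d μ)⁻¹ = A.j (n (μ ^ 2 * x, μ * y, z)) := A.toAm.d_n μ x y z

theorem d_τ (μ l : Fˣ) : A.d μ * A.j (τ l) = A.j (τ l) * A.d μ := A.toAm.d_τ μ l

theorem d_t (μ : Fˣ) : A.d μ * A.j Hz.t = A.j Hz.t * A.d μ := A.toAm.d_t μ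

theorem d_mul (μ l : Fˣ) : A.d (μ * l) = A.d μ * A.d l := A.toAm.d_mul μ l

theorem d_one : A.d 1 = 1 := A.toAm.d_one

theorem diag (a b : F) (h) : ∃ μ l : Fˣ, (μ : F) = a ∧ (l : F) = b ∧
    A.ψ (gl a 0 0 b h) = A.d μ * A.j (τ l) := A.toAm.diag a b h

theorem anti (a b : F) (h) : A.ψ (gl 0 a b 0 h) = A.ψ (gl a 0 0 b (by simpa using h)) * A.w :=
  A.toAm.anti a b h

theorem d_z (μ : Fˣ) (a : F) : A.d μ * A.j (z a) * (A.d μ)⁻¹ = A.j (z (μ ^ 2 * a)) := by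
  simpa only [mul_zero, z_eq] using A.d_n μ a 0 0

variable [Finite G]

theorem ψ_mem (m : GL (Fin 2) F) : A.ψ m ∈ normalizer (A.M : Set G) :=
  mem_normalizer_fintype fun x hx => by
    obtain ⟨a, b, c, rfl⟩ := A.mem_M hx
    rw [A.act']; exact A.n_mem _

theorem w_mem : A.w ∈ normalizer (A.M : Set G) := A.ψ_mem _

theorem conj_M {g : G} (h : g ∈ normalizer (A.M : Set G)) : (A.conj g).M = A.M := by
  rw [← map_conj_eq_of_mem_normalizer h, Amb.M, Amb.M, map_map]; rfl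

/-- the set-up conjugated by the Weyl element -/
def sw : Amb2 F G where
  toAmb := A.conj A.w
  ψ := (MulAut.conj A.w).toMonoidHom.comp A.ψ
  act m v := by
    change _ = MulAut.conj A.w (A.j _)
    rw [← A.act', map_mul, map_mul, map_inv]; rfl
  ψu s h := congrArg (MulAut.conj A.w) (A.ψu s h)
  ψτ s h := congrArg (MulAut.conj A.w) (A.ψτ s h)
  neg h := (congrArg (MulAut.conj A.w) (A.neg h)).trans (map_one _)
  surj g hg := by
    rw [A.conj_M A.w_mem] at hg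
    obtain ⟨v, m, e⟩ := A.surj (A.w⁻¹ * g * A.w)
      (mul_mem (mul_mem (inv_mem A.w_mem) hg) A.w_mem)
    refine ⟨v, m, ?_⟩
    change g = MulAut.conj A.w (A.j _) * MulAut.conj A.w (A.ψ _)
    rw [← map_mul, ← e]; simp [mul_assoc]

theorem sw_j (c : Hz F) : A.sw.j c = A.w * A.j c * A.w⁻¹ := rfl

theorem sw_w : A.sw.w = A.w := mul_inv_cancel_right _ _

theorem sw_M : A.sw.M = A.M := A.conj_M (A.ψ_mem _)

theorem sw_t : A.sw.j Hz.t = A.j Hz.t := mul_inv_eq_iff_eq_mul.2 A.w_t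

theorem sw_n (x y z : F) : A.sw.j (n (x, y, z)) = A.j (n (z, y, x)) := A.w_n x y z

theorem sw_τ (l : Fˣ) : A.sw.j (τ l) = A.d l := A.w_τ l

theorem sw_sw (c : Hz F) : A.sw.sw.j c = A.j c := by
  rw [sw_j, sw_j, sw_w, A.w_inv, ← mul_assoc, ← mul_assoc, A.w_mul_w, one_mul, mul_assoc,
    A.w_mul_w, mul_one]

theorem actN {g : G} (h : g ∈ normalizer (A.M : Set G)) : ∃ v a b c d h, g = A.j (n v) *
    A.ψ (gl a b c d h) ∧ ∀ x y z, g * A.j (n (x, y, z)) * g⁻¹ = A.j (n (a ^ 2 * x + 2 * a * b * y +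
      b ^ 2 * z, a * c * x + (a * d + b * c) * y + b * d * z, c ^ 2 * x + 2 * c * d * y + d ^ 2 * z)) := by
  obtain ⟨v, m, rfl⟩ := A.surj g h
  obtain ⟨a, b, c, d, h', rfl⟩ := exists_gl m
  refine ⟨v, a, b, c, d, h', rfl, fun x y z => ?_⟩
  rw [← rho_gl a b c d h', ← mul_inv_cancel_right (A.j (n (rho _ _))) (A.j (n v)),
    A.M_comm (A.n_mem _) (A.n_mem v), ← A.act']
  group

theorem n_inj {a b c a' b' c' : F} (h : A.j (n (a, b, c)) = A.j (n (a', b', c'))) :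
    a = a' ∧ b = b' ∧ c = c' := by simpa using (modH A.h2).n_inj (A.inj h)

theorem fusz {g : G} {α x y w : F} (ha : α ≠ 0) (h : g * A.j (z α) * g⁻¹ = A.j (n (x, y, w))) :
    ∃ a c, x = a ^ 2 * α ∧ y = a * c * α ∧ w = c ^ 2 * α := by
  obtain ⟨k, hk, c, rfl⟩ := A.fus ha (h ▸ A.n_mem _)
  obtain ⟨-, a, b, c', d, -, -, e⟩ := A.actN hk
  have := e α 0 0
  rw [mul_assoc k, A.z_comm, mul_inv_rev, ← mul_assoc, ← mul_assoc, mul_inv_cancel_right,
    z_eq, this] at h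
  exact ⟨a, c', by simpa [eq_comm] using A.n_inj h⟩

theorem H_eq {g : G} (h : g ∈ A.H) : ∃ μ c, g = A.d μ * A.j c := by
  obtain ⟨x, hx⟩ := A.mem_Z (A.H_conj h (A.z_mem 1))
  obtain ⟨a, c, e, -⟩ := A.fusz one_ne_zero hx
  have a0 : a ≠ 0 := by
    rintro rfl
    rw [e, (A.jz_eq_one (a := 0 ^ 2 * 1)).2 (by simp), conj_eq_one_iff, A.jz_eq_one] at hx
    exact one_ne_zero hx
  obtain ⟨k, hk⟩ := A.hC 1 one_ne_zero ((A.d (Units.mk0 a a0))⁻¹ * g) (by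
    have := A.d_z (Units.mk0 a a0) 1
    rw [Units.val_mk0, ← e] at this
    rw [← mul_inv_eq_iff_eq_mul]
    calc _ = (A.d (Units.mk0 a a0))⁻¹ * (g * A.j (z 1) * g⁻¹) * A.d (Units.mk0 a a0) := by group
      _ = _ := by rw [hx, ← this]; group)
  exact ⟨_, k, by rw [hk, mul_inv_cancel_left]⟩

theorem HK {g : G} (h : g ∈ A.H) (hk : g * A.j Hz.t = A.j Hz.t * g) :
    ∃ μ a, ∃ c ∈ Ls, g = A.d μ * A.j (z a * c) := by
  obtain ⟨μ, c, rfl⟩ := A.H_eq h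
  obtain ⟨h1, h2⟩ := cent_t A.h2 (c := c) (A.inj (by
    rw [map_mul, map_mul, ← mul_right_inj (A.d μ), ← mul_assoc, hk, ← mul_assoc, ← mul_assoc]
    exact congrArg (· * _) (A.d_t μ).symm))
  obtain ⟨g, hg, e⟩ := exists_Ls h1 h2
  exact ⟨μ, _, g, hg, by rw [← e]⟩

theorem d_mem_H (μ : Fˣ) : A.d μ ∈ A.H := A.mem_H fun a => A.d_z μ a ▸ A.z_mem _

theorem d_w0 (μ : Fˣ) : A.d μ * A.j w0 = A.j w0 * A.d μ := by
  obtain ⟨φ, hφ⟩ := A.aut (A.d_mem_H μ)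
  have f1 : ∀ l, φ (τ l) = τ l := fun l => A.inj (by
    rw [hφ, mul_inv_eq_iff_eq_mul]; exact A.d_τ μ l)
  have f2 : φ (n (0, 0, 1)) = n (0, 0, 1) := A.inj (by
    rw [hφ]; simpa using A.d_n μ 0 0 1)
  have f3 : φ Hz.t = Hz.t := τ_neg (F := F) ▸ f1 _
  obtain ⟨l, l0, l1, l2⟩ := A.exists_big
  have l5 : l - l⁻¹ ≠ 0 := fun e => (mul_self_eq_one_iff.1 (show l * l = 1 by
    rw [sub_eq_zero] at e; nth_rw 2 [e]; exact mul_inv_cancel₀ l0)).elim l1 l2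
  obtain ⟨x0, y0⟩ := cent_t A.h2 (c := φ w0) (by rw [← f3, ← map_mul, ← map_mul, t_comm rfl rfl])
  have e1 : φ w0 * τ (Units.mk0 l l0) = τ (Units.mk0 l l0)⁻¹ * φ w0 := by
    rw [← f1, ← f1 _⁻¹, ← map_mul, ← map_mul]; congr 1; ext <;> simp
  have p0 : (φ w0).p = 0 := mul_left_cancel₀ l5 (by
    have := congrArg Hz.p e1
    simp only [mul_p, τ_p, τ_q, τ_r, Units.val_mk0, Units.val_inv_eq_inv_val] at this
    linear_combination this)
  have s0 : (φ w0).s = 0 := mul_left_cancel₀ l5 (by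
    have := congrArg Hz.s e1
    simp only [mul_s, τ_s, τ_q, τ_r, Units.val_mk0, Units.val_inv_eq_inv_val, inv_inv] at this
    linear_combination -this)
  have a0 : (φ w0).a = 0 := mul_left_cancel₀ A.h2 (by
    have := congrArg Hz.a (show φ w0 * φ w0 = Hz.t by rw [← map_mul, w0_sq, f3])
    simp only [mul_a, x0, y0, t_a] at this
    linear_combination this)
  have r0 : (φ w0).r = -1 := by
    have := trace_of_cube A.h3 (g := φ w0 * n (0, 0, 1)) (by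
      rw [← f2, ← map_mul, ← map_pow, ← map_one φ, pow_three']; congr 1; ext <;> simp)
    simp [p0, s0] at this
    linear_combination this + A.h3
  have q0 : (φ w0).q = 1 := by simpa [p0, r0] using (φ w0).det
  rw [← mul_inv_eq_iff_eq_mul, ← hφ]
  congr 1
  ext <;> simp [*]

theorem d_Ls (μ : Fˣ) {c : Hz F} (h : c ∈ Ls) : A.d μ * A.j c = A.j c * A.d μ :=
  (mem_centralizer_singleton_iff.1 (Ls_le (X := (centralizer {A.d μ}).comap A.j)
    (fun c => mem_centralizer_singleton_iff.2 (mul_inv_eq_iff_eq_mul.1 (by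
      simpa using A.d_n μ 0 0 c)).symm)
    (fun l => mem_centralizer_singleton_iff.2 (A.d_τ μ l).symm)
    (mem_centralizer_singleton_iff.2 (A.d_w0 μ).symm) h)).symm

theorem NK {g : G} (h : g ∈ normalizer (A.M : Set G)) (hk : g * A.j Hz.t = A.j Hz.t * g) :
    ∃ (a c : F) (μ l : Fˣ), (g = A.j (n (a, 0, c)) * (A.d μ * A.j (τ l)) ∧
      ∀ x z, g * A.j (n (x, 0, z)) * g⁻¹ = A.j (n (μ ^ 2 * x, 0, l ^ 2 * z))) ∨
      (g = A.j (n (a, 0, c)) * (A.d μ * A.j (τ l) * A.w) ∧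
      ∀ x z, g * A.j (n (x, 0, z)) * g⁻¹ = A.j (n (μ ^ 2 * z, 0, l ^ 2 * x))) := by
  obtain ⟨⟨x, y, w⟩, a, b, c, d, h0, e, e'⟩ := A.actN h
  have tn : ∀ x y z, A.j Hz.t * A.j (n (x, y, z)) * (A.j Hz.t)⁻¹ = A.j (n (x, -y, z)) := fun x y z => by
    rw [← map_inv, ← map_mul, ← map_mul]; congr 1; ext <;> simp
  have k : ∀ x y z, g * A.j (n (x, -y, z)) * g⁻¹ = A.j Hz.t * (g * A.j (n (x, y, z)) * g⁻¹) * (A.j Hz.t)⁻¹ :=
    fun x y z => by
      rw [← tn, ← mul_assoc, ← mul_assoc, hk, mul_assoc _ _ g⁻¹, ← mul_inv_rev, hk]; group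
  simp only [e', tn] at k
  have k1 : a * c = 0 := mul_left_cancel₀ A.h2 (by linear_combination (A.n_inj (k 1 0 0)).2.1)
  have k2 : b * d = 0 := mul_left_cancel₀ A.h2 (by linear_combination (A.n_inj (k 0 0 1)).2.1)
  have y0 : ∀ k, k * A.j Hz.t = A.j Hz.t * k → g = A.j (n (x, y, w)) * k → y = 0 := fun k h1 h2 => by
    rw [h2, mul_assoc, h1, ← mul_assoc, ← mul_assoc, mul_left_inj, ← map_mul, ← map_mul] at hk
    exact (cent_t A.h2 (A.inj hk)).1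
  have dt : ∀ μ l, A.d μ * A.j (τ l) * A.j Hz.t = A.j Hz.t * (A.d μ * A.j (τ l)) := fun μ l => by
    rw [mul_assoc, ← map_mul, t_comm rfl rfl, map_mul, ← mul_assoc, ← mul_assoc]
    exact congrArg (· * _) (A.d_t μ)
  by_cases a0 : a = 0
  · subst a0
    have : d = 0 := (mul_eq_zero.1 k2).resolve_left fun e => h0 (by simp [e])
    subst this
    obtain ⟨μ, l, rfl, rfl, e2⟩ := A.diag b c (by simpa using h0)
    rw [A.anti, e2] at e
    rw [y0 _ (by rw [mul_assoc, A.w_t, ← mul_assoc, dt, mul_assoc]) e] at e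
    exact ⟨_, _, μ, l, Or.inr ⟨e, fun x z => by simp [e']⟩⟩
  · have : c = 0 := (mul_eq_zero.1 k1).resolve_left a0
    subst this
    have : b = 0 := (mul_eq_zero.1 k2).resolve_right fun e => h0 (by simp [e])
    subst this
    obtain ⟨μ, l, rfl, rfl, e2⟩ := A.diag a d h0
    rw [e2] at e
    rw [y0 _ (dt _ _) e] at e
    exact ⟨_, _, μ, l, Or.inl ⟨e, fun x z => by simp [e']⟩⟩

end Amb2

end Cfsg.Lib.Hay
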