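import Cfsg.Agent.Lib.Hay.Hz3

/-!
The subgroups `Q₈ ≤ SL₂(3)` of the model.
-/

set_option autoImplicit false

namespace Cfsg.Lib.Hay

open Subgroup

namespace Hz

variable {F F' : Type*} [Field F] [Field F']

/-- functoriality -/
@[simps] def map (f : F →+* F') : Hz F →* Hz F' where
  toFun g := ⟨f g.a, f g.x, f g.y, f g.p, f g.q, f g.r, f g.s, by
    rw [← map_mul, ← map_mul, ← map_sub, g.det, map_one]⟩
  map_one' := by ext <;> simp
  map_mul' g h := by ext <;> simp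

/-- the condition describing `Q₈` in `SL₂(3)` -/
def R3 (g : Hz F) : Prop := g.p + g.s = 0 ∨ (g.q = 0 ∧ g.r = 0)

instance (g : Hz (ZMod 3)) : Decidable (R3 g) := inferInstanceAs (Decidable (_ ∨ _))

theorem R3_map (f : F →+* F') (a : F') (g : Hz F) : R3 (z a * map f g) ↔ R3 g := by
  simp [R3, ← map_add]

theorem dec1 : ∀ p q r s : ZMod 3, ∀ h, ∀ p' q' r' s' : ZMod 3, ∀ h',
    R3 (sl p q r s h) → R3 (sl p' q' r' s' h') → R3 (sl p q r s h * sl p' q' r' s' h') := by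
  decide +kernel

theorem dec2 : ∀ p q r s : ZMod 3, ∀ h, ∀ p' q' r' s' : ZMod 3, ∀ h',
    R3 (sl p q r s h * sl p' q' r' s' h' * (sl p q r s h)⁻¹ * (sl p' q' r' s' h')⁻¹) := by
  decide +kernel

theorem dec3 : ∀ p q r s : ZMod 3, ∀ h, R3 (sl p q r s h * sl p q r s h * sl p q r s h) := by
  decide +kernel

variable (h3 : (3 : F) = 0)
include h3

/-- `Z × SL₂(3)` -/
def Ss : Subgroup (Hz F) where
  carrier := {g | g.x = 0 ∧ g.y = 0 ∧ g.p ^ 3 = g.p ∧ g.q ^ 3 = g.q ∧ g.r ^ 3 = g.r ∧ g.s ^ 3 = g.s}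
  one_mem' := by simp
  mul_mem' := by
    rintro a b ⟨h1, h2, h4, h5, h6, h7⟩ ⟨k1, k2, k4, k5, k6, k7⟩
    have k : ∀ a b c d : F, a ^ 3 = a → b ^ 3 = b → c ^ 3 = c → d ^ 3 = d →
        (a * b + c * d) ^ 3 = a * b + c * d := fun a b c d ha hb hc hd => by
      have : (a * b + c * d) ^ 3 = a ^ 3 * b ^ 3 + c ^ 3 * d ^ 3 := by
        linear_combination (a * b * (c * d) * (a * b + c * d)) * h3
      rw [this, ha, hb, hc, hd]
    exact ⟨by simp [*], by simp [*], k _ _ _ _ h4 k4 h5 k6, k _ _ _ _ h4 k5 h5 k7,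
      k _ _ _ _ h6 k4 h7 k6, k _ _ _ _ h6 k5 h7 k7⟩
  inv_mem' := by
    rintro a ⟨h1, h2, h4, h5, h6, h7⟩
    exact ⟨by simp [*], by simp [*], h7, by simp only [inv_q]; linear_combination -h5,
      by simp only [inv_r]; linear_combination -h6, h4⟩

theorem exists_of_Ss : ∃ f : ZMod 3 →+* F, ∀ g ∈ Ss h3, ∃ p q r s h,
    g = z g.a * map f (sl p q r s h) := by
  haveI : Fact (Nat.Prime 3) := ⟨Nat.prime_three⟩
  haveI : CharP F 3 := (CharP.charP_iff_prime_eq_zero Nat.prime_three).2 (by exact_mod_cast h3)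
  let f := ZMod.castHom (dvd_refl 3) F
  have k : ∀ x : F, x ^ 3 = x → ∃ y, x = f y := fun x hx => by
    have : x * (x - 1) * (x + 1) = 0 := by linear_combination hx
    rcases mul_eq_zero.1 this with h | h
    · rcases mul_eq_zero.1 h with h | h
      · exact ⟨0, by rw [h, map_zero]⟩
      · exact ⟨1, by rw [map_one]; linear_combination h⟩
    · exact ⟨-1, by rw [map_neg, map_one]; linear_combination h⟩
  refine ⟨f, fun g ⟨h1, h2, h4, h5, h6, h7⟩ => ?_⟩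
  obtain ⟨p, hp⟩ := k _ h4
  obtain ⟨q, hq⟩ := k _ h5
  obtain ⟨r, hr⟩ := k _ h6
  obtain ⟨s, hs⟩ := k _ h7
  refine ⟨p, q, r, s, f.injective ?_, ?_⟩
  · rw [map_sub, map_mul, map_mul, ← hp, ← hq, ← hr, ← hs, g.det, map_one]
  · ext <;> simp [*]

/-- `Q₈` -/
def Rs : Subgroup (Hz F) where
  carrier := {g | g ∈ Ss h3 ∧ g.a = 0 ∧ R3 g}
  one_mem' := ⟨one_mem _, rfl, Or.inr ⟨rfl, rfl⟩⟩
  mul_mem' := by
    rintro a b ⟨h1, h2, h4⟩ ⟨k1, k2, k4⟩
    refine ⟨mul_mem h1 k1, by simp [h1.1, h1.2.1, h2, k2], ?_⟩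
    obtain ⟨f, hf⟩ := exists_of_Ss h3
    obtain ⟨p, q, r, s, h, e⟩ := hf a h1
    obtain ⟨p', q', r', s', h', e'⟩ := hf b k1
    rw [e, R3_map] at h4
    rw [e', R3_map] at k4
    rw [e, e', mul_assoc, ← mul_assoc (map f _), z_comm, mul_assoc, ← map_mul, ← mul_assoc, ← z_add,
      R3_map]
    exact dec1 _ _ _ _ _ _ _ _ _ _ h4 k4
  inv_mem' := by
    rintro a ⟨h1, h2, h4⟩
    exact ⟨inv_mem h1, by simp [h2], by simpa [R3, add_comm] using h4⟩

theorem Rs_le : Rs h3 ≤ Ss h3 := fun _ h => h.1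

theorem z_mem_Ss (a : F) : z a ∈ Ss h3 := by simp [Ss]

theorem t_mem_Rs : t ∈ Rs h3 := ⟨by simp [Ss]; ring, rfl, Or.inr ⟨rfl, rfl⟩⟩

theorem Ss_comm {a b : Hz F} (ha : a ∈ Ss h3) (hb : b ∈ Ss h3) : a * b * a⁻¹ * b⁻¹ ∈ Rs h3 := by
  refine ⟨mul_mem (mul_mem (mul_mem ha hb) (inv_mem ha)) (inv_mem hb),
    by simp [ha.1, ha.2.1, hb.1, hb.2.1], ?_⟩
  obtain ⟨f, hf⟩ := exists_of_Ss h3
  obtain ⟨p, q, r, s, h, e⟩ := hf a ha
  obtain ⟨p', q', r', s', h', e'⟩ := hf b hb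
  have := (R3_map f 0 _).2 (dec2 p q r s h p' q' r' s' h')
  rw [e, e']
  simpa [R3] using this

theorem Ss_cube {a : Hz F} (ha : a ∈ Ss h3) : a ^ 3 ∈ Rs h3 := by
  refine ⟨pow_mem ha 3, ?_, ?_⟩
  · rw [pow_three']; simp [ha.1, ha.2.1]; linear_combination a.a * h3
  obtain ⟨f, hf⟩ := exists_of_Ss h3
  obtain ⟨p, q, r, s, h, e⟩ := hf a ha
  have := (R3_map f 0 _).2 (dec3 p q r s h)
  rw [e, pow_three']
  simpa [R3] using this

theorem Rs_cases {g : Hz F} (h : g ∈ Rs h3) : g = 1 ∨ g = t ∨ g * g = t := by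
  obtain ⟨⟨h1, h2, h4, h5, h6, h7⟩, a0, h | ⟨q0, r0⟩⟩ := h
  · refine Or.inr (Or.inr ?_)
    have d := g.det
    ext <;> simp [*]
    · linear_combination g.p * h - d
    · linear_combination g.q * h
    · linear_combination g.r * h
    · linear_combination g.s * h - d
  · have d : g.p * g.s = 1 := by simpa [q0] using g.det
    have p2 : g.p * g.p = 1 := by linear_combination g.s * h4 + (1 - g.p ^ 2) * d
    rcases mul_self_eq_one_iff.1 p2 with p1 | p1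
    · left
      have : g.s = 1 := by simpa [p1] using d
      ext <;> simp [*]
    · right; left
      have : g.s = -1 := by rw [p1] at d; linear_combination -d
      ext <;> simp [*]

theorem Rs_pow4 {g : Hz F} (h : g ∈ Rs h3) : g ^ 4 = 1 := by
  rw [show g ^ 4 = (g * g) * (g * g) by rw [pow_succ, pow_three']; group]
  rcases Rs_cases h3 h with rfl | rfl | h
  · simp
  · rw [t_mul_t, one_mul]
  · rw [h, t_mul_t]

theorem t_ne_one : (t : Hz F) ≠ 1 := fun h =>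
  two_ne h3 (by have := congrArg Hz.p h; simp only [t_p, one_p] at this; linear_combination -this)

theorem Rs_invol {g : Hz F} (h : g ∈ Rs h3) (h1 : g ≠ 1) (h2 : g * g = 1) : g = t := by
  rcases Rs_cases h3 h with h | h | h
  · exact absurd h h1
  · exact h
  · exact absurd (h.symm.trans h2) (t_ne_one h3)

theorem mem_Rs_of_pow {g : Hz F} (h : g ∈ Ss h3) {k : ℕ} (hk : g ^ 2 ^ k = 1) : g ∈ Rs h3 := by
  have hc : (3 : ℕ).Coprime (orderOf g) :=
    Nat.Coprime.coprime_dvd_right (orderOf_dvd_of_pow_eq_one hk) (Nat.Coprime.pow_right _ (by norm_num))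
  obtain ⟨i, hi⟩ := exists_pow_eq_self_of_coprime hc
  exact hi ▸ pow_mem (Ss_cube h3 h) i

theorem Ss_norm {g : Hz F} (hg : g ∈ Ss h3) {r : Hz F} (hr : r ∈ Rs h3) : g * r * g⁻¹ ∈ Rs h3 := by
  simpa using mul_mem (Ss_comm h3 hg hr.1) hr

theorem norm_Rs (hns : ∀ a : F, a ^ 2 ≠ -1) {g : Hz F} (h : ∀ r ∈ Rs h3, g * r * g⁻¹ ∈ Rs h3) :
    g ∈ Ss h3 := by
  have h2 := two_ne h3
  have e0 := (h t (t_mem_Rs h3)).1
  have d := g.det
  have x0 : g.x = 0 := mul_left_cancel₀ h2 (by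
    have := e0.1
    simp at this
    linear_combination this - g.x * d)
  have y0 : g.y = 0 := mul_left_cancel₀ h2 (by
    have := e0.2.1
    simp at this
    linear_combination this - g.y * d)
  have e1 := (h (sl 0 (-1) 1 0 (by simp)) ⟨by simp [Ss]; ring, rfl, Or.inl (by simp)⟩).1
  have e2 := (h (sl 1 1 1 (-1) (by linear_combination -h3))
    ⟨by simp [Ss]; ring, rfl, Or.inl (by simp)⟩).1
  have e3 := (h (sl (-1) 1 1 1 (by linear_combination -h3))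
    ⟨by simp [Ss]; ring, rfl, Or.inl (by simp)⟩).1
  have k : ∀ a b : F, (a ^ 2 + b ^ 2) ^ 3 = a ^ 2 + b ^ 2 →
      (a ^ 2 - b ^ 2 + 2 * a * b) ^ 3 = a ^ 2 - b ^ 2 + 2 * a * b →
      (a ^ 2 - b ^ 2 - 2 * a * b) ^ 3 = a ^ 2 - b ^ 2 - 2 * a * b → a ^ 3 = a ∧ b ^ 3 = b := by
    intro a b k1 k2 k3
    have c : ∀ u v : F, (u + v) ^ 3 = u ^ 3 + v ^ 3 := fun u v => by
      linear_combination (u * v * (u + v)) * h3
    have k4 : ∀ x : F, (x ^ 2) ^ 3 = x ^ 2 → x ^ 3 = x := fun x hx => by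
      have : x * (x * (x ^ 2 - 1)) * (x ^ 2 + 1) = 0 := by linear_combination hx
      rcases mul_eq_zero.1 this with h | h
      · rcases mul_eq_zero.1 h with h | h
        · simp [h]
        · linear_combination h
      · exact absurd (by linear_combination h) (hns x)
    have k5 := c (a ^ 2 - b ^ 2 + 2 * a * b) (a ^ 2 - b ^ 2 - 2 * a * b)
    rw [k2, k3] at k5
    have k6 : (a ^ 2 - b ^ 2) ^ 3 = a ^ 2 - b ^ 2 := by
      linear_combination -k5 + (3 * (a ^ 2 - b ^ 2) ^ 3 - (a ^ 2 - b ^ 2)) * h3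
    have k7 := c (a ^ 2 + b ^ 2) (a ^ 2 - b ^ 2)
    have k8 := c (a ^ 2 + b ^ 2) (-(a ^ 2 - b ^ 2))
    rw [k1, k6] at k7
    rw [k1, Odd.neg_pow (by decide), k6] at k8
    exact ⟨k4 a (by linear_combination -k7 + (3 * a ^ 6 - a ^ 2) * h3),
      k4 b (by linear_combination -k8 + (3 * b ^ 6 - b ^ 2) * h3)⟩
  have a1 := e1.2.2.2.1
  have a2 := e2.2.2.2.1
  have a3 := e3.2.2.2.1
  have b1 := e1.2.2.2.2.1
  have b2 := e2.2.2.2.2.1
  have b3 := e3.2.2.2.2.1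
  simp only [mul_p, mul_q, mul_r, mul_s, inv_p, inv_q, inv_r, inv_s, sl_p, sl_q, sl_r, sl_s]
    at a1 a2 a3 b1 b2 b3
  obtain ⟨c1, c2⟩ := k g.p g.q (by linear_combination -a1) (by linear_combination a3)
    (by linear_combination a2)
  obtain ⟨c3, c4⟩ := k g.s g.r (by linear_combination b1) (by linear_combination b2)
    (by linear_combination b3)
  exact ⟨x0, y0, c1, c2, c4, c3⟩

end Hz

end Cfsg.Lib.Hay
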