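import Cfsg.Agent.Lib.Hay.Sec3
import Cfsg.Agent.Lib.Hay.Closed
import Cfsg.Agent.Lib.Transfer.Basic
import Cfsg.Agent.Lib.PGroup.Basic

/-!
Relative forms (modulo a normal subgroup) of `sec3` and of the `Z*`-theorem.
-/

set_option autoImplicit false

namespace Cfsg.Lib.Hay

open Subgroup

variable {G : Type*} [Group G] [Finite G]

theorem sec3W (Y W S V E : Subgroup G) {u t : G} (hSY : S ≤ Y)
    (hW : ∀ y ∈ Y, ∀ w ∈ W, y * w * y⁻¹ ∈ W) (hWS : W ≤ S) (hVS : V ≤ S) (hV : ∃ v ∈ V, v ∉ W)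
    (hu : u ∈ S) (hu1 : u ∉ W) (huV : ∀ v ∈ V, ∀ k : ℤ, v * (u ^ k)⁻¹ ∈ W → v ∈ W)
    (hc : ∀ a ∈ S, ∀ b ∈ S, a * b * a⁻¹ * b⁻¹ ∈ W) (h3 : ∀ a ∈ S, a ^ 3 ∈ W)
    (h1 : ∀ s ∈ S, (∀ k : ℤ, s * (u ^ k)⁻¹ ∉ W) → ∀ x ∈ Y, x * s * x⁻¹ * s⁻¹ ∈ W → x ∈ S)
    (hB : ∀ n ∈ Y, n ∈ normalizer (S : Set G) → n * u * n⁻¹ * u⁻¹ ∈ W ∧
      (∀ v ∈ V, n * v * n⁻¹ ∈ V) ∧ (n * n ∈ S → n ∈ S))
    (hE : ∀ x ∈ Y, x * u * x⁻¹ * u⁻¹ ∈ W → ∃ w ∈ W, w * x ∈ E) (tE : t ∈ E) (tW : t ∈ W) (t1 : t ≠ 1)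
    {ι κ : Type*} (g : ι → G) (g1 : ∀ i, g i ∈ S) (g2 : ∀ i j, (g i)⁻¹ * g j ∈ W → i = j)
    (f : κ → G) (f1 : ∀ i, f i ∈ Y ∧ f i ∈ normalizer (S : Set G))
    (f2 : ∀ i j, (f i)⁻¹ * f j ∈ S → i = j)
    (hn : Nat.card E < 6 * (Nat.card ι + 1) * Nat.card κ ^ 2) :
    ∀ x ∈ Y, x * u * x⁻¹ * u⁻¹ ∈ W := by
  haveI : (W.subgroupOf Y).Normal := ⟨fun w hw y => hW y y.2 w hw⟩
  let π := QuotientGroup.mk' (W.subgroupOf Y)
  have π1 : ∀ y : Y, π y = 1 ↔ (y : G) ∈ W := fun y => QuotientGroup.eq_one_iff y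
  have mem : ∀ y : Y, π y ∈ (S.subgroupOf Y).map π ↔ (y : G) ∈ S := by
    intro y
    refine ⟨?_, fun h => ⟨y, h, rfl⟩⟩
    rintro ⟨a, ha, e⟩
    have : ((a⁻¹ * y : Y) : G) ∈ S := hWS ((π1 _).1 (by rw [map_mul, map_inv, e, inv_mul_cancel]))
    exact (S.mul_mem_cancel_left (S.inv_mem ha)).1 this
  have comm : ∀ a b : Y, π a * π b = π b * π a ↔ (a : G) * b * (a : G)⁻¹ * (b : G)⁻¹ ∈ W := by
    intro a b
    rw [← commutatorElement_eq_one_iff_mul_comm, ← map_commutatorElement, π1]; rfl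
  have nrm : ∀ y : Y, π y ∈ normalizer ((S.subgroupOf Y).map π : Set (Y ⧸ W.subgroupOf Y)) ↔
      (y : G) ∈ normalizer (S : Set G) := by
    intro y
    constructor
    · intro h
      refine mem_normalizer_fintype fun s hs => (mem (y * ⟨s, hSY hs⟩ * y⁻¹)).1 ?_
      rw [map_mul, map_mul, map_inv]
      exact (mem_normalizer_iff.1 h _).1 ((mem ⟨s, hSY hs⟩).2 hs)
    · intro h
      refine mem_normalizer_fintype ?_
      rintro _ ⟨s, hs, rfl⟩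
      exact ⟨y * s * y⁻¹, (mem_normalizer_iff.1 h _).1 hs, by simp⟩
  let u' : Y := ⟨u, hSY hu⟩
  have zp : ∀ y : Y, π y ∈ zpowers (π u') ↔ ∃ k : ℤ, y * (u ^ k)⁻¹ ∈ W := fun y =>
    exists_congr fun k => by
      beta_reduce
      rw [← map_zpow, eq_comm, ← mul_inv_eq_one, ← map_inv, ← map_mul, π1]; rfl
  intro x hx
  refine (comm ⟨x, hx⟩ u').1 (sec3 ((S.subgroupOf Y).map π) ((V.subgroupOf Y).map π)
    (map_mono (subgroupOf_mono _ hVS)) ?_ ⟨u', hu, rfl⟩ (mt (π1 u').1 hu1) ?_ ?_ ?_ ?_ ?_ ?_ ?_ ?_ _)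
  · obtain ⟨v, v1, v2⟩ := hV
    exact fun h => v2 ((π1 ⟨v, hSY (hVS v1)⟩).1 (mem_bot.1 (h ▸ ⟨_, v1, rfl⟩)))
  · rintro _ ⟨v, hv, rfl⟩ h
    obtain ⟨k, hk⟩ := (zp v).1 h
    exact (π1 v).2 (huV _ hv k hk)
  · rintro _ ⟨a, ha, rfl⟩ _ ⟨b, hb, rfl⟩
    exact (comm a b).2 (hc _ ha _ hb)
  · rintro _ ⟨a, ha, rfl⟩
    rw [← map_pow, π1]
    exact h3 _ ha
  · rintro _ ⟨a, ha, rfl⟩ a1 x hx
    obtain ⟨x, rfl⟩ := QuotientGroup.mk'_surjective _ x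
    exact (mem x).2 (h1 _ ha (fun k hk => a1 ((zp a).2 ⟨k, hk⟩)) x x.2 ((comm x a).1 hx))
  · intro n hn
    obtain ⟨x, rfl⟩ := QuotientGroup.mk'_surjective _ n
    exact (comm x u').2 (hB x x.2 ((nrm x).1 hn)).1
  · rintro n hn _ ⟨a, ha, rfl⟩
    obtain ⟨x, rfl⟩ := QuotientGroup.mk'_surjective _ n
    exact ⟨x * a * x⁻¹, (hB x x.2 ((nrm x).1 hn)).2.1 _ ha, by simp [π]⟩
  · intro n hn h
    obtain ⟨x, rfl⟩ := QuotientGroup.mk'_surjective _ n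
    exact (mem x).2 ((hB x x.2 ((nrm x).1 hn)).2.2 ((mem (x * x)).1 h))
  have a1 : Nat.card ι ≤ Nat.card ((S.subgroupOf Y).map π) := Nat.card_le_card_of_injective
    (fun i => ⟨π ⟨g i, hSY (g1 i)⟩, _, g1 i, rfl⟩) fun i j e => g2 i j
      ((π1 ((⟨g i, hSY (g1 i)⟩ : Y)⁻¹ * ⟨g j, hSY (g1 j)⟩)).1 (by
        rw [map_mul, map_inv, inv_mul_eq_one]; exact congrArg Subtype.val e))
  have a2 : Nat.card κ ≤ ((S.subgroupOf Y).map π).relIndex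
      (normalizer ((S.subgroupOf Y).map π : Set (Y ⧸ W.subgroupOf Y))) :=
    Nat.card_le_card_of_injective (fun i => QuotientGroup.mk ⟨π ⟨f i, (f1 i).1⟩, (nrm _).2 (f1 i).2⟩)
      fun i j e => f2 i j ((mem ((⟨f i, (f1 i).1⟩ : Y)⁻¹ * ⟨f j, (f1 j).1⟩)).1 (QuotientGroup.eq.1 e))
  have a3 : Nat.card (centralizer ({π u'} : Set (Y ⧸ W.subgroupOf Y))) ≤
      Nat.card ((E.subgroupOf Y).map π) := card_le_of_le fun n hn => by
    obtain ⟨x, rfl⟩ := QuotientGroup.mk'_surjective _ n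
    obtain ⟨w, w1, w2⟩ := hE x x.2 ((comm x u').1 (mem_centralizer_singleton_iff.1 hn))
    exact ⟨⟨w, hSY (hWS w1)⟩ * x, w2, by rw [map_mul, (π1 _).2 w1, one_mul]⟩
  have a4 := pg_card_map_mul_card_ker π (E.subgroupOf Y)
  have a5 : 1 < Nat.card ↥(E.subgroupOf Y ⊓ π.ker) := (one_lt_card_iff_ne_bot _).2 fun h =>
    t1 (congrArg (Subtype.val : Y → G) (mem_bot.1 (h.le (⟨tE, (π1 _).2 tW⟩ :
      (⟨t, hSY (hWS tW)⟩ : Y) ∈ E.subgroupOf Y ⊓ π.ker))))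
  have a6 : Nat.card (E.subgroupOf Y) ≤ Nat.card E := Nat.card_le_card_of_injective
    (fun x => ⟨x.1.1, x.2⟩) fun a b e =>
      Subtype.ext (Subtype.ext (congrArg (Subtype.val : E → G) e))
  have a7 := Nat.mul_le_mul (Nat.mul_le_mul_left 3 (Nat.add_le_add_right a1 1))
    (Nat.pow_le_pow_left a2 2)
  nlinarith

theorem zq (Y W G0 : Subgroup G) (hWY : W ≤ Y) (hW : ∀ y ∈ Y, ∀ w ∈ W, y * w * y⁻¹ ∈ W)
    (hW0 : W ≤ G0) {i : G} (hi : i ∈ Y) (hi2 : i * i ∈ W)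
    (iso : ∀ g ∈ Y, g * i * g⁻¹ * i * (g * i * g⁻¹)⁻¹ * i⁻¹ ∈ W → g * i * g⁻¹ * i⁻¹ ∈ W)
    (cen : ∀ g ∈ Y, g * i * g⁻¹ * i⁻¹ ∈ W → g ∈ G0) {p : ℕ} [hp : Fact p.Prime] {a b : G}
    (ha : a ∈ Y) (hb : b ∈ Y) (ap : a ^ p ∈ W) (bp : b ^ p ∈ W) (ab : a * b * a⁻¹ * b⁻¹ ∈ W)
    (ind : ∀ i j : ℕ, i < p → j < p → a ^ i * b ^ j ∈ W → i = 0 ∧ j = 0)
    (hA : ∀ i j : ℕ, i < p → j < p → a ^ i * b ^ j ∉ W → ∀ o ∈ Y, Odd (orderOf o) →
      o * (a ^ i * b ^ j) * o⁻¹ * (a ^ i * b ^ j)⁻¹ ∈ W → o ∈ G0)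
    (hO : ∀ O : Subgroup G, W ≤ O → O ≤ Y → (∀ y ∈ Y, ∀ o ∈ O, y * o * y⁻¹ ∈ O) →
      (∀ x ∈ O, x * x ∈ W → x ∈ W) → ∀ o ∈ O, o ^ p ∈ W → o ∈ W) : Y ≤ G0 := by
  haveI : Fact (Nat.Prime 2) := ⟨Nat.prime_two⟩
  haveI : (W.subgroupOf Y).Normal := ⟨fun w hw y => hW y y.2 w hw⟩
  let π := QuotientGroup.mk' (W.subgroupOf Y)
  have π1 : ∀ y : Y, π y = 1 ↔ (y : G) ∈ W := fun y => QuotientGroup.eq_one_iff y
  have mem : ∀ y : Y, π y ∈ (G0.subgroupOf Y).map π ↔ (y : G) ∈ G0 := by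
    intro y
    refine ⟨?_, fun h => ⟨y, h, rfl⟩⟩
    rintro ⟨a, ha, e⟩
    have : ((a⁻¹ * y : Y) : G) ∈ G0 := hW0 ((π1 _).1 (by rw [map_mul, map_inv, e, inv_mul_cancel]))
    exact (G0.mul_mem_cancel_left (G0.inv_mem ha)).1 this
  have comm : ∀ a b : Y, π a * π b = π b * π a ↔ (a : G) * b * (a : G)⁻¹ * (b : G)⁻¹ ∈ W := by
    intro a b
    rw [← commutatorElement_eq_one_iff_mul_comm, ← map_commutatorElement, π1]; rfl
  set O := pPrimeCore 2 (Y ⧸ W.subgroupOf Y)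
  have odd : ∀ x ∈ O, (2 : ℕ).Coprime (orderOf x) := fun x hx =>
    (coprime_card_pPrimeCore.coprime_dvd_left (O.orderOf_dvd_natCard hx)).symm
  let a' : Y := ⟨a, ha⟩
  let b' : Y := ⟨b, hb⟩
  have c : Commute (π a') (π b') := (comm a' b').2 ab
  have ap' : π a' ^ p = 1 := by rw [← map_pow, π1]; exact ap
  have bp' : π b' ^ p = 1 := by rw [← map_pow, π1]; exact bp
  let A : Subgroup (Y ⧸ W.subgroupOf Y) :=
    { carrier := {x | ∃ i j : ℕ, x = π a' ^ i * π b' ^ j}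
      one_mem' := ⟨0, 0, by simp⟩
      mul_mem' := by
        rintro _ _ ⟨i, j, rfl⟩ ⟨k, l, rfl⟩
        exact ⟨i + k, j + l, by rw [pow_add, pow_add, (c.pow_pow k j).symm.mul_mul_mul_comm]⟩
      inv_mem' := by
        rintro _ ⟨i, j, rfl⟩
        refine ⟨i * (p - 1), j * (p - 1), inv_eq_of_mul_eq_one_right ?_⟩
        rw [(c.pow_pow _ j).symm.mul_mul_mul_comm, ← pow_add, ← pow_add, ← mul_one_add, ← mul_one_add,
          Nat.add_sub_cancel' hp.out.one_le, pow_mul', pow_mul', ap', bp']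
        simp }
  have Ac : IsMulCommutative A := isMulCommutative_of_forall (by
    rintro _ ⟨i, j, rfl⟩ _ ⟨k, l, rfl⟩
    exact (((Commute.refl _).pow_pow i k).mul_right (c.pow_pow i l)).mul_left
      ((c.symm.pow_pow j k).mul_right ((Commute.refl _).pow_pow j l)))
  have Ap : ∀ x ∈ A, x ^ p = 1 := by
    rintro _ ⟨i, j, rfl⟩
    rw [(c.pow_pow i j).mul_pow, pow_right_comm, ap', pow_right_comm, bp']; simp
  have OG : O ≤ (G0.subgroupOf Y).map π := by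
    refine CoprimeAct.le_of_centralizer_singleton (A := A) (CoprimeAct.of_isPGroup (p := p)
      (fun x => ⟨1, Subtype.ext (by simpa using Ap _ x.2)⟩) (fun h => ?_) le_normalizer_of_normal)
      Ac (fun hc => ?_) ?_
    · obtain ⟨⟨x, hx⟩, h⟩ := exists_prime_orderOf_dvd_card' p h
      obtain ⟨o, rfl⟩ := QuotientGroup.mk'_surjective _ x
      rw [orderOf_mk] at h
      have := hO ((O.comap π).map Y.subtype) (fun w hw => ⟨⟨w, hWY hw⟩, by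
          change π _ ∈ O; rw [(π1 _).2 hw]; exact one_mem _, rfl⟩) (map_subtype_le _)
        (by
          rintro y hy _ ⟨o, ho, rfl⟩
          exact ⟨_, (inferInstance : (O.comap π).Normal).conj_mem o ho ⟨y, hy⟩, rfl⟩)
        (by
          rintro _ ⟨o, ho, rfl⟩ h
          refine (π1 o).1 (orderOf_eq_one_iff.1 (Nat.eq_one_of_dvd_coprimes (odd _ ho) ?_ dvd_rfl))
          exact orderOf_dvd_of_pow_eq_one (by rw [sq, ← map_mul]; exact (π1 _).2 h))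
        o ⟨o, hx, rfl⟩ ((π1 (o ^ p)).1 (by rw [map_pow, ← h, pow_orderOf_eq_one]))
      rw [(π1 o).2 this, orderOf_one] at h
      exact hp.out.one_lt.ne h
    · have h1 := hc.exponent_eq_card
      have h2 : Monoid.exponent A ∣ p := Monoid.exponent_dvd_of_forall_pow_eq_one fun g =>
        Subtype.ext (Ap _ g.2)
      have h3 : orderOf (π a') = p := orderOf_eq_prime ap' fun e =>
        one_ne_zero (ind 1 0 hp.out.one_lt hp.out.pos (by simpa using (π1 a').1 e)).1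
      have h4 : zpowers (π a') = A := eq_of_le_of_card_ge (zpowers_le.2 ⟨1, 0, by simp⟩) (by
        rw [Nat.card_zpowers, h3, ← h1]; exact Nat.le_of_dvd hp.out.pos h2)
      have h5 : (π b')⁻¹ ∈ zpowers (π a') := h4 ▸ inv_mem ⟨0, 1, by simp⟩
      classical
      rw [mem_zpowers_iff_mem_range_orderOf, h3] at h5
      obtain ⟨k, k1, k2⟩ := Finset.mem_image.1 h5
      refine one_ne_zero (ind k 1 (Finset.mem_range.1 k1) hp.out.one_lt ((π1 (a' ^ k * b' ^ 1)).1 ?_)).2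
      rw [map_mul, map_pow, k2, pow_one, inv_mul_cancel]
    · rintro _ ⟨i, j, rfl⟩ a1 x ⟨x1, x2⟩
      rw [pow_eq_pow_mod i ap', pow_eq_pow_mod j bp', ← map_pow, ← map_pow, ← map_mul] at a1 x2
      obtain ⟨o, rfl⟩ := QuotientGroup.mk'_surjective _ x
      obtain ⟨k, hk⟩ := exists_pow_coprime_orderOf (p := 2) o
      have := (mem (o ^ 2 ^ k)).2 (hA _ _ (Nat.mod_lt i hp.out.pos) (Nat.mod_lt j hp.out.pos)
        (mt (π1 (a' ^ (i % p) * b' ^ (j % p))).2 a1) _ (o ^ 2 ^ k).2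
        (by rw [orderOf_coe]; exact Nat.coprime_two_right.1 hk)
        ((comm (o ^ 2 ^ k) (a' ^ (i % p) * b' ^ (j % p))).1 (by
          rw [map_pow]; exact Commute.pow_left (mem_centralizer_singleton_iff.1 x2) _)))
      obtain ⟨m, hm⟩ := exists_pow_eq_self_of_coprime ((odd _ x1).pow_left k)
      rw [← hm, ← map_pow]
      exact pow_mem this m
  let i' : Y := ⟨i, hi⟩
  have i2 : π i' ^ 2 = 1 := by rw [sq, ← map_mul, π1]; exact hi2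
  have zs := zstar i2 fun x hx => by
    obtain ⟨g, rfl⟩ := QuotientGroup.mk'_surjective _ x
    rw [← map_inv, ← map_mul, ← map_mul] at hx ⊢
    rw [← mul_inv_eq_one, ← map_inv, ← map_mul, π1]
    exact iso g g.2 ((comm _ i').1 hx.symm)
  intro g hg
  have h1 := zs (π ⟨g, hg⟩)
  rw [show (π i')⁻¹ = π i' from inv_eq_of_mul_eq_one_right (sq (π i') ▸ i2)] at h1
  obtain ⟨j, hj⟩ := exists_conj_of_odd (t := π ⟨g, hg⟩ * π i' * (π ⟨g, hg⟩)⁻¹)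
    (by rw [conj_pow, i2]; simp) i2 ((Nat.Prime.coprime_iff_not_dvd Nat.prime_two).1 (odd _ h1))
  obtain ⟨o, o1, o2⟩ := OG (zpow_mem h1 j)
  rw [← o2] at hj
  let g' : Y := o⁻¹ * ⟨g, hg⟩
  refine (G0.mul_mem_cancel_left (inv_mem o1)).1 (cen g' g'.2 ((comm g' i').1 ?_))
  rw [map_mul, map_inv, ← mul_inv_eq_iff_eq_mul]
  calc _ = (π o)⁻¹ * (π ⟨g, hg⟩ * π i' * (π ⟨g, hg⟩)⁻¹) * π o := by group
    _ = (π o)⁻¹ * (π o * π i' * (π o)⁻¹) * π o := by rw [hj]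
    _ = _ := by group

end Cfsg.Lib.Hay
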