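import Cfsg.Agent.Lib.Hay.Dia
import Cfsg.Agent.Lib.Coprime.Sylow
import Cfsg.Agent.Lib.FT.BG3.Char0

/-!
An element of order three whose centralizer is strongly `3`-embedded and small is central.
-/

set_option autoImplicit false

open scoped ComplexConjugate Classical

namespace Cfsg.Lib.Hay

open Subgroup Cfsg.Lib Cfsg.Lib.FT

variable {X : Type*} [Group X]

theorem isSylowIn_of_norm [Finite X] {p : ℕ} [Fact p.Prime] {S K : Subgroup X} (hS : IsPGroup p S)
    (hK : S ≤ K) (h : ∀ y ∈ K, y ∈ normalizer (S : Set X) → ∀ k : ℕ, y ^ p ^ k = 1 → y ∈ S) :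
    IsSylowIn p S K := ⟨hK, hS, fun R hR h1 h2 => by
  by_contra hne
  obtain ⟨y, y1, y2, y3⟩ := exists_mem_normalizer_not_mem hR.isNilpotent
    (lt_of_le_of_ne h2 (Ne.symm hne))
  obtain ⟨k, hk⟩ := hR ⟨y, y1⟩
  exact y3 (h y (h1 y1) y2 k (congrArg Subtype.val hk))⟩

theorem pow_of_conj {x n : X} {k : ℕ} (h : (x⁻¹ * n * x) ^ k = 1) : n ^ k = 1 := by
  have := @conj_pow _ _ k x⁻¹ n
  rw [inv_inv, h] at this
  exact conj_eq_one_iff.1 (by rw [inv_inv]; exact this.symm : x⁻¹ * n ^ k * x⁻¹⁻¹ = 1)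

theorem three_le [Fintype X] {a b c : X → ℂ} (ha : IsIrrCharacter X a) (hb : IsIrrCharacter X b)
    (hc : IsIrrCharacter X c) (ab : a ≠ b) (ac : a ≠ c) (bc : b ≠ c) {d : ℕ} (a1 : a 1 = d)
    (b1 : b 1 = d) (c1 : c 1 = d) : 3 * d ^ 2 ≤ Nat.card X := by
  choose n hn0 hn using fun χ : IrrCharacter X => χ.2.exists_one_eq
  have h := sum_irr_one_mul (1 : X)
  rw [if_pos rfl] at h
  simp only [hn] at h
  have h' : ∑ χ, n χ * n χ = Nat.card X := by exact_mod_cast h
  have k : ∀ χ : IrrCharacter X, χ.1 1 = d → n χ = d := fun χ e => by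
    rw [hn] at e; exact_mod_cast e
  rw [← h']
  refine le_trans (le_of_eq ?_) (Finset.sum_le_sum_of_subset
    (Finset.subset_univ ({⟨a, ha⟩, ⟨b, hb⟩, ⟨c, hc⟩} : Finset (IrrCharacter X))))
  rw [Finset.sum_insert (by simp [ab, ac]), Finset.sum_insert (by simp [bc]), Finset.sum_singleton,
    k _ a1, k _ b1, k _ c1]
  ring

theorem irr_mul_lin [Fintype X] {a : X → ℂ} (ha : IsIrrCharacter X a) (ω : X →* ℂ) :
    IsIrrCharacter X (a * ω) :=
  (ha.isCharacter.mul (isIrrCharacter_of_hom ω).isCharacter).isIrr_of_inner_self (by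
    rw [classInner_mul_left, ← ha.inner_self]
    congr 1
    funext g
    have : ω g * conj (ω g) = 1 := by
      rw [Complex.mul_conj, Complex.normSq_eq_norm_sq, hom_norm_eq_one]; simp
    simp only [Pi.mul_apply]
    linear_combination a g * this)

theorem exA0 [Fintype X] (S Z : Subgroup X) [S.Normal] [hZn : Z.Normal] (hZS : Z ≤ S) (hZ : Z ≠ ⊥)
    {u : X} (hu : u ∈ S) (huZ : ∀ z ∈ Z, z ∈ zpowers u → z = 1) (huc : u ∈ center X)
    (hc : ∀ a ∈ S, ∀ b ∈ S, a * b = b * a) (h3 : ∀ a ∈ S, a ^ 3 = 1)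
    (h1 : ∀ z ∈ Z, z ≠ 1 → ∀ n, n * z = z * n → n ∈ S) (h2 : ∀ n, n * n ∈ S → n ∈ S) :
    ∃ β β', IsIrrCharacter X β ∧ IsIrrCharacter X β' ∧ β ≠ β' ∧ β 1 = S.index ∧ β u = β 1 ∧
      β' u = β' 1 ∧ ∀ n, β n ≠ β' n → n ∈ S ∧ n ∉ zpowers u := by
  obtain ⟨z0, z0Z, z01⟩ := (bot_or_exists_ne_one Z).resolve_left hZ
  obtain ⟨l, hl0, hl⟩ := coh9_exists_lin S (zpowers u) (commutator_le.2 fun a ha b hb => by
    rw [commutatorElement_eq_one_iff_mul_comm.2 (hc a ha b hb)]; exact one_mem _) (hZS z0Z)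
    fun h => z01 (huZ _ z0Z h)
  let L : (S →* ℂˣ) → S →* ℂ := fun f => (Units.coeHom ℂ).comp f
  have nS : ∀ n : X, ∀ s ∈ S, n * s * n⁻¹ ∈ S := fun n s hs => Normal.conj_mem inferInstance s hs n
  have key : ∀ n : X, (∀ s : S, l ⟨n * s * n⁻¹, nS n _ s.2⟩ = l s) → n ∈ S := fun n h => by
    by_contra hn
    let κ : Z → Z := fun z => ⟨n * z * n⁻¹ * (z : X)⁻¹, Z.mul_mem (hZn.conj_mem _ z.2 n) (Z.inv_mem z.2)⟩
    obtain ⟨z, hz⟩ := Finite.injective_iff_surjective.1 (show Function.Injective κ from fun a b e => by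
      have e := congrArg Subtype.val e
      simp only [κ] at e
      by_contra hne
      refine hn (h1 ((b : X)⁻¹ * a) (Z.mul_mem (Z.inv_mem b.2) a.2)
        (fun h => hne (Subtype.ext (inv_mul_eq_one.1 h).symm)) n ?_)
      calc n * ((b : X)⁻¹ * a) = (n * b * n⁻¹)⁻¹ * (n * a * n⁻¹ * (a : X)⁻¹) * a * n := by group
        _ = _ := by rw [e]; group) ⟨z0, z0Z⟩
    have := h ⟨z, hZS z.2⟩
    rw [← mul_inv_eq_one, ← map_inv, ← map_mul] at this
    exact hl (by rw [← this]; congr 1; exact Subtype.ext (congrArg Subtype.val hz).symm)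
  have up : ∀ f : S →* ℂˣ, (∀ y : S, (y : X) ∈ zpowers u → f y = 1) → ∀ n : S, (n : X) ∈ zpowers u →
      indFun S (L f) n = S.index := fun f hf n hn => by
    rw [← mul_one (S.index : ℂ), ← map_one (L f), ← indFun_one, ← coe_one, indFun_normal_apply,
      indFun_normal_apply]
    congr 1
    refine Finset.sum_congr rfl fun g _ => ?_
    have k : ∀ m : S, (m : X) ∈ zpowers u → conjBy S g (L f) m = 1 := fun m hm =>
      congrArg Units.val (hf _ (by
        change g * m * g⁻¹ ∈ _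
        rwa [mem_center_iff.1 (zpowers_le.2 huc hm) g, mul_inv_cancel_right]))
    rw [k n hn, k 1 (one_mem _)]
  have hl0' : ∀ y : S, (y : X) ∈ zpowers u → l⁻¹ y = 1 := fun y hy => by simp [hl0 y hy]
  refine ⟨indFun S (L l), indFun S (L l⁻¹), ?_, ?_, fun e => ?_, up l hl0 1 (one_mem _),
    (up l hl0 ⟨u, hu⟩ (mem_zpowers u)).trans (up l hl0 1 (one_mem _)).symm,
    (up _ hl0' ⟨u, hu⟩ (mem_zpowers u)).trans (up _ hl0' 1 (one_mem _)).symm, fun n hn => ?_⟩
  · exact (pf1_5b_irr S (isIrrCharacter_of_hom _)).2 fun n hn => key n fun z =>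
      Units.ext (congrFun hn z)
  · exact (pf1_5b_irr S (isIrrCharacter_of_hom _)).2 fun n hn => key n fun z =>
      inv_injective (Units.ext (congrFun hn z))
  · obtain ⟨n, hn⟩ := (pf1_5c S (isIrrCharacter_of_hom _) (isIrrCharacter_of_hom _)).1 e.symm
    have k : ∀ s : S, l ⟨n * s * n⁻¹, nS n _ s.2⟩ = (l s)⁻¹ := fun s => Units.ext (congrFun hn s).symm
    have nS' := h2 n (key _ fun s => by
      rw [← inv_inv (l s), ← k s, ← k]; congr 1; apply Subtype.ext; simp [mul_assoc])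
    have k1 := k ⟨z0, hZS z0Z⟩
    simp only [hc n nS' z0 (hZS z0Z), mul_inv_cancel_right] at k1
    have k2 : l ⟨z0, hZS z0Z⟩ ^ 3 = 1 := by
      rw [← map_pow, ← map_one l]; congr 1; exact Subtype.ext (h3 _ (hZS z0Z))
    rw [pow_three', eq_inv_iff_mul_eq_one.1 k1, one_mul] at k2
    exact hl k2
  · have nS : n ∈ S := by
      by_contra h0
      exact hn (by rw [indFun_of_not_mem_normal S _ h0, indFun_of_not_mem_normal S _ h0])
    exact ⟨nS, fun h => hn ((up l hl0 ⟨n, nS⟩ h).trans (up _ hl0' ⟨n, nS⟩ h).symm)⟩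

theorem exA [Fintype X] (S Z : Subgroup X) (hZS : Z ≤ S) (hZ : Z ≠ ⊥)
    {u : X} (hu : u ∈ S) (huZ : ∀ z ∈ Z, z ∈ zpowers u → z = 1) (huc : u ∈ center X)
    (hc : ∀ a ∈ S, ∀ b ∈ S, a * b = b * a) (h3 : ∀ a ∈ S, a ^ 3 = 1)
    (h1 : ∀ s ∈ S, s ∉ zpowers u → ∀ n, n * s = s * n → n ∈ S)
    (hZN : ∀ n ∈ normalizer (S : Set X), ∀ z ∈ Z, n * z * n⁻¹ ∈ Z)
    (h2 : ∀ n ∈ normalizer (S : Set X), n * n ∈ S → n ∈ S) :
    ∃ ψ ψ', IsIrrCharacter X ψ ∧ IsIrrCharacter X ψ' ∧ ψ ≠ ψ' ∧ ψ u = ψ 1 ∧ ψ' u = ψ 1 ∧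
      (∀ n, ψ n ≠ ψ' n → n ^ 3 = 1 ∧ n ≠ 1) ∧
      ∃ d : ℕ, ψ 1 = d ∧ S.relIndex (normalizer (S : Set X)) ≤ d := by
  haveI : Fact (Nat.Prime 3) := ⟨Nat.prime_three⟩
  set B := normalizer (S : Set X) with hB
  have h1' : ∀ z ∈ Z, z ≠ 1 → ∀ n, n * z = z * n → n ∈ S := fun z hz z1 =>
    h1 z (hZS hz) fun h => z1 (huZ z hz h)
  have zp : ∀ n : B, n ∈ zpowers (⟨u, le_normalizer hu⟩ : B) ↔ (n : X) ∈ zpowers u := fun n =>
    ⟨fun ⟨k, hk⟩ => ⟨k, congrArg Subtype.val hk⟩, fun ⟨k, hk⟩ => ⟨k, Subtype.ext hk⟩⟩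
  have uc : (⟨u, le_normalizer hu⟩ : B) ∈ center B :=
    mem_center_iff.2 fun g => Subtype.ext (mem_center_iff.1 huc g)
  haveI : (Z.subgroupOf B).Normal := ⟨fun z hz n => hZN n n.2 z hz⟩
  obtain ⟨β, β', i1, i2, ne, b1, b2, b3, hs⟩ := exA0 (S.subgroupOf B) (Z.subgroupOf B)
    (subgroupOf_mono _ hZS) (fun e => hZ (by
      rw [subgroupOf_eq_bot, disjoint_iff, inf_eq_left.2 (hZS.trans le_normalizer)] at e; exact e))
    (u := ⟨u, le_normalizer hu⟩) hu (fun z hz h => Subtype.ext (huZ _ hz ((zp z).1 h))) uc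
    (fun a ha b hb => Subtype.ext (hc _ ha _ hb)) (fun a ha => Subtype.ext (h3 _ ha))
    (fun z hz z1 n e => h1' _ hz (fun e => z1 (Subtype.ext e)) _ (congrArg Subtype.val e))
    (fun n hn => h2 _ n.2 hn)
  simp only [zp] at hs
  set θ := β - β' with hθ
  have θg : IsGeneralizedCharacter B θ := i1.isGen.sub i2.isGen
  have hα : ∀ n : B, indFun B θ n = θ n := fun n =>
    indFun_eq_of_ti B θg.isClassFunction n fun x hx h0 => by
      obtain ⟨k1, k2⟩ := hs _ (sub_ne_zero.1 h0)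
      change x⁻¹ * n * x ∈ S at k1
      change x⁻¹ * n * x ∉ _ at k2
      have n3 : (n : X) ^ 3 ^ 1 = 1 := pow_of_conj (h3 _ k1)
      obtain ⟨z, z1, z2, z3⟩ := exists_fixed_of_pow (p := 3) (Z := Z)
        (fun z => ⟨1, Subtype.ext (by simpa using h3 _ (hZS z.2))⟩) hZ n3 (hZN n n.2)
      refine mem_normalizer_fintype fun s hs => h1 n (h1' z z1 z2 _ z3) (fun h => k2 ?_) _ ?_
      · rwa [mul_assoc, ← mem_center_iff.1 (zpowers_le.2 huc h) x, inv_mul_cancel_left]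
      · calc x * s * x⁻¹ * n = x * (s * (x⁻¹ * n * x)) * x⁻¹ := by group
          _ = _ := by rw [hc s hs _ k1]; group
  have θ0 : ∀ n : B, (n : X) ∈ zpowers u → θ n = 0 := fun n hn => by
    by_contra h0
    exact (hs n (sub_ne_zero.1 h0)).2 hn
  obtain ⟨ψ, ψ', j1, j2, ne', e⟩ := exists_sub_of_norm_two θg.ind (by
    rw [classInner_indFun_indFun B θ θ fun a _ => hα a, hθ, classInner_sub_left,
      classInner_sub_right, classInner_sub_right, i1.inner_self, i2.inner_self, i1.inner_of_ne i2 ne,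
      i2.inner_of_ne i1 ne.symm]; norm_num) ((hα 1).trans (θ0 1 (one_mem _)))
  have e' : ∀ n : B, ψ n - ψ' n = β n - β' n := fun n => (congrFun e n).symm.trans (hα n)
  have d1 : ψ 1 = ψ' 1 := sub_eq_zero.1 ((e' 1).trans (θ0 1 (one_mem _)))
  have d2 : ψ u = ψ' u := sub_eq_zero.1 ((e' ⟨u, le_normalizer hu⟩).trans (θ0 _ (mem_zpowers u)))
  have d3 : ψ u = ψ 1 := by
    obtain ⟨y, hy⟩ := Function.ne_iff.1 ne
    have c1 := irr_central_mul j1 huc y
    have c2 := irr_central_mul j2 huc y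
    have c3 := irr_central_mul i1 uc y
    have c4 := irr_central_mul i2 uc y
    rw [b2, mul_right_inj' i1.one_ne_zero] at c3
    rw [b3, mul_right_inj' i2.one_ne_zero] at c4
    have c5 := e' (⟨u, le_normalizer hu⟩ * y)
    rw [c3, c4, coe_mul] at c5
    refine mul_right_cancel₀ (sub_ne_zero.2 hy) ?_
    rw [← d1, ← d2] at c2
    linear_combination ψ 1 * c5 - ψ u * e' y - c1 + c2
  obtain ⟨d, -, hd⟩ := j1.exists_one_eq
  refine ⟨ψ, ψ', j1, j2, ne', d3, d2 ▸ d3, fun n hn => ?_, d, hd,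
    deg_le_of_inner_ne_zero (j1.isCharacter.res B) i1 (fun h0 => ?_) b1 hd⟩
  · by_contra h0
    refine hn (sub_eq_zero.1 ((congrFun e n).symm.trans (indFun_eq_zero B θ fun x hx => ?_)))
    by_contra k
    obtain ⟨k1, k2⟩ := hs _ (sub_ne_zero.1 k)
    refine h0 ⟨pow_of_conj (h3 _ k1), ?_⟩
    rintro rfl
    exact k2 (by simp)
  · obtain ⟨m, hm⟩ := (j2.isCharacter.res B).inner_nat i1.isCharacter
    have : classInner ((fun x : B => ψ x) - fun x : B => ψ' x) β = classInner (β - β') β :=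
      congrArg (classInner · β) (funext e')
    rw [classInner_sub_left, classInner_sub_left, h0, hm, i1.inner_self, i2.inner_of_ne i1 ne.symm]
      at this
    have : ((m + 1 : ℕ) : ℂ) = 0 := by push_cast; linear_combination -this
    exact Nat.succ_ne_zero m (by exact_mod_cast this)

theorem sect [Fintype X] (N : Subgroup X)
    (hN : ∀ s ∈ N, s ^ 3 = 1 → s ≠ 1 → ∀ g, g * s * g⁻¹ ∈ N → g ∈ N) {u : N} (huc : u ∈ center N)
    (u3 : u ^ 3 = 1) (ω : N →* ℂ) (ω3 : ∀ n, ω n ^ 3 = 1) (ωu : ω u ≠ 1) {χ : X → ℂ}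
    (h : IsIrrCharacter X χ) (h0 : χ u ≠ 0) :
    ∃ a b, IsIrrCharacter N a ∧ IsIrrCharacter N b ∧ (fun n : N => χ n) * (1 - ω) = a - b ∧
      χ u ^ 6 = a 1 ^ 6 ∧ χ u ^ 6 = b 1 ^ 6 := by
  set A : N → ℂ := fun n => χ n with hA
  have Ag : IsGeneralizedCharacter N A := h.isGen.res N
  have ωg := (isIrrCharacter_of_hom ω).isGen
  have cω : ∀ n, conj (ω n) = ω n ^ 2 := fun n => by
    rw [conj_eq_inv_of_pow_eq_one (by norm_num) (ω3 n)]
    exact inv_eq_of_mul_eq_one_right (by rw [← ω3 n]; ring)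
  set θ := A * (1 - ω) with hθ
  set θ2 := A * (1 + 1 - ω - ω * ω) with hθ2
  have g1 : IsGeneralizedCharacter N θ := Ag.mul (isGen_one.sub ωg)
  have g2 : IsGeneralizedCharacter N θ2 := Ag.mul (((isGen_one.add isGen_one).sub ωg).sub (ωg.mul ωg))
  have ti : ∀ n : N, indFun N θ2 n = θ2 n := fun n =>
    indFun_eq_of_ti N g2.isClassFunction n fun x hx k => by
      set b : N := ⟨_, hx⟩ with hb
      have b1 : ω b ≠ 1 := fun e => k (by simp [hθ2, e])
      have b2 : 3 ∣ orderOf b := by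
        by_contra hn
        obtain ⟨i, hi⟩ := exists_pow_eq_self_of_coprime
          ((Nat.Prime.coprime_iff_not_dvd Nat.prime_three).2 hn)
        exact b1 (by rw [← hi, map_pow, map_pow, ω3, one_pow])
      obtain ⟨i, hi⟩ := b2
      have b3 : orderOf (b ^ i) = 3 := by
        have := orderOf_pos b
        rw [orderOf_pow' _ (by omega), hi, Nat.gcd_mul_left_left]
        exact Nat.mul_div_cancel _ (by omega)
      refine hN _ (b ^ i).2 (congrArg Subtype.val (b3 ▸ pow_orderOf_eq_one (b ^ i))) (fun e => ?_) x ?_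
      · rw [show b ^ i = 1 from Subtype.ext e, orderOf_one] at b3
        omega
      · rw [coe_pow, ← conj_pow]
        exact pow_mem (by simp [hb, mul_assoc]) i
  obtain ⟨m, hm⟩ := g1.inner_self_nat
  have e1 : classInner θ2 A = m := by
    rw [← hm]
    unfold classInner
    congr 1
    refine Finset.sum_congr rfl fun n _ => ?_
    simp only [hθ, hθ2, Pi.mul_apply, Pi.sub_apply, Pi.add_apply, Pi.one_apply, map_mul, map_sub,
      map_one, cω]
    linear_combination (-(A n * conj (A n))) * ω3 n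
  have e2 : classInner θ2 θ2 = (3 * m : ℕ) := by
    rw [Nat.cast_mul, ← e1, Nat.cast_ofNat, ← classInner_smul_left]
    unfold classInner
    congr 1
    refine Finset.sum_congr rfl fun n _ => ?_
    simp only [hθ2, Pi.mul_apply, Pi.sub_apply, Pi.add_apply, Pi.one_apply, map_mul, map_sub,
      map_one, map_add, cω, Pi.smul_apply, smul_eq_mul]
    linear_combination (A n * conj (A n) * (ω n ^ 3 + ω n ^ 2 - ω n + 2)) * ω3 n
  rw [← classInner_indFun_left N θ2 h.isClassFunction] at e1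
  rw [← classInner_indFun_indFun N θ2 θ2 fun a _ => ti a] at e2
  have e3 := g2.ind.sq_le_of_inner h (n := m) (by simpa using e1) e2
  have θu : θ u ≠ 0 := mul_ne_zero h0 (sub_ne_zero.2 ωu.symm)
  have θ1 : θ 1 = 0 := by simp [hθ]
  have m3 : m ≤ 3 := by
    push_cast at e3
    by_contra! k
    nlinarith
  have m2 : m = 2 := by
    interval_cases m
    · exact absurd (congrFun (eq_zero_of_classInner_self θ (by simpa using hm)) u) θu
    · obtain ⟨a, ha, e | e⟩ := g1.eq_of_inner_self_one (by simpa using hm)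
      · exact absurd (e ▸ θ1) ha.one_ne_zero
      · exact absurd (neg_eq_zero.1 (show -a 1 = 0 from (congrFun e 1).symm.trans θ1)) ha.one_ne_zero
    · rfl
    · have := classInner_sub_smul_irr (θ := indFun N θ2) h (n := 3) (by simpa using e1)
      rw [e2] at this
      have := congrFun (eq_zero_of_classInner_self _ (this.trans (by norm_num))) 1
      rw [Pi.sub_apply, show indFun N θ2 1 = θ2 1 from ti 1] at this
      exact absurd (by simpa [hθ2] using this) h.one_ne_zero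
  obtain ⟨a, b, ha, hb, -, e⟩ := exists_sub_of_norm_two g1 (by rw [hm, m2]; rfl) θ1
  have d1 : a 1 = b 1 := sub_eq_zero.1 ((congrFun e 1).symm.trans θ1)
  have cube : ∀ c, IsIrrCharacter N c → c u ^ 3 = c 1 ^ 3 := fun c hc => by
    have c1 := irr_central_mul hc huc u
    have c2 := irr_central_mul hc huc (u * u)
    rw [← pow_three, u3] at c2
    linear_combination -c 1 * c2 - c u * c1
  have k : ∀ p q r : ℂ, p ^ 3 = r ^ 3 → q ^ 3 = r ^ 3 → p - q ≠ 0 → (p - q) ^ 6 = -27 * r ^ 6 := by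
    intro p q r h1 h2 h3
    have : p ^ 2 + p * q + q ^ 2 = 0 := mul_left_cancel₀ h3 (by linear_combination h1 - h2)
    have : (p - q) ^ 2 = -3 * (p * q) := by linear_combination this
    calc (p - q) ^ 6 = ((p - q) ^ 2) ^ 3 := by ring
      _ = -27 * (p ^ 3 * q ^ 3) := by rw [this]; ring
      _ = _ := by rw [h1, h2]; ring
  have k1 := k _ _ _ (cube a ha) (d1 ▸ cube b hb) (by rw [e] at θu; exact θu)
  have k2 := k 1 (ω u) 1 rfl (by rw [ω3, one_pow]) (sub_ne_zero.2 ωu.symm)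
  have k3 : χ u * (1 - ω u) = a u - b u := congrFun e u
  have k4 : χ u ^ 6 = a 1 ^ 6 := by
    rw [← k3, mul_pow, k2] at k1
    linear_combination (-1 / 27) * k1
  exact ⟨a, b, ha, hb, e, k4, d1 ▸ k4⟩

theorem sec3 [Finite X] (S Z : Subgroup X) (hZS : Z ≤ S) (hZ : Z ≠ ⊥)
    {u : X} (hu : u ∈ S) (hu1 : u ≠ 1) (huZ : ∀ z ∈ Z, z ∈ zpowers u → z = 1)
    (hc : ∀ a ∈ S, ∀ b ∈ S, a * b = b * a) (h3 : ∀ a ∈ S, a ^ 3 = 1)
    (h1 : ∀ s ∈ S, s ∉ zpowers u → ∀ n, n * s = s * n → n ∈ S)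
    (hB : ∀ n ∈ normalizer (S : Set X), n * u = u * n)
    (hZN : ∀ n ∈ normalizer (S : Set X), ∀ z ∈ Z, n * z * n⁻¹ ∈ Z)
    (h2 : ∀ n ∈ normalizer (S : Set X), n * n ∈ S → n ∈ S)
    (hn : Nat.card (centralizer ({u} : Set X)) <
      3 * (Nat.card S + 1) * S.relIndex (normalizer (S : Set X)) ^ 2) (x : X) : x * u = u * x := by
  haveI := Fintype.ofFinite X
  haveI : Fact (Nat.Prime 3) := ⟨Nat.prime_three⟩
  set N := centralizer ({u} : Set X) with hNd
  have SN : S ≤ N := fun s hs => mem_centralizer_singleton_iff.2 (hc s hs u hu)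
  have BN : normalizer (S : Set X) ≤ N := fun s hs => mem_centralizer_singleton_iff.2 (hB s hs)
  have pS : IsPGroup 3 S := fun z => ⟨1, Subtype.ext (by simpa using h3 _ z.2)⟩
  have syl : IsSylowIn 3 S ⊤ := isSylowIn_of_norm pS le_top fun y _ hy k hk => by
    obtain ⟨z, z1, z2, z3⟩ := exists_fixed_of_pow (pS.to_le hZS) hZ hk (hZN y hy)
    exact h1 z (hZS z1) (fun h => z2 (huZ z z1 h)) y z3
  have hN : ∀ s ∈ N, s ^ 3 = 1 → s ≠ 1 → ∀ g, g * s * g⁻¹ ∈ N → g ∈ N := by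
    have p3 : ∀ s ∈ N, s ^ 3 = 1 → ∃ a ∈ N, a * s * a⁻¹ ∈ S := fun s hs e => by
      obtain ⟨a, ha, h⟩ := (syl.mono SN le_top).exists_conj_le (U := zpowers s)
        (IsPGroup.of_card_dvd_pow (n := 1) (by
          rw [Nat.card_zpowers]; exact orderOf_dvd_of_pow_eq_one e)) (zpowers_le.2 hs)
      exact ⟨a, ha, h ⟨s, mem_zpowers s, rfl⟩⟩
    intro s hs e s1 g hg
    obtain ⟨a, ha, a1⟩ := p3 s hs e
    obtain ⟨b, hb, b1⟩ := p3 _ hg (by rw [conj_pow, e]; simp)
    have CN : centralizer {a * s * a⁻¹} ≤ N := fun y hy => by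
      rw [mem_centralizer_singleton_iff] at hy
      by_cases h : a * s * a⁻¹ ∈ zpowers u
      · have o3 : ∀ v ∈ S, v ≠ 1 → orderOf v = 3 := fun v hv v1 => orderOf_eq_prime (h3 v hv) v1
        have := eq_of_le_of_card_ge (zpowers_le.2 h) (by
          rw [Nat.card_zpowers, Nat.card_zpowers, o3 _ hu hu1, o3 _ a1 (by simpa using s1)])
        obtain ⟨k, hk⟩ := this.ge (mem_zpowers u)
        rw [hNd, ← hk]
        exact mem_centralizer_singleton_iff.2 (Commute.zpow_right hy k)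
      · exact SN (h1 _ a1 h y hy)
    have s2 := (syl.conj_of_mem_normalizer (g := a * g⁻¹ * b⁻¹)
      (le_normalizer (mem_top _))).mono
      (L := centralizer {a * s * a⁻¹}) (by
        rintro _ ⟨v, hv, rfl⟩
        rw [mem_centralizer_singleton_iff]
        change a * g⁻¹ * b⁻¹ * v * (a * g⁻¹ * b⁻¹)⁻¹ * _ = _ * (a * g⁻¹ * b⁻¹ * v * (a * g⁻¹ * b⁻¹)⁻¹)
        calc _ = a * g⁻¹ * b⁻¹ * (v * (b * (g * s * g⁻¹) * b⁻¹)) * (a * g⁻¹ * b⁻¹)⁻¹ := by group
          _ = _ := by rw [hc v hv _ b1]; group) le_top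
    obtain ⟨c, hc', e'⟩ := s2.exists_conj (syl.mono (fun v hv =>
      mem_centralizer_singleton_iff.2 (hc v hv _ a1)) le_top)
    rw [← map_conj_mul] at e'
    have := (N.mul_mem_cancel_left (CN hc')).1 (BN (mem_normalizer_of_map_conj_eq e'))
    simpa using (N.mul_mem_cancel_left ha).1 ((N.mul_mem_cancel_right (inv_mem hb)).1 this)
  set u' : N := ⟨u, SN hu⟩ with hu'
  have uc : u' ∈ center N := mem_center_iff.2 fun g => Subtype.ext (mem_centralizer_singleton_iff.1 g.2)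
  have u3 : u' ^ 3 = 1 := Subtype.ext (h3 u hu)
  have zp : ∀ n : N, n ∈ zpowers u' ↔ (n : X) ∈ zpowers u := fun n =>
    ⟨fun ⟨k, hk⟩ => ⟨k, congrArg Subtype.val hk⟩, fun ⟨k, hk⟩ => ⟨k, Subtype.ext hk⟩⟩
  have nrm : normalizer (S.subgroupOf N : Set N) = (normalizer (S : Set X)).subgroupOf N :=
    (subgroupOf_normalizer_eq SN).symm
  obtain ⟨ω, ω3, ωu⟩ : ∃ ω : N →* ℂ, (∀ n, ω n ^ 3 = 1) ∧ ω u' ≠ 1 := by
    obtain ⟨l, -, hl⟩ := coh9_exists_lin (S.subgroupOf N) ⊥ (commutator_le.2 fun a ha b hb => by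
      rw [mem_bot, commutatorElement_eq_one_iff_mul_comm]; exact Subtype.ext (hc _ ha _ hb))
      (x := u' ^ (S.subgroupOf N).index) (pow_mem hu _) (fun h => (syl.mono SN le_top).not_dvd_relIndex (by
        have := orderOf_dvd_of_pow_eq_one (mem_bot.1 h)
        rwa [orderOf_eq_prime u3 fun e => hu1 (congrArg Subtype.val e)] at this))
    let l' := l.codRestrict (powMonoidHom 3 : ℂˣ →* ℂˣ).ker fun s => by
      rw [MonoidHom.mem_ker, powMonoidHom_apply, ← map_pow, ← map_one l]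
      congr 1
      exact Subtype.ext (Subtype.ext (h3 _ s.2))
    refine ⟨(Units.coeHom ℂ).comp ((Subgroup.subtype _).comp (MonoidHom.transfer l')), fun n =>
      congrArg Units.val (MonoidHom.transfer l' n).2, fun e => hl (Units.ext ?_)⟩
    rw [MonoidHom.comp_apply, MonoidHom.comp_apply, MonoidHom.transfer_eq_pow l' u' fun k g _ => by
      rw [mul_assoc, ← mem_center_iff.1 (pow_mem uc k) g, inv_mul_cancel_left]] at e
    exact e
  obtain ⟨ψ, ψ', i1, i2, ne, p1, p2, hs, n, n1, n2⟩ := exA (S.subgroupOf N) (Z.subgroupOf N)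
    (subgroupOf_mono _ hZS) (fun e => hZ (by
      rw [subgroupOf_eq_bot, disjoint_iff, inf_eq_left.2 (hZS.trans SN)] at e; exact e))
    (u := u') hu (fun z hz h => Subtype.ext (huZ _ hz ((zp z).1 h))) uc
    (fun a ha b hb => Subtype.ext (hc _ ha _ hb)) (fun a ha => Subtype.ext (h3 _ ha))
    (fun z hz z1 n e => h1 _ hz (mt (zp z).2 z1) _ (congrArg Subtype.val e))
    (fun n hn z hz => hZN n (nrm.le hn) z hz) (fun n hn => h2 _ (nrm.le hn))
  rw [nrm, relIndex_subgroupOf BN] at n2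
  have ω0 : ∀ n, ω n ≠ 0 := fun n e => by simpa [e] using ω3 n
  have j1 := irr_mul_lin i1 ω
  have j2 := irr_mul_lin i2 ω
  have ne' : ψ * ω ≠ ψ' * ω := fun e => ne (funext fun n => mul_right_cancel₀ (ω0 n) (congrFun e n))
  obtain ⟨χ, χ', k1, k2, kne, d1, e, hχ⟩ := core33 N hN j1 j2 ne' fun n hn =>
    hs n fun e => hn (by simp [e])
  obtain ⟨d, d0, hd⟩ := k1.exists_one_eq
  have q1 : N.index * χ u = d * ω u' := by
    have := hχ u' u3 (fun e => hu1 (congrArg Subtype.val e)) (by simp [p1, p2])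
    rw [← N.card_mul_index, Nat.cast_mul, hd] at this
    simp only [Pi.mul_apply, map_one, p1] at this
    exact mul_left_cancel₀ (mul_ne_zero (natCard_complex_ne_zero N) i1.one_ne_zero)
      (by linear_combination this)
  have q2 : χ' u = χ u := by
    have := e u'
    simp only [Pi.mul_apply, p1, p2, sub_self] at this
    exact (sub_eq_zero.1 this).symm
  have d0' : (d : ℂ) ≠ 0 := by exact_mod_cast d0.ne'
  have q3 : χ u ≠ 0 := fun h => mul_ne_zero d0' (ω0 _) (by rw [← q1, h, mul_zero])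
  obtain ⟨a, b, a1, b1, e1, a2, b2⟩ := sect N hN uc u3 ω ω3 ωu k1 q3
  obtain ⟨a', b', a1', b1', e2, a2', b2'⟩ := sect N hN uc u3 ω ω3 ωu k2 (q2 ▸ q3)
  have q4 : χ u ^ 6 = (ψ * ω) 1 ^ 6 := by
    by_contra h0
    have z : ∀ c, IsIrrCharacter N c → χ u ^ 6 = c 1 ^ 6 → classInner c (ψ * ω) = 0 := fun c hc h =>
      hc.inner_of_ne j1 (by rintro rfl; exact h0 h)
    have z' : ∀ c, IsIrrCharacter N c → c u' = ψ 1 → classInner (c * ⇑ω * ⇑ω) (ψ * ⇑ω) = 0 := fun c hc h =>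
      (irr_mul_lin (irr_mul_lin hc ω) ω).inner_of_ne j1 fun e => ωu (by
        have := congrFun e u'
        simp only [Pi.mul_apply, h, p1] at this
        exact mul_left_cancel₀ (mul_ne_zero i1.one_ne_zero (ω0 u')) (by linear_combination this))
    have : a - b - (a' - b') = ψ * ⇑ω - ψ' * ⇑ω - (ψ * ⇑ω * ⇑ω - ψ' * ⇑ω * ⇑ω) := by
      rw [← e1, ← e2]
      funext n
      have := e n
      simp only [Pi.mul_apply, Pi.sub_apply, Pi.one_apply] at this ⊢
      linear_combination (1 - ω n) * this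
    have := congrArg (classInner · (ψ * ⇑ω)) this
    simp only [classInner_sub_left, z a a1 a2, z b b1 b2, z a' a1' (q2 ▸ a2'), z b' b1' (q2 ▸ b2'),
      z' ψ i1 p1, z' ψ' i2 p2, j1.inner_self, j2.inner_of_ne j1 ne'.symm] at this
    norm_num at this
  have q5 : N.index * n = d := by
    have := congrArg (· ^ 6) q1
    simp only [mul_pow, q4, Pi.mul_apply, map_one, n1, one_pow, mul_one] at this
    rw [show ω u' ^ 6 = (ω u' ^ 3) ^ 2 by ring, ω3, one_pow, mul_one, ← mul_pow] at this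
    exact Nat.pow_left_injective (n := 6) (by norm_num) (by exact_mod_cast this)
  have q6 : conj (χ u) ≠ χ u := fun h => ωu (by
    have := congrArg conj q1
    rw [map_mul, map_mul, h, map_natCast, map_natCast, q1, mul_right_inj' d0',
      conj_eq_inv_of_pow_eq_one (by norm_num) (ω3 u')] at this
    have h3 := ω3 u'
    rwa [pow_three', show ω u' * ω u' = 1 by
      conv_lhs => enter [1]; rw [this]
      exact inv_mul_cancel₀ (ω0 _), one_mul] at h3)
  have q7 := three_le k1 k2 k1.conj kne (fun h => q6 (congrFun h u).symm)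
    (fun h => q6 ((congrFun h u).symm.trans q2)) hd (d1 ▸ hd) (by rw [hd, map_natCast])
  obtain ⟨k, hk⟩ := card_dvd_index_sub_one SN fun s hs s1 => hN s (SN hs) (h3 s hs) s1
  refine mem_centralizer_singleton_iff.1 ((index_eq_one.1 ?_ : N = ⊤).ge (mem_top x))
  by_contra k0
  have k1 : Nat.card S + 1 ≤ N.index := by
    rcases k with _ | k
    · exact absurd (by simpa using hk) k0
    · rw [hk]; nlinarith
  rw [← N.card_mul_index, ← q5] at q7
  have q8 : 3 * N.index * n ^ 2 ≤ Nat.card N :=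
    Nat.le_of_mul_le_mul_right (by nlinarith) (show 0 < N.index by omega)
  have := Nat.mul_le_mul (Nat.mul_le_mul_left 3 k1) (Nat.pow_le_pow_left n2 2)
  omega

end Cfsg.Lib.Hay
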