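import Cfsg.Agent.Lib.Hay.Count
import Cfsg.Agent.Lib.FT.PF1.Normal

/-!
The `(3,3,3)` trick and exceptional characters for a strongly `3`-embedded subgroup.
-/

set_option autoImplicit false

open scoped ComplexConjugate Classical

namespace Cfsg.Lib.Hay

open Subgroup Cfsg.Lib Cfsg.Lib.FT

variable {X : Type*} [Group X]

theorem tri333 [Finite X] {x y : X} (hx : x ^ 3 = 1) (hy : y ^ 3 = 1) (hxy : (x * y) ^ 3 = 1) :
    IsConj x y ∨ ∃ f : X, f ≠ 1 ∧ f ^ 3 = 1 ∧ f * x = x * f ∧ f * y = y * f := by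
  have x2 : x * x = x⁻¹ := by rw [eq_inv_iff_mul_eq_one, ← hx, pow_three']
  have y2 : y * y = y⁻¹ := by rw [eq_inv_iff_mul_eq_one, ← hy, pow_three']
  have r : x * y * x = (y * x * y)⁻¹ := by
    rw [eq_inv_iff_mul_eq_one, ← hxy, pow_three']; group
  set a := x * y⁻¹ with ha
  set σ := MulAut.conj x with hσ
  have σ3 : ∀ g, σ (σ (σ g)) = g := fun g => by
    rw [← MulAut.mul_apply, ← MulAut.mul_apply, hσ, ← map_mul, ← map_mul, ← pow_three', hx,
      map_one, MulAut.one_apply]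
  have b1 : σ (σ a) = y⁻¹ * x := by
    simp only [hσ, MulAut.conj_apply, ha]
    calc x * (x * (x * y⁻¹) * x⁻¹) * x⁻¹ = x ^ 3 * y⁻¹ * (x * x)⁻¹ := by rw [pow_three']; group
      _ = _ := by rw [hx, x2]; group
  have ab : a * σ (σ a) = x * y * x := by
    rw [b1, ha]
    calc x * y⁻¹ * (y⁻¹ * x) = x * (y * y)⁻¹ * x := by group
      _ = _ := by rw [y2, inv_inv]
  have c02 : Commute a (σ (σ a)) := by
    rw [Commute, SemiconjBy, ab, r, b1, ha]
    calc (y * x * y)⁻¹ = y⁻¹ * x⁻¹ * y⁻¹ := by group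
      _ = _ := by rw [← x2]; group
  have c10 : Commute (σ a) a := by simpa only [σ3] using c02.map σ
  have c21 : Commute (σ (σ a)) (σ a) := c10.map σ
  have p1 : a * σ (σ a) * σ a = 1 := by
    rw [ab]
    simp only [hσ, MulAut.conj_apply, ha]
    calc x * y * x * (x * (x * y⁻¹) * x⁻¹) = x * y * x ^ 3 * y⁻¹ * x⁻¹ := by rw [pow_three']; group
      _ = 1 := by rw [hx]; group
  have pk : ∀ k : ℕ, a ^ k * σ (σ (a ^ k)) * σ (a ^ k) = 1 := fun k => by
    rw [map_pow, map_pow, ← c02.mul_pow, ← (c10.symm.mul_left c21).mul_pow, p1, one_pow]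
  have hya : y = a⁻¹ * x := by
    rw [ha]; group
  have fin : ∀ f : X, f ≠ 1 → f ^ 3 = 1 → σ f = f → Commute f a →
      ∃ f : X, f ≠ 1 ∧ f ^ 3 = 1 ∧ f * x = x * f ∧ f * y = y * f := fun f h1 h2 h3 h4 => by
    have h5 : Commute f x := (mul_inv_eq_iff_eq_mul.1 h3).symm
    exact ⟨f, h1, h2, h5, hya ▸ h4.inv_right.mul_right h5⟩
  by_cases h3 : 3 ∣ orderOf a
  · right
    obtain ⟨k, hk⟩ := h3
    have k0 : orderOf (a ^ k) = 3 := by
      have := orderOf_pos a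
      rw [orderOf_pow' _ (by omega), hk, Nat.gcd_mul_left_left]
      exact Nat.mul_div_cancel _ (by omega)
    set h := a ^ k with hh
    have h1 : h ^ 3 = 1 := k0 ▸ pow_orderOf_eq_one h
    have d10 : Commute (σ h) h := by rw [hh, map_pow]; exact c10.pow_pow k k
    by_cases e : σ h = h
    · refine fin h (fun h0 => ?_) h1 e (Commute.pow_left rfl k)
      rw [h0, orderOf_one] at k0
      omega
    · refine fin (σ h * h⁻¹) (fun h0 => e (mul_inv_eq_one.1 h0)) ?_ ?_ ?_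
      · rw [d10.inv_right.mul_pow, ← map_pow, inv_pow, h1, map_one, inv_one, mul_one]
      · have e1 : σ (σ h) = h⁻¹ * (σ h)⁻¹ := by
          rw [eq_inv_mul_iff_mul_eq, eq_inv_iff_mul_eq_one]; exact pk k
        have e2 : σ h = (σ h)⁻¹ * (σ h)⁻¹ := by
          rw [← mul_inv_rev, eq_inv_iff_mul_eq_one, ← mul_assoc, ← pow_three', ← map_pow, h1, map_one]
        rw [map_mul, map_inv, e1, d10.inv_right.eq, mul_assoc, ← e2]
      · refine Commute.mul_left ?_ (Commute.inv_left (Commute.pow_left rfl k))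
        rw [hh, map_pow]; exact c10.pow_left k
  · left
    have hc : (3 : ℕ).Coprime (orderOf a) := (Nat.Prime.coprime_iff_not_dvd Nat.prime_three).2 h3
    obtain ⟨k, hk⟩ := exists_pow_eq_self_of_coprime hc
    rw [← pow_mul, mul_comm, pow_mul] at hk
    set h := a ^ k with hh
    have d10 : Commute (σ h) h := by rw [hh, map_pow]; exact c10.pow_pow k k
    have e1 : σ (σ h) = h⁻¹ * (σ h)⁻¹ := by
      rw [eq_inv_mul_iff_mul_eq, eq_inv_iff_mul_eq_one]; exact pk k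
    refine isConj_iff.2 ⟨(σ h * h * h)⁻¹, ?_⟩
    have e2 : x * (σ h * h * h) = σ (σ h * h * h) * x := by simp [hσ]
    rw [inv_inv, mul_assoc, e2, hya, ← hk, ← mul_assoc, map_mul, map_mul, e1]
    congr 1
    calc (σ h * h * h)⁻¹ * (h⁻¹ * (σ h)⁻¹ * σ h * σ h) = h⁻¹ * h⁻¹ * ((σ h)⁻¹ * (h⁻¹ * σ h)) := by group
      _ = _ := by rw [← d10.inv_right.eq, pow_three']; group

theorem core33 [Fintype X] (N : Subgroup X)
    (hN : ∀ s ∈ N, s ^ 3 = 1 → s ≠ 1 → ∀ g, g * s * g⁻¹ ∈ N → g ∈ N)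
    {ψ ψ' : N → ℂ} (h : IsIrrCharacter N ψ) (h' : IsIrrCharacter N ψ') (hne : ψ ≠ ψ')
    (hs : ∀ n : N, ψ n ≠ ψ' n → n ^ 3 = 1 ∧ n ≠ 1) :
    ∃ χ χ' : X → ℂ, IsIrrCharacter X χ ∧ IsIrrCharacter X χ' ∧ χ ≠ χ' ∧ χ 1 = χ' 1 ∧
      (∀ n : N, χ n - χ' n = ψ n - ψ' n) ∧
      ∀ x : N, x ^ 3 = 1 → x ≠ 1 → ψ x = ψ' x →
        Nat.card X * χ x * ψ 1 = Nat.card N * χ 1 * ψ x := by
  set θ := ψ - ψ' with hθ
  have θg : IsGeneralizedCharacter N θ := h.isGen.sub h'.isGen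
  have hs' : ∀ n : N, θ n ≠ 0 → (n : X) ^ 3 = 1 ∧ (n : X) ≠ 1 := fun n hn => by
    obtain ⟨h1, h2⟩ := hs n (sub_ne_zero.1 hn)
    exact ⟨congrArg Subtype.val h1, fun e => h2 (Subtype.ext e)⟩
  have hα : ∀ n : N, indFun N θ n = θ n := fun n =>
    indFun_eq_of_ti N θg.isClassFunction n fun x hx h0 => by
      obtain ⟨h1, h2⟩ := hs' _ h0
      exact hN _ hx h1 h2 x (by simpa [mul_assoc] using n.2)
  have θ1 : θ 1 = 0 := by
    by_contra h0
    exact (hs' 1 h0).2 rfl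
  obtain ⟨χ, χ', i1, i2, ne, e⟩ := exists_sub_of_norm_two θg.ind (by
    rw [classInner_indFun_indFun N θ θ fun a _ => hα a, hθ, classInner_sub_left,
      classInner_sub_right, classInner_sub_right, h.inner_self, h'.inner_self, h.inner_of_ne h' hne,
      h'.inner_of_ne h hne.symm]; norm_num) ((hα 1).trans θ1)
  have e' : ∀ g, χ g - χ' g = indFun N θ g := fun g => (congrFun e g).symm
  have d1 : χ 1 = χ' 1 := sub_eq_zero.1 ((e' 1).trans ((hα 1).trans θ1))
  refine ⟨χ, χ', i1, i2, ne, d1, fun n => (e' n).trans (hα n), fun x x3 x1 xe => ?_⟩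
  obtain ⟨y, hy⟩ : ∃ y, θ y ≠ 0 := by
    by_contra! h0
    exact hne (sub_eq_zero.1 (funext h0))
  have θx : θ x = 0 := sub_eq_zero.2 xe
  have x3' : (x : X) ^ 3 = 1 := congrArg Subtype.val x3
  have x1' : (x : X) ≠ 1 := fun e => x1 (Subtype.ext e)
  obtain ⟨y3, y1⟩ := hs' y hy
  have van : ∀ c : X, c ∉ N → indFun N θ (c * y * c⁻¹ * x) = 0 := fun c hc =>
    indFun_eq_zero N θ fun g hg => by
      by_contra h0
      obtain ⟨h1, h2⟩ := hs' _ h0
      simp only at h1 h2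
      have e1 : g⁻¹ * (c * y * c⁻¹ * x) * g = (g⁻¹ * c * y * (g⁻¹ * c)⁻¹) * (g⁻¹ * x * g⁻¹⁻¹) := by
        group
      rw [e1] at h1 h2 hg
      rcases tri333 (by rw [conj_pow, y3]; simp) (by rw [conj_pow, x3']; simp) h1 with h | ⟨f, f1, f3, fa, fb⟩
      · have hc : IsConj (y : X) x := ((isConj_iff.2 ⟨_, rfl⟩).trans h).trans (isConj_iff.2 ⟨_, rfl⟩).symm
        apply hy
        rw [← hα, (isClassFunction_indFun N θ).eq_of_isConj hc, hα, θx]
      · have fN : f ∈ N := hN _ hg h1 h2 f (by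
          rw [← mul_assoc, fa, mul_assoc _ f, fb, ← mul_assoc, mul_inv_cancel_right]; exact hg)
        have a1 := hN f fN f3 f1 _ (by rw [← fa, mul_inv_cancel_right]; exact fN)
        have a2 := hN f fN f3 f1 _ (by rw [← fb, mul_inv_cancel_right]; exact fN)
        exact hc ((N.mul_mem_cancel_left (hN _ x.2 x3' x1' _ a2)).1 (hN _ y.2 y3 y1 _ a1))
  have s1 : ∑ c : X, indFun N θ (c * y * c⁻¹ * x) = ∑ c : N, θ (c * y * c⁻¹ * x) := by
    rw [← Finset.sum_subset (Finset.subset_univ (Finset.univ.filter (· ∈ N)))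
      fun c _ hc => van c (by simpa using hc)]
    rw [Finset.sum_subtype (p := (· ∈ N)) _ (by simp)]
    exact Finset.sum_congr rfl fun c _ => hα (c * y * c⁻¹ * x)
  have s2 : χ 1 * ∑ c : X, indFun N θ (c * y * c⁻¹ * x) = Nat.card X * χ x * θ y := by
    simp only [← e', Finset.sum_sub_distrib, mul_sub]
    rw [irr_sum_conj_mul i1, d1, irr_sum_conj_mul i2, ← hα y, ← e',
      ← sub_eq_zero.1 ((e' x).trans ((hα x).trans θx))]
    ring
  have s3 : ψ 1 * ∑ c : N, θ (c * y * c⁻¹ * x) = Nat.card N * ψ x * θ y := by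
    simp only [hθ, Pi.sub_apply, Finset.sum_sub_distrib, mul_sub]
    rw [irr_sum_conj_mul h, sub_eq_zero.1 θ1, irr_sum_conj_mul h', ← xe]
    ring
  apply mul_right_cancel₀ hy
  rw [s1] at s2
  linear_combination χ 1 * s3 - ψ 1 * s2

theorem irr_sq_le [Finite X] {χ : X → ℂ} (h : IsIrrCharacter X χ) {d : ℕ} (hd : χ 1 = d) :
    d ^ 2 ≤ Nat.card X := by
  simpa using irr_sq_le_index h ⊥ (by simp) hd

theorem card_dvd_index_sub_one [Finite X] {S N : Subgroup X} (hS : S ≤ N)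
    (h : ∀ s ∈ S, s ≠ 1 → ∀ g, g * s * g⁻¹ ∈ N → g ∈ N) : ∃ c, N.index = Nat.card S * c + 1 := by
  obtain ⟨c, hc⟩ := card_dvd_of_free S.subtype {ω : X ⧸ N | ω ≠ (1 : X)} (by
    intro k ω h1 h2
    apply h1
    rw [← inv_smul_smul (S.subtype k) ω, h2, MulAction.Quotient.smul_coe, QuotientGroup.eq]
    simpa using hS k.2) (by
    intro k ω h1 h2
    obtain ⟨g, rfl⟩ := QuotientGroup.mk_surjective ω
    by_contra k1
    apply h1
    rw [MulAction.Quotient.smul_coe, eq_comm, QuotientGroup.eq] at h2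
    rw [QuotientGroup.eq, mul_one]
    exact h k k.2 (fun e => k1 (Subtype.ext e)) _ (by simpa [mul_assoc] using h2))
  refine ⟨c, ?_⟩
  rw [← hc, index_eq_card, ← Set.ncard_univ, ← Set.ncard_insert_of_notMem (a := ((1 : X) : X ⧸ N))
    (by simp)]
  congr 1
  ext ω
  simp [em]

theorem sum_hom_eq_zero {A : Type*} [Group A] [Fintype A] (f : A →* ℂ) {a : A} (ha : f a ≠ 1) :
    ∑ x, f x = 0 := by
  have := Fintype.sum_equiv (Equiv.mulLeft a) (fun x => f (a * x)) f fun _ => rfl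
  simp only [map_mul, ← Finset.mul_sum] at this
  by_contra h0
  exact ha (mul_right_cancel₀ h0 (this.trans (one_mul _).symm))

end Cfsg.Lib.Hay
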