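import Cfsg.Agent.Lib.Hay.Quo
import Cfsg.Agent.Lib.Hay.Main

/-!
The case where `N(M)` is not `3`-closed: the Levi complement `GL₂(q)/±1`.
-/

set_option autoImplicit false

namespace Cfsg.Lib.Hay

open Subgroup Hz

section
variable {F : Type*} [Field F]

/-- invertible matrix from entries -/
def gl (a b c d : F) (h : a * d - b * c ≠ 0) : GL (Fin 2) F :=
  Matrix.GeneralLinearGroup.mkOfDetNeZero !![a, b; c, d] (by rwa [Matrix.det_fin_two_of])

theorem gl_coe (a b c d : F) (h : a * d - b * c ≠ 0) :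
    (gl a b c d h : Matrix (Fin 2) (Fin 2) F) = !![a, b; c, d] := rfl

theorem exists_gl (m : GL (Fin 2) F) : ∃ a b c d h, m = gl a b c d h :=
  ⟨m.1 0 0, m.1 0 1, m.1 1 0, m.1 1 1, by rw [← Matrix.det_fin_two]; exact m.det_ne_zero,
    Units.ext (Matrix.eta_fin_two _)⟩

theorem gl_mul {a b c d a' b' c' d' : F} (h : a * d - b * c ≠ 0) (h' : a' * d' - b' * c' ≠ 0) :
    gl a b c d h * gl a' b' c' d' h' = gl (a * a' + b * c') (a * b' + b * d') (c * a' + d * c')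
      (c * b' + d * d') (by have := mul_ne_zero h h'; convert this using 1; ring) :=
  Units.ext (by rw [Units.val_mul, gl_coe, gl_coe, gl_coe, Matrix.mul_fin_two])

theorem gl_ext {a b c d a' b' c' d' : F} {h : a * d - b * c ≠ 0} {h' : a' * d' - b' * c' ≠ 0}
    (h1 : a = a') (h2 : b = b') (h3 : c = c') (h4 : d = d') : gl a b c d h = gl a' b' c' d' h' := by
  subst h1 h2 h3 h4; rfl

theorem gl_one : gl (1 : F) 0 0 1 (by simp) = 1 := Units.ext (by rw [gl_coe, ← Matrix.one_fin_two]; rfl)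

theorem rho_gl (a b c d : F) (h : a * d - b * c ≠ 0) (x y z : F) : rho (gl a b c d h).1 (x, y, z) =
    (a ^ 2 * x + 2 * a * b * y + b ^ 2 * z, a * c * x + (a * d + b * c) * y + b * d * z,
      c ^ 2 * x + 2 * c * d * y + d ^ 2 * z) := rfl

theorem exists_cube [Finite F] (h3 : (3 : F) = 0) (a : F) : ∃ b, a = b ^ 3 := by
  obtain ⟨b, hb⟩ := Finite.injective_iff_surjective.1 (show Function.Injective fun x : F => x ^ 3 from
    fun x y e => sub_eq_zero.1 (pow_eq_zero_iff (n := 3) (by norm_num) |>.1 (by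
      simp only at e
      linear_combination e - x * y * (x - y) * h3))) a
  exact ⟨b, hb.symm⟩

end

/-- amalgam data -/
structure Am (F Γ : Type*) [Field F] [Group Γ] where
  j : Hz F →* Γ
  ψ : GL (Fin 2) F →* Γ
  act : ∀ m v, ψ m * j (n v) * (ψ m)⁻¹ = j (n (rho m.1 v))
  ψu : ∀ s h, ψ (gl 1 s 0 1 h) = j (u s)
  ψτ : ∀ (l : Fˣ) h, ψ (gl 1 0 0 l h) = j (τ l)
  neg : ∀ h, ψ (gl (-1) 0 0 (-1) h) = 1

structure Amb2 (F G : Type*) [Field F] [Fintype F] [Group G] extends Amb F G, Am F G where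
  surj : ∀ g ∈ normalizer (toAmb.M : Set G), ∃ v m, g = j (n v) * ψ m

namespace Amb

variable {F G : Type*} [Field F] [Fintype F] [Group G] [Finite G] (A : Amb F G)

omit [Finite G] in
theorem cent_M {x : G} (h : ∀ v, x * A.j (n v) * x⁻¹ = A.j (n v)) : ∃ v, x = A.j (n v) := by
  obtain ⟨c, rfl⟩ := A.hC 1 one_ne_zero x (mul_inv_eq_iff_eq_mul.1 (h (1, 0, 0)))
  obtain ⟨v, hv⟩ := (modH A.h2).cent c fun v => A.inj (by
    rw [map_mul, map_mul]; exact mul_inv_eq_iff_eq_mul.1 (h v))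
  exact ⟨v, congrArg A.j hv⟩

theorem exists_psi (hc : ∃ (P Q : Sylow 3 G) (a b : G), orderOf a = 3 ∧ orderOf b = 3 ∧
      a ∈ (P : Subgroup G) ∧ b ∈ (Q : Subgroup G) ∧ (∀ p ∈ (P : Subgroup G), p * a = a * p) ∧
      (∀ q ∈ (Q : Subgroup G), q * b = b * q) ∧ ¬ IsConj a b)
    (hB : ¬ normalizer (A.M : Set G) ≤ normalizer (A.P : Set G)) :
    ∃ ψ : GL (Fin 2) F →* G, (∀ m v, ψ m * A.j (n v) * (ψ m)⁻¹ = A.j (n (rho m.1 v))) ∧
      (∀ m, ψ m ∈ A.M → ψ m = 1) ∧ ∀ g ∈ normalizer (A.M : Set G), ∃ v m, g = A.j (n v) * ψ m := by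
  haveI : Fact (Nat.Prime 3) := ⟨Nat.prime_three⟩
  obtain ⟨R, hR⟩ := A.sylow
  have hP : (R : Subgroup G) ≤ A.j.range := hR ▸ map_le_range _ _
  have PN : (R : Subgroup G) ≤ normalizer (A.M : Set G) := by
    rw [hR]
    rintro _ ⟨c, ⟨c1, c2, c3⟩, rfl⟩
    refine mem_normalizer_fintype ?_
    rintro _ ⟨d, ⟨d0, d1, d2, d3⟩, rfl⟩
    exact ⟨c * d * c⁻¹, by simp [Ms, *], by simp⟩
  obtain ⟨H, Y, h1, h2, h3⟩ := main0 A.hF A.j.range ((modH A.h2).map (MonoidHom.ofInjective A.inj))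
    (by
      rintro _ ⟨c, rfl⟩ c1 c2
      obtain ⟨a, rfl⟩ := cent_qv A.h2 (g := c) fun x y => A.inj (by
        rw [map_mul, map_mul]; exact (c2 _ ⟨_, rfl⟩).symm)
      exact le_antisymm (fun g hg => A.hC a (mt A.jz_eq_one.2 c1) g
        (mem_centralizer_singleton_iff.1 hg)) fun g hg => mem_centralizer_singleton_iff.2 (c2 g hg))
    (by
      obtain ⟨P, Q, a, b, k1, k2, k3, k4, k5, k6, k7⟩ := hc
      exact ⟨a, b, P, Q, k1, k2, k3, k5, k4, k6, fun g e => k7 (isConj_iff.2 ⟨g, e⟩)⟩) R hP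
    (by
      ext ⟨_, c, rfl⟩
      change _ ↔ A.j c ∈ (R : Subgroup G)
      rw [hR, P, A.mem_map_j, ← modH_P A.h2]
      exact exists_congr fun v => exists_congr fun s =>
        ⟨fun h => A.inj ((congrArg Subtype.val h).trans (map_mul A.j _ _).symm),
          fun h => Subtype.ext ((congrArg A.j h).trans (map_mul A.j _ _))⟩)
    A.M (hR ▸ A.M_le_P) (fun _ ha _ hb => A.M_comm ha hb)
    (by rw [A.card_M, Nat.card_eq_fintype_card, A.hF, ← pow_mul, mul_comm]) (by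
      obtain ⟨g, g1, g2⟩ := SetLike.not_le_iff_exists.1 hB
      refine ⟨(⟨g, g1⟩ : normalizer (A.M : Set G)) • R.subtype PN, R.subtype PN, fun e => g2 ?_⟩
      rw [← hR]
      refine mem_normalizer_fintype fun x hx => ?_
      have := (congrArg Sylow.toSubgroup e).le (Subgroup.smul_mem_pointwise_smul (⟨x, PN hx⟩ : normalizer _)
        (MulAut.conj (⟨g, g1⟩ : normalizer (A.M : Set G))) (R.subtype PN).toSubgroup hx)
      exact this)
  obtain ⟨Y', ψ, k1, k2, k3⟩ := Y.exists_psi A.hF A.h4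
  obtain ⟨l, l0, l1, l2⟩ := A.exists_big
  have k4 := k1 (Units.mk0 l l0) fun e => (mul_self_eq_one_iff.1 (sq l ▸ e)).elim l1 l2
  refine ⟨(Subgroup.subtype _).comp (H.subtype.comp ψ), fun m v => ?_, fun m hm =>
    congrArg Subtype.val (h1 _ (ψ m).2 hm), fun g hg => ?_⟩
  · rw [← k3, k4]; exact h3 (ψ m) v
  · obtain ⟨k, hk, r, hr, e⟩ := h2 ⟨g, hg⟩
    obtain ⟨m, hm⟩ := k2 ⟨r, hr⟩
    obtain ⟨a, b, c, e'⟩ := A.mem_M hk
    refine ⟨(a, b, c), m, (congrArg Subtype.val e).trans ?_⟩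
    rw [coe_mul, e', MonoidHom.comp_apply, MonoidHom.comp_apply, hm]; rfl

theorem exists_amb2 (hc : ∃ (P Q : Sylow 3 G) (a b : G), orderOf a = 3 ∧ orderOf b = 3 ∧
      a ∈ (P : Subgroup G) ∧ b ∈ (Q : Subgroup G) ∧ (∀ p ∈ (P : Subgroup G), p * a = a * p) ∧
      (∀ q ∈ (Q : Subgroup G), q * b = b * q) ∧ ¬ IsConj a b)
    (hB : ¬ normalizer (A.M : Set G) ≤ normalizer (A.P : Set G)) : Nonempty (Amb2 F G) := by
  obtain ⟨ψ0, a1, a2, a3⟩ := A.exists_psi hc hB
  obtain ⟨l, l0, l1, l2⟩ := A.exists_big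
  have l3 : l - 1 ≠ 0 := sub_ne_zero.2 l1
  have l4 : l + 1 ≠ 0 := fun e => l2 (eq_neg_of_add_eq_zero_left e)
  have l5 : l ^ 2 - 1 ≠ 0 := by
    have := mul_ne_zero l3 l4
    convert this using 1; ring
  have cmp : ∀ (ψ : GL (Fin 2) F →* G), (∀ m v, ψ m * A.j (n v) * (ψ m)⁻¹ = A.j (n (rho m.1 v))) →
      ∀ m c, (∀ x y z, c * n (x, y, z) * c⁻¹ = n (rho m.1 (x, y, z))) → ∃ v, ψ m = A.j (n v * c) := by
    intro ψ h m c hc
    obtain ⟨v, hv⟩ := A.cent_M (x := ψ m * (A.j c)⁻¹) fun v => by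
      obtain ⟨⟨x, y, z⟩, rfl⟩ := Finite.injective_iff_surjective.1 (show Function.Injective (rho m.1) from
        fun a b e => (modH A.h2).n_inj (A.inj ((MulAut.conj (ψ m)).injective
          ((h m a).trans (e ▸ (h m b).symm))))) v
      conv_rhs => rw [← h]
      rw [← hc, map_mul, map_mul, map_inv]; group
    exact ⟨v, by rw [map_mul, ← hv, inv_mul_cancel_right]⟩
  have cτ : ∀ (l : Fˣ) h x y z, τ l * n (x, y, z) * (τ l)⁻¹ = n (rho (gl 1 0 0 (l : F) h).1 (x, y, z)) :=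
    fun l h x y z => by rw [rho_gl]; ext <;> simp <;> ring
  obtain ⟨⟨a, b, c⟩, hv⟩ := cmp ψ0 a1 _ _ (cτ (Units.mk0 l l0) (by simpa using l0))
  let m0 := A.j (n (0, b / (l - 1), c / (l ^ 2 - 1)))
  let ψ := (MulAut.conj m0).toMonoidHom.comp ψ0
  have hψ : ∀ m, ψ m = m0 * ψ0 m * m0⁻¹ := fun _ => rfl
  have cm : ∀ v, m0 * A.j (n v) * m0⁻¹ = A.j (n v) := fun v =>
    mul_inv_eq_iff_eq_mul.2 (A.M_comm (A.n_mem _) (A.n_mem _))
  have b1 : ∀ m v, ψ m * A.j (n v) * (ψ m)⁻¹ = A.j (n (rho m.1 v)) := fun m v => by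
    rw [← cm (rho _ _), ← a1, hψ]; conv_lhs => rw [← cm v]
    group
  have b2 : ψ (gl 1 0 0 (Units.mk0 l l0 : Fˣ) (by simpa using l0)) = A.j (z a * τ (Units.mk0 l l0)) := by
    rw [hψ, hv, ← map_inv, ← map_mul, ← map_mul]
    congr 1
    ext <;> simp <;> field_simp <;> ring
  have b3 : ∀ (k : Fˣ) h, ψ (gl 1 0 0 k h) = A.j (τ k) := fun k h => by
    obtain ⟨k', e⟩ := exists_cube A.h3 (k : F)
    have k0 : k' ≠ 0 := by rintro rfl; simp at e
    obtain ⟨⟨x, y, w⟩, hx⟩ := cmp ψ b1 _ _ (cτ (Units.mk0 k' k0) (by simpa using k0))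
    have e1 : n (x, y, w) * τ (Units.mk0 k' k0) * (z a * τ (Units.mk0 l l0)) =
        z a * τ (Units.mk0 l l0) * (n (x, y, w) * τ (Units.mk0 k' k0)) := A.inj (by
      rw [map_mul, ← hx, ← b2, map_mul A.j (z a * _), ← hx, ← b2, ← map_mul, ← map_mul, gl_mul, gl_mul]
      exact congrArg ψ (gl_ext (by ring) (by ring) (by ring) (by ring)))
    have y0 : y = 0 := mul_left_cancel₀ l3 (by
      have := congrArg Hz.x e1
      simp at this
      linear_combination -this)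
    have w0 : w = 0 := mul_left_cancel₀ l5 (by
      have := congrArg Hz.q e1
      simp at this
      field_simp at this
      linear_combination -this)
    have e2 : gl 1 0 0 (k : F) h = gl (1 : F) 0 0 (Units.mk0 k' k0 : Fˣ) (by simpa using k0) ^ 3 := by
      rw [pow_three', gl_mul, gl_mul]
      exact gl_ext (by ring) (by ring) (by ring) (by simp [e]; ring)
    rw [e2, map_pow, hx, ← map_pow, pow_three', y0, w0]
    congr 1
    ext <;> simp [e]
    · linear_combination x * A.h3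
    · ring
    · ring
  have cu := fun s => cmp ψ b1 (gl 1 s 0 1 (by simp)) (u s) fun x y z => by
    rw [rho_gl]; ext <;> simp <;> ring
  choose v hv using cu
  have add : ∀ s s', n (v (s + s')) * u (s + s') = n (v s) * u s * (n (v s') * u s') := fun s s' =>
    A.inj (by
      rw [map_mul A.j (n (v s) * u s), ← hv, ← hv, ← hv, ← map_mul, gl_mul]
      exact congrArg ψ (gl_ext (by ring) (by ring) (by ring) (by ring)))
  have tor : ∀ s (k : Fˣ), τ k * (n (v (s * k)) * u (s * k)) = n (v s) * u s * τ k := fun s k =>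
    A.inj (by
      rw [map_mul, map_mul A.j (n (v s) * u s), ← hv, ← hv, ← b3 k (by simp), ← map_mul, ← map_mul,
        gl_mul, gl_mul]
      exact congrArg ψ (gl_ext (by ring) (by ring) (by ring) (by ring)))
  have v0 : n (v 0) * u 0 = 1 := by simpa using add 0 0
  have q0 : ∀ s, (v s).2.2 = 0 := fun s => mul_left_cancel₀ A.h2 (by
    have e1 := congrArg Hz.q (add s (-s))
    have e2 := congrArg Hz.q (tor s (-1))
    rw [add_neg_cancel, v0] at e1
    simp at e1 e2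
    linear_combination -e1 - e2)
  have x1 : ∀ s, s ≠ 0 → s * (v s).2.1 = (v 1).2.1 := fun s hs => by
    simpa [q0] using congrArg Hz.x (tor 1 (Units.mk0 s hs))
  have x2 : (v 1).2.1 = 0 := by
    have e1 := congrArg Hz.x (add l 1)
    simp [q0] at e1
    have : (v 1).2.1 * (l - 1) ^ 2 = 0 := by
      linear_combination l * x1 _ l4 - l * (l + 1) * e1 - (l + 1) * x1 l l0 - l * (v 1).2.1 * A.h3
    simpa [l3] using this
  have x0 : ∀ s, (v s).2.1 = 0 := fun s => by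
    by_cases hs : s = 0
    · simpa [hs] using congrArg Hz.x v0
    · simpa [hs, x2] using x1 s hs
  have z0 : ∀ s, (v s).1 = 0 := fun s => mul_left_cancel₀ A.h2 (by
    have e1 := congrArg Hz.a (add s (-s))
    have e2 := congrArg Hz.a (tor s (-1))
    rw [add_neg_cancel, v0] at e1
    simp [q0, x0] at e1 e2
    linear_combination -e1 - e2)
  refine ⟨⟨A, ψ, b1, fun s h => ?_, b3, fun h => ?_, fun g hg => ?_⟩⟩
  · rw [hv]; congr 1; ext <;> simp [q0, x0, z0]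
  · obtain ⟨w, hw⟩ := A.cent_M (x := ψ0 (gl (-1) 0 0 (-1) h)) fun ⟨x, y, z⟩ => by
      rw [a1, rho_gl]; simp
    rw [hψ, a2 _ (hw ▸ A.n_mem w)]; simp
  · obtain ⟨w, m, e⟩ := a3 (m0⁻¹ * g * m0) (mul_mem (mul_mem (inv_mem (le_normalizer (A.n_mem _))) hg)
      (le_normalizer (A.n_mem _)))
    exact ⟨w, m, by rw [← cm, hψ, conj_mul, ← e]; group⟩

end Amb

end Cfsg.Lib.Hay
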